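import Cfsg.Agent.Helper8.UC4
import Cfsg.Agent.Helper25.CharBasic
import Cfsg.Agent.Helper11.Virtual1

set_option autoImplicit false

namespace Cfsg.Agent.Helper8

open scoped ComplexConjugate

/-! ### Restricting the partition-indexed characters of the symmetric group to the alternating group -/

section AN1

/-- The permutation character on the cosets of a point stabiliser counts the fixed points in the orbit. -/
theorem fpc_stab {S X : Type*} [Group S] [MulAction S X] (x₀ : X) (H : Subgroup S)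
    (hH : H = MulAction.stabilizer S x₀) (g : S) :
    Cfsg.fixedPointCharacter H g =
      (Nat.card {x : X // x ∈ MulAction.orbit S x₀ ∧ g • x = x} : ℂ) := by
  subst hH
  unfold Cfsg.fixedPointCharacter
  congr 1
  apply Nat.card_congr
  refine Equiv.ofBijective
    (fun c => ⟨MulAction.ofQuotientStabilizer S x₀ c.1, ?_, ?_⟩) ⟨?_, ?_⟩
  · obtain ⟨c, hc⟩ := c
    obtain ⟨s, rfl⟩ := QuotientGroup.mk_surjective c
    exact ⟨s, rfl⟩
  · rw [← MulAction.ofQuotientStabilizer_smul]
    exact congrArg _ c.2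
  · intro c d h
    apply Subtype.ext
    exact MulAction.injective_ofQuotientStabilizer S x₀ (congrArg Subtype.val h)
  · rintro ⟨x, ⟨s, rfl⟩, hx⟩
    refine ⟨⟨(s : S ⧸ MulAction.stabilizer S x₀), ?_⟩, ?_⟩
    · show g • (s : S ⧸ MulAction.stabilizer S x₀) = s
      apply MulAction.injective_ofQuotientStabilizer S x₀
      rw [MulAction.ofQuotientStabilizer_smul]
      exact hx
    · apply Subtype.ext
      rfl

theorem pia_self {α : Type*} (f : Equiv.Perm α) (x : α) : f⁻¹ (f x) = x := by simp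

theorem pai_self {α : Type*} (f : Equiv.Perm α) (x : α) : f (f⁻¹ x) = x := by simp

variable {n : ℕ}

/-- If every pair of cosets is fixed by an odd permutation, the signed sum of the product of two
permutation characters vanishes. -/
theorem fpc_sign_sum_zero (H K : Subgroup (Equiv.Perm (Fin n)))
    (h : ∀ x y : Equiv.Perm (Fin n), ∃ t : Equiv.Perm (Fin n), Equiv.Perm.sign t = -1 ∧
      t • (x : Equiv.Perm (Fin n) ⧸ H) = x ∧ t • (y : Equiv.Perm (Fin n) ⧸ K) = y) :
    ∑ g : Equiv.Perm (Fin n), ((Equiv.Perm.sign g : ℤ) : ℂ) *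
      (Cfsg.fixedPointCharacter H g * Cfsg.fixedPointCharacter K g) = 0 := by
  classical
  have hf : ∀ (L : Subgroup (Equiv.Perm (Fin n))) (g : Equiv.Perm (Fin n)),
      Cfsg.fixedPointCharacter L g =
        ∑ c : Equiv.Perm (Fin n) ⧸ L, if g • c = c then (1 : ℂ) else 0 := by
    intro L g
    unfold Cfsg.fixedPointCharacter
    rw [Finset.sum_boole]
    congr 1
    rw [← Fintype.card_subtype, ← Nat.card_eq_fintype_card]
    rfl
  have h1 : ∑ g : Equiv.Perm (Fin n), ((Equiv.Perm.sign g : ℤ) : ℂ) *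
      (Cfsg.fixedPointCharacter H g * Cfsg.fixedPointCharacter K g) =
      ∑ c : Equiv.Perm (Fin n) ⧸ H, ∑ d : Equiv.Perm (Fin n) ⧸ K, ∑ g : Equiv.Perm (Fin n),
        ((Equiv.Perm.sign g : ℤ) : ℂ) *
          ((if g • c = c then (1 : ℂ) else 0) * (if g • d = d then (1 : ℂ) else 0)) := by
    have e : ∀ g : Equiv.Perm (Fin n), ((Equiv.Perm.sign g : ℤ) : ℂ) *
        (Cfsg.fixedPointCharacter H g * Cfsg.fixedPointCharacter K g) =
        ∑ c : Equiv.Perm (Fin n) ⧸ H, ∑ d : Equiv.Perm (Fin n) ⧸ K, ((Equiv.Perm.sign g : ℤ) : ℂ) *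
          ((if g • c = c then (1 : ℂ) else 0) * (if g • d = d then (1 : ℂ) else 0)) := by
      intro g
      rw [hf H g, hf K g, Finset.sum_mul_sum, Finset.mul_sum]
      apply Finset.sum_congr rfl
      intro c _
      rw [Finset.mul_sum]
    rw [Finset.sum_congr rfl (fun g _ => e g), Finset.sum_comm]
    apply Finset.sum_congr rfl
    intro c _
    rw [Finset.sum_comm]
  rw [h1]
  apply Finset.sum_eq_zero
  intro c _
  apply Finset.sum_eq_zero
  intro d _
  obtain ⟨x, rfl⟩ := QuotientGroup.mk_surjective c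
  obtain ⟨y, rfl⟩ := QuotientGroup.mk_surjective d
  obtain ⟨t, ht, hc, hd⟩ := h x y
  have hc' : ∀ g : Equiv.Perm (Fin n),
      ((t * g) • (x : Equiv.Perm (Fin n) ⧸ H) = x ↔ g • (x : Equiv.Perm (Fin n) ⧸ H) = x) := by
    intro g
    rw [mul_smul]
    constructor
    · intro e
      have e2 : t⁻¹ • (t • g • (x : Equiv.Perm (Fin n) ⧸ H)) = t⁻¹ • (t • (x : Equiv.Perm (Fin n) ⧸ H)) := by
        rw [e, hc]
      rwa [inv_smul_smul, inv_smul_smul] at e2
    · intro e
      rw [e, hc]
  have hd' : ∀ g : Equiv.Perm (Fin n),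
      ((t * g) • (y : Equiv.Perm (Fin n) ⧸ K) = y ↔ g • (y : Equiv.Perm (Fin n) ⧸ K) = y) := by
    intro g
    rw [mul_smul]
    constructor
    · intro e
      have e2 : t⁻¹ • (t • g • (y : Equiv.Perm (Fin n) ⧸ K)) = t⁻¹ • (t • (y : Equiv.Perm (Fin n) ⧸ K)) := by
        rw [e, hd]
      rwa [inv_smul_smul, inv_smul_smul] at e2
    · intro e
      rw [e, hd]
  set F : Equiv.Perm (Fin n) → ℂ := fun g => ((Equiv.Perm.sign g : ℤ) : ℂ) *
    ((if g • (x : Equiv.Perm (Fin n) ⧸ H) = x then (1 : ℂ) else 0) *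
      (if g • (y : Equiv.Perm (Fin n) ⧸ K) = y then (1 : ℂ) else 0)) with hF
  have e1 : ∑ g : Equiv.Perm (Fin n), F (t * g) = ∑ g : Equiv.Perm (Fin n), F g :=
    Equiv.sum_comp (Equiv.mulLeft t) F
  have e2 : ∀ g : Equiv.Perm (Fin n), F (t * g) = -F g := by
    intro g
    simp only [hF]
    rw [Equiv.Perm.sign_mul, ht]
    simp only [hc' g, hd' g]
    push_cast
    ring
  have e3 : ∑ g : Equiv.Perm (Fin n), F g = -∑ g : Equiv.Perm (Fin n), F g := by
    conv_lhs => rw [← e1]
    rw [← Finset.sum_neg_distrib]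
    exact Finset.sum_congr rfl (fun g _ => e2 g)
  have e4 : (2 : ℂ) * ∑ g : Equiv.Perm (Fin n), F g = 0 := by linear_combination e3
  have e5 : ∑ g : Equiv.Perm (Fin n), F g = 0 := by
    rcases mul_eq_zero.mp e4 with h0 | h0
    · norm_num at h0
    · exact h0
  exact e5

theorem young_mem_lab (α : Fin n → ℕ) (hα : ∑ i, α i = n) (σ : Equiv.Perm (Fin n)) :
    σ ∈ Cfsg.youngSubgroup α ↔
      ∀ i, Cfsg.Agent.Helper14.ParabIdx.lab α hα (σ i) = Cfsg.Agent.Helper14.ParabIdx.lab α hα i := by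
  constructor
  · intro h i
    exact Fin.ext (h i)
  · intro h i
    exact congrArg Fin.val (h i)

/-- Two Young subgroups with a block of size at least `n - 2` each: every pair of cosets is fixed by a
transposition. -/
theorem young_swap (hn : 6 ≤ n) (α β : Fin n → ℕ) (hα : ∑ i, α i = n) (hβ : ∑ i, β i = n)
    (a : Fin n) (ha : n - 2 ≤ α a) (hb : n - 2 ≤ β a) (x y : Equiv.Perm (Fin n)) :
    ∃ t : Equiv.Perm (Fin n), Equiv.Perm.sign t = -1 ∧
      t • (x : Equiv.Perm (Fin n) ⧸ Cfsg.youngSubgroup α) = x ∧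
      t • (y : Equiv.Perm (Fin n) ⧸ Cfsg.youngSubgroup β) = y := by
  classical
  have hcard : ∀ (γ : Fin n → ℕ) (hγ : ∑ i, γ i = n) (z : Equiv.Perm (Fin n)),
      (Finset.univ.filter (fun i : Fin n => Cfsg.Agent.Helper14.ParabIdx.lab γ hγ (z⁻¹ i) = a)).card = γ a := by
    intro γ hγ z
    rw [← Cfsg.Agent.Helper14.ParabIdx.card_block γ hγ a, Fintype.card_subtype]
    apply Finset.card_bij (fun i _ => z⁻¹ i)
    · intro i hi
      rw [Finset.mem_filter] at hi ⊢
      exact ⟨Finset.mem_univ _, hi.2⟩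
    · intro i _ j _ hij
      exact z⁻¹.injective hij
    · intro j hj
      rw [Finset.mem_filter] at hj
      refine ⟨z j, ?_, ?_⟩
      · rw [Finset.mem_filter]
        refine ⟨Finset.mem_univ _, ?_⟩
        rw [pia_self]
        exact hj.2
      · exact pia_self z j
  have hmem : ∀ (γ : Fin n → ℕ) (hγ : ∑ i, γ i = n) (z : Equiv.Perm (Fin n)) (i j : Fin n),
      Cfsg.Agent.Helper14.ParabIdx.lab γ hγ (z⁻¹ i) = a →
      Cfsg.Agent.Helper14.ParabIdx.lab γ hγ (z⁻¹ j) = a →
      Equiv.swap i j • (z : Equiv.Perm (Fin n) ⧸ Cfsg.youngSubgroup γ) = z := by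
    intro γ hγ z i j hi hj
    show ((Equiv.swap i j * z : Equiv.Perm (Fin n)) : Equiv.Perm (Fin n) ⧸ Cfsg.youngSubgroup γ) = z
    rw [QuotientGroup.eq]
    have e : (Equiv.swap i j * z)⁻¹ * z = z⁻¹ * Equiv.swap i j * z := by
      rw [mul_inv_rev, Equiv.swap_inv]
    rw [e, young_mem_lab γ hγ]
    intro k
    rw [Equiv.Perm.mul_apply, Equiv.Perm.mul_apply]
    by_cases h1 : z k = i
    · rw [h1, Equiv.swap_apply_left, hj]
      have : k = z⁻¹ i := by rw [← h1, pia_self]
      rw [this, hi]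
    · by_cases h2 : z k = j
      · rw [h2, Equiv.swap_apply_right, hi]
        have : k = z⁻¹ j := by rw [← h2, pia_self]
        rw [this, hj]
      · rw [Equiv.swap_apply_of_ne_of_ne h1 h2, pia_self]
  set U := Finset.univ.filter (fun i : Fin n => Cfsg.Agent.Helper14.ParabIdx.lab α hα (x⁻¹ i) = a) with hU
  set V := Finset.univ.filter (fun i : Fin n => Cfsg.Agent.Helper14.ParabIdx.lab β hβ (y⁻¹ i) = a) with hV
  have hUc : U.card = α a := hcard α hα x
  have hVc : V.card = β a := hcard β hβ y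
  have h1 := Finset.card_union_add_card_inter U V
  have h2 : (U ∪ V).card ≤ n := by
    have := Finset.card_le_univ (U ∪ V)
    rwa [Fintype.card_fin] at this
  have h3 : 1 < (U ∩ V).card := by omega
  obtain ⟨i, hi, j, hj, hij⟩ := Finset.one_lt_card.mp h3
  rw [Finset.mem_inter, hU, hV, Finset.mem_filter, Finset.mem_filter] at hi hj
  exact ⟨Equiv.swap i j, Equiv.Perm.sign_swap hij, hmem α hα x i j hi.1.2 hj.1.2,
    hmem β hβ y i j hi.2.2 hj.2.2⟩

/-- The signed sum of the square of an alternating sum whose compositions all have a large last part. -/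
theorem ucGen_sign_sum (hn : 6 ≤ n) (ν : Fin n → ℕ) (hsum : ∑ i, ν i = n)
    (a : Fin n) (ha : a.val = n - 1) (hν : n - 2 ≤ ν a) :
    ∑ g : Equiv.Perm (Fin n), ((Equiv.Perm.sign g : ℤ) : ℂ) *
      (ucGen Cfsg.youngSubgroup ν g * ucGen Cfsg.youngSubgroup ν g) = 0 := by
  classical
  have hexp : ∀ g : Equiv.Perm (Fin n),
      ((Equiv.Perm.sign g : ℤ) : ℂ) * (ucGen Cfsg.youngSubgroup ν g * ucGen Cfsg.youngSubgroup ν g) =
      ∑ κ : Equiv.Perm (Fin n), ∑ κ' : Equiv.Perm (Fin n), ((Equiv.Perm.sign g : ℤ) : ℂ) *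
        ((if ∀ i : Fin n, (κ i).val ≤ ν i + i.val then
            ((Equiv.Perm.sign κ : ℤ) : ℂ) *
              Cfsg.fixedPointCharacter (Cfsg.youngSubgroup fun i => ν i + i.val - (κ i).val) g
          else 0) *
        (if ∀ i : Fin n, (κ' i).val ≤ ν i + i.val then
            ((Equiv.Perm.sign κ' : ℤ) : ℂ) *
              Cfsg.fixedPointCharacter (Cfsg.youngSubgroup fun i => ν i + i.val - (κ' i).val) g
          else 0)) := by
    intro g
    unfold ucGen
    rw [Finset.sum_mul_sum, Finset.mul_sum]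
    apply Finset.sum_congr rfl
    intro κ _
    rw [Finset.mul_sum]
  rw [Finset.sum_congr rfl (fun g _ => hexp g), Finset.sum_comm]
  apply Finset.sum_eq_zero
  intro κ _
  rw [Finset.sum_comm]
  apply Finset.sum_eq_zero
  intro κ' _
  by_cases hc : ∀ i : Fin n, (κ i).val ≤ ν i + i.val
  · by_cases hc' : ∀ i : Fin n, (κ' i).val ≤ ν i + i.val
    · simp only [if_pos hc, if_pos hc']
      have hB := fpc_sign_sum_zero (Cfsg.youngSubgroup fun i => ν i + i.val - (κ i).val)
        (Cfsg.youngSubgroup fun i => ν i + i.val - (κ' i).val)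
        (young_swap hn _ _ (uc_comp_sum ν hsum κ hc) (uc_comp_sum ν hsum κ' hc') a
          (by have := (κ a).2; show n - 2 ≤ ν a + a.val - (κ a).val; omega)
          (by have := (κ' a).2; show n - 2 ≤ ν a + a.val - (κ' a).val; omega))
      have e : ∀ g : Equiv.Perm (Fin n), ((Equiv.Perm.sign g : ℤ) : ℂ) *
          (((Equiv.Perm.sign κ : ℤ) : ℂ) *
              Cfsg.fixedPointCharacter (Cfsg.youngSubgroup fun i => ν i + i.val - (κ i).val) g *
            (((Equiv.Perm.sign κ' : ℤ) : ℂ) *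
              Cfsg.fixedPointCharacter (Cfsg.youngSubgroup fun i => ν i + i.val - (κ' i).val) g)) =
          ((Equiv.Perm.sign κ : ℤ) : ℂ) * ((Equiv.Perm.sign κ' : ℤ) : ℂ) *
            (((Equiv.Perm.sign g : ℤ) : ℂ) *
              (Cfsg.fixedPointCharacter (Cfsg.youngSubgroup fun i => ν i + i.val - (κ i).val) g *
               Cfsg.fixedPointCharacter (Cfsg.youngSubgroup fun i => ν i + i.val - (κ' i).val) g)) := by
        intro g
        ring
      rw [Finset.sum_congr rfl (fun g _ => e g), ← Finset.mul_sum, hB, mul_zero]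
    · simp [if_neg hc']
  · simp [if_neg hc]

/-- The alternating sum attached to a partition with a large last part restricts irreducibly to the
alternating group. -/
theorem an_restrict (hn : 6 ≤ n) (ν : Fin n → ℕ) (hmono : Monotone ν) (hsum : ∑ i, ν i = n)
    (a : Fin n) (ha : a.val = n - 1) (hν : n - 2 ≤ ν a) :
    ∃ χ : Cfsg.IrrCharacter (alternatingGroup (Fin n)),
      (∀ x : alternatingGroup (Fin n), ucGen Cfsg.youngSubgroup ν (x : Equiv.Perm (Fin n)) = 0 →
        (χ : alternatingGroup (Fin n) → ℂ) x = 0) ∧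
      ∃ ψ : Cfsg.IrrCharacter (Equiv.Perm (Fin n)), ∀ x : alternatingGroup (Fin n),
        (ψ : Equiv.Perm (Fin n) → ℂ) x = (χ : alternatingGroup (Fin n) → ℂ) x := by
  classical
  obtain ⟨θ, hθ⟩ : ∃ θ : Equiv.Perm (Fin n) → ℂ, θ = ucGen (Cfsg.youngSubgroup (n := n)) ν := ⟨_, rfl⟩
  rw [← hθ]
  have hQ : ∀ α β : Fin n → ℕ, ∑ i, α i = n → ∑ i, β i = n →
      Cfsg.classInner (Cfsg.fixedPointCharacter (Cfsg.youngSubgroup α))
        (Cfsg.fixedPointCharacter (Cfsg.youngSubgroup β)) =
        (ucN n α (Finsupp.equivFunOnFinite.symm β) : ℂ) := by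
    intro α β hα hβ
    rw [fpc_classInner, young_dc_card α β hα hβ]
  have hgen : Cfsg.IsGeneralizedCharacter (Equiv.Perm (Fin n)) θ := by
    rw [hθ]
    exact ucGen_genchar _ ν
  have hnorm : Cfsg.classInner θ θ = 1 := by
    rw [hθ, ucGen_inner _ hQ ν ν hmono hsum hmono hsum, if_pos rfl]
  obtain ⟨ψ, hψ⟩ := Cfsg.Agent.Helper11.virtual_norm_one hgen hnorm
  have hgenA : Cfsg.IsGeneralizedCharacter (alternatingGroup (Fin n))
      (fun x : alternatingGroup (Fin n) => θ (x : Equiv.Perm (Fin n))) := by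
    obtain ⟨χ₁, χ₂, h1, h2, e⟩ := hgen
    refine ⟨fun x => χ₁ x, fun x => χ₂ x, Cfsg.Agent.Helper2.isCharacter_restrict _ h1,
      Cfsg.Agent.Helper2.isCharacter_restrict _ h2, ?_⟩
    funext x
    rw [e]
    rfl
  have hreal : ∀ g : Equiv.Perm (Fin n), conj (θ g) = θ g := by
    intro g
    rw [hθ]
    unfold ucGen
    rw [map_sum]
    apply Finset.sum_congr rfl
    intro κ _
    split_ifs
    · rw [map_mul, map_intCast]
      unfold Cfsg.fixedPointCharacter
      rw [map_natCast]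
    · rw [map_zero]
  have hS : ∑ g : Equiv.Perm (Fin n), θ g * θ g = (Nat.card (Equiv.Perm (Fin n)) : ℂ) := by
    have h := hnorm
    unfold Cfsg.classInner at h
    have h2 : ∑ g : Equiv.Perm (Fin n), θ g * conj (θ g) = ∑ g : Equiv.Perm (Fin n), θ g * θ g :=
      Finset.sum_congr rfl (fun g _ => by rw [hreal])
    rw [h2] at h
    have hne : (Nat.card (Equiv.Perm (Fin n)) : ℂ) ≠ 0 := Nat.cast_ne_zero.mpr Nat.card_pos.ne'
    rw [inv_mul_eq_iff_eq_mul₀ hne] at h
    rw [h, mul_one]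
  have hsg : ∑ g : Equiv.Perm (Fin n), ((Equiv.Perm.sign g : ℤ) : ℂ) * (θ g * θ g) = 0 := by
    rw [hθ]
    exact ucGen_sign_sum hn ν hsum a ha hν
  have hc : 2 * Nat.card (alternatingGroup (Fin n)) = Nat.card (Equiv.Perm (Fin n)) := by
    rw [Nat.card_eq_fintype_card, Nat.card_eq_fintype_card]
    haveI : Nontrivial (Fin n) := Fin.nontrivial_iff_two_le.mpr (by omega)
    exact two_mul_card_alternatingGroup
  have hA : ∑ x : alternatingGroup (Fin n), θ (x : Equiv.Perm (Fin n)) * θ (x : Equiv.Perm (Fin n)) =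
      (Nat.card (alternatingGroup (Fin n)) : ℂ) := by
    have e1 : ∑ x : alternatingGroup (Fin n), θ (x : Equiv.Perm (Fin n)) * θ (x : Equiv.Perm (Fin n)) =
        ∑ g : Equiv.Perm (Fin n), if g ∈ alternatingGroup (Fin n) then θ g * θ g else 0 := by
      rw [← Finset.sum_filter]
      exact (Finset.sum_subtype (Finset.univ.filter (· ∈ alternatingGroup (Fin n))) (by simp)
        (fun g => θ g * θ g)).symm
    have e2 : ∀ g : Equiv.Perm (Fin n), (if g ∈ alternatingGroup (Fin n) then θ g * θ g else 0) =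
        (1 / 2 : ℂ) * (θ g * θ g) + (1 / 2 : ℂ) * (((Equiv.Perm.sign g : ℤ) : ℂ) * (θ g * θ g)) := by
      intro g
      rw [Equiv.Perm.mem_alternatingGroup]
      rcases Int.units_eq_one_or (Equiv.Perm.sign g) with h1 | h1
      · rw [if_pos h1, h1]
        push_cast
        ring
      · rw [if_neg (by rw [h1]; decide), h1]
        push_cast
        ring
    rw [e1, Finset.sum_congr rfl (fun g _ => e2 g), Finset.sum_add_distrib, ← Finset.mul_sum,
      ← Finset.mul_sum, hS, hsg, mul_zero, add_zero, ← hc]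
    push_cast
    ring
  have hnormA : Cfsg.classInner (fun x : alternatingGroup (Fin n) => θ (x : Equiv.Perm (Fin n)))
      (fun x : alternatingGroup (Fin n) => θ (x : Equiv.Perm (Fin n))) = 1 := by
    unfold Cfsg.classInner
    have h2 : ∑ x : alternatingGroup (Fin n), θ (x : Equiv.Perm (Fin n)) * conj (θ (x : Equiv.Perm (Fin n))) =
        ∑ x : alternatingGroup (Fin n), θ (x : Equiv.Perm (Fin n)) * θ (x : Equiv.Perm (Fin n)) :=
      Finset.sum_congr rfl (fun g _ => by rw [hreal])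
    rw [h2, hA]
    exact inv_mul_cancel₀ (Nat.cast_ne_zero.mpr Nat.card_pos.ne')
  obtain ⟨χ, hχ⟩ := Cfsg.Agent.Helper11.virtual_norm_one hgenA hnormA
  refine ⟨χ, ?_, ψ, ?_⟩
  · intro x hx
    rcases hχ with h | h
    · have := congrFun h x
      rw [← this]
      exact hx
    · have := congrFun h x
      have e : (χ : alternatingGroup (Fin n) → ℂ) x = -θ (x : Equiv.Perm (Fin n)) := by
        have e' : θ (x : Equiv.Perm (Fin n)) = -(χ : alternatingGroup (Fin n) → ℂ) x := this
        rw [e', neg_neg]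
      rw [e, hx, neg_zero]
  · have hdψ := Cfsg.Agent.Helper25.irr_one_eq_degree ψ
    have hdχ := Cfsg.Agent.Helper25.irr_one_eq_degree χ
    have hpψ := Cfsg.Agent.Helper25.irr_degree_pos ψ
    have hpχ := Cfsg.Agent.Helper25.irr_degree_pos χ
    have hone : ((1 : alternatingGroup (Fin n)) : Equiv.Perm (Fin n)) = 1 := rfl
    intro x
    rcases hψ with h | h <;> rcases hχ with h' | h'
    · have e1 := congrFun h (x : Equiv.Perm (Fin n))
      have e2 : θ (x : Equiv.Perm (Fin n)) = (χ : alternatingGroup (Fin n) → ℂ) x := congrFun h' x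
      rw [← e1, e2]
    · exfalso
      have e1 : θ 1 = (ψ : Equiv.Perm (Fin n) → ℂ) 1 := congrFun h 1
      have e2 : θ ((1 : alternatingGroup (Fin n)) : Equiv.Perm (Fin n)) =
          -(χ : alternatingGroup (Fin n) → ℂ) 1 := congrFun h' 1
      rw [hone, e1, hdψ, hdχ] at e2
      have h5 : ((Cfsg.charDegree (ψ : Equiv.Perm (Fin n) → ℂ) +
          Cfsg.charDegree (χ : alternatingGroup (Fin n) → ℂ) : ℕ) : ℂ) = 0 := by
        push_cast
        rw [e2]
        ring
      have h4 : Cfsg.charDegree (ψ : Equiv.Perm (Fin n) → ℂ) +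
          Cfsg.charDegree (χ : alternatingGroup (Fin n) → ℂ) = 0 := by exact_mod_cast h5
      omega
    · exfalso
      have e1 : θ 1 = -(ψ : Equiv.Perm (Fin n) → ℂ) 1 := congrFun h 1
      have e2 : θ ((1 : alternatingGroup (Fin n)) : Equiv.Perm (Fin n)) =
          (χ : alternatingGroup (Fin n) → ℂ) 1 := congrFun h' 1
      rw [hone, e1, hdψ, hdχ] at e2
      have h5 : ((Cfsg.charDegree (ψ : Equiv.Perm (Fin n) → ℂ) +
          Cfsg.charDegree (χ : alternatingGroup (Fin n) → ℂ) : ℕ) : ℂ) = 0 := by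
        push_cast
        rw [← e2]
        ring
      have h4 : Cfsg.charDegree (ψ : Equiv.Perm (Fin n) → ℂ) +
          Cfsg.charDegree (χ : alternatingGroup (Fin n) → ℂ) = 0 := by exact_mod_cast h5
      omega
    · have e1 : θ (x : Equiv.Perm (Fin n)) = -(ψ : Equiv.Perm (Fin n) → ℂ) x :=
        congrFun h (x : Equiv.Perm (Fin n))
      have e2 : θ (x : Equiv.Perm (Fin n)) = -(χ : alternatingGroup (Fin n) → ℂ) x := congrFun h' x
      rw [e1] at e2
      exact neg_injective e2

end AN1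

end Cfsg.Agent.Helper8
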