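import Cfsg.Agent.Helper8.AN1

set_option autoImplicit false

namespace Cfsg.Agent.Helper8

open scoped ComplexConjugate Pointwise

/-! ### Values of two-row and hook alternating sums of Young characters -/

section AN2

variable {n : ℕ}

/-- A permutation occurring in the alternating sum fixes the indices below the first nonzero part. -/
theorem valid_fix (ν : Fin n → ℕ) (m : ℕ) (hν : ∀ i : Fin n, i.val < m → ν i = 0)
    (κ : Equiv.Perm (Fin n)) (hκ : ∀ i : Fin n, (κ i).val ≤ ν i + i.val) :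
    ∀ i : Fin n, i.val < m → κ i = i := by
  have key : ∀ k : ℕ, ∀ i : Fin n, i.val = k → i.val < m → κ i = i := by
    intro k
    induction k using Nat.strong_induction_on with
    | _ k ih =>
      intro i hik hi
      have h1 := hκ i
      rw [hν i hi] at h1
      by_contra hne
      have hlt : (κ i).val < i.val := by
        rcases Nat.lt_or_ge (κ i).val i.val with h2 | h2
        · exact h2
        · exfalso
          apply hne
          apply Fin.ext
          omega
      have h3 := ih (κ i).val (by omega) (κ i) rfl (by omega)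
      exact hne (κ.injective h3)
  exact fun i hi => key i.val i rfl hi

/-- Indices at or above the bound are not mapped below it. -/
theorem valid_ge (ν : Fin n → ℕ) (m : ℕ) (hν : ∀ i : Fin n, i.val < m → ν i = 0)
    (κ : Equiv.Perm (Fin n)) (hκ : ∀ i : Fin n, (κ i).val ≤ ν i + i.val) (j : Fin n) (hj : m ≤ j.val) :
    m ≤ (κ j).val := by
  by_contra hlt
  push_neg at hlt
  have h1 := valid_fix ν m hν κ hκ (κ j) hlt
  have h2 := κ.injective h1
  rw [h2] at hlt
  omega

theorem fpc_young_ne_zero (lam : Fin n → ℕ) (g : Equiv.Perm (Fin n))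
    (h : Cfsg.fixedPointCharacter (Cfsg.youngSubgroup lam) g ≠ 0) :
    ∃ x : Equiv.Perm (Fin n), x⁻¹ * g * x ∈ Cfsg.youngSubgroup lam := by
  unfold Cfsg.fixedPointCharacter at h
  have h1 : Nat.card (MulAction.fixedBy (Equiv.Perm (Fin n) ⧸ Cfsg.youngSubgroup lam) g) ≠ 0 := by
    intro h0
    apply h
    rw [h0]
    simp
  have hne : Nonempty (MulAction.fixedBy (Equiv.Perm (Fin n) ⧸ Cfsg.youngSubgroup lam) g) := by
    by_contra hne
    rw [not_nonempty_iff] at hne
    exact h1 Nat.card_of_isEmpty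
  obtain ⟨⟨c, hc⟩⟩ := hne
  obtain ⟨x, rfl⟩ := QuotientGroup.mk_surjective c
  refine ⟨x, ?_⟩
  have hc' : ((g * x : Equiv.Perm (Fin n)) : Equiv.Perm (Fin n) ⧸ Cfsg.youngSubgroup lam) = x := hc
  rw [QuotientGroup.eq] at hc'
  have h2 := (Cfsg.youngSubgroup lam).inv_mem hc'
  have e : ((g * x)⁻¹ * x)⁻¹ = x⁻¹ * g * x := by
    rw [mul_inv_rev, inv_inv, mul_assoc]
  rwa [e] at h2

/-- A Young character with a block of size one or two vanishes at permutations without fixed points and
transposed pairs. -/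
theorem young_small_block (lam : Fin n → ℕ) (hlam : ∑ i, lam i = n) (k : Fin n)
    (hk1 : 1 ≤ lam k) (hk2 : lam k ≤ 2) (g : Equiv.Perm (Fin n))
    (h : Cfsg.fixedPointCharacter (Cfsg.youngSubgroup lam) g ≠ 0) : ∃ i : Fin n, g (g i) = i := by
  classical
  obtain ⟨x, hx⟩ := fpc_young_ne_zero lam g h
  rw [young_mem_lab lam hlam] at hx
  have hcard := Cfsg.Agent.Helper14.ParabIdx.card_block lam hlam k
  rw [Fintype.card_subtype] at hcard
  obtain ⟨B, hB⟩ : ∃ B : Finset (Fin n),
      B = Finset.univ.filter (fun i : Fin n => Cfsg.Agent.Helper14.ParabIdx.lab lam hlam i = k) := ⟨_, rfl⟩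
  rw [← hB] at hcard
  have hne : B.Nonempty := Finset.card_pos.mp (by omega)
  obtain ⟨i, hi⟩ := hne
  obtain ⟨h', hh'⟩ : ∃ h' : Equiv.Perm (Fin n), h' = x⁻¹ * g * x := ⟨_, rfl⟩
  rw [← hh'] at hx
  have hmem : ∀ j, j ∈ B → h' j ∈ B := by
    intro j hj
    rw [hB, Finset.mem_filter] at hj ⊢
    exact ⟨Finset.mem_univ _, (hx j).trans hj.2⟩
  have h1 := hmem i hi
  have h2 := hmem _ h1
  have h3 : h' (h' i) = i := by
    by_contra hne3
    by_cases e1 : h' i = i
    · apply hne3
      rw [e1, e1]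
    · have e2 : h' (h' i) ≠ h' i := fun e => e1 (h'.injective e)
      have : 2 < B.card := Finset.two_lt_card_iff.mpr
        ⟨i, h' i, h' (h' i), hi, h1, h2, Ne.symm e1, Ne.symm hne3, Ne.symm e2⟩
      omega
  refine ⟨x i, ?_⟩
  rw [hh'] at h3
  simp only [Equiv.Perm.mul_apply, pai_self] at h3
  have h4 := congrArg x h3
  rwa [pai_self] at h4

/-- The two-row alternating sum vanishes at permutations without fixed points and transposed pairs. -/
theorem tworow_vanish (hn : 4 ≤ n) (b : Fin n) (hb : b.val = n - 2)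
    (ν : Fin n → ℕ) (hsum : ∑ i, ν i = n) (hν0 : ∀ i : Fin n, i.val < n - 2 → ν i = 0) (hνb : ν b = 2)
    (g : Equiv.Perm (Fin n)) (hg : ∀ i, g (g i) ≠ i) :
    ucGen Cfsg.youngSubgroup ν g = 0 := by
  classical
  unfold ucGen
  apply Finset.sum_eq_zero
  intro κ _
  split_ifs with hc
  · have hκb : n - 2 ≤ (κ b).val := valid_ge ν (n - 2) hν0 κ hc b (by omega)
    have hfpc : Cfsg.fixedPointCharacter (Cfsg.youngSubgroup fun i => ν i + i.val - (κ i).val) g = 0 := by
      by_contra hne
      obtain ⟨i, hi⟩ := young_small_block _ (uc_comp_sum ν hsum κ hc) b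
        (by have := (κ b).2; show 1 ≤ ν b + b.val - (κ b).val; omega)
        (by show ν b + b.val - (κ b).val ≤ 2; omega) g hne
      exact hg i hi
    rw [hfpc, mul_zero]
  · rfl

/-! #### Block structure of a labelling -/

theorem lab_ne_of_zero (lam : Fin n → ℕ) (hlam : ∑ i, lam i = n) (k : Fin n) (hk : lam k = 0)
    (j : Fin n) : Cfsg.Agent.Helper14.ParabIdx.lab lam hlam j ≠ k := by
  intro hj
  have hcard := Cfsg.Agent.Helper14.ParabIdx.card_block lam hlam k
  rw [hk, Fintype.card_eq_zero_iff] at hcard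
  exact hcard.false ⟨j, hj⟩

theorem lab_unique_of_one (lam : Fin n → ℕ) (hlam : ∑ i, lam i = n) (k : Fin n) (hk : lam k = 1) :
    ∃ p : Fin n, Cfsg.Agent.Helper14.ParabIdx.lab lam hlam p = k ∧
      ∀ i : Fin n, Cfsg.Agent.Helper14.ParabIdx.lab lam hlam i = k → i = p := by
  have hcard := Cfsg.Agent.Helper14.ParabIdx.card_block lam hlam k
  rw [hk, Fintype.card_eq_one_iff] at hcard
  obtain ⟨⟨p, hp⟩, hu⟩ := hcard
  exact ⟨p, hp, fun i hi => congrArg Subtype.val (hu ⟨i, hi⟩)⟩

theorem lab_pair_of_two (lam : Fin n → ℕ) (hlam : ∑ i, lam i = n) (k : Fin n) (hk : lam k = 2) :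
    ∃ p q : Fin n, p ≠ q ∧ Cfsg.Agent.Helper14.ParabIdx.lab lam hlam p = k ∧
      Cfsg.Agent.Helper14.ParabIdx.lab lam hlam q = k ∧
      ∀ i : Fin n, Cfsg.Agent.Helper14.ParabIdx.lab lam hlam i = k → i = p ∨ i = q := by
  classical
  have hcard := Cfsg.Agent.Helper14.ParabIdx.card_block lam hlam k
  rw [hk] at hcard
  have hcard' : Nat.card {i // Cfsg.Agent.Helper14.ParabIdx.lab lam hlam i = k} = 2 := by
    rw [Nat.card_eq_fintype_card]
    exact hcard
  obtain ⟨⟨p, hp⟩, ⟨q, hq⟩, hne, hu⟩ := Nat.card_eq_two_iff.mp hcard'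
  refine ⟨p, q, fun e => hne (Subtype.ext e), hp, hq, fun i hi => ?_⟩
  have : (⟨i, hi⟩ : {i // Cfsg.Agent.Helper14.ParabIdx.lab lam hlam i = k}) ∈
      ({⟨p, hp⟩, ⟨q, hq⟩} : Set {i // Cfsg.Agent.Helper14.ParabIdx.lab lam hlam i = k}) := by
    rw [hu]
    exact Set.mem_univ _
  rcases this with h1 | h1
  · exact Or.inl (congrArg Subtype.val h1)
  · exact Or.inr (congrArg Subtype.val h1)

theorem lab_cases (lam : Fin n → ℕ) (hlam : ∑ i, lam i = n) (a b c : Fin n)
    (h0 : ∀ i : Fin n, i ≠ a → i ≠ b → i ≠ c → lam i = 0) (j : Fin n) :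
    Cfsg.Agent.Helper14.ParabIdx.lab lam hlam j = a ∨ Cfsg.Agent.Helper14.ParabIdx.lab lam hlam j = b ∨
      Cfsg.Agent.Helper14.ParabIdx.lab lam hlam j = c := by
  by_contra hcon
  push_neg at hcon
  exact lab_ne_of_zero lam hlam _ (h0 _ hcon.1 hcon.2.1 hcon.2.2) j rfl

theorem exists_perm_two (p q u v : Fin n) (hpq : p ≠ q) (huv : u ≠ v) :
    ∃ σ : Equiv.Perm (Fin n), σ p = u ∧ σ q = v :=
  (MulAction.is_two_pretransitive_iff.mp (Equiv.Perm.isMultiplyPretransitive (Fin n) 2)) hpq huv

/-! #### The four Young characters of the hook -/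

/-- Trivial composition: the character is `1`. -/
theorem young_val_top (lam : Fin n → ℕ) (hlam : ∑ i, lam i = n) (a b c : Fin n)
    (h0 : ∀ i : Fin n, i ≠ a → i ≠ b → i ≠ c → lam i = 0) (hb : lam b = 0) (hc : lam c = 0)
    (hba : b ≠ a) (hca : c ≠ a)
    (g : Equiv.Perm (Fin n)) : Cfsg.fixedPointCharacter (Cfsg.youngSubgroup lam) g = 1 := by
  classical
  have hl : ∀ j : Fin n, Cfsg.Agent.Helper14.ParabIdx.lab lam hlam j = a := by
    intro j
    rcases lab_cases lam hlam a b c h0 j with h | h | h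
    · exact h
    · exact absurd h (lab_ne_of_zero lam hlam b hb j)
    · exact absurd h (lab_ne_of_zero lam hlam c hc j)
  have hY : Cfsg.youngSubgroup lam = ⊤ := by
    rw [eq_top_iff]
    intro σ _
    rw [young_mem_lab lam hlam]
    intro i
    rw [hl, hl]
  rw [hY]
  unfold Cfsg.fixedPointCharacter
  haveI : Subsingleton (Equiv.Perm (Fin n) ⧸ (⊤ : Subgroup (Equiv.Perm (Fin n)))) :=
    QuotientGroup.subsingleton_quotient_top
  have : Nat.card (MulAction.fixedBy (Equiv.Perm (Fin n) ⧸ (⊤ : Subgroup (Equiv.Perm (Fin n)))) g) = 1 := by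
    rw [Nat.card_eq_one_iff_unique]
    exact ⟨⟨fun u v => Subtype.ext (Subsingleton.elim _ _)⟩,
      ⟨⟨((1 : Equiv.Perm (Fin n)) : Equiv.Perm (Fin n) ⧸ (⊤ : Subgroup (Equiv.Perm (Fin n)))),
        Subsingleton.elim _ _⟩⟩⟩
  rw [this, Nat.cast_one]

/-- One block of size one: the character counts the fixed points. -/
theorem young_val_point (lam : Fin n → ℕ) (hlam : ∑ i, lam i = n) (a b c : Fin n)
    (h0 : ∀ i : Fin n, i ≠ a → i ≠ b → i ≠ c → lam i = 0) (hb : lam b = 0) (hc : lam c = 1)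
    (hba : b ≠ a) (hca : c ≠ a)
    (g : Equiv.Perm (Fin n)) (a₀ b₀ : Fin n) (hab : a₀ ≠ b₀) (hfix : ∀ i, g i = i ↔ i = a₀ ∨ i = b₀) :
    Cfsg.fixedPointCharacter (Cfsg.youngSubgroup lam) g = 2 := by
  classical
  obtain ⟨p, hp, hpu⟩ := lab_unique_of_one lam hlam c hc
  have hl : ∀ j : Fin n, j ≠ p → Cfsg.Agent.Helper14.ParabIdx.lab lam hlam j = a := by
    intro j hj
    rcases lab_cases lam hlam a b c h0 j with h | h | h
    · exact h
    · exact absurd h (lab_ne_of_zero lam hlam b hb j)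
    · exact absurd (hpu j h) hj
  have hY : Cfsg.youngSubgroup lam = MulAction.stabilizer (Equiv.Perm (Fin n)) p := by
    ext σ
    rw [young_mem_lab lam hlam, MulAction.mem_stabilizer_iff]
    constructor
    · intro h
      exact hpu _ ((h p).trans hp)
    · intro h i
      by_cases hi : i = p
      · rw [hi]
        have h' : σ p = p := h
        rw [h']
      · have : σ i ≠ p := by
          intro e
          apply hi
          apply σ.injective
          rw [e]
          exact h.symm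
        rw [hl _ this, hl _ hi]
  rw [fpc_stab p _ hY g]
  have hP : ∀ x : Fin n, x ∈ ({a₀, b₀} : Finset (Fin n)) ↔
      (x ∈ MulAction.orbit (Equiv.Perm (Fin n)) p ∧ g • x = x) := by
    intro x
    rw [Finset.mem_insert, Finset.mem_singleton]
    constructor
    · intro hx
      refine ⟨⟨Equiv.swap p x, ?_⟩, (hfix x).mpr hx⟩
      show Equiv.swap p x p = x
      exact Equiv.swap_apply_left p x
    · rintro ⟨_, hx⟩
      exact (hfix x).mp hx
  rw [Nat.card_eq_fintype_card, Fintype.card_of_subtype ({a₀, b₀} : Finset (Fin n)) hP,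
    Finset.card_pair hab]
  norm_num

/-- Two blocks of size one: the character counts the ordered pairs of fixed points. -/
theorem young_val_pair (lam : Fin n → ℕ) (hlam : ∑ i, lam i = n) (a b c : Fin n)
    (h0 : ∀ i : Fin n, i ≠ a → i ≠ b → i ≠ c → lam i = 0) (hb : lam b = 1) (hc : lam c = 1)
    (hba : b ≠ a) (hca : c ≠ a) (hcb : c ≠ b)
    (g : Equiv.Perm (Fin n)) (a₀ b₀ : Fin n) (hab : a₀ ≠ b₀) (hfix : ∀ i, g i = i ↔ i = a₀ ∨ i = b₀) :
    Cfsg.fixedPointCharacter (Cfsg.youngSubgroup lam) g = 2 := by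
  classical
  obtain ⟨p, hp, hpu⟩ := lab_unique_of_one lam hlam c hc
  obtain ⟨q, hq, hqu⟩ := lab_unique_of_one lam hlam b hb
  have hpq : p ≠ q := by
    intro e
    rw [e, hq] at hp
    exact hcb hp.symm
  have hl : ∀ j : Fin n, j ≠ p → j ≠ q → Cfsg.Agent.Helper14.ParabIdx.lab lam hlam j = a := by
    intro j hj hj'
    rcases lab_cases lam hlam a b c h0 j with h | h | h
    · exact h
    · exact absurd (hqu j h) hj'
    · exact absurd (hpu j h) hj
  have hY : Cfsg.youngSubgroup lam = MulAction.stabilizer (Equiv.Perm (Fin n)) ((p, q) : Fin n × Fin n) := by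
    ext σ
    rw [young_mem_lab lam hlam, MulAction.mem_stabilizer_iff]
    constructor
    · intro h
      show ((σ p, σ q) : Fin n × Fin n) = (p, q)
      rw [hpu _ ((h p).trans hp), hqu _ ((h q).trans hq)]
    · intro h i
      have h' : ((σ p, σ q) : Fin n × Fin n) = (p, q) := h
      have h1 : σ p = p := congrArg Prod.fst h'
      have h2 : σ q = q := congrArg Prod.snd h'
      by_cases hi : i = p
      · rw [hi, h1]
      · by_cases hi' : i = q
        · rw [hi', h2]
        · have e1 : σ i ≠ p := by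
            intro e
            apply hi
            apply σ.injective
            rw [e, h1]
          have e2 : σ i ≠ q := by
            intro e
            apply hi'
            apply σ.injective
            rw [e, h2]
          rw [hl _ e1 e2, hl _ hi hi']
  rw [fpc_stab ((p, q) : Fin n × Fin n) _ hY g]
  have hga : g a₀ = a₀ := (hfix a₀).mpr (Or.inl rfl)
  have hgb : g b₀ = b₀ := (hfix b₀).mpr (Or.inr rfl)
  have hP : ∀ x : Fin n × Fin n, x ∈ ({(a₀, b₀), (b₀, a₀)} : Finset (Fin n × Fin n)) ↔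
      (x ∈ MulAction.orbit (Equiv.Perm (Fin n)) ((p, q) : Fin n × Fin n) ∧ g • x = x) := by
    intro x
    rw [Finset.mem_insert, Finset.mem_singleton]
    constructor
    · rintro (hx | hx)
      · obtain ⟨σ, h1, h2⟩ := exists_perm_two p q a₀ b₀ hpq hab
        refine ⟨⟨σ, ?_⟩, ?_⟩
        · show ((σ p, σ q) : Fin n × Fin n) = x
          rw [h1, h2, hx]
        · rw [hx]
          show ((g a₀, g b₀) : Fin n × Fin n) = (a₀, b₀)
          rw [hga, hgb]
      · obtain ⟨σ, h1, h2⟩ := exists_perm_two p q b₀ a₀ hpq (Ne.symm hab)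
        refine ⟨⟨σ, ?_⟩, ?_⟩
        · show ((σ p, σ q) : Fin n × Fin n) = x
          rw [h1, h2, hx]
        · rw [hx]
          show ((g b₀, g a₀) : Fin n × Fin n) = (b₀, a₀)
          rw [hga, hgb]
    · rintro ⟨⟨σ, hσ⟩, hx⟩
      have hσ' : ((σ p, σ q) : Fin n × Fin n) = x := hσ
      rw [← hσ'] at hx ⊢
      have hx' : ((g (σ p), g (σ q)) : Fin n × Fin n) = (σ p, σ q) := hx
      have h1 : g (σ p) = σ p := congrArg Prod.fst hx'
      have h2 : g (σ q) = σ q := congrArg Prod.snd hx'
      have hne : σ p ≠ σ q := fun e => hpq (σ.injective e)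
      rcases (hfix _).mp h1 with e1 | e1 <;> rcases (hfix _).mp h2 with e2 | e2
      · exact absurd (e1.trans e2.symm) hne
      · left
        rw [e1, e2]
      · right
        rw [e1, e2]
      · exact absurd (e1.trans e2.symm) hne
  have hne2 : ((a₀, b₀) : Fin n × Fin n) ≠ (b₀, a₀) := fun e => hab (congrArg Prod.fst e)
  rw [Nat.card_eq_fintype_card, Fintype.card_of_subtype ({(a₀, b₀), (b₀, a₀)} : Finset (Fin n × Fin n)) hP,
    Finset.card_pair hne2]
  norm_num

/-- One block of size two: the character counts the invariant pairs. -/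
theorem young_val_set (lam : Fin n → ℕ) (hlam : ∑ i, lam i = n) (a b c : Fin n)
    (h0 : ∀ i : Fin n, i ≠ a → i ≠ b → i ≠ c → lam i = 0) (hb : lam b = 2) (hc : lam c = 0)
    (hba : b ≠ a) (hca : c ≠ a)
    (g : Equiv.Perm (Fin n)) (a₀ b₀ : Fin n) (hab : a₀ ≠ b₀) (hfix : ∀ i, g i = i ↔ i = a₀ ∨ i = b₀)
    (hg : ∀ i, g (g i) = i → g i = i) :
    Cfsg.fixedPointCharacter (Cfsg.youngSubgroup lam) g = 1 := by
  classical
  obtain ⟨p, q, hpq, hp, hq, hu⟩ := lab_pair_of_two lam hlam b hb
  have hl : ∀ j : Fin n, j ≠ p → j ≠ q → Cfsg.Agent.Helper14.ParabIdx.lab lam hlam j = a := by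
    intro j hj hj'
    rcases lab_cases lam hlam a b c h0 j with h | h | h
    · exact h
    · rcases hu j h with e | e
      · exact absurd e hj
      · exact absurd e hj'
    · exact absurd h (lab_ne_of_zero lam hlam c hc j)
  have hsm : ∀ (σ : Equiv.Perm (Fin n)) (u v : Fin n), σ • ({u, v} : Set (Fin n)) = {σ u, σ v} := by
    intro σ u v
    rw [← Set.image_smul, Set.image_pair]
    rfl
  have hY : Cfsg.youngSubgroup lam =
      MulAction.stabilizer (Equiv.Perm (Fin n)) ({p, q} : Set (Fin n)) := by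
    ext σ
    rw [young_mem_lab lam hlam, MulAction.mem_stabilizer_iff, hsm, Set.pair_eq_pair_iff]
    constructor
    · intro h
      have h1 := hu _ ((h p).trans hp)
      have h2 := hu _ ((h q).trans hq)
      have hne : σ p ≠ σ q := fun e => hpq (σ.injective e)
      rcases h1 with e1 | e1 <;> rcases h2 with e2 | e2
      · exact absurd (e1.trans e2.symm) hne
      · exact Or.inl ⟨e1, e2⟩
      · exact Or.inr ⟨e1, e2⟩
      · exact absurd (e1.trans e2.symm) hne
    · intro h i
      have hpp : Cfsg.Agent.Helper14.ParabIdx.lab lam hlam (σ p) = b := by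
        rcases h with ⟨e1, _⟩ | ⟨e1, _⟩
        · rw [e1, hp]
        · rw [e1, hq]
      have hqq : Cfsg.Agent.Helper14.ParabIdx.lab lam hlam (σ q) = b := by
        rcases h with ⟨_, e2⟩ | ⟨_, e2⟩
        · rw [e2, hq]
        · rw [e2, hp]
      by_cases hi : i = p
      · rw [hi, hpp, hp]
      · by_cases hi' : i = q
        · rw [hi', hqq, hq]
        · have e1 : σ i ≠ p := by
            intro e
            rcases h with ⟨e1, _⟩ | ⟨_, e2⟩
            · apply hi
              apply σ.injective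
              rw [e, e1]
            · apply hi'
              apply σ.injective
              rw [e, e2]
          have e2 : σ i ≠ q := by
            intro e
            rcases h with ⟨_, e2⟩ | ⟨e1, _⟩
            · apply hi'
              apply σ.injective
              rw [e, e2]
            · apply hi
              apply σ.injective
              rw [e, e1]
          rw [hl _ e1 e2, hl _ hi hi']
  rw [fpc_stab ({p, q} : Set (Fin n)) _ hY g]
  have hga : g a₀ = a₀ := (hfix a₀).mpr (Or.inl rfl)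
  have hgb : g b₀ = b₀ := (hfix b₀).mpr (Or.inr rfl)
  have hP : ∀ s : Set (Fin n),
      (s ∈ MulAction.orbit (Equiv.Perm (Fin n)) ({p, q} : Set (Fin n)) ∧ g • s = s) ↔ s = {a₀, b₀} := by
    intro s
    constructor
    · rintro ⟨⟨σ, hσ⟩, hs⟩
      have hσ' : σ • ({p, q} : Set (Fin n)) = s := hσ
      rw [hsm] at hσ'
      rw [← hσ'] at hs ⊢
      rw [hsm, Set.pair_eq_pair_iff] at hs
      have hne : σ p ≠ σ q := fun e => hpq (σ.injective e)
      rcases hs with ⟨h1, h2⟩ | ⟨h1, h2⟩
      · rcases (hfix _).mp h1 with e1 | e1 <;> rcases (hfix _).mp h2 with e2 | e2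
        · exact absurd (e1.trans e2.symm) hne
        · rw [e1, e2]
        · rw [e1, e2, Set.pair_comm]
        · exact absurd (e1.trans e2.symm) hne
      · exfalso
        have h3 : g (g (σ p)) = σ p := by rw [h1, h2]
        have h4 := hg _ h3
        exact hne (h4.symm.trans h1)
    · intro hs
      obtain ⟨σ, h1, h2⟩ := exists_perm_two p q a₀ b₀ hpq hab
      refine ⟨⟨σ, ?_⟩, ?_⟩
      · show σ • ({p, q} : Set (Fin n)) = s
        rw [hsm, h1, h2, hs]
      · rw [hs, hsm, hga, hgb]
  have : Nat.card {s : Set (Fin n) //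
      s ∈ MulAction.orbit (Equiv.Perm (Fin n)) ({p, q} : Set (Fin n)) ∧ g • s = s} = 1 := by
    rw [Nat.card_eq_one_iff_unique]
    refine ⟨⟨?_⟩, ⟨⟨{a₀, b₀}, (hP _).mpr rfl⟩⟩⟩
    rintro ⟨s, hs⟩ ⟨s', hs'⟩
    exact Subtype.ext (((hP s).mp hs).trans ((hP s').mp hs').symm)
  rw [this, Nat.cast_one]

end AN2

end Cfsg.Agent.Helper8
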