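import Cfsg.Agent.Helper8.AN2

set_option autoImplicit false

namespace Cfsg.Agent.Helper8

open scoped ComplexConjugate

/-! ### The hook alternating sum, and permutations with prescribed cycle types -/

section AN3

variable {n : ℕ}

theorem perm_eq_of_agree (a : Fin n) (κ κ' : Equiv.Perm (Fin n)) (h : ∀ i, i ≠ a → κ i = κ' i) :
    κ = κ' := by
  apply Equiv.ext
  intro i
  by_cases hi : i = a
  · obtain ⟨j, hj⟩ := κ.surjective (κ' i)
    by_cases hji : j = i
    · rw [hji] at hj
      exact hj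
    · exfalso
      have h1 := h j (fun e => hji (e.trans hi.symm))
      rw [hj] at h1
      exact hji (κ'.injective h1).symm
  · exact h i hi

/-- The hook alternating sum vanishes at permutations with exactly two fixed points and no transposed
pairs. -/
theorem hook_vanish (hn : 5 ≤ n) (a b c : Fin n) (ha : a.val = n - 1) (hb : b.val = n - 2)
    (hc : c.val = n - 3) (ν : Fin n → ℕ) (hsum : ∑ i, ν i = n)
    (hν0 : ∀ i : Fin n, i.val < n - 3 → ν i = 0) (hνc : ν c = 1) (hνb : ν b = 1) (hνa : ν a = n - 2)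
    (g : Equiv.Perm (Fin n)) (a₀ b₀ : Fin n) (hab : a₀ ≠ b₀) (hfix : ∀ i, g i = i ↔ i = a₀ ∨ i = b₀)
    (hg : ∀ i, g (g i) = i → g i = i) :
    ucGen Cfsg.youngSubgroup ν g = 0 := by
  classical
  have hba : b ≠ a := fun e => by
    have := congrArg Fin.val e
    omega
  have hca : c ≠ a := fun e => by
    have := congrArg Fin.val e
    omega
  have hcb : c ≠ b := fun e => by
    have := congrArg Fin.val e
    omega
  have hcases : ∀ i : Fin n, i = a ∨ i = b ∨ i = c ∨ i.val < n - 3 := by
    intro i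
    by_cases h1 : i.val = n - 1
    · left
      exact Fin.ext (h1.trans ha.symm)
    · by_cases h2 : i.val = n - 2
      · right; left
        exact Fin.ext (h2.trans hb.symm)
      · by_cases h3 : i.val = n - 3
        · right; right; left
          exact Fin.ext (h3.trans hc.symm)
        · right; right; right
          have := i.2
          omega
  obtain ⟨κ₂, hκ₂⟩ : ∃ κ₂ : Equiv.Perm (Fin n), κ₂ = Equiv.swap c b := ⟨_, rfl⟩
  obtain ⟨κ₃, hκ₃⟩ : ∃ κ₃ : Equiv.Perm (Fin n), κ₃ = Equiv.swap b a := ⟨_, rfl⟩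
  obtain ⟨κ₄, hκ₄⟩ : ∃ κ₄ : Equiv.Perm (Fin n), κ₄ = κ₂ * κ₃ := ⟨_, rfl⟩
  have e2c : κ₂ c = b := by rw [hκ₂]; exact Equiv.swap_apply_left c b
  have e2b : κ₂ b = c := by rw [hκ₂]; exact Equiv.swap_apply_right c b
  have e2a : κ₂ a = a := by rw [hκ₂]; exact Equiv.swap_apply_of_ne_of_ne (Ne.symm hca) (Ne.symm hba)
  have e3c : κ₃ c = c := by rw [hκ₃]; exact Equiv.swap_apply_of_ne_of_ne hcb hca
  have e3b : κ₃ b = a := by rw [hκ₃]; exact Equiv.swap_apply_left b a
  have e3a : κ₃ a = b := by rw [hκ₃]; exact Equiv.swap_apply_right b a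
  have e4c : κ₄ c = b := by rw [hκ₄, Equiv.Perm.mul_apply, e3c, e2c]
  have e4b : κ₄ b = a := by rw [hκ₄, Equiv.Perm.mul_apply, e3b, e2a]
  have e4a : κ₄ a = c := by rw [hκ₄, Equiv.Perm.mul_apply, e3a, e2b]
  have elow : ∀ i : Fin n, i.val < n - 3 → κ₂ i = i ∧ κ₃ i = i ∧ κ₄ i = i := by
    intro i hi
    have h1 : i ≠ a := fun e => by
      have := congrArg Fin.val e
      omega
    have h2 : i ≠ b := fun e => by
      have := congrArg Fin.val e
      omega
    have h3 : i ≠ c := fun e => by
      have := congrArg Fin.val e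
      omega
    have e2 : κ₂ i = i := by rw [hκ₂]; exact Equiv.swap_apply_of_ne_of_ne h3 h2
    have e3 : κ₃ i = i := by rw [hκ₃]; exact Equiv.swap_apply_of_ne_of_ne h2 h1
    refine ⟨e2, e3, ?_⟩
    rw [hκ₄, Equiv.Perm.mul_apply, e3, e2]
  have hshape0 : ∀ κ : Equiv.Perm (Fin n), (∀ i : Fin n, i.val < n - 3 → κ i = i) →
      ∀ i : Fin n, i ≠ a → i ≠ b → i ≠ c → ν i + i.val - (κ i).val = 0 := by
    intro κ hlow i h1 h2 h3
    rcases hcases i with h | h | h | h
    · exact absurd h h1
    · exact absurd h h2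
    · exact absurd h h3
    · rw [hlow i h, hν0 i h]
      omega
  have hvalid : ∀ κ : Equiv.Perm (Fin n), (∀ i : Fin n, i.val < n - 3 → κ i = i) →
      (κ c).val ≤ n - 2 → ∀ i : Fin n, (κ i).val ≤ ν i + i.val := by
    intro κ hlow hκc i
    rcases hcases i with h | h | h | h
    · rw [h, hνa, ha]
      have := (κ a).2
      omega
    · rw [h, hνb, hb]
      have := (κ b).2
      omega
    · rw [h, hνc, hc]
      omega
    · rw [hlow i h]
      omega
  have hv1 : ∀ i : Fin n, ((1 : Equiv.Perm (Fin n)) i).val ≤ ν i + i.val := by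
    intro i
    rw [Equiv.Perm.one_apply]
    omega
  have hv2 : ∀ i : Fin n, (κ₂ i).val ≤ ν i + i.val :=
    hvalid κ₂ (fun i hi => (elow i hi).1) (by rw [e2c, hb])
  have hv3 : ∀ i : Fin n, (κ₃ i).val ≤ ν i + i.val :=
    hvalid κ₃ (fun i hi => (elow i hi).2.1) (by rw [e3c, hc]; omega)
  have hv4 : ∀ i : Fin n, (κ₄ i).val ≤ ν i + i.val :=
    hvalid κ₄ (fun i hi => (elow i hi).2.2) (by rw [e4c, hb])
  have val1 : Cfsg.fixedPointCharacter
      (Cfsg.youngSubgroup fun i => ν i + i.val - ((1 : Equiv.Perm (Fin n)) i).val) g = 2 :=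
    young_val_pair _ (uc_comp_sum ν hsum 1 hv1) a b c
      (hshape0 1 (fun i _ => rfl))
      (by show ν b + b.val - ((1 : Equiv.Perm (Fin n)) b).val = 1
          rw [Equiv.Perm.one_apply, hνb]; omega)
      (by show ν c + c.val - ((1 : Equiv.Perm (Fin n)) c).val = 1
          rw [Equiv.Perm.one_apply, hνc]; omega)
      hba hca hcb g a₀ b₀ hab hfix
  have val2 : Cfsg.fixedPointCharacter
      (Cfsg.youngSubgroup fun i => ν i + i.val - (κ₂ i).val) g = 1 :=
    young_val_set _ (uc_comp_sum ν hsum κ₂ hv2) a b c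
      (hshape0 κ₂ (fun i hi => (elow i hi).1))
      (by show ν b + b.val - (κ₂ b).val = 2
          rw [e2b, hνb, hb, hc]; omega)
      (by show ν c + c.val - (κ₂ c).val = 0
          rw [e2c, hνc, hb, hc]; omega)
      hba hca g a₀ b₀ hab hfix hg
  have val3 : Cfsg.fixedPointCharacter
      (Cfsg.youngSubgroup fun i => ν i + i.val - (κ₃ i).val) g = 2 :=
    young_val_point _ (uc_comp_sum ν hsum κ₃ hv3) a b c
      (hshape0 κ₃ (fun i hi => (elow i hi).2.1))
      (by show ν b + b.val - (κ₃ b).val = 0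
          rw [e3b, hνb, hb, ha]; omega)
      (by show ν c + c.val - (κ₃ c).val = 1
          rw [e3c, hνc]; omega)
      hba hca g a₀ b₀ hab hfix
  have val4 : Cfsg.fixedPointCharacter
      (Cfsg.youngSubgroup fun i => ν i + i.val - (κ₄ i).val) g = 1 :=
    young_val_top _ (uc_comp_sum ν hsum κ₄ hv4) a b c
      (hshape0 κ₄ (fun i hi => (elow i hi).2.2))
      (by show ν b + b.val - (κ₄ b).val = 0
          rw [e4b, hνb, hb, ha]; omega)
      (by show ν c + c.val - (κ₄ c).val = 0
          rw [e4c, hνc, hb, hc]; omega)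
      hba hca g
  have sg1 : Equiv.Perm.sign (1 : Equiv.Perm (Fin n)) = 1 := Equiv.Perm.sign_one
  have sg2 : Equiv.Perm.sign κ₂ = -1 := by rw [hκ₂]; exact Equiv.Perm.sign_swap hcb
  have sg3 : Equiv.Perm.sign κ₃ = -1 := by rw [hκ₃]; exact Equiv.Perm.sign_swap hba
  have sg4 : Equiv.Perm.sign κ₄ = 1 := by
    rw [hκ₄, Equiv.Perm.sign_mul, sg2, sg3]
    decide
  have h1 : (1 : Equiv.Perm (Fin n)) ∉ ({κ₂, κ₃, κ₄} : Finset (Equiv.Perm (Fin n))) := by
    simp only [Finset.mem_insert, Finset.mem_singleton]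
    rintro (e | e | e)
    · have : (1 : Equiv.Perm (Fin n)) c = κ₂ c := by rw [← e]
      rw [Equiv.Perm.one_apply, e2c] at this
      exact hcb this
    · have : (1 : Equiv.Perm (Fin n)) b = κ₃ b := by rw [← e]
      rw [Equiv.Perm.one_apply, e3b] at this
      exact hba this
    · have : (1 : Equiv.Perm (Fin n)) c = κ₄ c := by rw [← e]
      rw [Equiv.Perm.one_apply, e4c] at this
      exact hcb this
  have h2 : κ₂ ∉ ({κ₃, κ₄} : Finset (Equiv.Perm (Fin n))) := by
    simp only [Finset.mem_insert, Finset.mem_singleton]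
    rintro (e | e)
    · have : κ₂ c = κ₃ c := by rw [← e]
      rw [e2c, e3c] at this
      exact hcb this.symm
    · have : κ₂ b = κ₄ b := by rw [← e]
      rw [e2b, e4b] at this
      exact hca this
  have h3 : κ₃ ∉ ({κ₄} : Finset (Equiv.Perm (Fin n))) := by
    simp only [Finset.mem_singleton]
    intro e
    have : κ₃ c = κ₄ c := by rw [← e]
    rw [e3c, e4c] at this
    exact hcb this
  have hT : ∀ κ : Equiv.Perm (Fin n), (∀ i : Fin n, (κ i).val ≤ ν i + i.val) →
      κ ∈ ({1, κ₂, κ₃, κ₄} : Finset (Equiv.Perm (Fin n))) := by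
    intro κ hv
    have hlow := valid_fix ν (n - 3) hν0 κ hv
    have hgec := valid_ge ν (n - 3) hν0 κ hv c (by omega)
    have hgeb := valid_ge ν (n - 3) hν0 κ hv b (by omega)
    have hlec : (κ c).val ≤ n - 2 := by
      have := hv c
      rw [hνc, hc] at this
      omega
    have hκc : κ c = c ∨ κ c = b := by
      rcases hcases (κ c) with h | h | h | h
      · exfalso
        have := congrArg Fin.val h
        omega
      · right
        exact h
      · left
        exact h
      · exfalso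
        omega
    have hκb : κ b = a ∨ κ b = b ∨ κ b = c := by
      rcases hcases (κ b) with h | h | h | h
      · exact Or.inl h
      · exact Or.inr (Or.inl h)
      · exact Or.inr (Or.inr h)
      · exfalso
        omega
    simp only [Finset.mem_insert, Finset.mem_singleton]
    rcases hκc with h1 | h1
    · rcases hκb with h2 | h2 | h2
      · right; right; left
        apply perm_eq_of_agree a
        intro i hi
        rcases hcases i with h | h | h | h
        · exact absurd h hi
        · rw [h, h2, e3b]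
        · rw [h, h1, e3c]
        · rw [hlow i h, (elow i h).2.1]
      · left
        apply perm_eq_of_agree a
        intro i hi
        rcases hcases i with h | h | h | h
        · exact absurd h hi
        · rw [h, h2]
          rfl
        · rw [h, h1]
          rfl
        · rw [hlow i h]
          rfl
      · exfalso
        exact hcb (κ.injective (h1.trans h2.symm))
    · rcases hκb with h2 | h2 | h2
      · right; right; right
        apply perm_eq_of_agree a
        intro i hi
        rcases hcases i with h | h | h | h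
        · exact absurd h hi
        · rw [h, h2, e4b]
        · rw [h, h1, e4c]
        · rw [hlow i h, (elow i h).2.2]
      · exfalso
        exact hcb (κ.injective (h1.trans h2.symm))
      · right; left
        apply perm_eq_of_agree a
        intro i hi
        rcases hcases i with h | h | h | h
        · exact absurd h hi
        · rw [h, h2, e2b]
        · rw [h, h1, e2c]
        · rw [hlow i h, (elow i h).1]
  unfold ucGen
  have hout : ∀ κ ∈ (Finset.univ : Finset (Equiv.Perm (Fin n))),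
      κ ∉ ({1, κ₂, κ₃, κ₄} : Finset (Equiv.Perm (Fin n))) →
      (if ∀ i : Fin n, (κ i).val ≤ ν i + i.val then
        ((Equiv.Perm.sign κ : ℤ) : ℂ) *
          Cfsg.fixedPointCharacter (Cfsg.youngSubgroup fun i => ν i + i.val - (κ i).val) g
      else 0) = 0 := by
    intro κ _ hκT
    rw [if_neg]
    intro hv
    exact hκT (hT κ hv)
  rw [← Finset.sum_subset (Finset.subset_univ _) hout, Finset.sum_insert h1, Finset.sum_insert h2,
    Finset.sum_insert h3, Finset.sum_singleton, if_pos hv1, if_pos hv2, if_pos hv3, if_pos hv4,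
    val1, val2, val3, val4, sg1, sg2, sg3, sg4]
  push_cast
  ring

/-! #### Permutations with prescribed cycle type -/

theorem exists_alt_cycleType (m : Multiset ℕ) (hsum : m.sum ≤ n) (h2 : ∀ k ∈ m, 2 ≤ k)
    (hev : Even (m.sum + m.card)) :
    ∃ g : Equiv.Perm (Fin n), g ∈ alternatingGroup (Fin n) ∧ g.cycleType = m := by
  obtain ⟨g, hg⟩ := (Equiv.Perm.exists_with_cycleType_iff (Fin n) (m := m)).mpr
    ⟨by rw [Fintype.card_fin]; exact hsum, h2⟩
  refine ⟨g, ?_, hg⟩
  rw [Equiv.Perm.mem_alternatingGroup, Equiv.Perm.sign_of_cycleType, hg]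
  exact hev.neg_one_pow

theorem orderOf_dvd_of_cycleType (g : Equiv.Perm (Fin n)) (d : ℕ) (h : ∀ k ∈ g.cycleType, k ∣ d) :
    orderOf g ∣ d := by
  rw [← Equiv.Perm.lcm_cycleType]
  exact Multiset.lcm_dvd.mpr h

theorem card_fixed (g : Equiv.Perm (Fin n)) :
    (Finset.univ.filter (fun i : Fin n => g i = i)).card = n - g.cycleType.sum := by
  rw [Equiv.Perm.sum_cycleType]
  have : Finset.univ.filter (fun i : Fin n => g i = i) = g.supportᶜ := by
    ext i
    simp [Equiv.Perm.mem_support]
  rw [this, Finset.card_compl, Fintype.card_fin]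

theorem no_swap_of_cycleType (g : Equiv.Perm (Fin n)) (h : ∀ k ∈ g.cycleType, 3 ≤ k) (i : Fin n)
    (hi : g (g i) = i) : g i = i := by
  classical
  by_contra hne
  have hc : (g.cycleOf i).IsCycle := Equiv.Perm.isCycle_cycleOf g hne
  have hmem : g.cycleOf i ∈ g.cycleFactorsFinset :=
    Equiv.Perm.cycleOf_mem_cycleFactorsFinset_iff.mpr (Equiv.Perm.mem_support.mpr hne)
  have hct : (g.cycleOf i).support.card ∈ g.cycleType := by
    rw [Equiv.Perm.cycleType_def]
    exact Multiset.mem_map_of_mem (Finset.card ∘ Equiv.Perm.support) hmem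
  have h3 := h _ hct
  rw [← hc.orderOf] at h3
  have hci : g.cycleOf i i ≠ i := by
    rw [Equiv.Perm.cycleOf_apply_self]
    exact hne
  have h2 : (g.cycleOf i) ^ 2 = 1 := by
    rw [hc.pow_eq_one_iff' hci, Equiv.Perm.cycleOf_pow_apply_self, pow_two, Equiv.Perm.mul_apply]
    exact hi
  have h4 := orderOf_dvd_of_pow_eq_one h2
  have h5 := Nat.le_of_dvd (by norm_num) h4
  omega

theorem fixed_zero (g : Equiv.Perm (Fin n)) (h : g.cycleType.sum = n) : ∀ i, g i ≠ i := by
  have h1 := card_fixed g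
  rw [h, Nat.sub_self, Finset.card_eq_zero, Finset.filter_eq_empty_iff] at h1
  intro i
  exact h1 (Finset.mem_univ i)

theorem fixed_one (g : Equiv.Perm (Fin n)) (h : g.cycleType.sum + 1 = n) :
    Nat.card (MulAction.fixedBy (Fin n) g) = 1 := by
  classical
  have h1 := card_fixed g
  have h2 : n - g.cycleType.sum = 1 := by omega
  rw [h2] at h1
  rw [← h1, ← Fintype.card_subtype, ← Nat.card_eq_fintype_card]
  rfl

theorem fixed_two (g : Equiv.Perm (Fin n)) (h : g.cycleType.sum + 2 = n) :
    ∃ a₀ b₀ : Fin n, a₀ ≠ b₀ ∧ ∀ i, g i = i ↔ i = a₀ ∨ i = b₀ := by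
  classical
  have h1 := card_fixed g
  have h2 : n - g.cycleType.sum = 2 := by omega
  rw [h2, Finset.card_eq_two] at h1
  obtain ⟨a₀, b₀, hab, hs⟩ := h1
  refine ⟨a₀, b₀, hab, fun i => ?_⟩
  have : i ∈ Finset.univ.filter (fun i : Fin n => g i = i) ↔ i ∈ ({a₀, b₀} : Finset (Fin n)) := by
    rw [hs]
  rw [Finset.mem_filter, Finset.mem_insert, Finset.mem_singleton] at this
  constructor
  · intro hi
    exact this.mp ⟨Finset.mem_univ _, hi⟩
  · intro hi
    exact (this.mpr hi).2

theorem ex_M2 (k : ℕ) (hk : 2 ≤ k) :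
    ∃ m : Multiset ℕ, m.sum = 2 * k ∧ Even (m.sum + m.card) ∧ ∀ x ∈ m, 2 ≤ x ∧ x ∣ 4 := by
  rcases Nat.even_or_odd k with he | ho
  · refine ⟨Multiset.replicate k 2, ?_, ?_, ?_⟩
    · rw [Multiset.sum_replicate, smul_eq_mul, mul_comm]
    · rw [Multiset.sum_replicate, smul_eq_mul, Multiset.card_replicate, Nat.even_iff]
      rw [Nat.even_iff] at he
      omega
    · intro x hx
      rw [Multiset.eq_of_mem_replicate hx]
      exact ⟨le_refl _, ⟨2, rfl⟩⟩
  · refine ⟨4 ::ₘ Multiset.replicate (k - 2) 2, ?_, ?_, ?_⟩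
    · rw [Multiset.sum_cons, Multiset.sum_replicate, smul_eq_mul]
      omega
    · rw [Multiset.sum_cons, Multiset.sum_replicate, smul_eq_mul, Multiset.card_cons,
        Multiset.card_replicate, Nat.even_iff]
      rw [Nat.odd_iff] at ho
      omega
    · intro x hx
      rw [Multiset.mem_cons] at hx
      rcases hx with hx | hx
      · rw [hx]
        exact ⟨by norm_num, dvd_refl _⟩
      · rw [Multiset.eq_of_mem_replicate hx]
        exact ⟨le_refl _, ⟨2, rfl⟩⟩

theorem ex_M4 (k : ℕ) (hk : 2 ≤ k) :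
    ∃ m : Multiset ℕ, m.sum = 4 * k ∧ Even (m.sum + m.card) ∧ ∀ x ∈ m, 3 ≤ x ∧ x ∣ 8 := by
  rcases Nat.even_or_odd k with he | ho
  · refine ⟨Multiset.replicate k 4, ?_, ?_, ?_⟩
    · rw [Multiset.sum_replicate, smul_eq_mul, mul_comm]
    · rw [Multiset.sum_replicate, smul_eq_mul, Multiset.card_replicate, Nat.even_iff]
      rw [Nat.even_iff] at he
      omega
    · intro x hx
      rw [Multiset.eq_of_mem_replicate hx]
      exact ⟨by norm_num, ⟨2, rfl⟩⟩
  · refine ⟨8 ::ₘ Multiset.replicate (k - 2) 4, ?_, ?_, ?_⟩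
    · rw [Multiset.sum_cons, Multiset.sum_replicate, smul_eq_mul]
      omega
    · rw [Multiset.sum_cons, Multiset.sum_replicate, smul_eq_mul, Multiset.card_cons,
        Multiset.card_replicate, Nat.even_iff]
      rw [Nat.odd_iff] at ho
      omega
    · intro x hx
      rw [Multiset.mem_cons] at hx
      rcases hx with hx | hx
      · rw [hx]
        exact ⟨by norm_num, dvd_refl _⟩
      · rw [Multiset.eq_of_mem_replicate hx]
        exact ⟨by norm_num, ⟨2, rfl⟩⟩

theorem ex_M3 (k : ℕ) :
    (Multiset.replicate k 3).sum = 3 * k ∧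
      Even ((Multiset.replicate k 3).sum + (Multiset.replicate k 3).card) ∧
      ∀ x ∈ Multiset.replicate k 3, 3 ≤ x ∧ x ∣ 3 := by
  refine ⟨?_, ?_, ?_⟩
  · rw [Multiset.sum_replicate, smul_eq_mul, mul_comm]
  · rw [Multiset.sum_replicate, smul_eq_mul, Multiset.card_replicate, Nat.even_iff]
    omega
  · intro x hx
    rw [Multiset.eq_of_mem_replicate hx]
    exact ⟨le_refl _, dvd_refl _⟩

/-- An even permutation of 2-power order with a given number of fixed points and no transposed pairs. -/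
theorem ex_two_elt (k r : ℕ) (hk : 2 ≤ k) (hn : 4 * k + r = n) :
    ∃ g : Equiv.Perm (Fin n), g ∈ alternatingGroup (Fin n) ∧ (∃ j : ℕ, orderOf g = 2 ^ j) ∧
      g.cycleType.sum + r = n ∧ ∀ i, g (g i) = i → g i = i := by
  obtain ⟨m, hs, hev, hm⟩ := ex_M4 k hk
  obtain ⟨g, hgA, hgm⟩ := exists_alt_cycleType (n := n) m (by omega) (fun x hx => by
    have := (hm x hx).1
    omega) hev
  refine ⟨g, hgA, ?_, ?_, ?_⟩
  · have hd : orderOf g ∣ 2 ^ 3 := orderOf_dvd_of_cycleType g 8 (fun x hx => by
      rw [hgm] at hx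
      exact (hm x hx).2)
    obtain ⟨j, _, hj⟩ := (Nat.dvd_prime_pow Nat.prime_two).mp hd
    exact ⟨j, hj⟩
  · rw [hgm, hs]
    exact hn
  · exact no_swap_of_cycleType g (fun x hx => by
      rw [hgm] at hx
      exact (hm x hx).1)

/-- An even permutation of 2-power order with exactly one fixed point. -/
theorem ex_two_elt_odd (k : ℕ) (hk : 2 ≤ k) (hn : 2 * k + 1 = n) :
    ∃ g : Equiv.Perm (Fin n), g ∈ alternatingGroup (Fin n) ∧ (∃ j : ℕ, orderOf g = 2 ^ j) ∧
      g.cycleType.sum + 1 = n := by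
  obtain ⟨m, hs, hev, hm⟩ := ex_M2 k hk
  obtain ⟨g, hgA, hgm⟩ := exists_alt_cycleType (n := n) m (by omega) (fun x hx => (hm x hx).1) hev
  refine ⟨g, hgA, ?_, ?_⟩
  · have hd : orderOf g ∣ 2 ^ 2 := orderOf_dvd_of_cycleType g 4 (fun x hx => by
      rw [hgm] at hx
      exact (hm x hx).2)
    obtain ⟨j, _, hj⟩ := (Nat.dvd_prime_pow Nat.prime_two).mp hd
    exact ⟨j, hj⟩
  · rw [hgm, hs]
    exact hn

/-- An even permutation of order three with a given number of fixed points. -/
theorem ex_three_elt (k r : ℕ) (hk : 1 ≤ k) (hn : 3 * k + r = n) :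
    ∃ g : Equiv.Perm (Fin n), g ∈ alternatingGroup (Fin n) ∧ orderOf g = 3 ∧
      g.cycleType.sum + r = n ∧ ∀ i, g (g i) = i → g i = i := by
  obtain ⟨hs, hev, hm⟩ := ex_M3 k
  obtain ⟨g, hgA, hgm⟩ := exists_alt_cycleType (n := n) (Multiset.replicate k 3) (by omega)
    (fun x hx => by
      have := (hm x hx).1
      omega) hev
  refine ⟨g, hgA, ?_, ?_, ?_⟩
  · have hd : orderOf g ∣ 3 := orderOf_dvd_of_cycleType g 3 (fun x hx => by
      rw [hgm] at hx
      exact (hm x hx).2)
    rcases (Nat.dvd_prime Nat.prime_three).mp hd with h1 | h3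
    · exfalso
      rw [orderOf_eq_one_iff] at h1
      have h0 : g.cycleType = 0 := Equiv.Perm.cycleType_eq_zero.mpr h1
      rw [hgm] at h0
      have hc := congrArg Multiset.card h0
      rw [Multiset.card_replicate, Multiset.card_zero] at hc
      omega
    · exact h3
  · rw [hgm, hs]
    exact hn
  · exact no_swap_of_cycleType g (fun x hx => by
      rw [hgm] at hx
      exact (hm x hx).1)

end AN3

end Cfsg.Agent.Helper8
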