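import Cfsg.Agent.Helper8.AN3
import Cfsg.Agent.S0157

set_option autoImplicit false

namespace Cfsg.Agent.Helper8

open scoped ComplexConjugate

/-! ### Three irreducible characters of the alternating group that extend to the symmetric group -/

section AN4

variable {n : ℕ}

theorem sum_tworow (hn : 2 ≤ n) :
    ∑ i : Fin n, (if i.val = n - 1 then n - 2 else if i.val = n - 2 then 2 else 0) = n := by
  obtain ⟨m, rfl⟩ : ∃ m, n = m + 2 := ⟨n - 2, by omega⟩
  rw [show (∑ i : Fin (m + 2), (if i.val = m + 2 - 1 then m + 2 - 2 else if i.val = m + 2 - 2 then 2 else 0)) =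
      ∑ k ∈ Finset.range (m + 2), (if k = m + 2 - 1 then m + 2 - 2 else if k = m + 2 - 2 then 2 else 0) from
    Fin.sum_univ_eq_sum_range
      (fun k => if k = m + 2 - 1 then m + 2 - 2 else if k = m + 2 - 2 then 2 else 0) (m + 2)]
  rw [Finset.sum_range_succ, Finset.sum_range_succ]
  have h0 : ∑ k ∈ Finset.range m,
      (if k = m + 2 - 1 then m + 2 - 2 else if k = m + 2 - 2 then 2 else 0) = 0 := by
    apply Finset.sum_eq_zero
    intro k hk
    rw [Finset.mem_range] at hk
    rw [if_neg (by omega), if_neg (by omega)]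
  rw [h0, if_neg (by omega), if_pos (by omega), if_pos (by omega)]
  omega

theorem sum_hook (hn : 3 ≤ n) :
    ∑ i : Fin n, (if i.val = n - 1 then n - 2 else if i.val = n - 2 then 1 else
      if i.val = n - 3 then 1 else 0) = n := by
  obtain ⟨m, rfl⟩ : ∃ m, n = m + 3 := ⟨n - 3, by omega⟩
  rw [show (∑ i : Fin (m + 3), (if i.val = m + 3 - 1 then m + 3 - 2 else if i.val = m + 3 - 2 then 1 else
        if i.val = m + 3 - 3 then 1 else 0)) =
      ∑ k ∈ Finset.range (m + 3), (if k = m + 3 - 1 then m + 3 - 2 else if k = m + 3 - 2 then 1 else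
        if k = m + 3 - 3 then 1 else 0) from
    Fin.sum_univ_eq_sum_range
      (fun k => if k = m + 3 - 1 then m + 3 - 2 else if k = m + 3 - 2 then 1 else
        if k = m + 3 - 3 then 1 else 0) (m + 3)]
  rw [Finset.sum_range_succ, Finset.sum_range_succ, Finset.sum_range_succ]
  have h0 : ∑ k ∈ Finset.range m,
      (if k = m + 3 - 1 then m + 3 - 2 else if k = m + 3 - 2 then 1 else
        if k = m + 3 - 3 then 1 else 0) = 0 := by
    apply Finset.sum_eq_zero
    intro k hk
    rw [Finset.mem_range] at hk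
    rw [if_neg (by omega), if_neg (by omega), if_neg (by omega)]
  rw [h0, if_neg (by omega), if_neg (by omega), if_pos (by omega), if_neg (by omega), if_pos (by omega),
    if_pos (by omega)]
  omega

/-- The standard character: fixed points minus one. -/
theorem chi_std (hn : 4 ≤ n) (x : alternatingGroup (Fin n))
    (hx : Nat.card (MulAction.fixedBy (Fin n) (x : Equiv.Perm (Fin n))) = 1) :
    ∃ χ : Cfsg.IrrCharacter (alternatingGroup (Fin n)), (χ : alternatingGroup (Fin n) → ℂ) x = 0 ∧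
      ∃ ψ : Cfsg.IrrCharacter (Equiv.Perm (Fin n)), ∀ y : alternatingGroup (Fin n),
        (ψ : Equiv.Perm (Fin n) → ℂ) y = (χ : alternatingGroup (Fin n) → ℂ) y := by
  classical
  have hcard : Nat.card (Fin n) = n := Nat.card_fin n
  haveI hA : MulAction.IsMultiplyPretransitive (alternatingGroup (Fin n)) (Fin n) (Nat.card (Fin n) - 2) :=
    alternatingGroup.isMultiplyPretransitive (Fin n)
  have h2A : MulAction.IsMultiplyPretransitive (alternatingGroup (Fin n)) (Fin n) 2 :=
    MulAction.isMultiplyPretransitive_of_le (n := Nat.card (Fin n) - 2) (by rw [hcard]; omega) (by omega)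
  have h2S : MulAction.IsMultiplyPretransitive (Equiv.Perm (Fin n)) (Fin n) 2 :=
    Equiv.Perm.isMultiplyPretransitive (Fin n) 2
  haveI : MulAction.IsPretransitive (alternatingGroup (Fin n)) (Fin n) :=
    @MulAction.isPretransitive_of_is_two_pretransitive _ _ _ _ h2A
  haveI : MulAction.IsPretransitive (Equiv.Perm (Fin n)) (Fin n) :=
    @MulAction.isPretransitive_of_is_two_pretransitive _ _ _ _ h2S
  have hX : 2 ≤ Nat.card (Fin n) := by rw [hcard]; omega
  have hχ := (Cfsg.Agent.S0157.result (G := alternatingGroup (Fin n)) (Fin n) hX).mpr h2A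
  have hψ := (Cfsg.Agent.S0157.result (G := Equiv.Perm (Fin n)) (Fin n) hX).mpr h2S
  refine ⟨⟨_, hχ⟩, ?_, ⟨_, hψ⟩, ?_⟩
  · show (Nat.card (MulAction.fixedBy (Fin n) x) : ℂ) - 1 = 0
    have e : MulAction.fixedBy (Fin n) x = MulAction.fixedBy (Fin n) (x : Equiv.Perm (Fin n)) := rfl
    rw [e, hx]
    norm_num
  · intro y
    rfl

/-- The two-row character `(n - 2, 2)`. -/
theorem chi_tworow (hn : 7 ≤ n) (x : alternatingGroup (Fin n))
    (hx : ∀ i, (x : Equiv.Perm (Fin n)) ((x : Equiv.Perm (Fin n)) i) ≠ i) :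
    ∃ χ : Cfsg.IrrCharacter (alternatingGroup (Fin n)), (χ : alternatingGroup (Fin n) → ℂ) x = 0 ∧
      ∃ ψ : Cfsg.IrrCharacter (Equiv.Perm (Fin n)), ∀ y : alternatingGroup (Fin n),
        (ψ : Equiv.Perm (Fin n) → ℂ) y = (χ : alternatingGroup (Fin n) → ℂ) y := by
  obtain ⟨a, ha⟩ : ∃ a : Fin n, a.val = n - 1 := ⟨⟨n - 1, by omega⟩, rfl⟩
  obtain ⟨b, hb⟩ : ∃ b : Fin n, b.val = n - 2 := ⟨⟨n - 2, by omega⟩, rfl⟩
  obtain ⟨ν, hν⟩ : ∃ ν : Fin n → ℕ, ν = fun i : Fin n =>
      if i.val = n - 1 then n - 2 else if i.val = n - 2 then 2 else 0 := ⟨_, rfl⟩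
  have hmono : Monotone ν := by
    intro i j hij
    have := Fin.le_def.mp hij
    rw [hν]
    show (if i.val = n - 1 then n - 2 else if i.val = n - 2 then 2 else 0) ≤
      (if j.val = n - 1 then n - 2 else if j.val = n - 2 then 2 else 0)
    split_ifs <;> omega
  have hsum : ∑ i, ν i = n := by
    rw [hν]
    exact sum_tworow (by omega)
  have hνa : ν a = n - 2 := by
    rw [hν]
    show (if a.val = n - 1 then n - 2 else if a.val = n - 2 then 2 else 0) = n - 2
    rw [if_pos ha]
  have hνb : ν b = 2 := by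
    rw [hν]
    show (if b.val = n - 1 then n - 2 else if b.val = n - 2 then 2 else 0) = 2
    rw [if_neg (by omega), if_pos hb]
  have hν0 : ∀ i : Fin n, i.val < n - 2 → ν i = 0 := by
    intro i hi
    rw [hν]
    show (if i.val = n - 1 then n - 2 else if i.val = n - 2 then 2 else 0) = 0
    rw [if_neg (by omega), if_neg (by omega)]
  obtain ⟨χ, h1, ψ, h2⟩ := an_restrict (by omega) ν hmono hsum a ha (by rw [hνa])
  exact ⟨χ, h1 x (tworow_vanish (by omega) b hb ν hsum hν0 hνb _ hx), ψ, h2⟩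

/-- The hook character `(n - 2, 1, 1)`. -/
theorem chi_hook (hn : 7 ≤ n) (x : alternatingGroup (Fin n)) (a₀ b₀ : Fin n) (hab : a₀ ≠ b₀)
    (hfix : ∀ i, (x : Equiv.Perm (Fin n)) i = i ↔ i = a₀ ∨ i = b₀)
    (hx : ∀ i, (x : Equiv.Perm (Fin n)) ((x : Equiv.Perm (Fin n)) i) = i → (x : Equiv.Perm (Fin n)) i = i) :
    ∃ χ : Cfsg.IrrCharacter (alternatingGroup (Fin n)), (χ : alternatingGroup (Fin n) → ℂ) x = 0 ∧
      ∃ ψ : Cfsg.IrrCharacter (Equiv.Perm (Fin n)), ∀ y : alternatingGroup (Fin n),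
        (ψ : Equiv.Perm (Fin n) → ℂ) y = (χ : alternatingGroup (Fin n) → ℂ) y := by
  obtain ⟨a, ha⟩ : ∃ a : Fin n, a.val = n - 1 := ⟨⟨n - 1, by omega⟩, rfl⟩
  obtain ⟨b, hb⟩ : ∃ b : Fin n, b.val = n - 2 := ⟨⟨n - 2, by omega⟩, rfl⟩
  obtain ⟨c, hc⟩ : ∃ c : Fin n, c.val = n - 3 := ⟨⟨n - 3, by omega⟩, rfl⟩
  obtain ⟨ν, hν⟩ : ∃ ν : Fin n → ℕ, ν = fun i : Fin n =>
      if i.val = n - 1 then n - 2 else if i.val = n - 2 then 1 else if i.val = n - 3 then 1 else 0 :=
    ⟨_, rfl⟩
  have hmono : Monotone ν := by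
    intro i j hij
    have := Fin.le_def.mp hij
    rw [hν]
    show (if i.val = n - 1 then n - 2 else if i.val = n - 2 then 1 else if i.val = n - 3 then 1 else 0) ≤
      (if j.val = n - 1 then n - 2 else if j.val = n - 2 then 1 else if j.val = n - 3 then 1 else 0)
    split_ifs <;> omega
  have hsum : ∑ i, ν i = n := by
    rw [hν]
    exact sum_hook (by omega)
  have hνa : ν a = n - 2 := by
    rw [hν]
    show (if a.val = n - 1 then n - 2 else if a.val = n - 2 then 1 else
      if a.val = n - 3 then 1 else 0) = n - 2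
    rw [if_pos ha]
  have hνb : ν b = 1 := by
    rw [hν]
    show (if b.val = n - 1 then n - 2 else if b.val = n - 2 then 1 else
      if b.val = n - 3 then 1 else 0) = 1
    rw [if_neg (by omega), if_pos hb]
  have hνc : ν c = 1 := by
    rw [hν]
    show (if c.val = n - 1 then n - 2 else if c.val = n - 2 then 1 else
      if c.val = n - 3 then 1 else 0) = 1
    rw [if_neg (by omega), if_neg (by omega), if_pos hc]
  have hν0 : ∀ i : Fin n, i.val < n - 3 → ν i = 0 := by
    intro i hi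
    rw [hν]
    show (if i.val = n - 1 then n - 2 else if i.val = n - 2 then 1 else if i.val = n - 3 then 1 else 0) = 0
    rw [if_neg (by omega), if_neg (by omega), if_neg (by omega)]
  obtain ⟨χ, h1, ψ, h2⟩ := an_restrict (by omega) ν hmono hsum a ha (by rw [hνa])
  exact ⟨χ, h1 x (hook_vanish (by omega) a b c ha hb hc
    ν hsum hν0 hνc hνb hνa _ a₀ b₀ hab hfix hx), ψ, h2⟩

end AN4

end Cfsg.Agent.Helper8
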