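import Cfsg.Agent.Helper8.G2S

set_option autoImplicit false

namespace Cfsg.Agent.Helper8

open Cfsg.Lie

variable {F : Type*} [Field F]

/-! ### Type `G₂` in characteristic two: the group law of `U` in coordinates -/

theorem g2r_6_10 [CharP F 2] (c a : F) :
    chevG2.x F 10 c * chevG2.x F 6 a = chevG2.x F 6 a * chevG2.x F 10 c * chevG2.x F 11 (a * c) := by
  have h := Cfsg.Agent.S1025.result chevG2 stdG2 6 10 (by decide) (by decide) (by decide) (by decide +kernel) a c (F := F)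
  have e : chevG2.commWord F 6 10 a c = [(11, ((1 : ℤ) : F) * (-a) ^ 1 * c ^ 1)] := by
    unfold ChevalleyDatum.commWord
    have e1 : chevG2.commTerms 6 10 = [(11, 1, 1, 1)] := by decide +kernel
    rw [e1]
    rfl
  have h2 : (2 : F) = 0 := CharTwo.two_eq_zero
  have e2 : ((1 : ℤ) : F) * (-a) ^ 1 * c ^ 1 = a * c := by
    push_cast
    linear_combination (-(a * c)) * h2
  rw [e, e2, wordMat_cons, ChevalleyDatum.wordMat, List.map_nil, List.prod_nil, Matrix.mul_one] at h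
  exact h

theorem g2r_7_9 [CharP F 2] (c a : F) :
    chevG2.x F 9 c * chevG2.x F 7 a = chevG2.x F 7 a * chevG2.x F 9 c * chevG2.x F 10 (a * c) := by
  have h := Cfsg.Agent.S1025.result chevG2 stdG2 7 9 (by decide) (by decide) (by decide) (by decide +kernel) a c (F := F)
  have e : chevG2.commWord F 7 9 a c = [(10, ((3 : ℤ) : F) * (-a) ^ 1 * c ^ 1)] := by
    unfold ChevalleyDatum.commWord
    have e1 : chevG2.commTerms 7 9 = [(10, 3, 1, 1)] := by decide +kernel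
    rw [e1]
    rfl
  have h2 : (2 : F) = 0 := CharTwo.two_eq_zero
  have e2 : ((3 : ℤ) : F) * (-a) ^ 1 * c ^ 1 = a * c := by
    push_cast
    linear_combination (-2 * (a * c)) * h2
  rw [e, e2, wordMat_cons, ChevalleyDatum.wordMat, List.map_nil, List.prod_nil, Matrix.mul_one] at h
  exact h

theorem g2r_8_9 [CharP F 2] (c a : F) :
    chevG2.x F 9 c * chevG2.x F 8 a = chevG2.x F 8 a * chevG2.x F 9 c * chevG2.x F 11 (a * c) := by
  have h := Cfsg.Agent.S1025.result chevG2 stdG2 8 9 (by decide) (by decide) (by decide) (by decide +kernel) a c (F := F)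
  have e : chevG2.commWord F 8 9 a c = [(11, ((3 : ℤ) : F) * (-a) ^ 1 * c ^ 1)] := by
    unfold ChevalleyDatum.commWord
    have e1 : chevG2.commTerms 8 9 = [(11, 3, 1, 1)] := by decide +kernel
    rw [e1]
    rfl
  have h2 : (2 : F) = 0 := CharTwo.two_eq_zero
  have e2 : ((3 : ℤ) : F) * (-a) ^ 1 * c ^ 1 = a * c := by
    push_cast
    linear_combination (-2 * (a * c)) * h2
  rw [e, e2, wordMat_cons, ChevalleyDatum.wordMat, List.map_nil, List.prod_nil, Matrix.mul_one] at h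
  exact h

theorem g2r_7_8 [CharP F 2] (c a : F) :
    chevG2.x F 8 c * chevG2.x F 7 a =
      chevG2.x F 7 a * chevG2.x F 8 c * (chevG2.x F 10 (a ^ 2 * c) * chevG2.x F 11 (a * c ^ 2)) := by
  have h := Cfsg.Agent.S1025.result chevG2 stdG2 7 8 (by decide) (by decide) (by decide) (by decide +kernel) a c (F := F)
  have e : chevG2.commWord F 7 8 a c = [(9, ((-2 : ℤ) : F) * (-a) ^ 1 * c ^ 1), (10, ((-3 : ℤ) : F) * (-a) ^ 2 * c ^ 1),
      (11, ((3 : ℤ) : F) * (-a) ^ 1 * c ^ 2)] := by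
    unfold ChevalleyDatum.commWord
    have e1 : chevG2.commTerms 7 8 = [(9, -2, 1, 1), (10, -3, 2, 1), (11, 3, 1, 2)] := by decide +kernel
    rw [e1]
    rfl
  have h2 : (2 : F) = 0 := CharTwo.two_eq_zero
  have e2 : ((-2 : ℤ) : F) * (-a) ^ 1 * c ^ 1 = 0 := by
    push_cast
    linear_combination (a * c) * h2
  have e3 : ((-3 : ℤ) : F) * (-a) ^ 2 * c ^ 1 = a ^ 2 * c := by
    push_cast
    linear_combination (-2 * (a ^ 2 * c)) * h2
  have e4 : ((3 : ℤ) : F) * (-a) ^ 1 * c ^ 2 = a * c ^ 2 := by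
    push_cast
    linear_combination (-2 * (a * c ^ 2)) * h2
  rw [e, e2, e3, e4, wordMat_cons, wordMat_cons, wordMat_cons, ChevalleyDatum.wordMat, List.map_nil, List.prod_nil,
    Matrix.mul_one, x_zero, Matrix.one_mul] at h
  exact h

theorem g2r_6_7 [CharP F 2] (c a : F) :
    chevG2.x F 7 c * chevG2.x F 6 a =
      chevG2.x F 6 a * chevG2.x F 7 c *
        (chevG2.x F 8 (a * c) * (chevG2.x F 9 (a * c ^ 2) * chevG2.x F 10 (a * c ^ 3))) := by
  have h := Cfsg.Agent.S1025.result chevG2 stdG2 6 7 (by decide) (by decide) (by decide) (by decide +kernel) a c (F := F)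
  have e : chevG2.commWord F 6 7 a c = [(8, ((1 : ℤ) : F) * (-a) ^ 1 * c ^ 1), (9, ((1 : ℤ) : F) * (-a) ^ 1 * c ^ 2),
      (10, ((-1 : ℤ) : F) * (-a) ^ 1 * c ^ 3), (11, ((-2 : ℤ) : F) * (-a) ^ 2 * c ^ 3)] := by
    unfold ChevalleyDatum.commWord
    have e1 : chevG2.commTerms 6 7 = [(8, 1, 1, 1), (9, 1, 1, 2), (10, -1, 1, 3), (11, -2, 2, 3)] := by decide +kernel
    rw [e1]
    rfl
  have h2 : (2 : F) = 0 := CharTwo.two_eq_zero
  have e2 : ((1 : ℤ) : F) * (-a) ^ 1 * c ^ 1 = a * c := by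
    push_cast
    linear_combination (-(a * c)) * h2
  have e3 : ((1 : ℤ) : F) * (-a) ^ 1 * c ^ 2 = a * c ^ 2 := by
    push_cast
    linear_combination (-(a * c ^ 2)) * h2
  have e4 : ((-1 : ℤ) : F) * (-a) ^ 1 * c ^ 3 = a * c ^ 3 := by
    push_cast
    ring
  have e5 : ((-2 : ℤ) : F) * (-a) ^ 2 * c ^ 3 = 0 := by
    push_cast
    linear_combination (-(a ^ 2 * c ^ 3)) * h2
  rw [e, e2, e3, e4, e5, wordMat_cons, wordMat_cons, wordMat_cons, wordMat_cons, ChevalleyDatum.wordMat, List.map_nil,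
    List.prod_nil, Matrix.mul_one, x_zero, Matrix.mul_one] at h
  exact h

/-- `x_{-a}(u) x_{2a+b}(t) = x_{2a+b}(t) x_{-a}(u) x_{3a+2b}(t²u) x_b(tu²)`. -/
theorem g2r_9_4 [CharP F 2] (c a : F) :
    chevG2.x F 4 c * chevG2.x F 9 a =
      chevG2.x F 9 a * chevG2.x F 4 c * (chevG2.x F 11 (a ^ 2 * c) * chevG2.x F 6 (a * c ^ 2)) := by
  have h := Cfsg.Agent.S1025.result chevG2 stdG2 9 4 (by decide) (by decide) (by decide) (by decide +kernel) a c (F := F)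
  have e : chevG2.commWord F 9 4 a c = [(8, ((2 : ℤ) : F) * (-a) ^ 1 * c ^ 1), (11, ((-3 : ℤ) : F) * (-a) ^ 2 * c ^ 1),
      (6, ((3 : ℤ) : F) * (-a) ^ 1 * c ^ 2)] := by
    unfold ChevalleyDatum.commWord
    have e1 : chevG2.commTerms 9 4 = [(8, 2, 1, 1), (11, -3, 2, 1), (6, 3, 1, 2)] := by decide +kernel
    rw [e1]
    rfl
  have h2 : (2 : F) = 0 := CharTwo.two_eq_zero
  have e2 : ((2 : ℤ) : F) * (-a) ^ 1 * c ^ 1 = 0 := by
    push_cast
    linear_combination (-(a * c)) * h2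
  have e3 : ((-3 : ℤ) : F) * (-a) ^ 2 * c ^ 1 = a ^ 2 * c := by
    push_cast
    linear_combination (-2 * (a ^ 2 * c)) * h2
  have e4 : ((3 : ℤ) : F) * (-a) ^ 1 * c ^ 2 = a * c ^ 2 := by
    push_cast
    linear_combination (-2 * (a * c ^ 2)) * h2
  rw [e, e2, e3, e4, wordMat_cons, wordMat_cons, wordMat_cons, ChevalleyDatum.wordMat, List.map_nil, List.prod_nil,
    Matrix.mul_one, x_zero, Matrix.one_mul] at h
  exact h

theorem g2c_4_11 [CharP F 2] (c a : F) :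
    chevG2.x F 11 c * chevG2.x F 4 a = chevG2.x F 4 a * chevG2.x F 11 c :=
  comm_char2 chevG2 stdG2 4 11 (by decide) (by decide) (by decide) (by decide +kernel) (by decide +kernel) c a

/-- The element of `U` with the given coordinates. -/
def g2u (F : Type*) [Field F] (c6 c7 c8 c9 c10 c11 : F) : Matrix chevG2.Idx chevG2.Idx F :=
  chevG2.x F 6 c6 * (chevG2.x F 7 c7 * (chevG2.x F 8 c8 * (chevG2.x F 9 c9 *
    (chevG2.x F 10 c10 * chevG2.x F 11 c11))))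

theorem g2u_congr {a6 a7 a8 a9 a10 a11 b6 b7 b8 b9 b10 b11 : F} (h6 : a6 = b6) (h7 : a7 = b7) (h8 : a8 = b8)
    (h9 : a9 = b9) (h10 : a10 = b10) (h11 : a11 = b11) :
    g2u F a6 a7 a8 a9 a10 a11 = g2u F b6 b7 b8 b9 b10 b11 := by
  subst h6 h7 h8 h9 h10 h11
  rfl

theorem g2u_inj {a6 a7 a8 a9 a10 a11 b6 b7 b8 b9 b10 b11 : F}
    (h : g2u F a6 a7 a8 a9 a10 a11 = g2u F b6 b7 b8 b9 b10 b11) :
    a6 = b6 ∧ a7 = b7 ∧ a8 = b8 ∧ a9 = b9 ∧ a10 = b10 ∧ a11 = b11 :=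
  g2_coef _ _ _ _ _ _ _ _ _ _ _ _ h

theorem g2u_zero : g2u F 0 0 0 0 0 0 = 1 := by
  unfold g2u
  simp only [x_zero, Matrix.mul_one]

theorem g2_add (r : ℕ) (hr : r < chevG2.nroots) (a b : F) :
    chevG2.x F r a * chevG2.x F r b = chevG2.x F r (a + b) :=
  Cfsg.Agent.S1023.result chevG2 stdG2 r hr a b

theorem g2_add3 (r : ℕ) (hr : r < chevG2.nroots) (a b : F) (M : Matrix chevG2.Idx chevG2.Idx F) :
    chevG2.x F r a * (chevG2.x F r b * M) = chevG2.x F r (a + b) * M := by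
  rw [← Matrix.mul_assoc, g2_add r hr]

theorem g2u_x11 (c6 c7 c8 c9 c10 c11 d : F) :
    g2u F c6 c7 c8 c9 c10 c11 * chevG2.x F 11 d = g2u F c6 c7 c8 c9 c10 (c11 + d) := by
  unfold g2u
  simp only [Matrix.mul_assoc]
  rw [g2_add 11 (by decide)]

theorem g2u_x10 [CharP F 2] (c6 c7 c8 c9 c10 c11 d : F) :
    g2u F c6 c7 c8 c9 c10 c11 * chevG2.x F 10 d = g2u F c6 c7 c8 c9 (c10 + d) c11 := by
  unfold g2u
  simp only [Matrix.mul_assoc]
  rw [g2c_10_11 c11 d, g2_add3 10 (by decide)]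

theorem g2u_x9 [CharP F 2] (c6 c7 c8 c9 c10 c11 d : F) :
    g2u F c6 c7 c8 c9 c10 c11 * chevG2.x F 9 d = g2u F c6 c7 c8 (c9 + d) c10 c11 := by
  unfold g2u
  simp only [Matrix.mul_assoc]
  rw [g2c_9_11 c11 d, mul_swap3 (g2c_9_10 c10 d), g2_add3 9 (by decide)]

theorem g2u_x8 [CharP F 2] (c6 c7 c8 c9 c10 c11 d : F) :
    g2u F c6 c7 c8 c9 c10 c11 * chevG2.x F 8 d = g2u F c6 c7 (c8 + d) c9 c10 (d * c9 + c11) := by
  unfold g2u
  simp only [Matrix.mul_assoc]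
  rw [g2c_8_11 c11 d, mul_swap3 (g2c_10_8 d c10).symm, mul_rel3 (g2r_8_9 c9 d), g2_add3 8 (by decide),
    mul_swap3 (g2c_10_11 (d * c9) c10), g2_add 11 (by decide)]

theorem g2u_x7 [CharP F 2] (c6 c7 c8 c9 c10 c11 d : F) :
    g2u F c6 c7 c8 c9 c10 c11 * chevG2.x F 7 d =
      g2u F c6 (c7 + d) c8 c9 (d ^ 2 * c8 + (d * c9 + c10)) (d * c8 ^ 2 + c11) := by
  unfold g2u
  simp only [Matrix.mul_assoc]
  rw [(g2c_11_7 d c11).symm, mul_swap3 (g2c_7_10 c10 d), mul_rel3 (g2r_7_9 c9 d), mul_rel3 (g2r_7_8 c8 d),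
    g2_add3 7 (by decide), Matrix.mul_assoc (chevG2.x F 10 (d ^ 2 * c8)),
    mul_swap3 (g2c_9_11 (d * c8 ^ 2) c9), mul_swap3 (g2c_9_10 (d ^ 2 * c8) c9),
    mul_swap3 (g2c_10_11 (d * c8 ^ 2) (d * c9)), mul_swap3 (g2c_10_11 (d * c8 ^ 2) c10),
    g2_add 11 (by decide), g2_add3 10 (by decide) (d * c9), g2_add3 10 (by decide)]

theorem g2u_x6 [CharP F 2] (c6 c7 c8 c9 c10 c11 d : F) :
    g2u F c6 c7 c8 c9 c10 c11 * chevG2.x F 6 d =
      g2u F (c6 + d) c7 (d * c7 + c8) (d * c7 ^ 2 + c9) (d * c7 ^ 3 + c10)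
        (c8 * (d * c7 ^ 2) + (d * c10 + c11)) := by
  unfold g2u
  simp only [Matrix.mul_assoc]
  rw [g2c_6_11 c11 d, mul_rel3 (g2r_6_10 c10 d), mul_swap3 (g2c_9_6 d c9).symm, mul_swap3 (g2c_6_8 c8 d),
    mul_rel3 (g2r_6_7 c7 d), g2_add3 6 (by decide)]
  simp only [Matrix.mul_assoc]
  rw [mul_swap3 (g2c_10_8 c8 (d * c7 ^ 3)).symm, mul_rel3 (g2r_8_9 (d * c7 ^ 2) c8), g2_add3 8 (by decide),
    mul_swap3 (g2c_9_10 (d * c7 ^ 3) c9), mul_swap3 (g2c_9_11 (c8 * (d * c7 ^ 2)) c9), g2_add3 9 (by decide),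
    mul_swap3 (g2c_10_11 (c8 * (d * c7 ^ 2)) (d * c7 ^ 3)), mul_swap3 (g2c_10_11 (c8 * (d * c7 ^ 2)) c10),
    g2_add3 10 (by decide), g2_add 11 (by decide) (d * c10), g2_add 11 (by decide)]

end Cfsg.Agent.Helper8
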