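import Cfsg.Agent.Helper8.G2I

set_option autoImplicit false

namespace Cfsg.Agent.Helper8

open Cfsg.Lie

variable {F : Type*} [Field F]

theorem g2u_mul [CharP F 2] (c6 c7 c8 c9 c10 c11 d6 d7 d8 d9 d10 d11 : F) :
    g2u F c6 c7 c8 c9 c10 c11 * g2u F d6 d7 d8 d9 d10 d11 =
      g2u F (c6 + d6) (c7 + d7) (d6 * c7 + c8 + d8) (d6 * c7 ^ 2 + c9 + d9)
        (d7 ^ 2 * (d6 * c7 + c8) + (d7 * (d6 * c7 ^ 2 + c9) + (d6 * c7 ^ 3 + c10)) + d10)
        (d8 * (d6 * c7 ^ 2 + c9) + (d7 * (d6 * c7 + c8) ^ 2 + (c8 * (d6 * c7 ^ 2) + (d6 * c10 + c11))) + d11) := by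
  conv_lhs => rw [show g2u F d6 d7 d8 d9 d10 d11 = chevG2.x F 6 d6 * (chevG2.x F 7 d7 * (chevG2.x F 8 d8 *
    (chevG2.x F 9 d9 * (chevG2.x F 10 d10 * chevG2.x F 11 d11)))) from rfl]
  simp only [← Matrix.mul_assoc]
  rw [g2u_x6, g2u_x7, g2u_x8, g2u_x9, g2u_x10, g2u_x11]

theorem g2x6 (s : F) : chevG2.x F 6 s = g2u F s 0 0 0 0 0 := by
  unfold g2u
  simp only [x_zero, Matrix.mul_one]

theorem g2x7 (s : F) : chevG2.x F 7 s = g2u F 0 s 0 0 0 0 := by
  unfold g2u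
  simp only [x_zero, Matrix.mul_one, Matrix.one_mul]

theorem g2x8 (s : F) : chevG2.x F 8 s = g2u F 0 0 s 0 0 0 := by
  unfold g2u
  simp only [x_zero, Matrix.mul_one, Matrix.one_mul]

theorem g2x9 (s : F) : chevG2.x F 9 s = g2u F 0 0 0 s 0 0 := by
  unfold g2u
  simp only [x_zero, Matrix.mul_one, Matrix.one_mul]

theorem g2x10 (s : F) : chevG2.x F 10 s = g2u F 0 0 0 0 s 0 := by
  unfold g2u
  simp only [x_zero, Matrix.mul_one, Matrix.one_mul]

theorem g2x11 (s : F) : chevG2.x F 11 s = g2u F 0 0 0 0 0 s := by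
  unfold g2u
  simp only [x_zero, Matrix.one_mul]

theorem c2_2 [CharP F 2] : (2 : F) = 0 := CharTwo.two_eq_zero
theorem c2_3 [CharP F 2] : (3 : F) = 1 := by linear_combination (c2_2 : (2 : F) = 0)
theorem c2_4 [CharP F 2] : (4 : F) = 0 := by linear_combination (2 : F) * (c2_2 : (2 : F) = 0)
theorem c2_5 [CharP F 2] : (5 : F) = 1 := by linear_combination (2 : F) * (c2_2 : (2 : F) = 0)
theorem c2_6 [CharP F 2] : (6 : F) = 0 := by linear_combination (3 : F) * (c2_2 : (2 : F) = 0)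

/-- The square of an element of `U`. -/
theorem g2u_sq [CharP F 2] (c6 c7 c8 c9 c10 c11 : F) :
    g2u F c6 c7 c8 c9 c10 c11 * g2u F c6 c7 c8 c9 c10 c11 =
      g2u F 0 0 (c6 * c7) (c6 * c7 ^ 2) (c6 * c7 ^ 3 + c7 * c9 + c7 ^ 2 * c8)
        (c6 * c10 + c7 * c8 ^ 2 + c6 ^ 2 * c7 ^ 3 + c8 * c9) := by
  rw [g2u_mul]
  apply g2u_congr <;>
    first
    | rfl
    | ring1
    | (ring_nf; simp only [c2_2, c2_3, c2_4, c2_5, c2_6, mul_zero, mul_one, add_zero, zero_add])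

/-- Conjugation by `x_b(s)`: elements `x_a(a) x_{a+b}(sa) x_{2a+b}(sa²) x_{3a+b}(d) x_{3a+2b}(e)`. -/
theorem g2Cj1 [CharP F 2] (s a d e : F) :
    chevG2.x F 6 s * g2u F 0 a (s * a) (s * a ^ 2) d e =
      g2u F 0 a 0 0 (d + s * a ^ 3) (e + s * (d + s * a ^ 3)) * chevG2.x F 6 s := by
  rw [g2x6, g2u_mul, ← g2x6, g2u_x6]
  apply g2u_congr <;>
    first
    | rfl
    | ring1
    | (ring_nf; simp only [c2_2, c2_3, c2_4, c2_5, c2_6, mul_zero, mul_one, add_zero, zero_add])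

theorem g2Cj2 [CharP F 2] (s α γ ε : F) :
    chevG2.x F 7 s * g2u F α 0 (s * α) γ (s * γ) ε =
      g2u F α 0 0 (γ + α * s ^ 2) 0 (ε + s ^ 3 * α ^ 2) * chevG2.x F 7 s := by
  rw [g2x7, g2u_mul, ← g2x7, g2u_x7]
  apply g2u_congr <;>
    first
    | rfl
    | ring1
    | (ring_nf; simp only [c2_2, c2_3, c2_4, c2_5, c2_6, mul_zero, mul_one, add_zero, zero_add])

theorem g2Cj3 [CharP F 2] (s α : F) :
    chevG2.x F 10 s * g2u F α 0 0 0 0 (α * s) = g2u F α 0 0 0 0 0 * chevG2.x F 10 s := by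
  rw [g2x10, g2u_mul, ← g2x10, g2u_x10]
  apply g2u_congr <;>
    first
    | rfl
    | ring1
    | (ring_nf; simp only [c2_2, c2_3, c2_4, c2_5, c2_6, mul_zero, mul_one, add_zero, zero_add])

theorem g2Cj4 [CharP F 2] (s γ ε : F) :
    chevG2.x F 7 s * g2u F 0 0 0 γ 0 ε = g2u F 0 0 0 γ (s * γ) ε * chevG2.x F 7 s := by
  rw [g2x7, g2u_mul, ← g2x7, g2u_x7]
  apply g2u_congr <;>
    first
    | rfl
    | ring1
    | (ring_nf; simp only [c2_2, c2_3, c2_4, c2_5, c2_6, mul_zero, mul_one, add_zero, zero_add])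

theorem g2Cj5 [CharP F 2] (s δ : F) :
    chevG2.x F 6 s * g2u F 0 0 0 0 δ 0 = g2u F 0 0 0 0 δ (s * δ) * chevG2.x F 6 s := by
  rw [g2x6, g2u_mul, ← g2x6, g2u_x6]
  apply g2u_congr <;>
    first
    | rfl
    | ring1
    | (ring_nf; simp only [c2_2, c2_3, c2_4, c2_5, c2_6, mul_zero, mul_one, add_zero, zero_add])

theorem g2Cj6 [CharP F 2] (s α β : F) :
    chevG2.x F 8 s * g2u F α 0 0 β 0 (s * β) = g2u F α 0 0 β 0 0 * chevG2.x F 8 s := by
  rw [g2x8, g2u_mul, ← g2x8, g2u_x8]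
  apply g2u_congr <;>
    first
    | rfl
    | ring1
    | (ring_nf; simp only [c2_2, c2_3, c2_4, c2_5, c2_6, mul_zero, mul_one, add_zero, zero_add])

theorem g2Cj7 [CharP F 2] (c β : F) :
    chevG2.x F 4 c * g2u F 0 0 0 β 0 0 = g2u F (β * c ^ 2) 0 0 β 0 (β ^ 2 * c) * chevG2.x F 4 c := by
  have e1 : g2u F (β * c ^ 2) 0 0 β 0 (β ^ 2 * c) =
      chevG2.x F 9 β * (chevG2.x F 11 (β ^ 2 * c) * chevG2.x F 6 (β * c ^ 2)) := by
    rw [g2x9, ← Matrix.mul_assoc, g2u_x11, g2u_x6]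
    apply g2u_congr <;>
      first
      | rfl
      | ring1
      | (ring_nf; simp only [c2_2, c2_3, c2_4, c2_5, c2_6, mul_zero, mul_one, add_zero, zero_add])
  rw [e1, ← g2x9, g2r_9_4 c β]
  simp only [Matrix.mul_assoc]
  rw [g2c_4_6 (β * c ^ 2) c, mul_swap3 (g2c_4_11 (β ^ 2 * c) c)]


/-! ### Conjugacy under the Chevalley group, for matrices -/

theorem gl_inv_mul' {n : Type*} [Fintype n] [DecidableEq n] (g : GL n F) :
    ((g⁻¹ : GL n F) : Matrix n n F) * (g : Matrix n n F) = 1 := by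
  rw [← Units.val_mul, inv_mul_cancel, Units.val_one]

theorem gl_mul_inv' {n : Type*} [Fintype n] [DecidableEq n] (g : GL n F) :
    (g : Matrix n n F) * ((g⁻¹ : GL n F) : Matrix n n F) = 1 := by
  rw [← Units.val_mul, mul_inv_cancel, Units.val_one]

/-- Conjugacy under `G₂(F)`, for matrices. -/
def MConj (F : Type*) [Field F] (A B : Matrix chevG2.Idx chevG2.Idx F) : Prop :=
  ∃ h : GL chevG2.Idx F, h ∈ chevG2.group F ∧
    (h : Matrix chevG2.Idx chevG2.Idx F) * A = B * (h : Matrix chevG2.Idx chevG2.Idx F)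

theorem mconj_symm {A B : Matrix chevG2.Idx chevG2.Idx F} (h : MConj F A B) : MConj F B A := by
  obtain ⟨g, hg, e⟩ := h
  refine ⟨g⁻¹, inv_mem hg, ?_⟩
  calc ((g⁻¹ : GL chevG2.Idx F) : Matrix chevG2.Idx chevG2.Idx F) * B
      = ((g⁻¹ : GL chevG2.Idx F) : Matrix chevG2.Idx chevG2.Idx F) * (B * (g : Matrix chevG2.Idx chevG2.Idx F)) *
          ((g⁻¹ : GL chevG2.Idx F) : Matrix chevG2.Idx chevG2.Idx F) := by
        rw [Matrix.mul_assoc, Matrix.mul_assoc, gl_mul_inv', Matrix.mul_one]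
    _ = ((g⁻¹ : GL chevG2.Idx F) : Matrix chevG2.Idx chevG2.Idx F) * ((g : Matrix chevG2.Idx chevG2.Idx F) * A) *
          ((g⁻¹ : GL chevG2.Idx F) : Matrix chevG2.Idx chevG2.Idx F) := by rw [e]
    _ = A * ((g⁻¹ : GL chevG2.Idx F) : Matrix chevG2.Idx chevG2.Idx F) := by
        rw [← Matrix.mul_assoc, gl_inv_mul', Matrix.one_mul]

theorem mconj_trans {A B C : Matrix chevG2.Idx chevG2.Idx F} (h1 : MConj F A B) (h2 : MConj F B C) :
    MConj F A C := by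
  obtain ⟨g1, hg1, e1⟩ := h1
  obtain ⟨g2, hg2, e2⟩ := h2
  refine ⟨g2 * g1, mul_mem hg2 hg1, ?_⟩
  rw [Units.val_mul, Matrix.mul_assoc, e1, ← Matrix.mul_assoc, e2, Matrix.mul_assoc]

theorem mconj_x (r : ℕ) (hr : r < chevG2.nroots) (s : F) {A B : Matrix chevG2.Idx chevG2.Idx F}
    (h : chevG2.x F r s * A = B * chevG2.x F r s) : MConj F A B :=
  ⟨xGL chevG2 stdG2 F r hr s, xGL_mem_group chevG2 stdG2 F r hr s, h⟩

theorem mconj_w (l : List ℕ) (hl : ∀ i ∈ l, i < chevG2.rank) (r : ℕ) (hr : r < chevG2.nroots) :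
    ∃ c : F, c ≠ 0 ∧ ∀ a : F,
      ((nProdGL chevG2 F l : GL chevG2.Idx F) : Matrix chevG2.Idx chevG2.Idx F) * chevG2.x F r a =
        chevG2.x F (reflWord chevG2 l r) (c * a) *
          ((nProdGL chevG2 F l : GL chevG2.Idx F) : Matrix chevG2.Idx chevG2.Idx F) := by
  obtain ⟨c, hc, h⟩ := word_act1 chevG2 stdG2 l hl r hr (F := F)
  refine ⟨c, hc, fun a => ?_⟩
  have h1 := h a
  rw [mul_inv_eq_iff_eq_mul] at h1
  exact congrArg Units.val h1

theorem mconj_w1 (l : List ℕ) (hl : ∀ i ∈ l, i < chevG2.rank) (r : ℕ) (hr : r < chevG2.nroots) :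
    ∃ k : F, k ≠ 0 ∧ ∀ a : F, MConj F (chevG2.x F r a) (chevG2.x F (reflWord chevG2 l r) (k * a)) := by
  obtain ⟨k, hk, h⟩ := mconj_w l hl r hr (F := F)
  exact ⟨k, hk, fun a => ⟨nProdGL chevG2 F l,
    monomialSubgroup_le_group chevG2 stdG2 F (nProdGL_mem chevG2 stdG2 F l hl), h a⟩⟩

theorem mconj_w3 (l : List ℕ) (hl : ∀ i ∈ l, i < chevG2.rank) (r1 r2 r3 : ℕ) (hr1 : r1 < chevG2.nroots)
    (hr2 : r2 < chevG2.nroots) (hr3 : r3 < chevG2.nroots) :
    ∃ k1 k2 k3 : F, k1 ≠ 0 ∧ k2 ≠ 0 ∧ k3 ≠ 0 ∧ ∀ a1 a2 a3 : F,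
      MConj F (chevG2.x F r1 a1 * (chevG2.x F r2 a2 * chevG2.x F r3 a3))
        (chevG2.x F (reflWord chevG2 l r1) (k1 * a1) * (chevG2.x F (reflWord chevG2 l r2) (k2 * a2) *
          chevG2.x F (reflWord chevG2 l r3) (k3 * a3))) := by
  obtain ⟨k1, hk1, h1⟩ := mconj_w l hl r1 hr1 (F := F)
  obtain ⟨k2, hk2, h2⟩ := mconj_w l hl r2 hr2 (F := F)
  obtain ⟨k3, hk3, h3⟩ := mconj_w l hl r3 hr3 (F := F)
  refine ⟨k1, k2, k3, hk1, hk2, hk3, fun a1 a2 a3 => ⟨nProdGL chevG2 F l,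
    monomialSubgroup_le_group chevG2 stdG2 F (nProdGL_mem chevG2 stdG2 F l hl), ?_⟩⟩
  rw [← Matrix.mul_assoc, h1 a1, Matrix.mul_assoc, ← Matrix.mul_assoc _ (chevG2.x F r2 a2), h2 a2, Matrix.mul_assoc,
    h3 a3]
  simp only [Matrix.mul_assoc]

theorem g2_torus (r : ℕ) (hr : r < chevG2.nroots) (c0 c1 : F) (h0 : c0 ≠ 0) (h1 : c1 ≠ 0) (t : F) :
    MConj F (chevG2.x F r t) (chevG2.x F r (c0 ^ chevG2.cartan 0 r * c1 ^ chevG2.cartan 1 r * t)) := by
  have hc : ∀ i, i < chevG2.rank → (fun i : ℕ => if i = 0 then c0 else c1) i ≠ 0 := by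
    intro i _
    show (if i = 0 then c0 else c1) ≠ 0
    split_ifs
    · exact h0
    · exact h1
  refine ⟨hProdGL chevG2 stdG2 F _ hc, diagonalSubgroup_le_group chevG2 stdG2 F (hProdGL_mem chevG2 stdG2 _ hc), ?_⟩
  rw [hProdGL_val, hProd_x_comm chevG2 stdG2 _ hc r hr t]
  have e : dOf chevG2 (fun i : ℕ => if i = 0 then c0 else c1) r =
      c0 ^ chevG2.cartan 0 r * c1 ^ chevG2.cartan 1 r := by
    unfold dOf
    rw [show chevG2.rank = 2 from rfl, Finset.prod_range_succ, Finset.prod_range_succ, Finset.prod_range_zero, one_mul]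
    simp
  rw [e]

theorem g2_scale9 (β : F) (hβ : β ≠ 0) : MConj F (chevG2.x F 9 β) (chevG2.x F 9 1) := by
  have h := g2_torus 9 (by decide) β⁻¹ 1 (inv_ne_zero hβ) one_ne_zero β
  have e0 : chevG2.cartan 0 9 = 1 := by decide +kernel
  have e1 : chevG2.cartan 1 9 = 0 := by decide +kernel
  rw [e0, e1, zpow_one, zpow_zero, mul_one, inv_mul_cancel₀ hβ] at h
  exact h

theorem g2_scale11 (δ : F) (hδ : δ ≠ 0) : MConj F (chevG2.x F 11 δ) (chevG2.x F 11 1) := by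
  have h := g2_torus 11 (by decide) 1 δ⁻¹ one_ne_zero (inv_ne_zero hδ) δ
  have e0 : chevG2.cartan 0 11 = 0 := by decide +kernel
  have e1 : chevG2.cartan 1 11 = 1 := by decide +kernel
  rw [e0, e1, zpow_one, zpow_zero, one_mul, inv_mul_cancel₀ hδ] at h
  exact h

/-- The elements `x_b(α) x_{2a+b}(β) x_{3a+2b}(γ)` with `β ≠ 0` are conjugate to `x_{2a+b}(1)`. -/
theorem g2_master [Fintype F] [CharP F 2] (α β γ : F) (hβ : β ≠ 0) :
    MConj F (g2u F α 0 0 β 0 γ) (chevG2.x F 9 1) := by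
  have h1 : MConj F (g2u F α 0 0 β 0 γ) (g2u F α 0 0 β 0 0) := by
    apply mconj_x 8 (by decide) (γ / β)
    have h := g2Cj6 (γ / β) α β
    rwa [div_mul_cancel₀ γ hβ] at h
  obtain ⟨c, hc⟩ := FiniteField.isSquare_of_char_two (ringChar.eq F 2) (α / β)
  have hα : β * c ^ 2 = α := by
    rw [pow_two, ← hc, mul_div_cancel₀ α hβ]
  have h2 : MConj F (g2u F 0 0 0 β 0 0) (g2u F (β * c ^ 2) 0 0 β 0 (β ^ 2 * c)) := mconj_x 4 (by decide) c (g2Cj7 c β)
  have h3 : MConj F (g2u F (β * c ^ 2) 0 0 β 0 (β ^ 2 * c)) (g2u F (β * c ^ 2) 0 0 β 0 0) := by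
    apply mconj_x 8 (by decide) (β * c)
    have h := g2Cj6 (β * c) (β * c ^ 2) β
    rwa [show β * c * β = β ^ 2 * c from by ring] at h
  rw [hα] at h2 h3
  have h4 := g2_scale9 β hβ
  rw [g2x9] at h4
  exact mconj_trans h1 (mconj_trans (mconj_symm h3) (mconj_trans (mconj_symm h2) h4))


theorem g2W1 [CharP F 2] (a d e : F) : ∃ k1 k2 k3 : F, k1 ≠ 0 ∧
    MConj F (g2u F 0 a 0 0 d e) (g2u F (k3 * e) 0 0 (k1 * a) 0 (k2 * d)) := by
  obtain ⟨k1, k2, k3, hk1, -, -, h⟩ := mconj_w3 [0, 1] (by decide) 7 10 11 (by decide) (by decide) (by decide) (F := F)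
  refine ⟨k1, k2, k3, hk1, ?_⟩
  have h' := h a d e
  rw [show reflWord chevG2 [0, 1] 7 = 9 from by decide +kernel,
    show reflWord chevG2 [0, 1] 10 = 11 from by decide +kernel,
    show reflWord chevG2 [0, 1] 11 = 6 from by decide +kernel] at h'
  have e1 : chevG2.x F 7 a * (chevG2.x F 10 d * chevG2.x F 11 e) = g2u F 0 a 0 0 d e := by
    rw [← Matrix.mul_assoc, g2x7, g2u_x10, g2u_x11]
    apply g2u_congr <;> first | rfl | ring1
  have e2 : chevG2.x F 9 (k1 * a) * (chevG2.x F 11 (k2 * d) * chevG2.x F 6 (k3 * e)) =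
      g2u F (k3 * e) 0 0 (k1 * a) 0 (k2 * d) := by
    rw [← Matrix.mul_assoc, g2x9, g2u_x11, g2u_x6]
    apply g2u_congr <;> first | rfl | ring1
  rwa [e1, e2] at h'

theorem g2W2 [CharP F 2] (b d e : F) : ∃ k1 k2 k3 : F, k1 ≠ 0 ∧
    MConj F (g2u F 0 0 b 0 d e) (g2u F (k2 * d) 0 0 (k1 * b) 0 (k3 * e)) := by
  obtain ⟨k1, k2, k3, hk1, -, -, h⟩ := mconj_w3 [0] (by decide) 8 10 11 (by decide) (by decide) (by decide) (F := F)
  refine ⟨k1, k2, k3, hk1, ?_⟩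
  have h' := h b d e
  rw [show reflWord chevG2 [0] 8 = 9 from by decide +kernel,
    show reflWord chevG2 [0] 10 = 6 from by decide +kernel,
    show reflWord chevG2 [0] 11 = 11 from by decide +kernel] at h'
  have e1 : chevG2.x F 8 b * (chevG2.x F 10 d * chevG2.x F 11 e) = g2u F 0 0 b 0 d e := by
    rw [← Matrix.mul_assoc, g2x8, g2u_x10, g2u_x11]
    apply g2u_congr <;> first | rfl | ring1
  have e2 : chevG2.x F 9 (k1 * b) * (chevG2.x F 6 (k2 * d) * chevG2.x F 11 (k3 * e)) =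
      g2u F (k2 * d) 0 0 (k1 * b) 0 (k3 * e) := by
    rw [← Matrix.mul_assoc, g2x9, g2u_x6, g2u_x11]
    apply g2u_congr <;> first | rfl | ring1
  rwa [e1, e2] at h'

theorem g2W3 (α : F) (hα : α ≠ 0) : MConj F (chevG2.x F 6 α) (chevG2.x F 11 1) := by
  obtain ⟨k, hk, h⟩ := mconj_w1 [1, 0] (by decide) 6 (by decide) (F := F)
  have h' := h α
  rw [show reflWord chevG2 [1, 0] 6 = 11 from by decide +kernel] at h'
  exact mconj_trans h' (g2_scale11 _ (mul_ne_zero hk hα))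

theorem g2W4 (δ : F) (hδ : δ ≠ 0) : MConj F (chevG2.x F 10 δ) (chevG2.x F 11 1) := by
  obtain ⟨k, hk, h⟩ := mconj_w1 [1] (by decide) 10 (by decide) (F := F)
  have h' := h δ
  rw [show reflWord chevG2 [1] 10 = 11 from by decide +kernel] at h'
  exact mconj_trans h' (g2_scale11 _ (mul_ne_zero hk hδ))

/-- The involutions of `U` are conjugate to `x_{3a+2b}(1)` or to `x_{2a+b}(1)`. -/
theorem g2_inv_conj [Fintype F] [CharP F 2] (c6 c7 c8 c9 c10 c11 : F)
    (hsq : g2u F c6 c7 c8 c9 c10 c11 * g2u F c6 c7 c8 c9 c10 c11 = 1)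
    (hne : g2u F c6 c7 c8 c9 c10 c11 ≠ 1) :
    MConj F (g2u F c6 c7 c8 c9 c10 c11) (chevG2.x F 11 1) ∨
      MConj F (g2u F c6 c7 c8 c9 c10 c11) (chevG2.x F 9 1) := by
  rw [g2u_sq, ← g2u_zero] at hsq
  obtain ⟨-, -, e8, -, e10, e11⟩ := g2u_inj hsq
  by_cases h7 : c7 = 0
  · subst h7
    have hA : c6 * c10 = c8 * c9 := by
      rw [← CharTwo.add_eq_zero]
      rw [← e11]
      ring
    by_cases h6 : c6 = 0
    · subst h6
      rw [zero_mul] at hA
      by_cases h8 : c8 = 0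
      · subst h8
        by_cases h9 : c9 = 0
        · subst h9
          left
          by_cases h10 : c10 = 0
          · subst h10
            have h11 : c11 ≠ 0 := by
              rintro rfl
              exact hne g2u_zero
            rw [← g2x11]
            exact g2_scale11 c11 h11
          · have h1 : MConj F (g2u F 0 0 0 0 c10 0) (g2u F 0 0 0 0 c10 c11) := by
              apply mconj_x 6 (by decide) (c11 / c10)
              have h := g2Cj5 (c11 / c10) c10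
              rwa [div_mul_cancel₀ c11 h10] at h
            have h2 := g2W4 c10 h10
            rw [g2x10] at h2
            exact mconj_trans (mconj_symm h1) h2
        · right
          have h1 : MConj F (g2u F 0 0 0 c9 0 c11) (g2u F 0 0 0 c9 c10 c11) := by
            apply mconj_x 7 (by decide) (c10 / c9)
            have h := g2Cj4 (c10 / c9) c9 c11
            rwa [div_mul_cancel₀ c10 h9] at h
          exact mconj_trans (mconj_symm h1) (g2_master 0 c9 c11 h9)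
      · right
        have h9 : c9 = 0 := by
          rcases mul_eq_zero.mp hA.symm with h | h
          · exact absurd h h8
          · exact h
        subst h9
        obtain ⟨k1, k2, k3, hk1, h⟩ := g2W2 c8 c10 c11
        exact mconj_trans h (g2_master _ _ _ (mul_ne_zero hk1 h8))
    · -- `c6 ≠ 0`
      have e8' : c8 = c8 / c6 * c6 := (div_mul_cancel₀ c8 h6).symm
      have e10' : c10 = c8 / c6 * c9 := by
        field_simp
        rw [mul_comm c10 c6, hA]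
      have h1 : MConj F (g2u F c6 0 c8 c9 c10 c11)
          (g2u F c6 0 0 (c9 + c6 * (c8 / c6) ^ 2) 0 (c11 + (c8 / c6) ^ 3 * c6 ^ 2)) := by
        apply mconj_x 7 (by decide) (c8 / c6)
        have h := g2Cj2 (c8 / c6) c6 c9 c11
        rwa [← e8', ← e10'] at h
      by_cases hγ : c9 + c6 * (c8 / c6) ^ 2 = 0
      · left
        rw [hγ] at h1
        have h2 : MConj F (g2u F c6 0 0 0 0 (c11 + (c8 / c6) ^ 3 * c6 ^ 2)) (g2u F c6 0 0 0 0 0) := by
          apply mconj_x 10 (by decide) ((c11 + (c8 / c6) ^ 3 * c6 ^ 2) / c6)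
          have h := g2Cj3 ((c11 + (c8 / c6) ^ 3 * c6 ^ 2) / c6) c6
          rwa [mul_div_cancel₀ _ h6] at h
        have h3 := g2W3 c6 h6
        rw [g2x6] at h3
        exact mconj_trans h1 (mconj_trans h2 h3)
      · right
        exact mconj_trans h1 (g2_master _ _ _ hγ)
  · -- `c7 ≠ 0`
    right
    have h6 : c6 = 0 := by
      rcases mul_eq_zero.mp e8 with h | h
      · exact h
      · exact absurd h h7
    subst h6
    have e9 : c9 = c7 * c8 := by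
      have h1 : c7 * (c9 + c7 * c8) = 0 := by
        rw [← e10]
        ring
      rcases mul_eq_zero.mp h1 with h | h
      · exact absurd h h7
      · exact CharTwo.add_eq_zero.mp h
    have e8' : c8 = c8 / c7 * c7 := (div_mul_cancel₀ c8 h7).symm
    have e9' : c9 = c8 / c7 * c7 ^ 2 := by
      rw [e9]
      field_simp
    have h1 : MConj F (g2u F 0 c7 c8 c9 c10 c11)
        (g2u F 0 c7 0 0 (c10 + c8 / c7 * c7 ^ 3) (c11 + c8 / c7 * (c10 + c8 / c7 * c7 ^ 3))) := by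
      apply mconj_x 6 (by decide) (c8 / c7)
      have h := g2Cj1 (c8 / c7) c7 c10 c11
      rwa [← e8', ← e9'] at h
    obtain ⟨k1, k2, k3, hk1, h2⟩ := g2W1 c7 (c10 + c8 / c7 * c7 ^ 3) (c11 + c8 / c7 * (c10 + c8 / c7 * c7 ^ 3))
    exact mconj_trans h1 (mconj_trans h2 (g2_master _ _ _ (mul_ne_zero hk1 h7)))

end Cfsg.Agent.Helper8
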