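import Cfsg.Agent.Helper8.G2J
import Cfsg.Agent.Helper8.SylU

set_option autoImplicit false

namespace Cfsg.Agent.Helper8

open Cfsg.Lie

variable {F : Type*} [Field F]

/-- An involution of `G₂(F)` is conjugate to an element of `U`. -/
theorem g2_inv_in_U [Fintype F] [CharP F 2] (g : GL chevG2.Idx F) (hg : g ∈ chevG2.group F) (ho : orderOf g = 2) :
    ∃ h ∈ chevG2.group F, h * g * h⁻¹ ∈ chevG2.posUnipotent F := by
  have : Fact (Nat.Prime 2) := ⟨Nat.prime_two⟩
  obtain ⟨P, hP⟩ := sylow_posUnipotent (F := F) 2 chevG2 stdG2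
  have ho' : orderOf (⟨g, hg⟩ : ↥(chevG2.group F)) = 2 := by
    rw [← ho]
    exact Subgroup.orderOf_mk g hg
  have hpg : IsPGroup 2 (Subgroup.zpowers (⟨g, hg⟩ : ↥(chevG2.group F))) := by
    apply IsPGroup.of_card (n := 1)
    rw [Nat.card_zpowers, ho']
    rfl
  obtain ⟨Q, hQ⟩ := hpg.exists_le_sylow
  obtain ⟨k, hk⟩ := MulAction.exists_smul_eq (↥(chevG2.group F)) Q P
  have hgQ : (⟨g, hg⟩ : ↥(chevG2.group F)) ∈ (Q : Subgroup ↥(chevG2.group F)) := hQ (Subgroup.mem_zpowers _)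
  have h1 : k * (⟨g, hg⟩ : ↥(chevG2.group F)) * k⁻¹ ∈ (P : Subgroup ↥(chevG2.group F)) := by
    rw [← hk, Sylow.coe_subgroup_smul]
    exact Subgroup.smul_mem_pointwise_smul _ (MulAut.conj k) _ hgQ
  rw [hP] at h1
  exact ⟨k, k.2, h1⟩

/-- `x_{3a+2b}(1)` is central in `U`. -/
theorem g2_central [CharP F 2] (t : GL chevG2.Idx F)
    (ht : (t : Matrix chevG2.Idx chevG2.Idx F) = chevG2.x F 11 1) (u : GL chevG2.Idx F)
    (hu : u ∈ chevG2.posUnipotent F) : u * t = t * u := by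
  obtain ⟨cu, hcu⟩ := uprod_exists chevG2 stdG2 u hu
  rw [g2_word] at hcu
  apply Units.ext
  rw [Units.val_mul, Units.val_mul, ht, hcu]
  show g2u F (cu 6) (cu 7) (cu 8) (cu 9) (cu 10) (cu 11) * chevG2.x F 11 1 =
    chevG2.x F 11 1 * g2u F (cu 6) (cu 7) (cu 8) (cu 9) (cu 10) (cu 11)
  rw [g2u_x11, g2x11, g2u_mul]
  apply g2u_congr <;> first | rfl | ring1

theorem g2_long_img : ∀ l' ∈ g2Words, reflWord chevG2 l' 11 ∈ [11, 10, 6, 0, 1, 5] := by decide +kernel

/-- `x_{3a+2b}(1)` and `x_{2a+b}(1)` are not conjugate. -/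
theorem g2_not_conj [CharP F 2] (t z : GL chevG2.Idx F)
    (ht : (t : Matrix chevG2.Idx chevG2.Idx F) = chevG2.x F 11 1)
    (hz : (z : Matrix chevG2.Idx chevG2.Idx F) = chevG2.x F 9 1) (g : GL chevG2.Idx F) (hg : g ∈ chevG2.group F)
    (hconj : g * t * g⁻¹ = z) : False := by
  obtain ⟨b, hb, n, hn, u, hu, rfl⟩ := bruhat_exists chevG2 stdG2 g hg
  obtain ⟨u₁, hu₁, h₁, hh₁, rfl⟩ := mem_borel chevG2 stdG2 b hb
  have hu' : u ∈ chevG2.posUnipotent F := negGens_le_pos chevG2 n hu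
  have hn' : h₁ * n ∈ chevG2.monomialSubgroup F := mul_mem (diagonal_le_monomial chevG2 hh₁) hn
  obtain ⟨k, l, -, hl, h, hh, hnl⟩ := monomial_word chevG2 stdG2 _ hn'
  have hut := g2_central t ht u hu'
  obtain ⟨c', d', hv'⟩ := g2_conj_pos z hz u₁⁻¹ (inv_mem hu₁)
  have e1 : u * t * u⁻¹ = t := by
    rw [hut]
    group
  have key : (h₁ * n) * t * (h₁ * n)⁻¹ = g2V F c' d' := by
    calc (h₁ * n) * t * (h₁ * n)⁻¹ = (h₁ * n) * (u * t * u⁻¹) * (h₁ * n)⁻¹ := by rw [e1]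
      _ = u₁⁻¹ * ((u₁ * h₁ * n * u) * t * (u₁ * h₁ * n * u)⁻¹) * u₁ := by group
      _ = u₁⁻¹ * z * u₁ := by rw [hconj]
      _ = g2V F c' d' * u₁⁻¹ * u₁ := by rw [hv']
      _ = g2V F c' d' := by group
  rw [hnl] at key
  obtain ⟨k11, hk11, a11⟩ := word_act chevG2 stdG2 l hl h hh 11 (by decide) (F := F)
  have et : t = xGL chevG2 stdG2 F 11 (by decide) 1 := Units.ext ht
  rw [et, a11 1, mul_one] at key
  have key3 : chevG2.x F (reflWord chevG2 l 11) k11 = chevG2.x F 9 1 * chevG2.x F 10 c' * chevG2.x F 11 d' :=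
    congrArg Units.val key
  obtain ⟨l', hl', hre⟩ := g2_word_cases l hl
  rw [hre 11 (by decide)] at key3
  have hc := g2_long_img l' hl'
  simp only [List.mem_cons, List.mem_nil_iff, or_false] at hc
  have hneg : ∀ s : ℕ, chevG2.IsNegRoot s →
      chevG2.x F s k11 = chevG2.x F 9 1 * chevG2.x F 10 c' * chevG2.x F 11 d' → False := by
    intro s hs e
    have e' : xGL chevG2 stdG2 F s hs.1 k11 = g2V F c' d' := Units.ext e
    have hm : xGL chevG2 stdG2 F s hs.1 k11 ∈ chevG2.posUnipotent F := by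
      rw [e']
      exact g2V_mem c' d'
    exact hk11 (g2_neg_in_pos s hs k11 hm)
  rcases hc with h | h | h | h | h | h
  · rw [h] at key3
    have e := g2_coef3 0 0 k11 1 c' d' (by
      rw [x_zero, x_zero, Matrix.one_mul, Matrix.one_mul]
      exact key3)
    exact zero_ne_one e.1
  · rw [h] at key3
    have e := g2_coef3 0 k11 0 1 c' d' (by
      rw [x_zero, x_zero, Matrix.one_mul, Matrix.mul_one]
      exact key3)
    exact zero_ne_one e.1
  · rw [h] at key3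
    have e := g2_coef k11 0 0 0 0 0 0 0 0 1 c' d' (by
      simp only [x_zero, Matrix.one_mul, Matrix.mul_one]
      rw [key3]
      simp only [Matrix.mul_assoc])
    exact zero_ne_one e.2.2.2.1
  · rw [h] at key3
    exact hneg 0 (by decide +kernel) key3
  · rw [h] at key3
    exact hneg 1 (by decide +kernel) key3
  · rw [h] at key3
    exact hneg 5 (by decide +kernel) key3

end Cfsg.Agent.Helper8
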