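import Cfsg.Agent.Helper8.LongD2

set_option autoImplicit false

namespace Cfsg.Agent.Helper8

open Cfsg.Lie

variable {F : Type*} [Field F]

/-! ### Type `G₂` in characteristic two: the centraliser of a short root element -/

theorem stdG2 : Std7 chevG2 := by simp [Std7]

theorem g2_posRoots : chevG2.posRoots = [6, 7, 8, 9, 10, 11] := by decide +kernel

theorem mul_swap3 {M : Type*} [Monoid M] {a b : M} (h : a * b = b * a) (x : M) : a * (b * x) = b * (a * x) := by
  rw [← mul_assoc, h, mul_assoc]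

theorem mul_rel3 {M : Type*} [Monoid M] {a b e : M} (h : a * b = b * a * e) (x : M) :
    a * (b * x) = b * (a * (e * x)) := by
  rw [← mul_assoc, h, mul_assoc, mul_assoc]

/-- The canonical form of the elements of `U`. -/
theorem g2_word (c : ℕ → F) : chevG2.wordMat F (chevG2.posRoots.map fun r => (r, c r)) =
    chevG2.x F 6 (c 6) * (chevG2.x F 7 (c 7) * (chevG2.x F 8 (c 8) * (chevG2.x F 9 (c 9) *
      (chevG2.x F 10 (c 10) * chevG2.x F 11 (c 11))))) := by
  rw [g2_posRoots]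
  simp only [List.map_cons, List.map_nil, wordMat_cons]
  rw [ChevalleyDatum.wordMat, List.map_nil, List.prod_nil, Matrix.mul_one]

theorem g2_coef (a6 a7 a8 a9 a10 a11 b6 b7 b8 b9 b10 b11 : F)
    (h : chevG2.x F 6 a6 * (chevG2.x F 7 a7 * (chevG2.x F 8 a8 * (chevG2.x F 9 a9 *
        (chevG2.x F 10 a10 * chevG2.x F 11 a11)))) =
      chevG2.x F 6 b6 * (chevG2.x F 7 b7 * (chevG2.x F 8 b8 * (chevG2.x F 9 b9 *
        (chevG2.x F 10 b10 * chevG2.x F 11 b11))))) :
    a6 = b6 ∧ a7 = b7 ∧ a8 = b8 ∧ a9 = b9 ∧ a10 = b10 ∧ a11 = b11 := by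
  have key := uprod_unique chevG2 stdG2
    (fun r => if r = 6 then a6 else if r = 7 then a7 else if r = 8 then a8 else if r = 9 then a9 else
      if r = 10 then a10 else a11)
    (fun r => if r = 6 then b6 else if r = 7 then b7 else if r = 8 then b8 else if r = 9 then b9 else
      if r = 10 then b10 else b11)
    (by rw [g2_word, g2_word]; simpa using h)
  have p6 : chevG2.IsPosRoot 6 := by decide +kernel
  have p7 : chevG2.IsPosRoot 7 := by decide +kernel
  have p8 : chevG2.IsPosRoot 8 := by decide +kernel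
  have p9 : chevG2.IsPosRoot 9 := by decide +kernel
  have p10 : chevG2.IsPosRoot 10 := by decide +kernel
  have p11 : chevG2.IsPosRoot 11 := by decide +kernel
  exact ⟨by simpa using key 6 p6, by simpa using key 7 p7, by simpa using key 8 p8, by simpa using key 9 p9,
    by simpa using key 10 p10, by simpa using key 11 p11⟩

theorem g2c_same (r : ℕ) (hr : r < chevG2.nroots) (c a : F) :
    chevG2.x F r c * chevG2.x F r a = chevG2.x F r a * chevG2.x F r c := by
  rw [Cfsg.Agent.S1023.result chevG2 stdG2 r hr, Cfsg.Agent.S1023.result chevG2 stdG2 r hr, add_comm]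

theorem g2c_9_10 [CharP F 2] (c a : F) :
    chevG2.x F 10 c * chevG2.x F 9 a = chevG2.x F 9 a * chevG2.x F 10 c :=
  comm_char2 chevG2 stdG2 9 10 (by decide) (by decide) (by decide) (by decide +kernel) (by decide +kernel) c a

theorem g2c_9_11 [CharP F 2] (c a : F) :
    chevG2.x F 11 c * chevG2.x F 9 a = chevG2.x F 9 a * chevG2.x F 11 c :=
  comm_char2 chevG2 stdG2 9 11 (by decide) (by decide) (by decide) (by decide +kernel) (by decide +kernel) c a

theorem g2c_9_6 [CharP F 2] (c a : F) :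
    chevG2.x F 6 c * chevG2.x F 9 a = chevG2.x F 9 a * chevG2.x F 6 c :=
  comm_char2 chevG2 stdG2 9 6 (by decide) (by decide) (by decide) (by decide +kernel) (by decide +kernel) c a

theorem g2c_9_5 [CharP F 2] (c a : F) :
    chevG2.x F 5 c * chevG2.x F 9 a = chevG2.x F 9 a * chevG2.x F 5 c :=
  comm_char2 chevG2 stdG2 9 5 (by decide) (by decide) (by decide) (by decide +kernel) (by decide +kernel) c a

theorem g2c_10_11 [CharP F 2] (c a : F) :
    chevG2.x F 11 c * chevG2.x F 10 a = chevG2.x F 10 a * chevG2.x F 11 c :=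
  comm_char2 chevG2 stdG2 10 11 (by decide) (by decide) (by decide) (by decide +kernel) (by decide +kernel) c a

theorem g2c_10_7 [CharP F 2] (c a : F) :
    chevG2.x F 7 c * chevG2.x F 10 a = chevG2.x F 10 a * chevG2.x F 7 c :=
  comm_char2 chevG2 stdG2 10 7 (by decide) (by decide) (by decide) (by decide +kernel) (by decide +kernel) c a

theorem g2c_11_7 [CharP F 2] (c a : F) :
    chevG2.x F 7 c * chevG2.x F 11 a = chevG2.x F 11 a * chevG2.x F 7 c :=
  comm_char2 chevG2 stdG2 11 7 (by decide) (by decide) (by decide) (by decide +kernel) (by decide +kernel) c a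

theorem g2c_10_8 [CharP F 2] (c a : F) :
    chevG2.x F 8 c * chevG2.x F 10 a = chevG2.x F 10 a * chevG2.x F 8 c :=
  comm_char2 chevG2 stdG2 10 8 (by decide) (by decide) (by decide) (by decide +kernel) (by decide +kernel) c a

theorem g2c_11_8 [CharP F 2] (c a : F) :
    chevG2.x F 8 c * chevG2.x F 11 a = chevG2.x F 11 a * chevG2.x F 8 c :=
  comm_char2 chevG2 stdG2 11 8 (by decide) (by decide) (by decide) (by decide +kernel) (by decide +kernel) c a

theorem g2c_11_6 [CharP F 2] (c a : F) :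
    chevG2.x F 6 c * chevG2.x F 11 a = chevG2.x F 11 a * chevG2.x F 6 c :=
  comm_char2 chevG2 stdG2 11 6 (by decide) (by decide) (by decide) (by decide +kernel) (by decide +kernel) c a

theorem g2c_6_8 [CharP F 2] (c a : F) :
    chevG2.x F 8 c * chevG2.x F 6 a = chevG2.x F 6 a * chevG2.x F 8 c :=
  comm_char2 chevG2 stdG2 6 8 (by decide) (by decide) (by decide) (by decide +kernel) (by decide +kernel) c a

theorem g2c_4_6 [CharP F 2] (c a : F) :
    chevG2.x F 6 c * chevG2.x F 4 a = chevG2.x F 4 a * chevG2.x F 6 c :=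
  comm_char2 chevG2 stdG2 4 6 (by decide) (by decide) (by decide) (by decide +kernel) (by decide +kernel) c a

theorem g2c_4_1 [CharP F 2] (c a : F) :
    chevG2.x F 1 c * chevG2.x F 4 a = chevG2.x F 4 a * chevG2.x F 1 c :=
  comm_char2 chevG2 stdG2 4 1 (by decide) (by decide) (by decide) (by decide +kernel) (by decide +kernel) c a

theorem g2c_6_1 [CharP F 2] (c a : F) :
    chevG2.x F 1 c * chevG2.x F 6 a = chevG2.x F 6 a * chevG2.x F 1 c :=
  comm_char2 chevG2 stdG2 6 1 (by decide) (by decide) (by decide) (by decide +kernel) (by decide +kernel) c a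

theorem g2c_7_5 [CharP F 2] (c a : F) :
    chevG2.x F 5 c * chevG2.x F 7 a = chevG2.x F 7 a * chevG2.x F 5 c :=
  comm_char2 chevG2 stdG2 7 5 (by decide) (by decide) (by decide) (by decide +kernel) (by decide +kernel) c a

theorem g2c_5_10 [CharP F 2] (c a : F) :
    chevG2.x F 10 c * chevG2.x F 5 a = chevG2.x F 5 a * chevG2.x F 10 c :=
  comm_char2 chevG2 stdG2 5 10 (by decide) (by decide) (by decide) (by decide +kernel) (by decide +kernel) c a

theorem g2c_7_10 [CharP F 2] (c a : F) :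
    chevG2.x F 10 c * chevG2.x F 7 a = chevG2.x F 7 a * chevG2.x F 10 c :=
  comm_char2 chevG2 stdG2 7 10 (by decide) (by decide) (by decide) (by decide +kernel) (by decide +kernel) c a

theorem g2c_8_6 [CharP F 2] (c a : F) :
    chevG2.x F 6 c * chevG2.x F 8 a = chevG2.x F 8 a * chevG2.x F 6 c :=
  comm_char2 chevG2 stdG2 8 6 (by decide) (by decide) (by decide) (by decide +kernel) (by decide +kernel) c a

theorem g2c_8_11 [CharP F 2] (c a : F) :
    chevG2.x F 11 c * chevG2.x F 8 a = chevG2.x F 8 a * chevG2.x F 11 c :=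
  comm_char2 chevG2 stdG2 8 11 (by decide) (by decide) (by decide) (by decide +kernel) (by decide +kernel) c a

theorem g2c_6_11 [CharP F 2] (c a : F) :
    chevG2.x F 11 c * chevG2.x F 6 a = chevG2.x F 6 a * chevG2.x F 11 c :=
  comm_char2 chevG2 stdG2 6 11 (by decide) (by decide) (by decide) (by decide +kernel) (by decide +kernel) c a

theorem g2r_9_8 [CharP F 2] (c a : F) :
    chevG2.x F 8 c * chevG2.x F 9 a = chevG2.x F 9 a * chevG2.x F 8 c * chevG2.x F 11 (a * c) := by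
  have h := Cfsg.Agent.S1025.result chevG2 stdG2 9 8 (by decide) (by decide) (by decide) (by decide +kernel) a c (F := F)
  have e : chevG2.commWord F 9 8 a c = [(11, ((-3 : ℤ) : F) * (-a) ^ 1 * c ^ 1)] := by
    unfold ChevalleyDatum.commWord
    have e1 : chevG2.commTerms 9 8 = [(11, -3, 1, 1)] := by decide +kernel
    rw [e1]
    rfl
  have h2 : (2 : F) = 0 := CharTwo.two_eq_zero
  have e2 : ((-3 : ℤ) : F) * (-a) ^ 1 * c ^ 1 = a * c := by
    push_cast
    linear_combination (1 : F) * (a * c) * h2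
  rw [e, e2, wordMat_cons, ChevalleyDatum.wordMat, List.map_nil, List.prod_nil, Matrix.mul_one] at h
  exact h

theorem g2r_9_7 [CharP F 2] (c a : F) :
    chevG2.x F 7 c * chevG2.x F 9 a = chevG2.x F 9 a * chevG2.x F 7 c * chevG2.x F 10 (a * c) := by
  have h := Cfsg.Agent.S1025.result chevG2 stdG2 9 7 (by decide) (by decide) (by decide) (by decide +kernel) a c (F := F)
  have e : chevG2.commWord F 9 7 a c = [(10, ((-3 : ℤ) : F) * (-a) ^ 1 * c ^ 1)] := by
    unfold ChevalleyDatum.commWord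
    have e1 : chevG2.commTerms 9 7 = [(10, -3, 1, 1)] := by decide +kernel
    rw [e1]
    rfl
  have h2 : (2 : F) = 0 := CharTwo.two_eq_zero
  have e2 : ((-3 : ℤ) : F) * (-a) ^ 1 * c ^ 1 = a * c := by
    push_cast
    linear_combination (1 : F) * (a * c) * h2
  rw [e, e2, wordMat_cons, ChevalleyDatum.wordMat, List.map_nil, List.prod_nil, Matrix.mul_one] at h
  exact h

theorem g2r_10_6 [CharP F 2] (c a : F) :
    chevG2.x F 6 c * chevG2.x F 10 a = chevG2.x F 10 a * chevG2.x F 6 c * chevG2.x F 11 (a * c) := by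
  have h := Cfsg.Agent.S1025.result chevG2 stdG2 10 6 (by decide) (by decide) (by decide) (by decide +kernel) a c (F := F)
  have e : chevG2.commWord F 10 6 a c = [(11, ((-1 : ℤ) : F) * (-a) ^ 1 * c ^ 1)] := by
    unfold ChevalleyDatum.commWord
    have e1 : chevG2.commTerms 10 6 = [(11, -1, 1, 1)] := by decide +kernel
    rw [e1]
    rfl
  have h2 : (2 : F) = 0 := CharTwo.two_eq_zero
  have e2 : ((-1 : ℤ) : F) * (-a) ^ 1 * c ^ 1 = a * c := by
    push_cast
    linear_combination (0 : F) * (a * c) * h2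
  rw [e, e2, wordMat_cons, ChevalleyDatum.wordMat, List.map_nil, List.prod_nil, Matrix.mul_one] at h
  exact h

/-- Conjugating `x_{2a+b}(k)` by an element of `U` in canonical form. -/
theorem g2_conjU [CharP F 2] (c6 c7 c8 c9 c10 c11 k : F) :
    chevG2.x F 6 c6 * (chevG2.x F 7 c7 * (chevG2.x F 8 c8 * (chevG2.x F 9 c9 *
        (chevG2.x F 10 c10 * chevG2.x F 11 c11)))) * chevG2.x F 9 k =
      chevG2.x F 9 k * (chevG2.x F 10 (k * c7) * (chevG2.x F 11 (k * c8 + k * c6 * c7) *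
        (chevG2.x F 6 c6 * (chevG2.x F 7 c7 * (chevG2.x F 8 c8 * (chevG2.x F 9 c9 *
          (chevG2.x F 10 c10 * chevG2.x F 11 c11))))))) := by
  have hadd : chevG2.x F 11 (k * c7 * c6) * chevG2.x F 11 (k * c8) = chevG2.x F 11 (k * c8 + k * c6 * c7) := by
    rw [Cfsg.Agent.S1023.result chevG2 stdG2 11 (by decide)]
    congr 1
    ring
  calc chevG2.x F 6 c6 * (chevG2.x F 7 c7 * (chevG2.x F 8 c8 * (chevG2.x F 9 c9 *
        (chevG2.x F 10 c10 * chevG2.x F 11 c11)))) * chevG2.x F 9 k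
      = chevG2.x F 6 c6 * (chevG2.x F 7 c7 * (chevG2.x F 8 c8 * (chevG2.x F 9 c9 *
        (chevG2.x F 10 c10 * (chevG2.x F 11 c11 * chevG2.x F 9 k))))) := by
        simp only [mul_assoc]
    _ = chevG2.x F 9 k * (chevG2.x F 6 c6 * (chevG2.x F 7 c7 * (chevG2.x F 10 (k * c7) * (chevG2.x F 8 c8 *
        (chevG2.x F 11 (k * c8) * (chevG2.x F 9 c9 * (chevG2.x F 10 c10 * chevG2.x F 11 c11))))))) := by
        rw [g2c_9_11 c11 k, mul_swap3 (g2c_9_10 c10 k), mul_swap3 (g2c_same 9 (by decide) c9 k),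
          mul_rel3 (g2r_9_8 c8 k), mul_rel3 (g2r_9_7 c7 k), mul_swap3 (g2c_9_6 c6 k)]
    _ = chevG2.x F 9 k * (chevG2.x F 10 (k * c7) * (chevG2.x F 11 (k * c7 * c6) * (chevG2.x F 11 (k * c8) *
        (chevG2.x F 6 c6 * (chevG2.x F 7 c7 * (chevG2.x F 8 c8 * (chevG2.x F 9 c9 *
          (chevG2.x F 10 c10 * chevG2.x F 11 c11)))))))) := by
        rw [mul_swap3 (g2c_11_8 c8 (k * c8)), mul_swap3 (g2c_10_7 c7 (k * c7)), mul_swap3 (g2c_11_7 c7 (k * c8)),
          mul_rel3 (g2r_10_6 c6 (k * c7)), mul_swap3 (g2c_11_6 c6 (k * c7 * c6)), mul_swap3 (g2c_11_6 c6 (k * c8))]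
    _ = _ := by
        rw [← mul_assoc (chevG2.x F 11 (k * c7 * c6)), hadd]

/-- The subgroup generated by `X_{2a+b}`, `X_{3a+b}`, `X_{3a+2b}`, `X_b`, `X_{-b}`. -/
def g2M (F : Type*) [Field F] : Subgroup (GL chevG2.Idx F) :=
  chevG2.rootSubgroup F 9 ⊔ chevG2.rootSubgroup F 10 ⊔ chevG2.rootSubgroup F 11 ⊔ chevG2.rootSubgroup F 6 ⊔
    chevG2.rootSubgroup F 5

theorem g2M_9 : chevG2.rootSubgroup F 9 ≤ g2M F :=
  le_trans (le_trans (le_trans le_sup_left le_sup_left) le_sup_left) le_sup_left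

theorem g2M_10 : chevG2.rootSubgroup F 10 ≤ g2M F :=
  le_trans (le_trans (le_trans le_sup_right le_sup_left) le_sup_left) le_sup_left

theorem g2M_11 : chevG2.rootSubgroup F 11 ≤ g2M F := le_trans (le_trans le_sup_right le_sup_left) le_sup_left

theorem g2M_6 : chevG2.rootSubgroup F 6 ≤ g2M F := le_trans le_sup_right le_sup_left

theorem g2M_5 : chevG2.rootSubgroup F 5 ≤ g2M F := le_sup_right

theorem g2_root_le_cen (t : GL chevG2.Idx F) (ht : (t : Matrix chevG2.Idx chevG2.Idx F) = chevG2.x F 9 1)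
    (r : ℕ) (hr : r < chevG2.nroots)
    (hc : ∀ c : F, chevG2.x F r c * chevG2.x F 9 1 = chevG2.x F 9 1 * chevG2.x F r c) :
    chevG2.rootSubgroup F r ≤ chevG2.group F ⊓ Subgroup.centralizer {t} := by
  unfold ChevalleyDatum.rootSubgroup
  rw [Subgroup.closure_le]
  rintro g ⟨c, hg⟩
  have hgx : g = xGL chevG2 stdG2 F r hr c := Units.ext hg
  refine Subgroup.mem_inf.mpr ⟨?_, ?_⟩
  · rw [hgx]
    exact xGL_mem_group chevG2 stdG2 F r hr c
  · rw [Subgroup.mem_centralizer_iff]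
    intro z hz
    rw [Set.mem_singleton_iff] at hz
    subst hz
    apply Units.ext
    rw [Units.val_mul, Units.val_mul, hg, ht]
    exact (hc c).symm

theorem g2M_le [CharP F 2] (t : GL chevG2.Idx F) (ht : (t : Matrix chevG2.Idx chevG2.Idx F) = chevG2.x F 9 1) :
    g2M F ≤ chevG2.group F ⊓ Subgroup.centralizer {t} := by
  unfold g2M
  refine sup_le (sup_le (sup_le (sup_le ?_ ?_) ?_) ?_) ?_
  · exact g2_root_le_cen t ht 9 (by decide) (fun c => g2c_same 9 (by decide) c 1)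
  · exact g2_root_le_cen t ht 10 (by decide) (fun c => g2c_9_10 c 1)
  · exact g2_root_le_cen t ht 11 (by decide) (fun c => g2c_9_11 c 1)
  · exact g2_root_le_cen t ht 6 (by decide) (fun c => g2c_9_6 c 1)
  · exact g2_root_le_cen t ht 5 (by decide) (fun c => g2c_9_5 c 1)

theorem mat_cancel_right {n : Type*} [Fintype n] [DecidableEq n] (g : GL n F) {A B : Matrix n n F}
    (h : A * (g : Matrix n n F) = B * (g : Matrix n n F)) : A = B := by
  calc A = A * ((g : Matrix n n F) * ((g⁻¹ : GL n F) : Matrix n n F)) := by rw [Units.mul_inv, Matrix.mul_one]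
    _ = B * ((g : Matrix n n F) * ((g⁻¹ : GL n F) : Matrix n n F)) := by
        rw [← Matrix.mul_assoc, h, Matrix.mul_assoc]
    _ = B := by rw [Units.mul_inv, Matrix.mul_one]

theorem g2_hMat_mem (a : F) (g : GL chevG2.Idx F)
    (hg : (g : Matrix chevG2.Idx chevG2.Idx F) = chevG2.hMat F (chevG2.simple 1) a) : g ∈ g2M F := by
  have e : g = xGL chevG2 stdG2 F 6 (by decide) a * xGL chevG2 stdG2 F 5 (by decide) (-a⁻¹) *
      xGL chevG2 stdG2 F 6 (by decide) a *
      (xGL chevG2 stdG2 F 6 (by decide) (-1) * xGL chevG2 stdG2 F 5 (by decide) (-(-1 : F)⁻¹) *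
        xGL chevG2 stdG2 F 6 (by decide) (-1)) := by
    apply Units.ext
    rw [hg]
    have h1 : chevG2.simple 1 = 6 := by decide +kernel
    have h2 : chevG2.neg 6 = 5 := by decide +kernel
    show chevG2.hMat F (chevG2.simple 1) a = chevG2.x F 6 a * chevG2.x F 5 (-a⁻¹) * chevG2.x F 6 a *
      (chevG2.x F 6 (-1) * chevG2.x F 5 (-(-1 : F)⁻¹) * chevG2.x F 6 (-1))
    rw [h1]
    simp [ChevalleyDatum.hMat, ChevalleyDatum.hWord, ChevalleyDatum.nWord, ChevalleyDatum.wordMat, mul_assoc, h2]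
  rw [e]
  have m6 : ∀ b : F, xGL chevG2 stdG2 F 6 (by decide) b ∈ g2M F :=
    fun b => g2M_6 (xGL_mem_rootSubgroup chevG2 stdG2 6 _ b)
  have m5 : ∀ b : F, xGL chevG2 stdG2 F 5 (by decide) b ∈ g2M F :=
    fun b => g2M_5 (xGL_mem_rootSubgroup chevG2 stdG2 5 _ b)
  exact mul_mem (mul_mem (mul_mem (m6 _) (m5 _)) (m6 _)) (mul_mem (mul_mem (m6 _) (m5 _)) (m6 _))

/-- An element of `B` centralising `x_{2a+b}(1)` lies in the subgroup. -/
theorem g2_borel_cen [CharP F 2] (t : GL chevG2.Idx F)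
    (ht : (t : Matrix chevG2.Idx chevG2.Idx F) = chevG2.x F 9 1)
    (g : GL chevG2.Idx F) (hg : g ∈ chevG2.borelSubgroup F) (hz : g * t = t * g) : g ∈ g2M F := by
  obtain ⟨u, hu, h, hh, rfl⟩ := mem_borel chevG2 stdG2 g hg
  obtain ⟨c, hc, hv⟩ := diagonalSubgroup_le_hsGroup chevG2 stdG2 hh
  obtain ⟨cu, hcu⟩ := uprod_exists chevG2 stdG2 u hu
  rw [g2_word] at hcu
  have hcomm := hProd_x_comm chevG2 stdG2 c hc 9 (by decide) (1 : F)
  have e1 : (u : Matrix chevG2.Idx chevG2.Idx F) * (h : Matrix chevG2.Idx chevG2.Idx F) * chevG2.x F 9 1 =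
      chevG2.x F 9 1 * ((u : Matrix chevG2.Idx chevG2.Idx F) * (h : Matrix chevG2.Idx chevG2.Idx F)) := by
    have := congrArg Units.val hz
    rw [Units.val_mul, Units.val_mul, Units.val_mul, ht] at this
    exact this
  have e3 : (u : Matrix chevG2.Idx chevG2.Idx F) * (h : Matrix chevG2.Idx chevG2.Idx F) * chevG2.x F 9 1 =
      chevG2.x F 9 (dOf chevG2 c 9 * 1) * (chevG2.x F 10 (dOf chevG2 c 9 * 1 * cu 7) *
        (chevG2.x F 11 (dOf chevG2 c 9 * 1 * cu 8 + dOf chevG2 c 9 * 1 * cu 6 * cu 7) *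
          (u : Matrix chevG2.Idx chevG2.Idx F))) * (h : Matrix chevG2.Idx chevG2.Idx F) := by
    calc (u : Matrix chevG2.Idx chevG2.Idx F) * (h : Matrix chevG2.Idx chevG2.Idx F) * chevG2.x F 9 1
        = (u : Matrix chevG2.Idx chevG2.Idx F) * (hProd chevG2 F c * chevG2.x F 9 1) := by
          rw [Matrix.mul_assoc, hv]
      _ = (u : Matrix chevG2.Idx chevG2.Idx F) * chevG2.x F 9 (dOf chevG2 c 9 * 1) * hProd chevG2 F c := by
          rw [hcomm, Matrix.mul_assoc]
      _ = _ := by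
          rw [hcu, g2_conjU, hv]
  have e2 : chevG2.x F 9 (dOf chevG2 c 9 * 1) * (chevG2.x F 10 (dOf chevG2 c 9 * 1 * cu 7) *
      chevG2.x F 11 (dOf chevG2 c 9 * 1 * cu 8 + dOf chevG2 c 9 * 1 * cu 6 * cu 7)) = chevG2.x F 9 1 := by
    apply mat_cancel_right (u * h)
    rw [Units.val_mul, ← e1, e3]
    simp only [Matrix.mul_assoc]
  have e4 := g2_coef 0 0 0 (dOf chevG2 c 9 * 1) (dOf chevG2 c 9 * 1 * cu 7)
    (dOf chevG2 c 9 * 1 * cu 8 + dOf chevG2 c 9 * 1 * cu 6 * cu 7) 0 0 0 1 0 0 (by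
      simp only [x_zero, Matrix.one_mul, Matrix.mul_one]
      exact e2)
  obtain ⟨-, -, -, h9, h10, h11⟩ := e4
  have hd : dOf chevG2 c 9 = 1 := by rwa [mul_one] at h9
  have h7 : cu 7 = 0 := by rwa [hd, mul_one, one_mul] at h10
  have h8 : cu 8 = 0 := by
    rw [hd, h7] at h11
    simpa using h11
  have hu' : u = xGL chevG2 stdG2 F 6 (by decide) (cu 6) * (xGL chevG2 stdG2 F 9 (by decide) (cu 9) *
      (xGL chevG2 stdG2 F 10 (by decide) (cu 10) * xGL chevG2 stdG2 F 11 (by decide) (cu 11))) := by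
    apply Units.ext
    rw [hcu, h7, h8, x_zero, x_zero, Matrix.one_mul, Matrix.one_mul]
    rfl
  have huM : u ∈ g2M F := by
    rw [hu']
    exact mul_mem (g2M_6 (xGL_mem_rootSubgroup chevG2 stdG2 6 _ _))
      (mul_mem (g2M_9 (xGL_mem_rootSubgroup chevG2 stdG2 9 _ _))
        (mul_mem (g2M_10 (xGL_mem_rootSubgroup chevG2 stdG2 10 _ _))
          (g2M_11 (xGL_mem_rootSubgroup chevG2 stdG2 11 _ _))))
  have e5 : dOf chevG2 c 9 = c 0 := by
    unfold dOf
    rw [Finset.prod_eq_single 0]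
    · have : chevG2.cartan 0 9 = 1 := by decide +kernel
      rw [this, zpow_one]
    · intro j hj hne
      have hj' : j < 2 := Finset.mem_range.mp hj
      have hj1 : j = 1 := by omega
      subst hj1
      have : chevG2.cartan 1 9 = 0 := by decide +kernel
      rw [this, zpow_zero]
    · intro hnot
      exact absurd (Finset.mem_range.mpr (by decide)) hnot
  have hc0 : c 0 = 1 := by rw [← e5]; exact hd
  have hhM : h ∈ g2M F := by
    apply hProd_mem_of_factors chevG2 stdG2 (g2M F) c hc ?_ chevG2.rank (le_refl _) h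
    · rw [hv]
      exact hProd_congr chevG2 stdG2 _ _ hc (fun i hi => by simp [hi])
    · intro n hn g hg
      by_cases hne : n = 0
      · have e : g = 1 := by
          apply Units.ext
          rw [hg, Units.val_one, ← hProd_one chevG2 stdG2]
          apply hProd_congr chevG2 stdG2
          · intro i _
            show (if i = n then c n else 1) ≠ 0
            split_ifs
            · exact hc n hn
            · exact one_ne_zero
          · intro i _
            show (if i = n then c n else 1) = 1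
            rw [hne, hc0]
            split_ifs <;> rfl
        rw [e]
        exact one_mem _
      · have hn2 : n < 2 := hn
        have hn1 : n = 1 := by omega
        subst hn1
        rw [← hMat_simple_eq_hProd chevG2 stdG2 1 hn (c 1) (hc 1 hn)] at hg
        exact g2_hMat_mem (c 1) g hg
  exact mul_mem huM hhM

/-! ### The Weyl group of type `G₂` -/

/-- Words for the twelve elements of the Weyl group. -/
def g2Words : List (List ℕ) :=
  [[], [0], [1], [0, 1], [1, 0], [0, 1, 0], [1, 0, 1], [0, 1, 0, 1], [1, 0, 1, 0], [0, 1, 0, 1, 0], [1, 0, 1, 0, 1],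
    [0, 1, 0, 1, 0, 1]]

theorem g2Words_closed : allF (fun l' => allF (fun i => anyF (fun l'' =>
    allF (fun r => Nat.beq (reflWord chevG2 (i :: l') r) (reflWord chevG2 l'' r)) (List.range 12)) g2Words)
      [0, 1]) g2Words = true := by decide +kernel

theorem g2_word_cases (l : List ℕ) (hl : VW chevG2 l) : ∃ l' ∈ g2Words, RE chevG2 l l' := by
  induction l with
  | nil => exact ⟨[], by simp [g2Words], re_refl _ _⟩
  | cons i l ih =>
    obtain ⟨l', hl', hre⟩ := ih (fun a ha => hl a (List.mem_cons_of_mem _ ha))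
    have hi : i < 2 := hl i List.mem_cons_self
    have hi' : i ∈ [0, 1] := by
      interval_cases i <;> simp
    have h1 := allF_mem _ _ (allF_mem _ _ g2Words_closed l' hl') i hi'
    obtain ⟨l'', hl'', h2⟩ := anyF_mem _ _ h1
    refine ⟨l'', hl'', ?_⟩
    intro r hr
    have hr' : r < 12 := hr
    have h3 := allF_mem _ _ h2 r (List.mem_range.mpr hr')
    have h4 := Nat.eq_of_beq_eq_true h3
    have h5 := re_append_left chevG2 [i] hre r hr
    exact h5.trans h4

/-! ### Products of three root elements equal to an element of `x_{2a+b}(1) X_{3a+b} X_{3a+2b}` -/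

theorem g2_coef3 (a9 a10 a11 b9 b10 b11 : F)
    (h : chevG2.x F 9 a9 * chevG2.x F 10 a10 * chevG2.x F 11 a11 =
      chevG2.x F 9 b9 * chevG2.x F 10 b10 * chevG2.x F 11 b11) : a9 = b9 ∧ a10 = b10 ∧ a11 = b11 := by
  have e := g2_coef 0 0 0 a9 a10 a11 0 0 0 b9 b10 b11 (by
    simp only [x_zero, Matrix.one_mul, ← Matrix.mul_assoc]
    exact h)
  exact ⟨e.2.2.2.1, e.2.2.2.2.1, e.2.2.2.2.2⟩

theorem g2_V_ne_one (c' d' : F) : chevG2.x F 9 1 * chevG2.x F 10 c' * chevG2.x F 11 d' ≠ 1 := by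
  intro h
  have e := g2_coef3 1 c' d' 0 0 0 (by
    rw [h, x_zero, x_zero, x_zero, Matrix.one_mul, Matrix.one_mul])
  exact one_ne_zero e.1

/-- The element `x_{2a+b}(1) x_{3a+b}(c) x_{3a+2b}(d)` of `U`. -/
def g2V (F : Type*) [Field F] (c d : F) : GL chevG2.Idx F :=
  xGL chevG2 stdG2 F 9 (by decide) 1 * xGL chevG2 stdG2 F 10 (by decide) c * xGL chevG2 stdG2 F 11 (by decide) d

theorem g2V_val (c d : F) : ((g2V F c d : GL chevG2.Idx F) : Matrix chevG2.Idx chevG2.Idx F) =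
    chevG2.x F 9 1 * chevG2.x F 10 c * chevG2.x F 11 d := rfl

theorem g2V_mem (c d : F) : g2V F c d ∈ chevG2.posUnipotent F :=
  mul_mem (mul_mem (Subgroup.subset_closure ⟨9, 1, by decide +kernel, rfl⟩)
    (Subgroup.subset_closure ⟨10, c, by decide +kernel, rfl⟩)) (Subgroup.subset_closure ⟨11, d, by decide +kernel, rfl⟩)

theorem g2_pos_mem (r : ℕ) (hp : chevG2.IsPosRoot r) (c : F) :
    xGL chevG2 stdG2 F r hp.1 c ∈ chevG2.posUnipotent F := Subgroup.subset_closure ⟨r, c, hp, rfl⟩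

theorem g2_neg_mem (r : ℕ) (hn : chevG2.IsNegRoot r) (c : F) :
    xGL chevG2 stdG2 F r hn.1 c ∈ chevG2.negUnipotent F := Subgroup.subset_closure ⟨r, c, hn, rfl⟩

theorem g2_borel_neg (g : GL chevG2.Idx F) (h1 : g ∈ chevG2.posUnipotent F) (h2 : g ∈ chevG2.negUnipotent F) :
    g = 1 := by
  have h3 : g ∈ (⊥ : Subgroup (GL chevG2.Idx F)) := by
    rw [← borel_inf_neg chevG2 stdG2]
    exact Subgroup.mem_inf.mpr ⟨pos_le_borel chevG2 h1, h2⟩
  exact Subgroup.mem_bot.mp h3

/-- All three roots negative. -/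
theorem g2_bad_neg (s1 s2 s3 : ℕ) (h1 : chevG2.IsNegRoot s1) (h2 : chevG2.IsNegRoot s2) (h3 : chevG2.IsNegRoot s3)
    (k e2 e3 c' d' : F)
    (h : chevG2.x F s1 k * chevG2.x F s2 e2 * chevG2.x F s3 e3 =
      chevG2.x F 9 1 * chevG2.x F 10 c' * chevG2.x F 11 d') : False := by
  have e : xGL chevG2 stdG2 F s1 h1.1 k * xGL chevG2 stdG2 F s2 h2.1 e2 * xGL chevG2 stdG2 F s3 h3.1 e3 =
      g2V F c' d' := Units.ext h
  have hV : g2V F c' d' = 1 := by
    apply g2_borel_neg _ (g2V_mem c' d')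
    rw [← e]
    exact mul_mem (mul_mem (g2_neg_mem s1 h1 k) (g2_neg_mem s2 h2 e2)) (g2_neg_mem s3 h3 e3)
  exact g2_V_ne_one c' d' (congrArg Units.val hV)

/-- `(a+b, b, 3a+2b)`. -/
theorem g2_bad_8 [CharP F 2] (k e e' c' d' : F) (hk : k ≠ 0)
    (h : chevG2.x F 6 e * (chevG2.x F 8 k * chevG2.x F 11 e') =
      chevG2.x F 9 1 * chevG2.x F 10 c' * chevG2.x F 11 d') : False := by
  have e1 := g2_coef e 0 k 0 0 e' 0 0 0 1 c' d' (by
    simp only [x_zero, Matrix.one_mul]
    rw [h]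
    simp only [Matrix.mul_assoc])
  exact hk e1.2.2.1

/-- A negative root element in `U` is trivial. -/
theorem g2_neg_in_pos (r : ℕ) (hn : chevG2.IsNegRoot r) (e : F)
    (h : xGL chevG2 stdG2 F r hn.1 e ∈ chevG2.posUnipotent F) : e = 0 := by
  have h1 := g2_borel_neg _ h (g2_neg_mem r hn e)
  exact (Cfsg.Agent.S1024.result chevG2 stdG2 r hn.1 e).mp (congrArg Units.val h1)

/-- `(a, -b, 3a+b)`. -/
theorem g2_bad_7 [CharP F 2] (k e e' c' d' : F) (hk : k ≠ 0)
    (h : chevG2.x F 7 k * chevG2.x F 5 e * chevG2.x F 10 e' =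
      chevG2.x F 9 1 * chevG2.x F 10 c' * chevG2.x F 11 d') : False := by
  have hp7 : chevG2.IsPosRoot 7 := by decide +kernel
  have hp10 : chevG2.IsPosRoot 10 := by decide +kernel
  have hn5 : chevG2.IsNegRoot 5 := by decide +kernel
  have e1 : xGL chevG2 stdG2 F 7 hp7.1 k * xGL chevG2 stdG2 F 5 hn5.1 e * xGL chevG2 stdG2 F 10 hp10.1 e' =
      g2V F c' d' := Units.ext h
  have e2 : xGL chevG2 stdG2 F 5 hn5.1 e =
      (xGL chevG2 stdG2 F 7 hp7.1 k)⁻¹ * g2V F c' d' * (xGL chevG2 stdG2 F 10 hp10.1 e')⁻¹ := by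
    rw [← e1]
    group
  have he : e = 0 := by
    apply g2_neg_in_pos 5 hn5 e
    rw [e2]
    exact mul_mem (mul_mem (inv_mem (g2_pos_mem 7 hp7 k)) (g2V_mem c' d')) (inv_mem (g2_pos_mem 10 hp10 e'))
  rw [he, x_zero, Matrix.mul_one] at h
  have e3 := g2_coef 0 k 0 0 e' 0 0 0 0 1 c' d' (by
    simp only [x_zero, Matrix.one_mul, Matrix.mul_one]
    rw [h]
    simp only [Matrix.mul_assoc])
  exact hk e3.2.1

/-- `(-a, -(3a+b), b)`. -/
theorem g2_bad_4 (k e e' c' d' : F) (hk : k ≠ 0)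
    (h : chevG2.x F 4 k * chevG2.x F 1 e * chevG2.x F 6 e' =
      chevG2.x F 9 1 * chevG2.x F 10 c' * chevG2.x F 11 d') : False := by
  have hn4 : chevG2.IsNegRoot 4 := by decide +kernel
  have hn1 : chevG2.IsNegRoot 1 := by decide +kernel
  have hp6 : chevG2.IsPosRoot 6 := by decide +kernel
  have e1 : xGL chevG2 stdG2 F 4 hn4.1 k * xGL chevG2 stdG2 F 1 hn1.1 e * xGL chevG2 stdG2 F 6 hp6.1 e' =
      g2V F c' d' := Units.ext h
  have e2 : xGL chevG2 stdG2 F 4 hn4.1 k * xGL chevG2 stdG2 F 1 hn1.1 e =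
      g2V F c' d' * (xGL chevG2 stdG2 F 6 hp6.1 e')⁻¹ := by
    rw [← e1]
    group
  have e3 : xGL chevG2 stdG2 F 4 hn4.1 k * xGL chevG2 stdG2 F 1 hn1.1 e = 1 := by
    apply g2_borel_neg
    · rw [e2]
      exact mul_mem (g2V_mem c' d') (inv_mem (g2_pos_mem 6 hp6 e'))
    · exact mul_mem (g2_neg_mem 4 hn4 k) (g2_neg_mem 1 hn1 e)
  have e4 : xGL chevG2 stdG2 F 4 hn4.1 k = xGL chevG2 stdG2 F 1 hn1.1 (-e) := by
    have hinv : (xGL chevG2 stdG2 F 1 hn1.1 e)⁻¹ = xGL chevG2 stdG2 F 1 hn1.1 (-e) := Units.ext rfl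
    rw [← hinv]
    exact eq_inv_of_mul_eq_one_left e3
  have e5 := root_elem_inj chevG2 stdG2 4 1 hn4.1 hn1.1 k (-e) hk (congrArg Units.val e4)
  exact absurd e5 (by decide)

theorem g2_triple [CharP F 2] (s1 s2 s3 : ℕ)
    (hs : (s1, s2, s3) ∈ [(8, 6, 11), (8, 11, 6), (7, 5, 10), (4, 1, 6), (7, 10, 5), (4, 6, 1), (3, 0, 5), (2, 0, 1),
      (3, 5, 0), (2, 1, 0)]) (k e2 e3 c' d' : F) (hk : k ≠ 0)
    (h : chevG2.x F s1 k * chevG2.x F s2 e2 * chevG2.x F s3 e3 =
      chevG2.x F 9 1 * chevG2.x F 10 c' * chevG2.x F 11 d') : False := by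
  simp only [List.mem_cons, List.mem_nil_iff, or_false, Prod.mk.injEq] at hs
  rcases hs with ⟨rfl, rfl, rfl⟩ | ⟨rfl, rfl, rfl⟩ | ⟨rfl, rfl, rfl⟩ | ⟨rfl, rfl, rfl⟩ | ⟨rfl, rfl, rfl⟩ |
    ⟨rfl, rfl, rfl⟩ | ⟨rfl, rfl, rfl⟩ | ⟨rfl, rfl, rfl⟩ | ⟨rfl, rfl, rfl⟩ | ⟨rfl, rfl, rfl⟩
  · -- (8, 6, 11)
    rw [g2c_6_8 k e2, Matrix.mul_assoc] at h
    exact g2_bad_8 k e2 e3 c' d' hk h
  · -- (8, 11, 6)
    rw [Matrix.mul_assoc, g2c_6_11 e2 e3, ← Matrix.mul_assoc, g2c_6_8 k e3, Matrix.mul_assoc] at h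
    exact g2_bad_8 k e3 e2 c' d' hk h
  · -- (7, 5, 10)
    exact g2_bad_7 k e2 e3 c' d' hk h
  · -- (4, 1, 6)
    exact g2_bad_4 k e2 e3 c' d' hk h
  · -- (7, 10, 5)
    rw [Matrix.mul_assoc, g2c_5_10 e2 e3, ← Matrix.mul_assoc] at h
    exact g2_bad_7 k e3 e2 c' d' hk h
  · -- (4, 6, 1)
    rw [Matrix.mul_assoc, ← g2c_6_1 e3 e2, ← Matrix.mul_assoc] at h
    exact g2_bad_4 k e3 e2 c' d' hk h
  · exact g2_bad_neg 3 0 5 (by decide +kernel) (by decide +kernel) (by decide +kernel) k e2 e3 c' d' h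
  · exact g2_bad_neg 2 0 1 (by decide +kernel) (by decide +kernel) (by decide +kernel) k e2 e3 c' d' h
  · exact g2_bad_neg 3 5 0 (by decide +kernel) (by decide +kernel) (by decide +kernel) k e2 e3 c' d' h
  · exact g2_bad_neg 2 1 0 (by decide +kernel) (by decide +kernel) (by decide +kernel) k e2 e3 c' d' h

theorem g2_fix_cases : ∀ l' ∈ g2Words,
    (reflWord chevG2 l' 9, reflWord chevG2 l' 10, reflWord chevG2 l' 11) ∈
      [(8, 6, 11), (8, 11, 6), (7, 5, 10), (4, 1, 6), (7, 10, 5), (4, 6, 1), (3, 0, 5), (2, 0, 1), (3, 5, 0), (2, 1, 0)] ∨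
    l' = [] ∨ l' = [1] := by decide +kernel

/-- Conjugates of `x_{2a+b}(1)` under `U`. -/
theorem g2_conj_pos [CharP F 2] (t : GL chevG2.Idx F)
    (ht : (t : Matrix chevG2.Idx chevG2.Idx F) = chevG2.x F 9 1) (u : GL chevG2.Idx F)
    (hu : u ∈ chevG2.posUnipotent F) : ∃ c d : F, u * t = g2V F c d * u := by
  obtain ⟨cu, hcu⟩ := uprod_exists chevG2 stdG2 u hu
  rw [g2_word] at hcu
  refine ⟨1 * cu 7, 1 * cu 8 + 1 * cu 6 * cu 7, Units.ext ?_⟩
  rw [Units.val_mul, Units.val_mul, g2V_val, ht, hcu, g2_conjU]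
  simp only [Matrix.mul_assoc]

/-- The centraliser of the short root element `x_{2a+b}(1)` in characteristic two. -/
theorem g2_short_cen [CharP F 2] (t : GL chevG2.Idx F)
    (ht : (t : Matrix chevG2.Idx chevG2.Idx F) = chevG2.x F 9 1) :
    chevG2.group F ⊓ Subgroup.centralizer {t} = g2M F := by
  have hle := g2M_le t ht
  apply le_antisymm _ hle
  rintro g ⟨hg, hz⟩
  have hzt : g * t = t * g := (Subgroup.mem_centralizer_iff.mp hz t rfl).symm
  obtain ⟨b, hb, n, hn, u, hu, rfl⟩ := bruhat_exists chevG2 stdG2 g hg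
  obtain ⟨u₁, hu₁, h₁, hh₁, rfl⟩ := mem_borel chevG2 stdG2 b hb
  have hu' : u ∈ chevG2.posUnipotent F := negGens_le_pos chevG2 n hu
  have hn' : h₁ * n ∈ chevG2.monomialSubgroup F := mul_mem (diagonal_le_monomial chevG2 hh₁) hn
  obtain ⟨k, l, -, hl, h, hh, hnl⟩ := monomial_word chevG2 stdG2 _ hn'
  obtain ⟨c, d, hv⟩ := g2_conj_pos t ht u hu'
  obtain ⟨c', d', hv'⟩ := g2_conj_pos t ht u₁⁻¹ (inv_mem hu₁)
  have e1 : u₁ * (h₁ * n) * g2V F c d * u = u₁ * g2V F c' d' * (h₁ * n) * u := by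
    calc u₁ * (h₁ * n) * g2V F c d * u = u₁ * h₁ * n * (g2V F c d * u) := by group
      _ = u₁ * h₁ * n * (u * t) := by rw [hv]
      _ = u₁ * h₁ * n * u * t := by group
      _ = t * (u₁ * h₁ * n * u) := hzt
      _ = u₁ * (u₁⁻¹ * t) * u₁ * h₁ * n * u := by group
      _ = u₁ * (g2V F c' d' * u₁⁻¹) * u₁ * h₁ * n * u := by rw [hv']
      _ = u₁ * g2V F c' d' * (h₁ * n) * u := by group
  have e2 : (h₁ * n) * g2V F c d = g2V F c' d' * (h₁ * n) := by
    have e3 := mul_right_cancel e1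
    rw [mul_assoc, mul_assoc u₁] at e3
    exact mul_left_cancel e3
  have key : (h₁ * n) * g2V F c d * (h₁ * n)⁻¹ = g2V F c' d' := by
    rw [e2]
    group
  rw [hnl] at key
  obtain ⟨k9, hk9, a9⟩ := word_act chevG2 stdG2 l hl h hh 9 (by decide) (F := F)
  obtain ⟨k10, -, a10⟩ := word_act chevG2 stdG2 l hl h hh 10 (by decide) (F := F)
  obtain ⟨k11, -, a11⟩ := word_act chevG2 stdG2 l hl h hh 11 (by decide) (F := F)
  have key2 : xGL chevG2 stdG2 F (reflWord chevG2 l 9) (reflWord_lt chevG2 stdG2 l hl 9 (by decide)) (k9 * 1) *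
      xGL chevG2 stdG2 F (reflWord chevG2 l 10) (reflWord_lt chevG2 stdG2 l hl 10 (by decide)) (k10 * c) *
      xGL chevG2 stdG2 F (reflWord chevG2 l 11) (reflWord_lt chevG2 stdG2 l hl 11 (by decide)) (k11 * d) =
      g2V F c' d' := by
    rw [← a9 1, ← a10 c, ← a11 d, ← key]
    unfold g2V
    group
  have key3 : chevG2.x F (reflWord chevG2 l 9) (k9 * 1) * chevG2.x F (reflWord chevG2 l 10) (k10 * c) *
      chevG2.x F (reflWord chevG2 l 11) (k11 * d) = chevG2.x F 9 1 * chevG2.x F 10 c' * chevG2.x F 11 d' :=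
    congrArg Units.val key2
  obtain ⟨l', hl', hre⟩ := g2_word_cases l hl
  rw [hre 9 (by decide), hre 10 (by decide), hre 11 (by decide)] at key3
  have hk : k9 * 1 ≠ 0 := by rwa [mul_one]
  have hl'v : VW chevG2 l' := by
    have : ∀ l'' ∈ g2Words, ∀ a ∈ l'', a < chevG2.rank := by decide +kernel
    exact this l' hl'
  have hdiag := mem_diag_of_simple_eq chevG2 stdG2 l l' hl hl'v
    (fun k hk => hre _ (std_simple_lt chevG2 stdG2 k hk)) (F := F)
  have hh0 : (nProdGL chevG2 F l')⁻¹ * nProdGL chevG2 F l * h ∈ chevG2.diagonalSubgroup F := mul_mem hdiag hh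
  have e0 : h₁ * n = nProdGL chevG2 F l' * ((nProdGL chevG2 F l')⁻¹ * nProdGL chevG2 F l * h) := by
    rw [hnl]
    group
  rcases g2_fix_cases l' hl' with hbad | rfl | rfl
  · exact (g2_triple _ _ _ hbad _ _ _ _ _ hk key3).elim
  · -- the element lies in `B`
    have hN : nProdGL chevG2 F ([] : List ℕ) = 1 := rfl
    rw [hN, one_mul] at e0
    apply g2_borel_cen t ht _ _ hzt
    have e : u₁ * h₁ * n * u = u₁ * (h₁ * n) * u := by group
    rw [e, e0]
    exact mul_mem (mul_mem (pos_le_borel chevG2 hu₁) (diagonal_le_borel chevG2 hh0)) (pos_le_borel chevG2 hu')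
  · -- the element lies in `B n_b B`
    have hp1 : (1 : ℕ) < chevG2.rank := by decide
    have hs6 : chevG2.rootSubgroup F (chevG2.simple 1) = chevG2.rootSubgroup F 6 := by
      rw [show chevG2.simple 1 = 6 from by decide +kernel]
    have hs5 : chevG2.rootSubgroup F (chevG2.neg (chevG2.simple 1)) = chevG2.rootSubgroup F 5 := by
      rw [show chevG2.neg (chevG2.simple 1) = 5 from by decide +kernel]
    have hN : nProdGL chevG2 F [1] = nGL chevG2 F (chevG2.simple 1) := by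
      simp [nProdGL]
    have hlt := std_simple_lt chevG2 stdG2 1 hp1
    obtain ⟨u₁', hu₁', c₀, rfl⟩ := mem_pos_decomp chevG2 stdG2 1 hp1 u₁ hu₁
    obtain ⟨hnorm, -⟩ := up_normalized chevG2 stdG2 1 (upChk_all chevG2 stdG2 1 hp1) (F := F)
    -- the element `m = x_b(c₀) n_b`
    have hm_sup : xGL chevG2 stdG2 F (chevG2.simple 1) hlt c₀ * nProdGL chevG2 F [1] ∈
        chevG2.rootSubgroup F (chevG2.simple 1) ⊔ chevG2.rootSubgroup F (chevG2.neg (chevG2.simple 1)) := by
      rw [hN, nGL_eq_prod chevG2 stdG2 _ hlt]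
      have m1 : ∀ a : F, xGL chevG2 stdG2 F (chevG2.simple 1) hlt a ∈
          chevG2.rootSubgroup F (chevG2.simple 1) ⊔ chevG2.rootSubgroup F (chevG2.neg (chevG2.simple 1)) :=
        fun a => Subgroup.mem_sup_left (xGL_mem_rootSubgroup chevG2 stdG2 _ _ a)
      have m2 : ∀ a : F, xGL chevG2 stdG2 F (chevG2.neg (chevG2.simple 1)) (std_neg_lt chevG2 stdG2 _ hlt) a ∈
          chevG2.rootSubgroup F (chevG2.simple 1) ⊔ chevG2.rootSubgroup F (chevG2.neg (chevG2.simple 1)) :=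
        fun a => Subgroup.mem_sup_right (xGL_mem_rootSubgroup chevG2 stdG2 _ _ a)
      exact mul_mem (m1 _) (mul_mem (mul_mem (m1 _) (m2 _)) (m1 _))
    have hmM : xGL chevG2 stdG2 F (chevG2.simple 1) hlt c₀ * nProdGL chevG2 F [1] ∈ g2M F := by
      have hle2 : chevG2.rootSubgroup F (chevG2.simple 1) ⊔ chevG2.rootSubgroup F (chevG2.neg (chevG2.simple 1)) ≤
          g2M F := by
        rw [hs6, hs5]
        exact sup_le g2M_6 g2M_5
      exact hle2 hm_sup
    have hmN := hnorm hm_sup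
    have hconj : (xGL chevG2 stdG2 F (chevG2.simple 1) hlt c₀ * nProdGL chevG2 F [1])⁻¹ * u₁' *
        (xGL chevG2 stdG2 F (chevG2.simple 1) hlt c₀ * nProdGL chevG2 F [1]) ∈ chevG2.posUnipotent F := by
      have h1 := (Subgroup.mem_normalizer_iff.mp (inv_mem hmN) u₁').mp hu₁'
      rw [inv_inv] at h1
      exact upGrp_le_pos chevG2 1 h1
    -- `g = m g'` with `g'` in `B`
    have eg : u₁' * xGL chevG2 stdG2 F (chevG2.simple 1) hlt c₀ * h₁ * n * u =
        (xGL chevG2 stdG2 F (chevG2.simple 1) hlt c₀ * nProdGL chevG2 F [1]) *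
          ((xGL chevG2 stdG2 F (chevG2.simple 1) hlt c₀ * nProdGL chevG2 F [1])⁻¹ * u₁' *
            (xGL chevG2 stdG2 F (chevG2.simple 1) hlt c₀ * nProdGL chevG2 F [1]) *
            ((nProdGL chevG2 F [1])⁻¹ * nProdGL chevG2 F l * h) * u) := by
      have e : u₁' * xGL chevG2 stdG2 F (chevG2.simple 1) hlt c₀ * h₁ * n * u =
          u₁' * xGL chevG2 stdG2 F (chevG2.simple 1) hlt c₀ * (h₁ * n) * u := by group
      rw [e, e0]
      group
    have hg'B : (xGL chevG2 stdG2 F (chevG2.simple 1) hlt c₀ * nProdGL chevG2 F [1])⁻¹ * u₁' *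
            (xGL chevG2 stdG2 F (chevG2.simple 1) hlt c₀ * nProdGL chevG2 F [1]) *
            ((nProdGL chevG2 F [1])⁻¹ * nProdGL chevG2 F l * h) * u ∈ chevG2.borelSubgroup F :=
      mul_mem (mul_mem (pos_le_borel chevG2 hconj) (diagonal_le_borel chevG2 hh0)) (pos_le_borel chevG2 hu')
    have hg'z : (xGL chevG2 stdG2 F (chevG2.simple 1) hlt c₀ * nProdGL chevG2 F [1])⁻¹ * u₁' *
            (xGL chevG2 stdG2 F (chevG2.simple 1) hlt c₀ * nProdGL chevG2 F [1]) *
            ((nProdGL chevG2 F [1])⁻¹ * nProdGL chevG2 F l * h) * u ∈ Subgroup.centralizer {t} := by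
      have e : (xGL chevG2 stdG2 F (chevG2.simple 1) hlt c₀ * nProdGL chevG2 F [1])⁻¹ * u₁' *
            (xGL chevG2 stdG2 F (chevG2.simple 1) hlt c₀ * nProdGL chevG2 F [1]) *
            ((nProdGL chevG2 F [1])⁻¹ * nProdGL chevG2 F l * h) * u =
          (xGL chevG2 stdG2 F (chevG2.simple 1) hlt c₀ * nProdGL chevG2 F [1])⁻¹ *
            (u₁' * xGL chevG2 stdG2 F (chevG2.simple 1) hlt c₀ * h₁ * n * u) := by
        rw [eg]
        group
      rw [e]
      exact mul_mem (inv_mem (hle hmM).2) hz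
    have hg'M := g2_borel_cen t ht _ hg'B (Subgroup.mem_centralizer_iff.mp hg'z t rfl).symm
    rw [eg]
    exact mul_mem hmM hg'M

/-- `U ⊔ X_a` in terms of `longCen`. -/
theorem longCen_one (D : ChevalleyDatum) (a : ℕ) :
    longCen D F [a] = D.posUnipotent F ⊔ D.rootSubgroup F a := by
  unfold longCen ChevalleyDatum.rootSubgroup
  apply le_antisymm
  · apply sup_le le_sup_left
    rw [Subgroup.closure_le]
    rintro g ⟨s, hs, t, hg⟩
    simp only [List.mem_cons, List.mem_nil_iff, or_false] at hs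
    subst hs
    exact Subgroup.mem_sup_right (Subgroup.subset_closure ⟨t, hg⟩)
  · refine sup_le le_sup_left ?_
    apply le_sup_of_le_right
    apply Subgroup.closure_mono
    rintro g ⟨t, hg⟩
    exact ⟨a, by simp, t, hg⟩

set_option maxRecDepth 100000 in
theorem longChk2_G2_long : longChk2 chevG2 11 1 [4] = true := by decide +kernel

end Cfsg.Agent.Helper8
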