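import Mathlib
import Cfsg.Prelude.Def_ParabolicCharacters
import Cfsg.Agent.Helper2.CharExtra

set_option autoImplicit false

namespace Cfsg.Agent.Helper8

/-! ### Inner products of permutation characters and double cosets (independent of the Chevalley files) -/

section DC

variable {Γ : Type*} [Group Γ]

theorem dc_mk_eq_iff (Q P : Subgroup Γ) (g g' : Γ) :
    (Quotient.mk'' (g' : Γ ⧸ P) : MulAction.orbitRel.Quotient Q (Γ ⧸ P)) = Quotient.mk'' (g : Γ ⧸ P) ↔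
      ∃ q ∈ Q, ∃ p ∈ P, g' = q * g * p := by
  rw [Quotient.eq'', MulAction.orbitRel_apply, MulAction.mem_orbit_iff]
  constructor
  · rintro ⟨q, hq⟩
    have h1 : (((q : Γ) * g : Γ) : Γ ⧸ P) = (g' : Γ ⧸ P) := hq
    have h2 := QuotientGroup.eq.mp h1
    exact ⟨q, q.2, ((q : Γ) * g)⁻¹ * g', h2, by group⟩
  · rintro ⟨q, hq, p, hp, rfl⟩
    refine ⟨⟨q, hq⟩, ?_⟩
    show ((q * g : Γ) : Γ ⧸ P) = ((q * g * p : Γ) : Γ ⧸ P)
    apply QuotientGroup.eq.mpr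
    have e : (q * g)⁻¹ * (q * g * p) = p := by group
    rw [e]
    exact hp

theorem dc_rep (Q P : Subgroup Γ) (c : MulAction.orbitRel.Quotient Q (Γ ⧸ P)) :
    ∃ w : Γ, c = Quotient.mk'' (w : Γ ⧸ P) := by
  refine Quotient.inductionOn' c (fun x => ?_)
  obtain ⟨g, rfl⟩ := QuotientGroup.mk_surjective x
  exact ⟨g, rfl⟩

/-- Burnside's lemma for a subgroup `Q` acting on `Γ ⧸ P`. -/
theorem dc_burnside [Finite Γ] (Q P : Subgroup Γ) [Fintype Q] :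
    ∑ q : Q, (Nat.card (MulAction.fixedBy (Γ ⧸ P) (q : Γ)) : ℂ) =
      (Nat.card (MulAction.orbitRel.Quotient Q (Γ ⧸ P)) : ℂ) * (Nat.card Q : ℂ) := by
  classical
  haveI : Fintype (Γ ⧸ P) := Fintype.ofFinite _
  haveI : ∀ q : Q, Fintype (MulAction.fixedBy (Γ ⧸ P) q) := fun q => Fintype.ofFinite _
  haveI : Fintype (MulAction.orbitRel.Quotient Q (Γ ⧸ P)) := Fintype.ofFinite _
  have h := MulAction.sum_card_fixedBy_eq_card_orbits_mul_card_group (↥Q) (Γ ⧸ P)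
  have h2 : ∀ q : Q, Nat.card (MulAction.fixedBy (Γ ⧸ P) (q : Γ)) =
      Fintype.card (MulAction.fixedBy (Γ ⧸ P) q) := by
    intro q
    have e : MulAction.fixedBy (Γ ⧸ P) (q : Γ) = MulAction.fixedBy (Γ ⧸ P) q := rfl
    rw [e, Nat.card_eq_fintype_card]
  calc ∑ q : Q, (Nat.card (MulAction.fixedBy (Γ ⧸ P) (q : Γ)) : ℂ)
      = ((∑ q : Q, Fintype.card (MulAction.fixedBy (Γ ⧸ P) q) : ℕ) : ℂ) := by
        rw [Nat.cast_sum]
        exact Finset.sum_congr rfl (fun q _ => by rw [h2 q])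
    _ = (Nat.card (MulAction.orbitRel.Quotient Q (Γ ⧸ P)) : ℂ) * (Nat.card Q : ℂ) := by
        rw [h, Nat.cast_mul, Nat.card_eq_fintype_card, Nat.card_eq_fintype_card]

/-- The permutation character on the cosets of `P` is induced from the principal character of `P`. -/
theorem fpc_ind [Fintype Γ] (P : Subgroup Γ) :
    Cfsg.fixedPointCharacter P = Cfsg.indFun P (fun _ => (1 : ℂ)) := by
  classical
  funext g
  rw [Cfsg.Agent.Helper2.indFun_apply]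
  have hiff : ∀ x : Γ, (x : Γ ⧸ P) ∈ MulAction.fixedBy (Γ ⧸ P) g ↔ x⁻¹ * g * x ∈ P := by
    intro x
    rw [MulAction.mem_fixedBy]
    show ((g * x : Γ) : Γ ⧸ P) = (x : Γ ⧸ P) ↔ _
    rw [QuotientGroup.eq]
    constructor
    · intro h
      have h' := inv_mem h
      have e : ((g * x)⁻¹ * x)⁻¹ = x⁻¹ * g * x := by group
      rwa [e] at h'
    · intro h
      have h' := inv_mem h
      have e : (x⁻¹ * g * x)⁻¹ = (g * x)⁻¹ * x := by group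
      rwa [e] at h'
  have h1 : ∀ x : Γ, Cfsg.extendByZero P (fun _ => (1 : ℂ)) (x⁻¹ * g * x) =
      if (x : Γ ⧸ P) ∈ MulAction.fixedBy (Γ ⧸ P) g then 1 else 0 := by
    intro x
    by_cases hx : x⁻¹ * g * x ∈ P
    · rw [Cfsg.Agent.Helper2.extendByZero_of_mem P _ hx, if_pos ((hiff x).mpr hx)]
    · rw [Cfsg.Agent.Helper2.extendByZero_of_not_mem P _ hx, if_neg (fun h => hx ((hiff x).mp h))]
  rw [Finset.sum_congr rfl (fun x _ => h1 x), Finset.sum_boole]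
  have h3 : Nat.card {x : Γ // (x : Γ ⧸ P) ∈ MulAction.fixedBy (Γ ⧸ P) g} =
      Nat.card P * Nat.card (MulAction.fixedBy (Γ ⧸ P) g) := by
    rw [← Nat.card_prod]
    exact Nat.card_congr (QuotientGroup.preimageMkEquivSubgroupProdSet P (MulAction.fixedBy (Γ ⧸ P) g))
  have h2 : (Finset.univ.filter (fun x : Γ => (x : Γ ⧸ P) ∈ MulAction.fixedBy (Γ ⧸ P) g)).card =
      Nat.card P * Nat.card (MulAction.fixedBy (Γ ⧸ P) g) := by
    rw [← h3, Nat.card_eq_fintype_card, Fintype.card_subtype]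
  have hP : (Nat.card P : ℂ) ≠ 0 := Nat.cast_ne_zero.mpr Nat.card_pos.ne'
  unfold Cfsg.fixedPointCharacter
  rw [h2, Nat.cast_mul, ← mul_assoc, inv_mul_cancel₀ hP, one_mul]

theorem fpc_char [Fintype Γ] (P : Subgroup Γ) : Cfsg.IsCharacter Γ (Cfsg.fixedPointCharacter P) := by
  rw [fpc_ind]
  exact Cfsg.Agent.Helper2.isCharacter_indFun P Cfsg.Agent.Helper2.isCharacter_one

/-- The inner product of two permutation characters is the number of double cosets. -/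
theorem fpc_inner [Fintype Γ] (Q P : Subgroup Γ) :
    (Nat.card Γ : ℂ)⁻¹ * ∑ g : Γ, Cfsg.fixedPointCharacter Q g * Cfsg.fixedPointCharacter P g =
      (Nat.card (MulAction.orbitRel.Quotient Q (Γ ⧸ P)) : ℂ) := by
  classical
  haveI : Fintype ↥Q := Fintype.ofFinite _
  have hcl : Cfsg.IsClassFunction Γ (Cfsg.fixedPointCharacter P) :=
    Cfsg.Agent.Helper2.isClassFunction_of_isCharacter (fpc_char P)
  have hconj : ∀ g : Γ, (starRingEnd ℂ) (Cfsg.fixedPointCharacter P g) = Cfsg.fixedPointCharacter P g := by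
    intro g
    unfold Cfsg.fixedPointCharacter
    simp
  have h1 : Cfsg.classInner (Cfsg.fixedPointCharacter Q) (Cfsg.fixedPointCharacter P) =
      (Nat.card Γ : ℂ)⁻¹ * ∑ g : Γ, Cfsg.fixedPointCharacter Q g * Cfsg.fixedPointCharacter P g := by
    unfold Cfsg.classInner
    congr 1
    apply Finset.sum_congr rfl
    intro g _
    rw [hconj]
  rw [← h1, fpc_ind Q, Cfsg.Agent.Helper2.frobenius_reciprocity Q _ _ hcl]
  show (Nat.card ↥Q : ℂ)⁻¹ * ∑ q : ↥Q, (1 : ℂ) * (starRingEnd ℂ) (Cfsg.fixedPointCharacter P (q : Γ)) = _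
  have e : ∑ q : ↥Q, (1 : ℂ) * (starRingEnd ℂ) (Cfsg.fixedPointCharacter P (q : Γ)) =
      ∑ q : ↥Q, (Nat.card (MulAction.fixedBy (Γ ⧸ P) (q : Γ)) : ℂ) :=
    Finset.sum_congr rfl (fun q _ => by rw [one_mul, hconj]; rfl)
  rw [e, dc_burnside Q P]
  have hQ : (Nat.card ↥Q : ℂ) ≠ 0 := Nat.cast_ne_zero.mpr Nat.card_pos.ne'
  rw [← mul_assoc, mul_comm _ (Nat.card (MulAction.orbitRel.Quotient Q (Γ ⧸ P)) : ℂ), mul_assoc,
    inv_mul_cancel₀ hQ, mul_one]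

/-- Transfer of the number of double cosets along a homomorphism. -/
theorem doset_transfer {Γ₂ : Type*} [Group Γ₂] [Finite Γ] [Finite Γ₂] (f : Γ₂ →* Γ) (Q₁ P₁ : Subgroup Γ)
    (Q₂ P₂ : Subgroup Γ₂) (hQ : ∀ x ∈ Q₂, f x ∈ Q₁) (hP : ∀ y ∈ P₂, f y ∈ P₁)
    (hE : ∀ g : Γ, ∃ q ∈ Q₁, ∃ p ∈ P₁, ∃ w : Γ₂, g = q * f w * p)
    (hU : ∀ w w' : Γ₂, (∃ q ∈ Q₁, ∃ p ∈ P₁, f w' = q * f w * p) → ∃ x ∈ Q₂, ∃ y ∈ P₂, w' = x * w * y) :
    Nat.card (MulAction.orbitRel.Quotient Q₁ (Γ ⧸ P₁)) = Nat.card (MulAction.orbitRel.Quotient Q₂ (Γ₂ ⧸ P₂)) := by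
  classical
  symm
  refine Nat.card_eq_of_bijective (fun c => (Quotient.mk'' ((f (Classical.choose (dc_rep Q₂ P₂ c)) : Γ) : Γ ⧸ P₁) :
    MulAction.orbitRel.Quotient Q₁ (Γ ⧸ P₁))) ⟨?_, ?_⟩
  · intro c c' hcc
    have h1 := Classical.choose_spec (dc_rep Q₂ P₂ c)
    have h2 := Classical.choose_spec (dc_rep Q₂ P₂ c')
    have hcc' : (Quotient.mk'' ((f (Classical.choose (dc_rep Q₂ P₂ c)) : Γ) : Γ ⧸ P₁) :
        MulAction.orbitRel.Quotient Q₁ (Γ ⧸ P₁)) =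
        Quotient.mk'' ((f (Classical.choose (dc_rep Q₂ P₂ c')) : Γ) : Γ ⧸ P₁) := hcc
    obtain ⟨q, hq, p, hp, e⟩ := (dc_mk_eq_iff Q₁ P₁ _ _).mp hcc'
    obtain ⟨x, hx, y, hy, e'⟩ := hU _ _ ⟨q, hq, p, hp, e⟩
    exact h1.trans (((dc_mk_eq_iff Q₂ P₂ _ _).mpr ⟨x, hx, y, hy, e'⟩).trans h2.symm)
  · intro ω
    obtain ⟨g, rfl⟩ := dc_rep Q₁ P₁ ω
    obtain ⟨q, hq, p, hp, w, hg⟩ := hE g
    refine ⟨Quotient.mk'' (w : Γ₂ ⧸ P₂), ?_⟩
    have h1 := Classical.choose_spec (dc_rep Q₂ P₂ (Quotient.mk'' (w : Γ₂ ⧸ P₂)))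
    show (Quotient.mk'' ((f (Classical.choose (dc_rep Q₂ P₂ (Quotient.mk'' (w : Γ₂ ⧸ P₂)))) : Γ) : Γ ⧸ P₁) :
      MulAction.orbitRel.Quotient Q₁ (Γ ⧸ P₁)) = Quotient.mk'' (g : Γ ⧸ P₁)
    generalize Classical.choose (dc_rep Q₂ P₂ (Quotient.mk'' (w : Γ₂ ⧸ P₂))) = w' at h1 ⊢
    obtain ⟨x, hx, y, hy, e⟩ := (dc_mk_eq_iff Q₂ P₂ _ _).mp h1
    apply (dc_mk_eq_iff Q₁ P₁ _ _).mpr
    refine ⟨(f x)⁻¹ * q⁻¹, mul_mem (inv_mem (hQ x hx)) (inv_mem hq), p⁻¹ * (f y)⁻¹,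
      mul_mem (inv_mem hp) (inv_mem (hP y hy)), ?_⟩
    rw [hg, e, map_mul, map_mul]
    group

end DC

end Cfsg.Agent.Helper8
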