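import Cfsg.Agent.Helper8.LongC

set_option autoImplicit false

namespace Cfsg.Agent.Helper8

open Cfsg.Lie

set_option maxRecDepth 100000 in
theorem longChk_E6 : longChk chevE6 71 1 [15, 29, 32, 34, 35] = true := by decide +kernel

set_option maxRecDepth 100000 in
theorem longChk_E7 : longChk chevE7 125 0 [47, 52, 56, 59, 61, 62] = true := by decide +kernel

set_option maxRecDepth 100000 in
theorem longChk_E8 : longChk chevE8 239 7 [77, 98, 104, 109, 113, 116, 118] = true := by decide +kernel

end Cfsg.Agent.Helper8
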