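import Cfsg.Agent.Helper8.LongC

set_option autoImplicit false

namespace Cfsg.Agent.Helper8

open Cfsg.Lie

/-! ### Stabilisers of dominant roots, and centralisers of root elements in characteristic two -/

/-- The pairing `⟨r, b^∨⟩` computed from the coroot of `b`. -/
def pairR (D : ChevalleyDatum) (r b : ℕ) : ℤ := ∑ j ∈ Finset.range D.rank, corootC D b j * D.cartan j r

theorem pairR_refl (D : ChevalleyDatum) (hD : Std7 D) (hc2 : ∀ a, a < D.rank → D.cartan a (D.simple a) = 2)
    (i : ℕ) (hi : i < D.rank) (r b : ℕ) (hr : r < D.nroots) (hb : b < D.nroots) :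
    pairR D (D.reflectRoot i r) (D.reflectRoot i b) = pairR D r b := by
  unfold pairR
  have hco := (corootLin_sound D b (corootLin_all D hD b hb)).2 i hi
  have hP : pairC D i b = ∑ k ∈ Finset.range D.rank, corootC D b k * D.cartan k (D.simple i) := by
    unfold pairC
    rw [sumTo_eq]
  have e1 : ∀ j ∈ Finset.range D.rank, corootC D (D.reflectRoot i b) j * D.cartan j (D.reflectRoot i r) =
      corootC D b j * D.cartan j r - D.cartan i r * (corootC D b j * D.cartan j (D.simple i)) -
        (if j = i then pairC D i b * (D.cartan i r - D.cartan i r * D.cartan i (D.simple i)) else 0) := by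
    intro j hj
    rw [hco j, std_cartan_refl D hD i hi j (Finset.mem_range.mp hj) r hr]
    by_cases hji : j = i
    · subst hji
      rw [if_pos rfl, if_pos rfl]
      ring
    · rw [if_neg hji, if_neg hji]
      ring
  rw [Finset.sum_congr rfl e1, Finset.sum_sub_distrib, Finset.sum_sub_distrib, ← Finset.mul_sum,
    Finset.sum_ite_eq' (Finset.range D.rank) i, if_pos (Finset.mem_range.mpr hi), ← hP, hc2 i hi]
  ring

theorem pairR_word (D : ChevalleyDatum) (hD : Std7 D) (hc2 : ∀ a, a < D.rank → D.cartan a (D.simple a) = 2)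
    (l : List ℕ) (hl : VW D l) (r b : ℕ) (hr : r < D.nroots) (hb : b < D.nroots) :
    pairR D (reflWord D l r) (reflWord D l b) = pairR D r b := by
  induction l with
  | nil => rfl
  | cons i l ih =>
    have hl' : VW D l := fun j hj => hl j (List.mem_cons_of_mem _ hj)
    rw [reflWord_cons, reflWord_cons, pairR_refl D hD hc2 i (hl i List.mem_cons_self) _ _
      (reflWord_lt D hD l hl' r hr) (reflWord_lt D hD l hl' b hb), ih hl']

theorem pairR_simple (D : ChevalleyDatum) (hD : Std7 D) (r a : ℕ) (ha : a < D.rank) :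
    pairR D r (D.simple a) = D.cartan a r := by
  unfold pairR
  rw [Finset.sum_eq_single a]
  · rw [corootSimple_sound D a ha (corootSimple_all D hD a ha) a, if_pos rfl, one_mul]
  · intro j _ hja
    rw [corootSimple_sound D a ha (corootSimple_all D hD a ha) j, if_neg hja, zero_mul]
  · intro h
    exact absurd (Finset.mem_range.mpr ha) h

/-- The letters of a reduced word fixing a dominant root are orthogonal to it. -/
theorem stab_dom (D : ChevalleyDatum) (hD : Std7 D) (hc2 : ∀ a, a < D.rank → D.cartan a (D.simple a) = 2)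
    (r : ℕ) (hr : r < D.nroots) (hdom : ∀ a, a < D.rank → 0 ≤ D.cartan a r)
    (hfix : ∀ a, a < D.rank → D.cartan a r = 0 → D.reflectRoot a r = r) :
    ∀ l : List ℕ, Red D l → reflWord D l r = r → ∀ a ∈ l, D.cartan a r = 0 := by
  intro l
  induction l using List.reverseRecOn with
  | nil =>
    intro _ _ a ha
    exact absurd ha List.not_mem_nil
  | append_singleton x a ih =>
    intro hred hfx
    obtain ⟨hredx, hpos⟩ := red_snoc_inv D hD hred
    have hx : VW D x := hredx.1
    have ha : a < D.rank := vw_snoc hred.1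
    have hp := std_simple_lt D hD a ha
    have hlt := reflWord_lt D hD x hx _ hp
    have hinv := pairR_word D hD hc2 (x ++ [a]) hred.1 r (D.simple a) hr hp
    rw [hfx, reflWord_snoc_simple D hD x hx a ha, pairR_simple D hD r a ha] at hinv
    have hneg : D.IsNegRoot (D.neg (reflWord D x (D.simple a))) := (neg_swap D hD _ hlt).1 hpos
    have hle : pairR D r (D.neg (reflWord D x (D.simple a))) ≤ 0 := by
      unfold pairR
      apply Finset.sum_nonpos
      intro j hj
      exact mul_nonpos_iff.mpr (Or.inr ⟨corootC_nonpos D _ hneg j, hdom j (Finset.mem_range.mp hj)⟩)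
    have h0 : D.cartan a r = 0 := le_antisymm (by rw [← hinv]; exact hle) (hdom a ha)
    have hsar := hfix a ha h0
    have hfx' : reflWord D x r = r := by
      rw [reflWord_append] at hfx
      have e : reflWord D [a] r = D.reflectRoot a r := rfl
      rw [e, hsar] at hfx
      exact hfx
    intro b hb
    rcases List.mem_append.mp hb with hb | hb
    · exact ih hredx hfx' b hb
    · rw [List.mem_singleton] at hb
      rw [hb]
      exact h0

variable {F : Type*} [Field F]

/-- All the structure constants in the commutator formula for `r`, `s` are even. -/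
def evenComm (D : ChevalleyDatum) (r s : ℕ) : Bool := allF (fun c => decide (c.2.1 % 2 = 0)) (D.commTerms r s)

theorem comm_char2 (D : ChevalleyDatum) (hD : Std7 D) [CharP F 2] (r s : ℕ) (hr : r < D.nroots) (hs : s < D.nroots)
    (hrs : s ≠ r) (hneg : s ≠ D.neg r) (hev : evenComm D r s = true) (c a : F) :
    D.x F s c * D.x F r a = D.x F r a * D.x F s c := by
  have h := Cfsg.Agent.S1025.result D hD r s hr hs hrs hneg a c (F := F)
  have e : D.wordMat F (D.commWord F r s a c) = 1 := by
    apply wordMat_all_zero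
    intro p hp
    unfold ChevalleyDatum.commWord at hp
    rw [List.mem_map] at hp
    obtain ⟨q, hq, rfl⟩ := hp
    have h2 : q.2.1 % 2 = 0 := of_decide_eq_true (allF_mem _ _ hev q hq)
    show (q.2.1 : F) * (-a) ^ q.2.2.1 * c ^ q.2.2.2 = 0
    have h3 : ((q.2.1 : ℤ) : F) = 0 := by
      obtain ⟨k, hk⟩ := Int.dvd_of_emod_eq_zero h2
      rw [hk, Int.cast_mul, Int.cast_ofNat, CharTwo.two_eq_zero, zero_mul]
    rw [h3, zero_mul, zero_mul]
  rw [e, mul_one] at h
  exact h

/-- The facts read off the tables for the centraliser of `x_r(1)` in characteristic two, `r` dominant. -/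
structure LongChk2 (D : ChevalleyDatum) (r i0 : ℕ) (L : List ℕ) : Prop where
  hr : r < D.nroots
  hi0 : i0 < D.rank
  rpos : D.IsPosRoot r
  commPos : ∀ s, D.IsPosRoot s → s ≠ r → evenComm D r s = true
  commL : ∀ s ∈ L, s < D.nroots ∧ s ≠ r ∧ s ≠ D.neg r ∧ evenComm D r s = true
  negL : ∀ j, j < D.rank → j ≠ i0 → D.neg (D.simple j) ∈ L
  cart : ∀ j, j < D.rank → D.cartan j r = if j = i0 then 1 else 0
  fix : ∀ a, a < D.rank → a ≠ i0 → D.reflectRoot a r = r
  cart2 : ∀ a, a < D.rank → D.cartan a (D.simple a) = 2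

/-- The Boolean form of the table checks. -/
def longChk2 (D : ChevalleyDatum) (r i0 : ℕ) (L : List ℕ) : Bool :=
  Nat.blt r D.nroots && (Nat.blt i0 D.rank && (decide (D.IsPosRoot r) &&
  (allF (fun s => !(decide (D.IsPosRoot s)) || (Nat.beq s r || evenComm D r s)) (List.range D.nroots) &&
  (allF (fun s => Nat.blt s D.nroots && (!(Nat.beq s r) && (!(Nat.beq s (D.neg r)) && evenComm D r s))) L &&
  (allF (fun j => Nat.beq j i0 || decide (D.neg (D.simple j) ∈ L)) (List.range D.rank) &&
  (allF (fun j => decide (D.cartan j r = @Bool.rec (fun _ => ℤ) 0 1 (Nat.beq j i0))) (List.range D.rank) &&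
  (allF (fun a => Nat.beq a i0 || Nat.beq (D.reflectRoot a r) r) (List.range D.rank) &&
  allF (fun a => decide (D.cartan a (D.simple a) = 2)) (List.range D.rank))))))))

theorem longChk2_sound (D : ChevalleyDatum) (r i0 : ℕ) (L : List ℕ) (h : longChk2 D r i0 L = true) :
    LongChk2 D r i0 L := by
  simp only [longChk2, Bool.and_eq_true] at h
  obtain ⟨h1, h2, h3, h4, h5, h6, h7, h8, h9⟩ := h
  refine ⟨by rwa [Nat.blt_eq] at h1, by rwa [Nat.blt_eq] at h2, of_decide_eq_true h3, ?_, ?_, ?_, ?_, ?_, ?_⟩
  · intro s hs hsr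
    have h := allF_mem _ _ h4 s (List.mem_range.mpr hs.1)
    rw [decide_eq_true hs, Bool.not_true, Bool.false_or, Bool.or_eq_true] at h
    rcases h with h | h
    · exact absurd (Nat.eq_of_beq_eq_true h) hsr
    · exact h
  · intro s hs
    have h := allF_mem _ _ h5 s hs
    simp only [Bool.and_eq_true, Bool.not_eq_true'] at h
    obtain ⟨a1, a2, a3, a4⟩ := h
    refine ⟨by rwa [Nat.blt_eq] at a1, ?_, ?_, a4⟩
    · intro e
      rw [e, Nat.beq_refl] at a2
      exact absurd a2 (by decide)
    · intro e
      rw [← e, Nat.beq_refl] at a3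
      exact absurd a3 (by decide)
  · intro j hj hne
    have h := allF_mem _ _ h6 j (List.mem_range.mpr hj)
    rw [Bool.or_eq_true] at h
    rcases h with h | h
    · exact absurd (Nat.eq_of_beq_eq_true h) hne
    · exact of_decide_eq_true h
  · intro j hj
    have h := of_decide_eq_true (allF_mem _ _ h7 j (List.mem_range.mpr hj))
    rw [h, boolRec_beq]
  · intro a ha hne
    have h := allF_mem _ _ h8 a (List.mem_range.mpr ha)
    rw [Bool.or_eq_true] at h
    rcases h with h | h
    · exact absurd (Nat.eq_of_beq_eq_true h) hne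
    · exact Nat.eq_of_beq_eq_true h
  · intro a ha
    exact of_decide_eq_true (allF_mem _ _ h9 a (List.mem_range.mpr ha))

theorem LongChk2.toAbs {D : ChevalleyDatum} (hD : Std7 D) [CharP F 2] {r i0 : ℕ} {L : List ℕ}
    (hC : LongChk2 D r i0 L) : LongAbs D F r i0 L := by
  refine ⟨hC.hr, hC.hi0, ?_, ?_, hC.negL, hC.cart, ?_⟩
  · intro s hs c a
    by_cases hsr : s = r
    · subst hsr
      rw [Cfsg.Agent.S1023.result D hD s hs.1, Cfsg.Agent.S1023.result D hD s hs.1, add_comm]
    · have hneg : s ≠ D.neg r := by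
        intro h
        have h1 := (neg_swap D hD r hC.hr).1 hC.rpos
        rw [← h] at h1
        exact pos_neg_excl D hD s hs h1
      exact comm_char2 D hD r s hC.hr hs.1 hsr hneg (hC.commPos s hs hsr) c a
  · intro s hs
    obtain ⟨h1, h2, h3, h4⟩ := hC.commL s hs
    exact ⟨h1, fun c a => comm_char2 D hD r s hC.hr h1 h2 h3 h4 c a⟩
  · intro l hl h
    obtain ⟨l₀, hred, hre⟩ := exists_red D hD l hl
    refine ⟨l₀, hred.1, ?_, hre⟩
    have h0 : reflWord D l₀ r = r := by rw [← hre r hC.hr, h]
    have hdom : ∀ a, a < D.rank → 0 ≤ D.cartan a r := by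
      intro a ha
      rw [hC.cart a ha]
      split_ifs <;> norm_num
    have hfix : ∀ a, a < D.rank → D.cartan a r = 0 → D.reflectRoot a r = r := by
      intro a ha h0
      apply hC.fix a ha
      intro e
      rw [hC.cart a ha, if_pos e] at h0
      exact absurd h0 (by norm_num)
    intro a ha e
    have h1 := stab_dom D hD hC.cart2 r hC.hr hdom hfix l₀ hred h0 a ha
    rw [hC.cart a (hred.1 a ha), if_pos e] at h1
    exact absurd h1 (by norm_num)

/-- `U ⊔ X_a ⊔ X_b ⊔ X_c` in terms of `longCen`. -/
theorem longCen_three (D : ChevalleyDatum) (a b c : ℕ) :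
    longCen D F [a, b, c] = D.posUnipotent F ⊔ D.rootSubgroup F a ⊔ D.rootSubgroup F b ⊔ D.rootSubgroup F c := by
  unfold longCen ChevalleyDatum.rootSubgroup
  apply le_antisymm
  · apply sup_le
    · exact le_sup_of_le_left (le_sup_of_le_left le_sup_left)
    · rw [Subgroup.closure_le]
      rintro g ⟨s, hs, t, hg⟩
      simp only [List.mem_cons, List.mem_nil_iff, or_false] at hs
      rcases hs with rfl | rfl | rfl
      · exact Subgroup.mem_sup_left (Subgroup.mem_sup_left (Subgroup.mem_sup_right (Subgroup.subset_closure ⟨t, hg⟩)))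
      · exact Subgroup.mem_sup_left (Subgroup.mem_sup_right (Subgroup.subset_closure ⟨t, hg⟩))
      · exact Subgroup.mem_sup_right (Subgroup.subset_closure ⟨t, hg⟩)
  · refine sup_le (sup_le (sup_le le_sup_left ?_) ?_) ?_
    · apply le_sup_of_le_right
      apply Subgroup.closure_mono
      rintro g ⟨t, hg⟩
      exact ⟨a, by simp, t, hg⟩
    · apply le_sup_of_le_right
      apply Subgroup.closure_mono
      rintro g ⟨t, hg⟩
      exact ⟨b, by simp, t, hg⟩
    · apply le_sup_of_le_right
      apply Subgroup.closure_mono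
      rintro g ⟨t, hg⟩
      exact ⟨c, by simp, t, hg⟩

end Cfsg.Agent.Helper8
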