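import Cfsg.Agent.Helper8.LongD

set_option autoImplicit false

namespace Cfsg.Agent.Helper8

open Cfsg.Lie

set_option maxRecDepth 100000 in
theorem longChk2_F4_long : longChk2 chevF4 47 3 [14, 20, 22] = true := by decide +kernel

set_option maxRecDepth 100000 in
theorem longChk2_F4_short : longChk2 chevF4 44 0 [20, 22, 23] = true := by decide +kernel

end Cfsg.Agent.Helper8
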