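import Mathlib
import Cfsg.Agent.S2420

set_option autoImplicit false

namespace Cfsg.Agent.Helper8

open Finset Polynomial

/-- The `q`-integer `1 + q + ⋯ + q^(r-1)`. -/
def qInt (q r : ℕ) : ℕ := ∑ l ∈ range r, q ^ l

theorem qInt_zero (q : ℕ) : qInt q 0 = 0 := rfl

theorem qInt_split (q t m : ℕ) : qInt q (t + m) = qInt q t + q ^ t * qInt q m := by
  unfold qInt
  rw [sum_range_add, mul_sum]
  congr 1
  apply sum_congr rfl
  intro l _
  rw [pow_add]

/-- `{λ}! = {λ - k}! · {λ}{λ-1}⋯{λ-k+1}` for `k ≤ λ`. -/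
theorem qFact_split (q lam : ℕ) : ∀ k, k ≤ lam →
    ∏ j ∈ range lam, qInt q (j + 1) = (∏ j ∈ range (lam - k), qInt q (j + 1)) * ∏ t ∈ range k, qInt q (lam - t) := by
  intro k
  induction k with
  | zero =>
    intro _
    simp
  | succ k ih =>
    intro hk
    have h1 : lam - k = (lam - (k + 1)) + 1 := by omega
    rw [ih (by omega), prod_range_succ (fun t => qInt q (lam - t)), h1, prod_range_succ, ← h1]
    ring

theorem qFall_zero (q lam k : ℕ) (h : lam < k) : ∏ t ∈ range k, qInt q (lam - t) = 0 := by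
  apply prod_eq_zero (mem_range.mpr h)
  rw [Nat.sub_self]
  rfl

/-- `q^(k(k-1)/2) {λ}{λ-1}⋯{λ-k+1} = ∏_{t<k} ({λ} - {t})`. -/
theorem qFall_eq (q lam k : ℕ) :
    (q : ℂ) ^ (k * (k - 1) / 2) * ∏ t ∈ range k, ((qInt q (lam - t) : ℕ) : ℂ) =
      ∏ t ∈ range k, (((qInt q lam : ℕ) : ℂ) - ((qInt q t : ℕ) : ℂ)) := by
  by_cases hk : k ≤ lam
  · have h1 : ∀ t ∈ range k, (((qInt q lam : ℕ) : ℂ) - ((qInt q t : ℕ) : ℂ)) =
        (q : ℂ) ^ t * ((qInt q (lam - t) : ℕ) : ℂ) := by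
      intro t ht
      rw [mem_range] at ht
      have h2 : qInt q lam = qInt q t + q ^ t * qInt q (lam - t) := by
        have h3 : lam = t + (lam - t) := by omega
        conv_lhs => rw [h3]
        exact qInt_split q t (lam - t)
      rw [h2]
      push_cast
      ring
    rw [prod_congr rfl h1, prod_mul_distrib, prod_pow_eq_pow_sum, sum_range_id]
  · push_neg at hk
    have h1 : ∏ t ∈ range k, ((qInt q (lam - t) : ℕ) : ℂ) = 0 := by
      apply prod_eq_zero (mem_range.mpr hk)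
      rw [Nat.sub_self]
      simp [qInt_zero]
    have h2 : ∏ t ∈ range k, (((qInt q lam : ℕ) : ℂ) - ((qInt q t : ℕ) : ℂ)) = 0 := by
      apply prod_eq_zero (mem_range.mpr hk)
      rw [sub_self]
    rw [h1, h2, mul_zero]

theorem six_sum_tri (n : ℕ) : 6 * ∑ j ∈ range n, (j * (j - 1) / 2) = n * (n - 1) * (n - 2) := by
  induction n with
  | zero => simp
  | succ n ih =>
    rw [sum_range_succ, mul_add, ih]
    rcases n with _ | _ | m
    · simp
    · simp
    · have e1 : m + 1 + 1 - 1 = m + 1 := rfl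
      have e2 : m + 1 + 1 - 2 = m := rfl
      have e3 : m + 1 + 1 + 1 - 1 = m + 1 + 1 := rfl
      have e4 : m + 1 + 1 + 1 - 2 = m + 1 := rfl
      rw [e1, e2, e3, e4]
      have h6 : 6 * ((m + 1 + 1) * (m + 1) / 2) = 3 * ((m + 1 + 1) * (m + 1)) := by
        obtain ⟨c, hc⟩ : 2 ∣ (m + 1 + 1) * (m + 1) := by
          have h := (Nat.even_mul_succ_self (m + 1)).two_dvd
          rw [mul_comm] at h
          exact h
        rw [hc, Nat.mul_div_cancel_left c (by norm_num : 0 < 2)]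
        ring
      rw [h6]
      ring

theorem sum_tri (n : ℕ) : ∑ j ∈ range n, (j * (j - 1) / 2) = n * (n - 1) * (n - 2) / 6 := by
  rw [← six_sum_tri n, Nat.mul_div_cancel_left _ (by norm_num : 0 < 6)]

/-- The monic polynomials `∏_{t<j} (X - {t})`. -/
noncomputable def qPoly (q : ℕ) (j : ℕ) : ℂ[X] := ∏ t ∈ range j, (X - C ((qInt q t : ℕ) : ℂ))

theorem qPoly_monic (q j : ℕ) : (qPoly q j).Monic :=
  monic_prod_of_monic _ _ (fun t _ => monic_X_sub_C _)

theorem qPoly_natDegree (q j : ℕ) : (qPoly q j).natDegree = j := by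
  unfold qPoly
  rw [natDegree_prod_of_monic _ _ (fun t _ => monic_X_sub_C _),
    sum_congr rfl (fun t _ => natDegree_X_sub_C _)]
  simp

theorem qPoly_eval (q j : ℕ) (x : ℂ) : (qPoly q j).eval x = ∏ t ∈ range j, (x - ((qInt q t : ℕ) : ℂ)) := by
  unfold qPoly
  rw [eval_prod]
  apply prod_congr rfl
  intro t _
  simp

/-- The `q`-Vandermonde evaluation of the alternating sum of falling `q`-factorials. -/
theorem qVan_sum (q n : ℕ) (lam : Fin n → ℕ) :
    (q : ℂ) ^ (n * (n - 1) * (n - 2) / 6) *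
      ∑ κ : Equiv.Perm (Fin n), ((Equiv.Perm.sign κ : ℤ) : ℂ) *
        ∏ i : Fin n, ∏ t ∈ range (κ i).val, ((qInt q (lam i - t) : ℕ) : ℂ) =
      ∏ i : Fin n, ∏ j ∈ Ioi i, (((qInt q (lam j) : ℕ) : ℂ) - ((qInt q (lam i) : ℕ) : ℂ)) := by
  have hdet := Matrix.det_eval_matrixOfPolynomials_eq_det_vandermonde
    (fun i : Fin n => ((qInt q (lam i) : ℕ) : ℂ)) (fun j : Fin n => qPoly q j.val)
    (fun j => qPoly_natDegree q j.val) (fun j => qPoly_monic q j.val)
  rw [Matrix.det_vandermonde] at hdet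
  rw [hdet, ← Matrix.det_transpose, Matrix.det_apply', mul_sum]
  apply sum_congr rfl
  intro κ _
  have hE : n * (n - 1) * (n - 2) / 6 = ∑ i : Fin n, ((κ i).val * ((κ i).val - 1) / 2) := by
    rw [← sum_tri n, ← Fin.sum_univ_eq_sum_range (fun j => j * (j - 1) / 2) n]
    exact (Equiv.sum_comp κ (fun i : Fin n => i.val * (i.val - 1) / 2)).symm
  rw [hE, ← prod_pow_eq_pow_sum, mul_left_comm, ← prod_mul_distrib]
  congr 1
  apply prod_congr rfl
  intro i _
  rw [qFall_eq, Matrix.transpose_apply, Matrix.of_apply, qPoly_eval]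

end Cfsg.Agent.Helper8
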