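import Cfsg.Agent.Helper8.LongC

set_option autoImplicit false

namespace Cfsg.Agent.Helper8

open Cfsg.Lie

/-! ### Pairs of conjugates of the highest root subgroup -/

/-- Table check: positive root elements commute with `x_r(a)`. -/
def commPosChk (D : ChevalleyDatum) (r : ℕ) : Bool :=
  Nat.blt r D.nroots && (decide (D.IsPosRoot r) &&
  allF (fun s => !(decide (D.IsPosRoot s)) || (Nat.beq s r || (D.commTerms r s).isEmpty)) (List.range D.nroots))

/-- The action of a word through a list of reflection tables. -/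
def reflWordW (W : List ℕ) (l : List ℕ) (s : ℕ) : ℕ := l.foldr (fun i s => pk (W.getD i 0) s) s

theorem reflWordW_eq (D : ChevalleyDatum) (W : List ℕ) (hW : ∀ i, i < D.rank → W.getD i 0 = wTbl D i)
    (l : List ℕ) (hl : VW D l) (s : ℕ) : reflWordW W l s = reflWordT D l s := by
  induction l with
  | nil => rfl
  | cons i l ih =>
    show pk (W.getD i 0) (reflWordW W l s) = pk (wTbl D i) (reflWordT D l s)
    rw [ih (fun j hj => hl j (List.mem_cons_of_mem _ hj)), hW i (hl i List.mem_cons_self)]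

/-- Table check for a list of pairs `(s, w)`: the first components contain `r` and are closed under the fundamental
reflections, and every `s ≠ -r` is made positive together with `r` by the word `w`; `W` lists the reflection
tables. -/
def pairChk (D : ChevalleyDatum) (r : ℕ) (W : List ℕ) (tbl : List (ℕ × List ℕ)) : Bool :=
  anyF (fun e => Nat.beq e.1 r) tbl &&
  allF (fun e => Nat.blt e.1 D.nroots &&
      (allF (fun i => anyF (fun e' => Nat.beq e'.1 (pk (W.getD i 0) e.1)) tbl) (List.range D.rank) &&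
      (allF (fun a => Nat.blt a D.rank) e.2 &&
      (Nat.beq e.1 (D.neg r) ||
        (decide (D.IsPosRoot (reflWordW W e.2 r)) && decide (D.IsPosRoot (reflWordW W e.2 e.1))))))) tbl

theorem pairChk_orbit (D : ChevalleyDatum) (hD : Std7 D) (r : ℕ) (W : List ℕ)
    (hW : ∀ i, i < D.rank → W.getD i 0 = wTbl D i) (tbl : List (ℕ × List ℕ)) (h : pairChk D r W tbl = true)
    (l : List ℕ) (hl : VW D l) : ∃ e ∈ tbl, e.1 = reflWord D l r := by
  unfold pairChk at h
  rw [Bool.and_eq_true] at h
  induction l with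
  | nil =>
    obtain ⟨e, he, h1⟩ := anyF_mem _ _ h.1
    exact ⟨e, he, Nat.eq_of_beq_eq_true h1⟩
  | cons i l ih =>
    obtain ⟨e, he, hes⟩ := ih (fun j hj => hl j (List.mem_cons_of_mem _ hj))
    have hi : i < D.rank := hl i List.mem_cons_self
    have h2 := allF_mem _ _ h.2 e he
    simp only [Bool.and_eq_true] at h2
    have hlt : e.1 < D.nroots := by
      have := h2.1
      rwa [Nat.blt_eq] at this
    have h3 := allF_mem _ _ h2.2.1 i (List.mem_range.mpr hi)
    obtain ⟨e', he', h4⟩ := anyF_mem _ _ h3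
    refine ⟨e', he', ?_⟩
    rw [Nat.eq_of_beq_eq_true h4, hW i hi, pk_wTbl D i (wCheck_sound D i (nConjOK_all D hD i hi).1).1 _ hlt, hes]
    rfl

theorem pairChk_word (D : ChevalleyDatum) (hD : Std7 D) (r : ℕ) (hr : r < D.nroots) (W : List ℕ)
    (hW : ∀ i, i < D.rank → W.getD i 0 = wTbl D i) (tbl : List (ℕ × List ℕ))
    (h : pairChk D r W tbl = true) (e : ℕ × List ℕ) (he : e ∈ tbl) :
    e.1 < D.nroots ∧ VW D e.2 ∧
      (e.1 = D.neg r ∨ (D.IsPosRoot (reflWord D e.2 r) ∧ D.IsPosRoot (reflWord D e.2 e.1))) := by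
  unfold pairChk at h
  rw [Bool.and_eq_true] at h
  have h2 := allF_mem _ _ h.2 e he
  simp only [Bool.and_eq_true] at h2
  obtain ⟨a1, -, a3, a4⟩ := h2
  have hlt : e.1 < D.nroots := by rwa [Nat.blt_eq] at a1
  have hv : VW D e.2 := by
    intro a ha
    have := allF_mem _ _ a3 a ha
    rwa [Nat.blt_eq] at this
  refine ⟨hlt, hv, ?_⟩
  rw [Bool.or_eq_true] at a4
  rcases a4 with a4 | a4
  · exact Or.inl (Nat.eq_of_beq_eq_true a4)
  · right
    rw [Bool.and_eq_true] at a4
    have p1 := of_decide_eq_true a4.1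
    have p2 := of_decide_eq_true a4.2
    rw [reflWordW_eq D W hW e.2 hv, reflWordT_eq D hD e.2 hv r hr] at p1
    rw [reflWordW_eq D W hW e.2 hv, reflWordT_eq D hD e.2 hv e.1 hlt] at p2
    exact ⟨p1, p2⟩

theorem commPos_of_long (D : ChevalleyDatum) (r i0 : ℕ) (L : List ℕ) (h : longChk D r i0 L = true) :
    commPosChk D r = true := by
  simp only [longChk, Bool.and_eq_true] at h
  obtain ⟨h1, -, h3, h4, -⟩ := h
  unfold commPosChk
  rw [h1, h3, h4]
  rfl

variable {F : Type*} [Field F]

theorem commPos_sound (D : ChevalleyDatum) (hD : Std7 D) (r : ℕ) (h : commPosChk D r = true) :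
    r < D.nroots ∧ ∀ s, D.IsPosRoot s → ∀ c a : F, D.x F s c * D.x F r a = D.x F r a * D.x F s c := by
  unfold commPosChk at h
  simp only [Bool.and_eq_true] at h
  obtain ⟨h1, h2, h3⟩ := h
  have hr : r < D.nroots := by rwa [Nat.blt_eq] at h1
  have hrp : D.IsPosRoot r := of_decide_eq_true h2
  refine ⟨hr, ?_⟩
  intro s hs c a
  by_cases hsr : s = r
  · subst hsr
    rw [Cfsg.Agent.S1023.result D hD s hs.1, Cfsg.Agent.S1023.result D hD s hs.1, add_comm]
  · have hneg : s ≠ D.neg r := by
      intro h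
      have h1 := (neg_swap D hD r hr).1 hrp
      rw [← h] at h1
      exact pos_neg_excl D hD s hs h1
    have hcm := Cfsg.Agent.S1025.result D hD r s hr hs.1 hsr hneg a c (F := F)
    have e : D.commWord F r s a c = [] := by
      unfold ChevalleyDatum.commWord
      have h4 := allF_mem _ _ h3 s (List.mem_range.mpr hs.1)
      rw [decide_eq_true hs, Bool.not_true, Bool.false_or, Bool.or_eq_true] at h4
      rcases h4 with h4 | h4
      · exact absurd (Nat.eq_of_beq_eq_true h4) hsr
      · rw [List.isEmpty_iff.mp h4]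
        rfl
    rw [e] at hcm
    have e2 : D.wordMat F ([] : List (ℕ × F)) = 1 := by simp [ChevalleyDatum.wordMat]
    rw [e2, mul_one] at hcm
    exact hcm

/-- Conjugation of a root subgroup by an element of `N`. -/
theorem rootSubgroup_map_word (D : ChevalleyDatum) (hD : Std7 D) (l : List ℕ) (hl : VW D l) (h : GL D.Idx F)
    (hh : h ∈ D.diagonalSubgroup F) (r : ℕ) (hr : r < D.nroots) :
    (D.rootSubgroup F r).map (MulAut.conj (nProdGL D F l * h)).toMonoidHom =
      D.rootSubgroup F (reflWord D l r) := by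
  obtain ⟨c, hc0, hc⟩ := word_act D hD l hl h hh r hr (F := F)
  apply le_antisymm
  · have e : D.rootSubgroup F r =
        Subgroup.closure {g : GL D.Idx F | ∃ t : F, (g : Matrix D.Idx D.Idx F) = D.x F r t} := rfl
    rw [e, MonoidHom.map_closure, Subgroup.closure_le]
    rintro _ ⟨x, ⟨t, hx⟩, rfl⟩
    have ex : x = xGL D hD F r hr t := Units.ext hx
    show nProdGL D F l * h * x * (nProdGL D F l * h)⁻¹ ∈ D.rootSubgroup F (reflWord D l r)
    rw [ex, hc t]
    exact xGL_mem_rootSubgroup D hD _ _ _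
  · have e : D.rootSubgroup F (reflWord D l r) =
        Subgroup.closure {g : GL D.Idx F | ∃ t : F, (g : Matrix D.Idx D.Idx F) = D.x F (reflWord D l r) t} := rfl
    rw [e, Subgroup.closure_le]
    rintro y ⟨b, hy⟩
    have ey : y = xGL D hD F (reflWord D l r) (reflWord_lt D hD l hl r hr) b := Units.ext hy
    rw [SetLike.mem_coe, Subgroup.mem_map]
    refine ⟨xGL D hD F r hr (c⁻¹ * b), xGL_mem_rootSubgroup D hD r hr _, ?_⟩
    show nProdGL D F l * h * xGL D hD F r hr (c⁻¹ * b) * (nProdGL D F l * h)⁻¹ = y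
    rw [hc, ey, ← mul_assoc, mul_inv_cancel₀ hc0, one_mul]

theorem conj_comp3 {G : Type*} [Group G] (a b c : G) :
    (MulAut.conj (a * b * c)).toMonoidHom =
      (MulAut.conj a).toMonoidHom.comp ((MulAut.conj b).toMonoidHom.comp (MulAut.conj c).toMonoidHom) := by
  ext x
  simp [MulAut.conj_apply, mul_assoc]

/-- The subgroup generated by the highest root subgroup and a conjugate of it is a `2`-group or is conjugate to
the subgroup generated by the highest and the lowest root subgroups. -/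
theorem root_pair (D : ChevalleyDatum) (hD : Std7 D) [Fintype F] [CharP F 2] (r : ℕ)
    (hcp : commPosChk D r = true) (W : List ℕ) (hW : ∀ i, i < D.rank → W.getD i 0 = wTbl D i)
    (tbl : List (ℕ × List ℕ)) (htbl : pairChk D r W tbl = true)
    (g : GL D.Idx F) (hg : g ∈ D.group F) :
    IsPGroup 2 ↥(D.rootSubgroup F r ⊔ (D.rootSubgroup F r).map (MulAut.conj g).toMonoidHom) ∨
    ∃ h ∈ D.group F, (D.rootSubgroup F r ⊔ (D.rootSubgroup F r).map (MulAut.conj g).toMonoidHom).map
      (MulAut.conj h).toMonoidHom = D.rootSubgroup F r ⊔ D.rootSubgroup F (D.neg r) := by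
  obtain ⟨hr, hcomm⟩ := commPos_sound D hD r hcp (F := F)
  -- `U` centralises the root subgroup
  have hUc : ∀ u ∈ D.posUnipotent F, ∀ x ∈ D.rootSubgroup F r, u * x * u⁻¹ = x := by
    intro u hu x hx
    obtain ⟨a, rfl⟩ := rootSubgroup_mem D hD r hr x hx
    have hle : D.posUnipotent F ≤ Subgroup.centralizer {xGL D hD F r hr a} := by
      unfold ChevalleyDatum.posUnipotent
      rw [Subgroup.closure_le]
      rintro y ⟨s, c, hs, hy⟩
      rw [SetLike.mem_coe, Subgroup.mem_centralizer_iff]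
      intro z hz
      rw [Set.mem_singleton_iff] at hz
      subst hz
      apply Units.ext
      rw [Units.val_mul, Units.val_mul, hy]
      exact (hcomm s hs c a).symm
    have h1 := Subgroup.mem_centralizer_iff.mp (hle hu) _ rfl
    rw [← h1]
    group
  have hUX : ∀ u ∈ D.posUnipotent F,
      (D.rootSubgroup F r).map (MulAut.conj u).toMonoidHom = D.rootSubgroup F r := by
    intro u hu
    ext y
    rw [Subgroup.mem_map]
    constructor
    · rintro ⟨x, hx, rfl⟩
      show u * x * u⁻¹ ∈ _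
      rw [hUc u hu x hx]
      exact hx
    · intro hy
      exact ⟨y, hy, hUc u hu y hy⟩
  obtain ⟨b, hb, n, hn, u, hu, rfl⟩ := bruhat_exists D hD g hg
  obtain ⟨u₁, hu₁, h₁, hh₁, rfl⟩ := mem_borel D hD b hb
  have hu' : u ∈ D.posUnipotent F := negGens_le_pos D n hu
  obtain ⟨k, l, -, hl, h, hh, hnl⟩ := monomial_word D hD (h₁ * n) (mul_mem (diagonal_le_monomial D hh₁) hn)
  have e1 : (D.rootSubgroup F r).map (MulAut.conj (u₁ * h₁ * n * u)).toMonoidHom =
      (D.rootSubgroup F (reflWord D l r)).map (MulAut.conj u₁).toMonoidHom := by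
    have e : u₁ * h₁ * n * u = u₁ * (nProdGL D F l * h) * u := by
      rw [← hnl]
      group
    rw [e, conj_comp3, ← Subgroup.map_map, ← Subgroup.map_map, hUX u hu', rootSubgroup_map_word D hD l hl h hh r hr]
  have e2 : D.rootSubgroup F r ⊔ (D.rootSubgroup F r).map (MulAut.conj (u₁ * h₁ * n * u)).toMonoidHom =
      (D.rootSubgroup F r ⊔ D.rootSubgroup F (reflWord D l r)).map (MulAut.conj u₁).toMonoidHom := by
    rw [Subgroup.map_sup, hUX u₁ hu₁, e1]
  obtain ⟨e, he, hes⟩ := pairChk_orbit D hD r W hW tbl htbl l hl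
  obtain ⟨-, hv, hcase⟩ := pairChk_word D hD r hr W hW tbl htbl e he
  rw [hes] at hcase
  rcases hcase with hneg | ⟨hp1, hp2⟩
  · right
    refine ⟨u₁⁻¹, inv_mem (posUnipotent_le_group D F hu₁), ?_⟩
    rw [e2, Subgroup.map_map, hneg]
    have e3 : (MulAut.conj u₁⁻¹).toMonoidHom.comp (MulAut.conj u₁).toMonoidHom = MonoidHom.id _ := by
      ext x
      simp [MulAut.conj_apply, mul_assoc]
    rw [e3, Subgroup.map_id]
  · left
    have hK : (D.rootSubgroup F r ⊔ D.rootSubgroup F (reflWord D l r)).map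
        (MulAut.conj (nProdGL D F e.2 * 1)).toMonoidHom ≤ D.posUnipotent F := by
      rw [Subgroup.map_sup, rootSubgroup_map_word D hD e.2 hv 1 (one_mem _) r hr,
        rootSubgroup_map_word D hD e.2 hv 1 (one_mem _) _ (reflWord_lt D hD l hl r hr)]
      exact sup_le (rootSubgroup_le_pos D _ hp1) (rootSubgroup_le_pos D _ hp2)
    have hU : IsPGroup 2 ↥(D.posUnipotent F) := by
      obtain ⟨k, -, hk⟩ := FiniteField.card F 2
      apply IsPGroup.of_card (n := (k : ℕ) * (D.nroots / 2))
      rw [Cfsg.Agent.S1027.result D hD, hk, pow_mul]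
    have hle : D.rootSubgroup F r ⊔ (D.rootSubgroup F r).map (MulAut.conj (u₁ * h₁ * n * u)).toMonoidHom ≤
        (D.posUnipotent F).map (MulAut.conj (u₁ * (nProdGL D F e.2 * 1)⁻¹)).toMonoidHom := by
      rw [e2]
      intro y hy
      obtain ⟨x, hx, rfl⟩ := Subgroup.mem_map.mp hy
      refine Subgroup.mem_map.mpr ⟨nProdGL D F e.2 * 1 * x * (nProdGL D F e.2 * 1)⁻¹,
        hK (Subgroup.mem_map_of_mem _ hx), ?_⟩
      show u₁ * (nProdGL D F e.2 * 1)⁻¹ * (nProdGL D F e.2 * 1 * x * (nProdGL D F e.2 * 1)⁻¹) *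
        (u₁ * (nProdGL D F e.2 * 1)⁻¹)⁻¹ = u₁ * x * u₁⁻¹
      group
    exact (hU.map _).to_le hle

end Cfsg.Agent.Helper8
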