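import Mathlib
import Cfsg.Agent.Helper8.SyD

set_option autoImplicit false

namespace Cfsg.Agent.Helper8

open Equiv Function

variable {α : Type*} [DecidableEq α] [Fintype α]

/-- a conjugation-stable family of commuting involutions lies in the unique Sylow subgroup -/
theorem sy_family_mem {x : Perm α} (hx : IsPGroup 2 (Subgroup.zpowers x))
    (P : Sylow 2 (Perm α)) (huniq : ∀ Q : Sylow 2 (Perm α), x ∈ Q → Q = P) (T : Set (Perm α))
    (hsq : ∀ t ∈ T, t * t = 1) (hcomm : ∀ s ∈ T, ∀ t ∈ T, s * t = t * s)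
    (hconj : ∀ t ∈ T, x * t * x⁻¹ ∈ T) : ∀ t ∈ T, t ∈ P := by
  set E := Subgroup.closure T with hE
  have hTc : T ⊆ Subgroup.centralizer T := by
    intro s hs
    rw [SetLike.mem_coe, Subgroup.mem_centralizer_iff]
    intro t ht
    exact hcomm t ht s hs
  have hEc : E ≤ Subgroup.centralizer T := (Subgroup.closure_le _).mpr hTc
  have hEE : E ≤ Subgroup.centralizer (E : Set (Perm α)) :=
    (Subgroup.closure_le_centralizer_centralizer T).trans
      (Subgroup.centralizer_le (fun y hy => hEc hy))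
  have hsq' : ∀ g ∈ E, g * g = 1 := by
    intro g hg
    refine Subgroup.closure_induction (p := fun g _ => g * g = 1) ?_ ?_ ?_ ?_ hg
    · intro t ht; exact hsq t ht
    · simp
    · intro g h hg hh ihg ihh
      have hc : h * g = g * h := (Subgroup.mem_centralizer_iff.mp (hEE hg)) h hh
      calc g * h * (g * h) = g * (h * g) * h := by group
        _ = g * (g * h) * h := by rw [hc]
        _ = (g * g) * (h * h) := by group
        _ = 1 := by rw [ihg, ihh, one_mul]
    · intro g hg ih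
      rw [← mul_inv_rev, ih, inv_one]
  have hE2 : IsPGroup 2 E := by
    intro g
    refine ⟨1, Subtype.ext ?_⟩
    simp only [pow_one, Subgroup.coe_pow, Subgroup.coe_one, pow_two]
    exact hsq' g.1 g.2
  have hpow : ∀ k : ℕ, ∀ t ∈ T, x ^ k * t * (x ^ k)⁻¹ ∈ T := by
    intro k
    induction k with
    | zero => intro t ht; simpa using ht
    | succ k ih =>
      intro t ht
      have := hconj _ (ih t ht)
      have e : x ^ (k + 1) * t * (x ^ (k + 1))⁻¹ = x * (x ^ k * t * (x ^ k)⁻¹) * x⁻¹ := by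
        rw [pow_succ']; group
      rw [e]; exact this
  have hinv : ∀ t ∈ T, x⁻¹ * t * x ∈ T := by
    intro t ht
    have h1 : x ^ (orderOf x - 1) = x⁻¹ := by
      apply eq_inv_of_mul_eq_one_left
      rw [← pow_succ, Nat.sub_add_cancel (orderOf_pos x), pow_orderOf_eq_one]
    have := hpow (orderOf x - 1) t ht
    rw [h1, inv_inv] at this
    exact this
  have hclos : ∀ (y : Perm α), (∀ t ∈ T, y * t * y⁻¹ ∈ E) → ∀ g ∈ E, y * g * y⁻¹ ∈ E := by
    intro y hy g hg
    refine Subgroup.closure_induction (p := fun g _ => y * g * y⁻¹ ∈ E) ?_ ?_ ?_ ?_ hg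
    · intro t ht; exact hy t ht
    · simp
    · intro g h _ _ ihg ihh
      have : y * (g * h) * y⁻¹ = (y * g * y⁻¹) * (y * h * y⁻¹) := by group
      rw [this]; exact E.mul_mem ihg ihh
    · intro g _ ih
      have : y * g⁻¹ * y⁻¹ = (y * g * y⁻¹)⁻¹ := by group
      rw [this]; exact E.inv_mem ih
  have hnorm : x ∈ Subgroup.normalizer (E : Set (Perm α)) := by
    rw [Subgroup.mem_normalizer_iff]
    intro h
    constructor
    · intro hh
      exact hclos x (fun t ht => Subgroup.subset_closure (hconj t ht)) h hh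
    · intro hh
      have := hclos x⁻¹ (fun t ht => by
        rw [inv_inv]; exact Subgroup.subset_closure (hinv t ht)) (x * h * x⁻¹) hh
      simpa [mul_assoc] using this
  have hEP := sy_le_of_unique hx P huniq hE2 hnorm
  intro t ht
  exact hEP (Subgroup.subset_closure ht)

theorem sy_orb_card {D : Subgroup (Perm α)} (hD : IsPGroup 2 D) (a : α) :
    ∃ m, (orb D a).card = 2 ^ m := by
  haveI : Fact (Nat.Prime 2) := ⟨Nat.prime_two⟩
  obtain ⟨m, hm⟩ := hD.card_orbit (α := α) a
  refine ⟨m, ?_⟩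
  have hset : (MulAction.orbit D a) = ((orb D a : Finset α) : Set α) := by
    ext b
    simp only [Finset.mem_coe, mem_orb, MulAction.mem_orbit_iff]
    constructor
    · rintro ⟨g, rfl⟩; exact ⟨g.1, g.2, rfl⟩
    · rintro ⟨g, hg, rfl⟩; exact ⟨⟨g, hg⟩, rfl⟩
  rw [hset] at hm
  rw [← hm, Nat.card_coe_set_eq, Set.ncard_coe_finset]

theorem sy_per_eq {x : Perm α} (hg : Good2 x Finset.univ)
    (hfix : ∀ a b, x a = a → x b = b → a = b) {D : Subgroup (Perm α)} (hD : IsPGroup 2 D)
    (hxD : x ∈ D) {g : Perm α} (hgD : g ∈ D) (a : α) : pper x (g a) = pper x a := by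
  set O := orb D a with hO
  obtain ⟨m, hm⟩ := sy_orb_card hD a
  have hOx : ∀ c ∈ O, x c ∈ O := fun c hc => orb_inv hxD hc
  obtain ⟨e, a', ha', hpa', hmax, hle, hub⟩ :=
    sy_key1 (hg.mono (Finset.subset_univ O)) hOx ⟨a, orb_self a⟩
  have hf1 : (O.filter (fun c => pper x c = 1)).card ≤ 1 := by
    rw [Finset.card_le_one]
    intro c hc d hd
    rw [Finset.mem_filter] at hc hd
    exact hfix c d ((pper_eq_one x c).mp hc.2) ((pper_eq_one x d).mp hd.2)
  have hme : m = e := by
    have hm' : O.card = 2 ^ m := hm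
    rw [hm'] at hle hub
    have hp1 : 2 ^ (e + 1) = 2 * 2 ^ e := by ring
    have hp2 : 2 ^ (m + 1) = 2 * 2 ^ m := by ring
    have h1 : 2 ^ e < 2 ^ (m + 1) := by omega
    have h2 : 2 ^ m < 2 ^ (e + 1) := by omega
    have h1' := (Nat.pow_lt_pow_iff_right (by norm_num : 1 < 2)).mp h1
    have h2' := (Nat.pow_lt_pow_iff_right (by norm_num : 1 < 2)).mp h2
    omega
  subst hme
  have hcard := sy_orbit_card_le hOx ha'
  have hcard' : O.card ≤ (O.filter (fun c => pper x c = pper x a')).card := by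
    rw [hO, hm, ← hpa']; exact hcard
  have hfil : O.filter (fun c => pper x c = pper x a') = O :=
    Finset.eq_of_subset_of_card_le (Finset.filter_subset _ _) hcard'
  have hall : ∀ c ∈ O, pper x c = pper x a' := by
    intro c hc
    rw [← hfil] at hc
    exact (Finset.mem_filter.mp hc).2
  rw [hall (g a) (mem_orb.mpr ⟨g, hgD, rfl⟩), hall a (orb_self a)]

theorem sy_same_orbit {x : Perm α} (hg : Good2 x Finset.univ) {a b : α}
    (hp : pper x a = pper x b) (hne : x a ≠ a) : ∃ i : ℤ, (x ^ i) a = b := by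
  by_contra hcon
  push_neg at hcon
  set D := Subgroup.zpowers x with hD
  have hxD : x ∈ D := Subgroup.mem_zpowers x
  have hb : b ∉ orb D a := by
    intro h
    obtain ⟨m, hm, rfl⟩ := mem_orb.mp h
    obtain ⟨i, rfl⟩ := Subgroup.mem_zpowers_iff.mp hm
    exact hcon i rfl
  obtain ⟨j, hj⟩ := hg.1 a (Finset.mem_univ a)
  have hj1 : 1 ≤ j := by
    rcases Nat.eq_zero_or_pos j with h0 | h0
    · subst h0
      exact absurd ((pper_eq_one x a).mp (by simpa using hj)) hne
    · exact h0
  exact sy_two_orbits hg (Finset.subset_univ _) (Finset.subset_univ _)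
    (fun c hc => orb_inv hxD hc) (fun c hc => orb_inv hxD hc) (orb_disjoint hb)
    (orb_self a) (orb_self b) hj1 hj (hp ▸ hj)

/-- the half-period map -/
noncomputable def syf (x : Perm α) (b : α) : α := (x ^ (pper x b / 2)) b

theorem pper_pow (x : Perm α) (k : ℕ) (b : α) : pper x ((x ^ k) b) = pper x b := by
  unfold pper
  rw [← Perm.iterate_eq_pow]
  exact Function.minimalPeriod_apply_iterate (pper_periodic x b) k

theorem pper_pow_self (x : Perm α) (b : α) : (x ^ (pper x b)) b = b := by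
  have := Function.isPeriodicPt_minimalPeriod (⇑x) b
  unfold pper
  rw [← Perm.iterate_eq_pow]
  exact this

theorem syf_invol {x : Perm α} (h : ∀ a, ∃ j, pper x a = 2 ^ j) :
    Function.Involutive (syf x) := by
  intro b
  unfold syf
  rw [pper_pow]
  obtain ⟨j, hj⟩ := h b
  rcases Nat.eq_zero_or_pos j with h0 | h0
  · subst h0
    rw [hj]; simp
  · have : pper x b / 2 + pper x b / 2 = pper x b := by
      rw [hj]
      obtain ⟨i, rfl⟩ : ∃ i, j = i + 1 := ⟨j - 1, by omega⟩
      rw [pow_succ]; omega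
    rw [← Perm.mul_apply, ← pow_add, this, pper_pow_self]

/-- the half-period involution -/
noncomputable def syz (x : Perm α) (h : ∀ a, ∃ j, pper x a = 2 ^ j) : Perm α :=
  (syf_invol h).toPerm

theorem syz_apply {x : Perm α} (h : ∀ a, ∃ j, pper x a = 2 ^ j) (b : α) :
    syz x h b = (x ^ (pper x b / 2)) b := rfl

theorem syz_invol {x : Perm α} (h : ∀ a, ∃ j, pper x a = 2 ^ j) (b : α) :
    syz x h (syz x h b) = b := syf_invol h b

theorem syz_sq {x : Perm α} (h : ∀ a, ∃ j, pper x a = 2 ^ j) : syz x h * syz x h = 1 := by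
  ext b; exact syf_invol h b

theorem syz_comm {x : Perm α} (h : ∀ a, ∃ j, pper x a = 2 ^ j) : x * syz x h = syz x h * x := by
  ext b
  simp only [Perm.mul_apply, syz_apply, pper_apply]
  rw [← Perm.mul_apply, ← Perm.mul_apply, ← pow_succ, ← pow_succ']

theorem syz_comm_apply {x : Perm α} (h : ∀ a, ∃ j, pper x a = 2 ^ j) (b : α) :
    syz x h (x b) = x (syz x h b) := by
  have := congrArg (fun f => f b) (syz_comm h)
  simpa using this.symm

theorem syz_pper {x : Perm α} (h : ∀ a, ∃ j, pper x a = 2 ^ j) (b : α) :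
    pper x (syz x h b) = pper x b := pper_pow x _ b

theorem syz_ne {x : Perm α} (h : ∀ a, ∃ j, pper x a = 2 ^ j) {b : α} (hb : x b ≠ b) :
    syz x h b ≠ b := by
  intro hz
  rw [syz_apply] at hz
  obtain ⟨j, hj⟩ := h b
  have hj1 : 1 ≤ j := by
    rcases Nat.eq_zero_or_pos j with h0 | h0
    · subst h0
      exact absurd ((pper_eq_one x b).mp (by simpa using hj)) hb
    · exact h0
  obtain ⟨i, rfl⟩ : ∃ i, j = i + 1 := ⟨j - 1, by omega⟩
  have h2 : 0 < 2 ^ i := Nat.two_pow_pos i
  have hpos : 0 < pper x b / 2 := by rw [hj, pow_succ]; omega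
  have hper : Function.IsPeriodicPt (⇑x) (pper x b / 2) b := by
    show (⇑x)^[_] b = b
    rw [Perm.iterate_eq_pow]; exact hz
  have hle : pper x b ≤ pper x b / 2 := Function.IsPeriodicPt.minimalPeriod_le hpos hper
  omega

theorem syz_mem {x : Perm α} (hx : IsPGroup 2 (Subgroup.zpowers x))
    (P : Sylow 2 (Perm α)) (huniq : ∀ Q : Sylow 2 (Perm α), x ∈ Q → Q = P)
    (h : ∀ a, ∃ j, pper x a = 2 ^ j) : syz x h ∈ P := by
  refine sy_family_mem hx P huniq {syz x h} ?_ ?_ ?_ _ rfl
  · rintro t rfl; exact syz_sq h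
  · rintro s rfl t rfl; rfl
  · rintro t rfl
    rw [Set.mem_singleton_iff, syz_comm h]; group

theorem sy_ng {G : Type*} [Group G] [Finite G] {P : Subgroup G} (hP : IsPGroup 2 P)
    (H : Subgroup G)
    (h : ∀ g ∈ P, (∀ q, q ∈ P ⊓ H ↔ g * q * g⁻¹ ∈ P ⊓ H) → g ∈ H) : P ≤ H := by
  haveI : Fact (Nat.Prime 2) := ⟨Nat.prime_two⟩
  set D := P ⊓ H with hDdef
  have hDP : D ≤ P := inf_le_left
  by_contra hcon
  have hne : D ≠ P := fun h' => hcon (h' ▸ inf_le_right)
  haveI : Group.IsNilpotent P := hP.isNilpotent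
  have hlt : D.subgroupOf P < ⊤ := by
    rw [lt_top_iff_ne_top]
    intro h'
    rw [Subgroup.subgroupOf_eq_top] at h'
    exact hne (le_antisymm hDP h')
  have := Group.normalizerCondition_of_isNilpotent (G := P) (D.subgroupOf P) hlt
  obtain ⟨r, hr1, hr2⟩ := SetLike.exists_of_lt this
  have hrH : r.1 ∈ H := by
    refine h r.1 r.2 ?_
    rw [Subgroup.mem_normalizer_iff] at hr1
    intro q
    constructor
    · intro hh
      have := (hr1 ⟨q, hDP hh⟩).mp (Subgroup.mem_subgroupOf.mpr hh)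
      exact Subgroup.mem_subgroupOf.mp this
    · intro hh
      have hqP : q ∈ P := by
        have h1 : r.1 * q * r.1⁻¹ ∈ P := hDP hh
        have := P.mul_mem (P.mul_mem (P.inv_mem r.2) h1) r.2
        simpa [mul_assoc] using this
      have := (hr1 ⟨q, hqP⟩).mpr (Subgroup.mem_subgroupOf.mpr hh)
      exact Subgroup.mem_subgroupOf.mp this
  exact hr2 (Subgroup.mem_subgroupOf.mpr ⟨r.2, hrH⟩)

theorem sy_cent {x : Perm α} (hg : Good2 x Finset.univ) (hnf : ∀ a, x a ≠ a)
    (hx : IsPGroup 2 (Subgroup.zpowers x)) (P : Sylow 2 (Perm α)) (hxP : x ∈ P)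
    (huniq : ∀ Q : Sylow 2 (Perm α), x ∈ Q → Q = P) (h : ∀ a, ∃ j, pper x a = 2 ^ j) :
    ∀ g ∈ P, g * syz x h = syz x h * g := by
  set z := syz x h with hz
  have hfix : ∀ a b, x a = a → x b = b → a = b := fun a _ ha _ => absurd ha (hnf a)
  have hzP : z ∈ P := syz_mem hx P huniq h
  let H : Subgroup (Perm α) := Subgroup.centralizer {z}
  have hH : ∀ g, g ∈ H ↔ g * z = z * g := by
    intro g
    show g ∈ Subgroup.centralizer {z} ↔ _
    rw [Subgroup.mem_centralizer_iff]
    constructor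
    · intro h'; exact (h' z rfl).symm
    · rintro h' _ rfl; exact h'.symm
  have key : (P : Subgroup (Perm α)) ≤ H := by
    refine sy_ng P.2 H ?_
    intro g hgP hnorm
    rw [hH]
    have hzQ : z ∈ (P : Subgroup (Perm α)) ⊓ H := ⟨hzP, (hH z).mpr rfl⟩
    have hxQ : x ∈ (P : Subgroup (Perm α)) ⊓ H := ⟨hxP, (hH x).mpr (syz_comm h)⟩
    have hz' := (hnorm z).mp hzQ
    have hx' : g⁻¹ * x * g ∈ (P : Subgroup (Perm α)) ⊓ H := by
      rw [hnorm]
      have : g * (g⁻¹ * x * g) * g⁻¹ = x := by group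
      rw [this]; exact hxQ
    set z' := g * z * g⁻¹ with hz'def
    have hc : z' * x = x * z' := by
      have h1 := (hH _).mp hx'.2
      calc z' * x = g * (z * (g⁻¹ * x * g)) * g⁻¹ := by rw [hz'def]; group
        _ = g * ((g⁻¹ * x * g) * z) * g⁻¹ := by rw [h1]
        _ = x * z' := by rw [hz'def]; group
    have hz'P : z' ∈ P := hz'.1
    have hsq : z' * z' = 1 := by
      rw [hz'def]
      calc g * z * g⁻¹ * (g * z * g⁻¹) = g * (z * z) * g⁻¹ := by group
        _ = 1 := by rw [hz, syz_sq h]; group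
    have hnf' : ∀ b, z' b ≠ b := by
      intro b hb
      rw [hz'def] at hb
      simp only [Perm.mul_apply] at hb
      have : z (g⁻¹ b) = g⁻¹ b := by
        rw [Perm.eq_inv_iff_eq]; exact hb
      exact syz_ne h (hnf _) this
    have heq : z' = z := by
      ext b
      have hper : pper x (z' b) = pper x b := sy_per_eq hg hfix P.2 hxP hz'P b
      obtain ⟨i, hi⟩ := sy_same_orbit hg hper.symm (hnf b)
      obtain ⟨j, hj⟩ := h b
      have hj1 : 1 ≤ j := by
        rcases Nat.eq_zero_or_pos j with h0 | h0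
        · subst h0
          exact absurd ((pper_eq_one x b).mp (by simpa using hj)) (hnf b)
        · exact h0
      obtain ⟨j', rfl⟩ : ∃ j', j = j' + 1 := ⟨j - 1, by omega⟩
      have hdvd : ∀ k : ℤ, (x ^ k) b = b ↔ ((2 : ℤ) ^ (j' + 1)) ∣ k := by
        intro k
        have := MulAction.zpow_smul_eq_iff_period_dvd (g := x) (a := b) (j := k)
        rw [Perm.smul_def] at this
        rw [this]
        have hp : MulAction.period x b = pper x b := rfl
        rw [hp, hj]; push_cast; rfl
      have h2i : (x ^ (i + i)) b = b := by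
        rw [zpow_add, Perm.mul_apply, hi]
        have hcomm : (x ^ i) (z' b) = z' ((x ^ i) b) := by
          have : x ^ i * z' = z' * x ^ i :=
            ((Commute.zpow_right (show Commute z' x from hc) i).eq).symm
          rw [← Perm.mul_apply, this, Perm.mul_apply]
        rw [hcomm, hi]
        have := congrArg (fun f => f b) hsq
        simpa using this
      have hi1 : ¬ ((2 : ℤ) ^ (j' + 1)) ∣ i := by
        rw [← hdvd, hi]; exact hnf' b
      have hi2 := (hdvd _).mp h2i
      obtain ⟨t, ht⟩ : ((2 : ℤ) ^ j') ∣ i := by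
        have : (2 : ℤ) ^ (j' + 1) ∣ 2 * i := by rw [two_mul]; exact hi2
        rw [pow_succ, mul_comm] at this
        exact (mul_dvd_mul_iff_left (by norm_num : (2 : ℤ) ≠ 0)).mp this
      have htodd : ¬ (2 : ℤ) ∣ t := by
        rintro ⟨s, rfl⟩
        apply hi1
        rw [ht, pow_succ]
        exact ⟨s, by ring⟩
      obtain ⟨s, hs⟩ : ∃ s, t = 2 * s + 1 := ⟨t / 2, by omega⟩
      have hi3 : i = ((2 ^ j' : ℕ) : ℤ) + 2 ^ (j' + 1) * s := by
        rw [ht, hs]; push_cast; ring
      have e : 2 ^ (j' + 1) / 2 = 2 ^ j' := by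
        rw [pow_succ]; exact Nat.mul_div_cancel _ (by norm_num)
      rw [← hi, hi3, zpow_add, Perm.mul_apply, (hdvd _).mpr (dvd_mul_right _ _)]
      rw [zpow_natCast, hz, syz_apply, hj, e]
    rw [hz'def] at heq
    calc g * z = (g * z * g⁻¹) * g := by group
      _ = z * g := by rw [heq]
  intro g hgP
  exact (hH g).mp (key hgP)

end Cfsg.Agent.Helper8
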