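import Mathlib
import Cfsg.Agent.Helper8.SyE

set_option autoImplicit false

namespace Cfsg.Agent.Helper8

open Equiv Function
open scoped Pointwise

/-- multiset of distinct powers of two (at least 2) with sum `n` or `n - 1` -/
theorem sy_binary (n : ℕ) : ∃ m : Multiset ℕ, m.Nodup ∧
    (∀ c ∈ m, ∃ j, 1 ≤ j ∧ c = 2 ^ j ∧ c ≤ n) ∧ (m.sum = n ∨ m.sum + 1 = n) := by
  induction n using Nat.strong_induction_on with
  | _ n ih =>
  rcases Nat.lt_or_ge n 2 with h | h
  · refine ⟨0, Multiset.nodup_zero, by simp, ?_⟩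
    simp only [Multiset.sum_zero]; omega
  · set j := Nat.log 2 n with hj
    have h1 : 2 ^ j ≤ n := Nat.pow_log_le_self 2 (by omega)
    have h2 : n < 2 ^ (j + 1) := Nat.lt_pow_succ_log_self (by norm_num) n
    have hj1 : 1 ≤ j := by
      by_contra hc
      have : j = 0 := by omega
      rw [this] at h2; simp at h2; omega
    have hp : 2 ^ (j + 1) = 2 * 2 ^ j := by ring
    obtain ⟨m, hnd, hm, hs⟩ := ih (n - 2 ^ j) (by have := Nat.two_pow_pos j; omega)
    refine ⟨2 ^ j ::ₘ m, ?_, ?_, ?_⟩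
    · rw [Multiset.nodup_cons]
      refine ⟨fun hmem => ?_, hnd⟩
      obtain ⟨_, _, _, hle⟩ := hm _ hmem
      omega
    · intro c hc
      rw [Multiset.mem_cons] at hc
      rcases hc with rfl | hc
      · exact ⟨j, hj1, rfl, h1⟩
      · obtain ⟨i, hi1, hi2, hi3⟩ := hm c hc
        exact ⟨i, hi1, hi2, by omega⟩
    · rw [Multiset.sum_cons]; omega

theorem sy_zpowers_pgroup {G : Type*} [Group G] {x : G} {k : ℕ} (h : orderOf x = 2 ^ k) :
    IsPGroup 2 (Subgroup.zpowers x) :=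
  IsPGroup.of_card (n := k) (by rw [Nat.card_zpowers, h])

theorem sy_setup (n : ℕ) (P : Sylow 2 (Perm (Fin n))) :
    ∃ x : Perm (Fin n), x ∈ P ∧ Good2 x Finset.univ ∧ (∀ a b, x a = a → x b = b → a = b) ∧
      IsPGroup 2 (Subgroup.zpowers x) ∧ (∀ Q : Sylow 2 (Perm (Fin n)), x ∈ Q → Q = P) := by
  haveI : Fact (Nat.Prime 2) := ⟨Nat.prime_two⟩
  obtain ⟨m, hnd, hm, hs⟩ := sy_binary n
  obtain ⟨x₀, hx₀⟩ := (Equiv.Perm.exists_with_cycleType_iff (α := Fin n) (m := m)).mpr
    ⟨by simp only [Fintype.card_fin]; omega, by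
      intro c hc
      obtain ⟨j, hj1, rfl, _⟩ := hm c hc
      calc 2 = 2 ^ 1 := by norm_num
        _ ≤ 2 ^ j := Nat.pow_le_pow_right (by norm_num) hj1⟩
  have hord : ∀ y : Perm (Fin n), y.cycleType = m → ∃ k, orderOf y = 2 ^ k := by
    intro y hy
    have : orderOf y ∣ 2 ^ n := by
      rw [← Equiv.Perm.lcm_cycleType, hy, Multiset.lcm_dvd]
      intro c hc
      obtain ⟨j, _, rfl, hle⟩ := hm c hc
      exact pow_dvd_pow 2 (by have := Nat.lt_two_pow_self (n := j); omega)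
    obtain ⟨k, _, hk⟩ := (Nat.dvd_prime_pow Nat.prime_two).mp this
    exact ⟨k, hk⟩
  obtain ⟨k₀, hk₀⟩ := hord x₀ hx₀
  obtain ⟨Q₀, hQ₀⟩ := (sy_zpowers_pgroup hk₀).exists_le_sylow
  obtain ⟨g, hg⟩ := MulAction.exists_smul_eq (Perm (Fin n)) Q₀ P
  set x := g * x₀ * g⁻¹ with hxdef
  have hxP : x ∈ P := by
    have h1 : MulAut.conj g • x₀ ∈ MulAut.conj g • (Q₀ : Subgroup (Perm (Fin n))) :=
      Subgroup.smul_mem_pointwise_smul _ _ _ (hQ₀ (Subgroup.mem_zpowers x₀))
    rw [← Sylow.coe_subgroup_smul, hg] at h1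
    have h3 : g * x₀ * g⁻¹ ∈ (P : Subgroup (Perm (Fin n))) := by
      simpa [MulAut.smul_def] using h1
    exact h3
  have hct : x.cycleType = m := by rw [hxdef, Equiv.Perm.cycleType_conj, hx₀]
  obtain ⟨k, hk⟩ := hord x hct
  have hsupp : x.support.card = m.sum := by rw [← Equiv.Perm.sum_cycleType, hct]
  have hgood : Good2 x Finset.univ := by
    refine sy_good_of hk ?_ (hct ▸ hnd)
    simp only [Fintype.card_fin]; omega
  have hx2 := sy_zpowers_pgroup hk
  refine ⟨x, hxP, hgood, ?_, hx2, ?_⟩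
  · intro a b ha hb
    by_contra hab
    have h2 : 2 ≤ n := by
      have : Nontrivial (Fin n) := ⟨a, b, hab⟩
      exact Fin.nontrivial_iff_two_le.mp this
    have hsub : x.support ⊆ (Finset.univ.erase a).erase b := by
      intro c hc
      rw [Finset.mem_erase, Finset.mem_erase]
      refine ⟨?_, ?_, Finset.mem_univ _⟩
      · rintro rfl; exact (Perm.mem_support.mp hc) hb
      · rintro rfl; exact (Perm.mem_support.mp hc) ha
    have hc := Finset.card_le_card hsub
    rw [Finset.card_erase_of_mem (by simp [Ne.symm hab]), Finset.card_erase_of_mem (Finset.mem_univ _),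
      Finset.card_univ, Fintype.card_fin] at hc
    omega
  · obtain ⟨P', hP', huq⟩ := unique_sylow_of_good hgood hx2
    intro Q hQ
    exact (huq Q hQ).trans (huq P hxP).symm

theorem sy_alt_link (n : ℕ) (R : Sylow 2 ↥(alternatingGroup (Fin n))) :
    ∃ P : Sylow 2 (Perm (Fin n)), (∀ r ∈ R, (r : Perm (Fin n)) ∈ P) ∧
      ∀ g (hg : g ∈ alternatingGroup (Fin n)), g ∈ P →
        (⟨g, hg⟩ : alternatingGroup (Fin n)) ∈ R := by
  haveI : Fact (Nat.Prime 2) := ⟨Nat.prime_two⟩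
  have h2 : IsPGroup 2 ((R : Subgroup (alternatingGroup (Fin n))).map
      (alternatingGroup (Fin n)).subtype) := R.2.map _
  obtain ⟨P, hP⟩ := h2.exists_le_sylow
  refine ⟨P, fun r hr => hP (Subgroup.mem_map_of_mem _ hr), ?_⟩
  intro g hg hgP
  set Q : Subgroup (alternatingGroup (Fin n)) :=
    (P : Subgroup (Perm (Fin n))).subgroupOf (alternatingGroup (Fin n)) with hQ
  have hQ2 : IsPGroup 2 Q := P.2.comap_subtype
  have hRQ : (R : Subgroup (alternatingGroup (Fin n))) ≤ Q := fun r hr =>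
    Subgroup.mem_subgroupOf.mpr (hP (Subgroup.mem_map_of_mem _ hr))
  have := R.is_maximal' hQ2 hRQ
  have hmem : (⟨g, hg⟩ : alternatingGroup (Fin n)) ∈ Q := Subgroup.mem_subgroupOf.mpr hgP
  rw [this] at hmem; exact hmem

variable {α : Type*} [DecidableEq α] [Fintype α]

theorem sy_exists_notMem (S : Finset α) (h : S.card < Fintype.card α) : ∃ c, c ∉ S := by
  by_contra hc
  push Not at hc
  have : S = Finset.univ := Finset.eq_univ_iff_forall.mpr hc
  rw [this, Finset.card_univ] at h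
  exact lt_irrefl _ h

/-- permutations preserving the relation "same side of `O`" -/
def sySide (O : Finset α) : Subgroup (Perm α) where
  carrier := {g | ∀ a b, (g a ∈ O ↔ g b ∈ O) ↔ (a ∈ O ↔ b ∈ O)}
  mul_mem' := by
    intro g h hg hh a b
    simp only [Perm.mul_apply]
    rw [hg, hh]
  one_mem' := by intro a b; rfl
  inv_mem' := by
    intro g hg a b
    have := hg (g⁻¹ a) (g⁻¹ b)
    rw [show g (g⁻¹ a) = a from Equiv.apply_symm_apply g a,
      show g (g⁻¹ b) = b from Equiv.apply_symm_apply g b] at this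
    exact this.symm

theorem mem_sySide {O : Finset α} {g : Perm α} :
    g ∈ sySide O ↔ ∀ a b, (g a ∈ O ↔ g b ∈ O) ↔ (a ∈ O ↔ b ∈ O) := Iff.rfl

theorem sy_rot {a b c : α} (hab : a ≠ b) (hbc : b ≠ c) (hac : a ≠ c) :
    swap a b * swap b c = swap c a * swap a b := by
  rw [Equiv.mul_swap_eq_swap_mul, Equiv.swap_apply_right,
    Equiv.swap_apply_of_ne_of_ne hac.symm hbc.symm, Equiv.swap_comm a c]

theorem sy_swap_in {s : Set α} {a b : α} (ha : a ∈ s) (hb : b ∈ s) (y : α) :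
    swap a b y ∈ s ↔ y ∈ s := by
  by_cases h1 : y = a
  · subst h1; rw [Equiv.swap_apply_left]; exact ⟨fun _ => ha, fun _ => hb⟩
  · by_cases h2 : y = b
    · subst h2; rw [Equiv.swap_apply_right]; exact ⟨fun _ => hb, fun _ => ha⟩
    · rw [Equiv.swap_apply_of_ne_of_ne h1 h2]

theorem sy_swap_out {s : Set α} {a b : α} (ha : a ∉ s) (hb : b ∉ s) (y : α) :
    swap a b y ∈ s ↔ y ∈ s := by
  by_cases h1 : y = a
  · subst h1; rw [Equiv.swap_apply_left]; exact ⟨fun h => absurd h hb, fun h => absurd h ha⟩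
  · by_cases h2 : y = b
    · subst h2; rw [Equiv.swap_apply_right]; exact ⟨fun h => absurd h ha, fun h => absurd h hb⟩
    · rw [Equiv.swap_apply_of_ne_of_ne h1 h2]

theorem sy_sign_two {a b c d : α} (hab : a ≠ b) (hcd : c ≠ d) :
    swap a b * swap c d ∈ alternatingGroup α := by
  rw [Equiv.Perm.mem_alternatingGroup, map_mul, Equiv.Perm.sign_swap hab, Equiv.Perm.sign_swap hcd]
  rfl

/-- z-pair swaps lie in the Sylow subgroup -/
theorem sy_zswap_mem {x : Perm α} (hx : IsPGroup 2 (Subgroup.zpowers x))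
    (P : Sylow 2 (Perm α)) (huniq : ∀ Q : Sylow 2 (Perm α), x ∈ Q → Q = P)
    (h : ∀ a, ∃ j, pper x a = 2 ^ j) (c : α) : swap c (syz x h c) ∈ P := by
  set z := syz x h with hz
  refine sy_family_mem hx P huniq {t | ∃ c, t = swap c (z c)} ?_ ?_ ?_ _ ⟨c, rfl⟩
  · rintro _ ⟨c, rfl⟩; exact Equiv.swap_mul_self _ _
  · rintro _ ⟨c, rfl⟩ _ ⟨d, rfl⟩
    by_cases h1 : d = c
    · subst h1; rfl
    · by_cases h2 : d = z c
      · subst h2
        rw [hz, syz_invol h c, Equiv.swap_comm (syz x h c) c]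
      · have h3 : z d ≠ c := fun h' => h2 (by rw [← h', hz, syz_invol h d])
        have h4 : z d ≠ z c := fun h' => h1 (z.injective h')
        exact sy_swap_comm (Ne.symm h1) (Ne.symm h3) (Ne.symm h2) (Ne.symm h4)
  · rintro _ ⟨c, rfl⟩
    refine ⟨x c, ?_⟩
    rw [← Equiv.swap_apply_apply, hz, syz_comm_apply h c]

/-- the double z-swap commutes with z -/
theorem sy_dswap_comm {z : Perm α} (hz : ∀ b, z (z b) = b) {u v : α} (h1 : u ≠ z u)
    (h2 : u ≠ z v) (h3 : v ≠ z u) (h4 : v ≠ z v) :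
    (swap u v * swap (z u) (z v)) * z = z * (swap u v * swap (z u) (z v)) := by
  rw [← mul_assoc z, Equiv.mul_swap_eq_swap_mul z u v, mul_assoc (swap (z u) (z v)) z,
    Equiv.mul_swap_eq_swap_mul z (z u) (z v), hz, hz, ← mul_assoc,
    sy_swap_comm h1 h2 h3 h4]

theorem sy_cent_witness {z : Perm α} (hz : ∀ b, z (z b) = b) {u v : α} (h1 : z u ≠ u)
    (h2 : v ≠ u) (h3 : v ≠ z u) :
    ∃ g ∈ alternatingGroup α, ¬ (g * z = z * g) := by
  refine ⟨swap u v * swap u (z u), sy_sign_two (Ne.symm h2) (Ne.symm h1), fun hc => ?_⟩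
  have := congrArg (fun f => f u) hc
  simp only [Perm.mul_apply, Equiv.swap_apply_right, Equiv.swap_apply_left] at this
  rw [Equiv.swap_apply_of_ne_of_ne h1 (Ne.symm h3), hz] at this
  exact h2 this

theorem sy_gen (N : Subgroup ↥(alternatingGroup α))
    (h : ∀ σ : Perm α, σ.IsThreeCycle → σ ∈ N.map (alternatingGroup α).subtype) : N = ⊤ := by
  have h0 : alternatingGroup α = Subgroup.closure {σ : Perm α | σ.IsThreeCycle} :=
    (Equiv.Perm.closure_three_cycles_eq_alternating).symm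
  have h1 : alternatingGroup α ≤ N.map (alternatingGroup α).subtype := by
    intro g hg
    rw [h0] at hg
    exact (Subgroup.closure_le _).mpr (fun σ hσ => h σ hσ) hg
  rw [Subgroup.eq_top_iff']
  intro g
  obtain ⟨y, hy, hyg⟩ := Subgroup.mem_map.mp (h1 g.2)
  have : y = g := Subtype.ext hyg
  rw [← this]; exact hy

theorem sy_three_form {σ : Perm α} (h : σ.IsThreeCycle) :
    ∃ a b c, a ≠ b ∧ b ≠ c ∧ a ≠ c ∧ σ = Equiv.swap a b * Equiv.swap b c := by
  have hne : σ ≠ 1 := h.isCycle.ne_one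
  obtain ⟨a, ha⟩ : ∃ a, σ a ≠ a := by
    by_contra hc
    push Not at hc
    exact hne (Perm.ext hc)
  have hs : a ∈ σ.support := Perm.mem_support.mpr ha
  have hnd := h.nodup_iff_mem_support.mpr hs
  have heq := h.eq_swap_mul_swap_iff_mem_support.mpr hs
  simp only [List.nodup_cons, List.mem_cons, List.mem_singleton, List.not_mem_nil, or_false,
    not_or, List.nodup_nil, and_true, not_false_eq_true] at hnd
  exact ⟨a, σ a, σ (σ a), hnd.1.1, hnd.2, hnd.1.2, heq⟩

end Cfsg.Agent.Helper8
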