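import Mathlib
import Cfsg.Agent.Helper8.SyF

set_option autoImplicit false

namespace Cfsg.Agent.Helper8

open Equiv Function
open scoped Pointwise

variable {α : Type*} [DecidableEq α] [Fintype α]

/-- points of a given period -/
noncomputable def perFin (x : Perm α) (c : ℕ) : Finset α :=
  Finset.univ.filter (fun b => pper x b = c)

theorem mem_perFin {x : Perm α} {c : ℕ} {b : α} :
    b ∈ ((perFin x c : Finset α) : Set α) ↔ pper x b = c := by
  simp [perFin]

theorem sy_stab_mem {x : Perm α} (hg : Good2 x Finset.univ)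
    (hfix : ∀ a b, x a = a → x b = b → a = b)
    (P : Sylow 2 (Perm α)) (hxP : x ∈ P) (c : ℕ) :
    (P : Subgroup (Perm α)) ≤
      MulAction.stabilizer (Perm α) ((perFin x c : Finset α) : Set α) := by
  intro g hgP
  rw [MulAction.mem_stabilizer_set]
  intro b
  rw [mem_perFin, mem_perFin, Perm.smul_def, sy_per_eq hg hfix P.2 hxP hgP b]

theorem perFin_card {x : Perm α} (hg : Good2 x Finset.univ) {e : ℕ} (he : 1 ≤ e) {a : α}
    (ha : pper x a = 2 ^ e) : (perFin x (2 ^ e)).card = 2 ^ e := by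
  apply le_antisymm
  · exact hg.2.2 e he
  · have := sy_orbit_card_le (x := x) (A := Finset.univ) (fun c _ => Finset.mem_univ _)
      (Finset.mem_univ a)
    rw [ha] at this
    exact this

theorem sy_two_of_coatom {s : Set α}
    (hco : IsCoatom (MulAction.stabilizer ↥(alternatingGroup α) s))
    (H₂ : Subgroup (Perm α)) {h : Perm α} (hh2 : h ∈ H₂) (hha : h ∈ alternatingGroup α)
    (hh1 : h ∉ MulAction.stabilizer (Perm α) s) :
    (∃ g ∈ alternatingGroup α, g ∉ MulAction.stabilizer (Perm α) s) ∧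
    ∀ N : Subgroup ↥(alternatingGroup α),
      (MulAction.stabilizer (Perm α) s).subgroupOf (alternatingGroup α) ≤ N →
      H₂.subgroupOf (alternatingGroup α) ≤ N → N = ⊤ := by
  have heq : (MulAction.stabilizer (Perm α) s).subgroupOf (alternatingGroup α) =
      MulAction.stabilizer ↥(alternatingGroup α) s := by
    ext g
    rw [Subgroup.mem_subgroupOf, MulAction.mem_stabilizer_iff, MulAction.mem_stabilizer_iff]
    rfl
  refine ⟨⟨h, hha, hh1⟩, ?_⟩
  intro N hN1 hN2
  rw [heq] at hN1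
  have hmem : (⟨h, hha⟩ : alternatingGroup α) ∈ N := hN2 (Subgroup.mem_subgroupOf.mpr hh2)
  have hnot : (⟨h, hha⟩ : alternatingGroup α) ∉
      MulAction.stabilizer ↥(alternatingGroup α) s := by
    rw [← heq, Subgroup.mem_subgroupOf]; exact hh1
  exact hco.2 N (lt_of_le_of_ne hN1 (fun he => hnot (he ▸ hmem)))

/-- two proper overgroups generating the alternating group -/
def SyTwo (P : Subgroup (Perm α)) : Prop :=
  ∃ H₁ H₂ : Subgroup (Perm α), P ≤ H₁ ∧ P ≤ H₂ ∧ (∃ g ∈ alternatingGroup α, g ∉ H₁) ∧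
    (∃ g ∈ alternatingGroup α, g ∉ H₂) ∧
    ∀ N : Subgroup ↥(alternatingGroup α), H₁.subgroupOf (alternatingGroup α) ≤ N →
      H₂.subgroupOf (alternatingGroup α) ≤ N → N = ⊤

theorem sy_swap_side {O : Finset α} {a b : α} (h : a ∈ O ↔ b ∈ O) : Equiv.swap a b ∈ sySide O := by
  rw [mem_sySide]
  have key : ∀ c, Equiv.swap a b c ∈ O ↔ c ∈ O := by
    intro c
    by_cases h1 : c = a
    · subst h1; rw [Equiv.swap_apply_left]; exact h.symm
    · by_cases h2 : c = b
      · subst h2; rw [Equiv.swap_apply_right]; exact h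
      · rw [Equiv.swap_apply_of_ne_of_ne h1 h2]
  intro c d
  rw [key, key]

theorem sy_dswap_fix {a b c d y : α} (h1 : y ≠ a) (h2 : y ≠ b) (h3 : y ≠ c) (h4 : y ≠ d) :
    (Equiv.swap a b * Equiv.swap c d) y = y := by
  rw [Perm.mul_apply, Equiv.swap_apply_of_ne_of_ne h3 h4, Equiv.swap_apply_of_ne_of_ne h1 h2]

theorem sy_dswap_sq {a b c d : α} (h1 : a ≠ c) (h2 : a ≠ d) (h3 : b ≠ c) (h4 : b ≠ d) :
    (Equiv.swap a b * Equiv.swap c d) * (Equiv.swap a b * Equiv.swap c d) = 1 := by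
  have hc := sy_swap_comm h1 h2 h3 h4
  calc (Equiv.swap a b * Equiv.swap c d) * (Equiv.swap a b * Equiv.swap c d)
      = (Equiv.swap a b * Equiv.swap c d) * (Equiv.swap c d * Equiv.swap a b) := by rw [hc]
    _ = Equiv.swap a b * (Equiv.swap c d * Equiv.swap c d) * Equiv.swap a b := by group
    _ = 1 := by rw [Equiv.swap_mul_self, mul_one, Equiv.swap_mul_self]

theorem sy_dswap_fpf {a b c d : α} (hab : a ≠ b) (hac : a ≠ c) (had : a ≠ d) (hbc : b ≠ c)
    (hbd : b ≠ d) (hcd : c ≠ d) {y : α} (hy : y = a ∨ y = b ∨ y = c ∨ y = d) :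
    (Equiv.swap a b * Equiv.swap c d) y ≠ y := by
  rcases hy with rfl | rfl | rfl | rfl
  · rw [Perm.mul_apply, Equiv.swap_apply_of_ne_of_ne hac had, Equiv.swap_apply_left]
    exact hab.symm
  · rw [Perm.mul_apply, Equiv.swap_apply_of_ne_of_ne hbc hbd, Equiv.swap_apply_right]
    exact hab
  · rw [Perm.mul_apply, Equiv.swap_apply_left, Equiv.swap_apply_of_ne_of_ne had.symm hbd.symm]
    exact hcd.symm
  · rw [Perm.mul_apply, Equiv.swap_apply_right, Equiv.swap_apply_of_ne_of_ne hac.symm hbc.symm]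
    exact hcd

theorem sy_two_le {e : ℕ} (he : 1 ≤ e) : 2 ≤ 2 ^ e :=
  calc 2 = 2 ^ 1 := by norm_num
    _ ≤ 2 ^ e := Nat.pow_le_pow_right (by norm_num) he

theorem sy_coatom_top {x : Perm α} (hg : Good2 x Finset.univ) {e : ℕ} (he : 1 ≤ e) {a b : α}
    (ha : pper x a = 2 ^ e) (hb : pper x b ≠ 2 ^ e) (hn : Fintype.card α < 2 ^ (e + 1)) :
    IsCoatom (MulAction.stabilizer ↥(alternatingGroup α)
      ((perFin x (2 ^ e) : Finset α) : Set α)) := by
  apply alternatingGroup.isCoatom_stabilizer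
  · exact ⟨a, mem_perFin.mpr ha⟩
  · exact ⟨b, fun h => hb (mem_perFin.mp h)⟩
  · rw [Set.ncard_coe_finset, perFin_card hg he ha, Nat.card_eq_fintype_card]
    have : 2 ^ (e + 1) = 2 * 2 ^ e := by ring
    omega

theorem sy_case_three {x : Perm α} (hg : Good2 x Finset.univ)
    (hfix : ∀ a b, x a = a → x b = b → a = b) (P : Sylow 2 (Perm α)) (hxP : x ∈ P)
    {e e₂ : ℕ} (he : 1 ≤ e₂) (hee : e₂ < e) {a b c : α} (ha : pper x a = 2 ^ e)
    (hb : pper x b = 2 ^ e₂) (hc1 : pper x c ≠ 2 ^ e) (hc2 : pper x c ≠ 2 ^ e₂)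
    (hn : Fintype.card α < 2 ^ (e + 1)) : SyTwo (P : Subgroup (Perm α)) := by
  have hpow : 2 ^ e₂ < 2 ^ e := Nat.pow_lt_pow_right (by norm_num) hee
  have hne12 : (2 : ℕ) ^ e ≠ 2 ^ e₂ := by omega
  have hco1 := sy_coatom_top hg (by omega : 1 ≤ e) ha (fun h => hne12 (h.symm.trans hb)) hn
  have hxb : x b ≠ b := by
    intro h
    have h1 := (pper_eq_one x b).mpr h
    have h2 := sy_two_le he
    omega
  have hac : a ≠ c := fun h => hc1 (h ▸ ha)
  have hab : a ≠ b := fun h' => hne12 (ha.symm.trans (by rw [h']; exact hb))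
  have hbc : b ≠ c := fun h => hc2 (h ▸ hb)
  have haxb : a ≠ x b := fun h' => hne12 (ha.symm.trans (by rw [h', pper_apply]; exact hb))
  set s₁ : Set α := ((perFin x (2 ^ e) : Finset α) : Set α) with hs₁
  set s₂ : Set α := ((perFin x (2 ^ e₂) : Finset α) : Set α) with hs₂
  set h := Equiv.swap a c * Equiv.swap b (x b) with hh
  have hha : h ∈ alternatingGroup α := sy_sign_two hac (Ne.symm hxb)
  have hh2 : h ∈ MulAction.stabilizer (Perm α) s₂ := by
    apply Subgroup.mul_mem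
    · rw [MulAction.mem_stabilizer_set]
      intro y
      exact sy_swap_out (fun h' => hne12 (ha.symm.trans (mem_perFin.mp h')))
        (fun h' => hc2 (mem_perFin.mp h')) y
    · rw [MulAction.mem_stabilizer_set]
      intro y
      exact sy_swap_in (mem_perFin.mpr hb) (mem_perFin.mpr ((pper_apply x b).trans hb)) y
  have hh1 : h ∉ MulAction.stabilizer (Perm α) s₁ := by
    rw [MulAction.mem_stabilizer_set]
    intro hcon
    have := (hcon a).mpr (mem_perFin.mpr ha)
    rw [hh, Perm.smul_def, Perm.mul_apply, Equiv.swap_apply_of_ne_of_ne hab haxb,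
      Equiv.swap_apply_left] at this
    exact hc1 (mem_perFin.mp this)
  obtain ⟨w1, gen⟩ := sy_two_of_coatom hco1 (MulAction.stabilizer (Perm α) s₂) hh2 hha hh1
  have w2 : ∃ g ∈ alternatingGroup α, g ∉ MulAction.stabilizer (Perm α) s₂ := by
    refine ⟨Equiv.swap b a * Equiv.swap b c, sy_sign_two hab.symm hbc, ?_⟩
    rw [MulAction.mem_stabilizer_set]
    intro hcon
    have := (hcon b).mpr (mem_perFin.mpr hb)
    rw [Perm.smul_def, Perm.mul_apply, Equiv.swap_apply_left,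
      Equiv.swap_apply_of_ne_of_ne hbc.symm hac.symm] at this
    exact hc2 (mem_perFin.mp this)
  exact ⟨_, _, sy_stab_mem hg hfix P hxP _, sy_stab_mem hg hfix P hxP _, w1, w2, gen⟩

theorem sy_case_two {x : Perm α} (hg : Good2 x Finset.univ)
    (hx2 : IsPGroup 2 (Subgroup.zpowers x)) (P : Sylow 2 (Perm α)) (hxP : x ∈ P)
    (huniq : ∀ Q : Sylow 2 (Perm α), x ∈ Q → Q = P)
    {e e₂ : ℕ} (he : 1 ≤ e₂) (hee : e₂ < e) {a b : α} (ha : pper x a = 2 ^ e)
    (hb : pper x b = 2 ^ e₂) (hall : ∀ c, pper x c = 2 ^ e ∨ pper x c = 2 ^ e₂)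
    (hn : Fintype.card α < 2 ^ (e + 1)) : SyTwo (P : Subgroup (Perm α)) := by
  have hper : ∀ c, ∃ j, pper x c = 2 ^ j := fun c =>
    (hall c).elim (fun h => ⟨e, h⟩) (fun h => ⟨e₂, h⟩)
  have hpow : 2 ^ e₂ < 2 ^ e := Nat.pow_lt_pow_right (by norm_num) hee
  have hne12 : (2 : ℕ) ^ e ≠ 2 ^ e₂ := by omega
  have hnf : ∀ c, x c ≠ c := by
    intro c hc
    have h1 := (pper_eq_one x c).mpr hc
    have h2 := sy_two_le he
    rcases hall c with h | h <;> omega
  have hfix : ∀ a b, x a = a → x b = b → a = b := fun a _ ha _ => absurd ha (hnf a)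
  set z := syz x hper with hz
  have hzz : ∀ c, z (z c) = c := syz_invol hper
  have hzp : ∀ c, pper x (z c) = pper x c := syz_pper hper
  have hzne : ∀ c, z c ≠ c := fun c => syz_ne hper (hnf c)
  have hco1 := sy_coatom_top hg (by omega : 1 ≤ e) ha (fun h => hne12 (h.symm.trans hb)) hn
  set s₁ : Set α := ((perFin x (2 ^ e) : Finset α) : Set α) with hs₁
  let H₂ : Subgroup (Perm α) := Subgroup.centralizer {z}
  have hH : ∀ g, g ∈ H₂ ↔ g * z = z * g := by
    intro g
    show g ∈ Subgroup.centralizer {z} ↔ _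
    rw [Subgroup.mem_centralizer_iff]
    constructor
    · intro h'; exact (h' z rfl).symm
    · rintro h' _ rfl; exact h'.symm
  have hP2 : (P : Subgroup (Perm α)) ≤ H₂ := fun g hgP =>
    (hH g).mpr (sy_cent hg hnf hx2 P hxP huniq hper g hgP)
  have hab : a ≠ b := fun h' => hne12 (ha.symm.trans (by rw [h']; exact hb))
  have h1 : a ≠ z a := (hzne a).symm
  have h2 : a ≠ z b := fun h' => hne12 (ha.symm.trans (by rw [h', hzp]; exact hb))
  have h3 : b ≠ z a := fun h' =>
    hne12 (ha.symm.trans ((hzp a).symm.trans (by rw [← h']; exact hb)))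
  have h4 : b ≠ z b := (hzne b).symm
  have h5 : z a ≠ z b := fun h' => hab (z.injective h')
  set h := Equiv.swap a b * Equiv.swap (z a) (z b) with hh
  have hha : h ∈ alternatingGroup α := sy_sign_two hab h5
  have hh2 : h ∈ H₂ := (hH h).mpr (sy_dswap_comm hzz h1 h2 h3 h4)
  have hh1 : h ∉ MulAction.stabilizer (Perm α) s₁ := by
    rw [MulAction.mem_stabilizer_set]
    intro hcon
    have := (hcon a).mpr (mem_perFin.mpr ha)
    rw [hh, Perm.smul_def, Perm.mul_apply, Equiv.swap_apply_of_ne_of_ne h1 h2,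
      Equiv.swap_apply_left] at this
    exact hne12 ((mem_perFin.mp this).symm.trans hb)
  obtain ⟨w1, gen⟩ := sy_two_of_coatom hco1 H₂ hh2 hha hh1
  obtain ⟨g, hgA, hgz⟩ := sy_cent_witness hzz (hzne a) (Ne.symm hab) h3
  exact ⟨_, H₂, sy_stab_mem hg hfix P hxP _, hP2, w1,
    ⟨g, hgA, fun h' => hgz ((hH g).mp h')⟩, gen⟩

end Cfsg.Agent.Helper8
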