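import Mathlib
import Cfsg.Agent.Helper8.SyG

set_option autoImplicit false

namespace Cfsg.Agent.Helper8

open Equiv Function
open scoped Pointwise

variable {α : Type*} [DecidableEq α] [Fintype α]

theorem sy_case_one {x : Perm α} (hg : Good2 x Finset.univ)
    (hx2 : IsPGroup 2 (Subgroup.zpowers x)) (P : Sylow 2 (Perm α)) (hxP : x ∈ P)
    (huniq : ∀ Q : Sylow 2 (Perm α), x ∈ Q → Q = P)
    {e : ℕ} (he : 3 ≤ e) (hall : ∀ c, pper x c = 2 ^ e) (hn : Fintype.card α = 2 ^ e) :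
    SyTwo (P : Subgroup (Perm α)) := by
  have hper : ∀ c, ∃ j, pper x c = 2 ^ j := fun c => ⟨e, hall c⟩
  have h8 : 8 ≤ 2 ^ e := calc 8 = 2 ^ 3 := by norm_num
      _ ≤ 2 ^ e := Nat.pow_le_pow_right (by norm_num) he
  have hnf : ∀ c, x c ≠ c := by
    intro c hc
    have h1 := (pper_eq_one x c).mpr hc
    rw [hall c] at h1; omega
  have hfix : ∀ a b, x a = a → x b = b → a = b := fun a _ ha _ => absurd ha (hnf a)
  set z := syz x hper with hz
  have hzz : ∀ c, z (z c) = c := syz_invol hper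
  have hzne : ∀ c, z c ≠ c := fun c => syz_ne hper (hnf c)
  obtain ⟨a⟩ : Nonempty α := by
    rw [← Fintype.card_pos_iff, hn]; omega
  obtain ⟨M, hM⟩ := exists_half P.2 (a := a) ⟨x, hxP, hnf a⟩
  set O := orb M a with hO
  have htr : ∀ b, ∃ d ∈ (P : Subgroup (Perm α)), d a = b := by
    intro b
    obtain ⟨i, hi⟩ := sy_same_orbit hg ((hall a).trans (hall b).symm) (hnf a)
    exact ⟨x ^ i, Subgroup.zpow_mem _ hxP i, hi⟩
  have hflip : ∀ d ∈ (P : Subgroup (Perm α)), ∀ b, (d b ∈ O ↔ b ∈ O) ↔ d ∈ M :=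
    fun d hd b => hM.flip hd (htr b)
  have hxM : x ∉ M := by
    intro hxM
    obtain ⟨d, hdP, hdM⟩ := hM.ne
    obtain ⟨i, hi⟩ := sy_same_orbit hg ((hall a).trans (hall (d a)).symm) (hnf a)
    have : d a ∈ orb M a := mem_orb.mpr ⟨x ^ i, Subgroup.zpow_mem _ hxM i, hi⟩
    exact hdM ((hM.mem_iff hdP).mp this)
  have hxO : ∀ b, x b ∈ O ↔ b ∉ O := by
    intro b
    have h' : ¬ (x b ∈ O ↔ b ∈ O) := fun h'' => hxM ((hflip x hxP b).mp h'')
    tauto
  have hPside : (P : Subgroup (Perm α)) ≤ sySide O := by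
    intro g hgP
    rw [mem_sySide]
    intro b c
    by_cases hgM : g ∈ M
    · rw [(hflip g hgP b).mpr hgM, (hflip g hgP c).mpr hgM]
    · have hb' : g b ∈ O ↔ b ∉ O := by
        have h' : ¬ (g b ∈ O ↔ b ∈ O) := fun h'' => hgM ((hflip g hgP b).mp h'')
        tauto
      have hc' : g c ∈ O ↔ c ∉ O := by
        have h' : ¬ (g c ∈ O ↔ c ∈ O) := fun h'' => hgM ((hflip g hgP c).mp h'')
        tauto
      rw [hb', hc', not_iff_not]
  have hcO : O.card = Oᶜ.card := sy_card_eq_of_swap x (fun b hb => by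
      rw [Finset.mem_compl]; exact fun h' => ((hxO b).mp h') hb) (fun b hb => by
      rw [Finset.mem_compl] at hb; exact (hxO b).mpr hb)
  have hcO2 : O.card + Oᶜ.card = 2 ^ e := by rw [Finset.card_add_card_compl, hn]
  have hO4 : 4 ≤ O.card := by omega
  have hOc4 : 4 ≤ Oᶜ.card := by omega
  have hxxO : ∀ b, (x * x) b ∈ O ↔ b ∈ O := by
    intro b; rw [Perm.mul_apply, hxO, hxO, not_not]
  have hpowO : ∀ k : ℕ, ∀ b, ((x * x) ^ k) b ∈ O ↔ b ∈ O := by
    intro k
    induction k with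
    | zero => intro b; simp
    | succ k ih => intro b; rw [pow_succ, Perm.mul_apply, ih, hxxO]
  have hzO : ∀ b, z b ∈ O ↔ b ∈ O := by
    intro b
    have : z b = ((x * x) ^ (2 ^ (e - 2))) b := by
      rw [hz, syz_apply, hall b, ← pow_two, ← pow_mul]
      congr 2
      obtain ⟨e', rfl⟩ : ∃ e', e = e' + 2 := ⟨e - 2, by omega⟩
      rw [show e' + 2 - 2 = e' by omega, pow_succ, pow_succ]; omega
    rw [this, hpowO]
  have pick : ∀ (p₁ : α) (S : Finset α), S.card ≤ 3 → ∃ d, (d ∈ O ↔ p₁ ∈ O) ∧ d ∉ S := by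
    intro p₁ S hS
    by_cases hp : p₁ ∈ O
    · have : 0 < (O \ S).card := by
        have := Finset.le_card_sdiff S O
        omega
      obtain ⟨d, hd⟩ := Finset.card_pos.mp this
      rw [Finset.mem_sdiff] at hd
      exact ⟨d, ⟨fun _ => hp, fun _ => hd.1⟩, hd.2⟩
    · have : 0 < (Oᶜ \ S).card := by
        have := Finset.le_card_sdiff S Oᶜ
        omega
      obtain ⟨d, hd⟩ := Finset.card_pos.mp this
      rw [Finset.mem_sdiff, Finset.mem_compl] at hd
      exact ⟨d, ⟨fun h' => absurd h' hd.1, fun h' => absurd h' hp⟩, hd.2⟩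
  let H₁ : Subgroup (Perm α) := Subgroup.centralizer {z}
  have hH : ∀ g, g ∈ H₁ ↔ g * z = z * g := by
    intro g
    show g ∈ Subgroup.centralizer {z} ↔ _
    rw [Subgroup.mem_centralizer_iff]
    constructor
    · intro h'; exact (h' z rfl).symm
    · rintro h' _ rfl; exact h'.symm
  have hP1 : (P : Subgroup (Perm α)) ≤ H₁ := fun g hgP =>
    (hH g).mpr (sy_cent hg hnf hx2 P hxP huniq hper g hgP)
  -- witnesses
  have w1 : ∃ g ∈ alternatingGroup α, g ∉ H₁ := by
    obtain ⟨v, hv⟩ := sy_exists_notMem ({a, z a} : Finset α)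
      (Finset.card_le_two.trans_lt (by omega))
    rw [Finset.mem_insert, Finset.mem_singleton, not_or] at hv
    obtain ⟨g, hgA, hgz⟩ := sy_cent_witness hzz (hzne a) hv.1 hv.2
    exact ⟨g, hgA, fun h' => hgz ((hH g).mp h')⟩
  have haO : a ∈ O := orb_self a
  have w2 : ∃ g ∈ alternatingGroup α, g ∉ sySide O := by
    obtain ⟨c, hc, hcS⟩ := pick a {a} (by simp)
    obtain ⟨c', hc', hcS'⟩ := pick a {a, c} (Finset.card_le_two.trans (by norm_num))
    rw [Finset.mem_singleton] at hcS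
    rw [Finset.mem_insert, Finset.mem_singleton, not_or] at hcS'
    obtain ⟨b', hb'⟩ : ∃ b', b' ∈ Oᶜ := Finset.card_pos.mp (by omega)
    rw [Finset.mem_compl] at hb'
    have hab' : a ≠ b' := fun h' => hb' (h' ▸ haO)
    have hcO' : c ∈ O := hc.mpr haO
    have hc'O : c' ∈ O := hc'.mpr haO
    refine ⟨Equiv.swap a b' * Equiv.swap c c', sy_sign_two hab' (Ne.symm hcS'.2), fun hmem => ?_⟩
    have := (mem_sySide.mp hmem) a c
    have hc'b' : c' ≠ b' := fun h' => hb' (h' ▸ hc'O)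
    rw [Perm.mul_apply, Perm.mul_apply, Equiv.swap_apply_of_ne_of_ne (Ne.symm hcS) (Ne.symm hcS'.1),
      Equiv.swap_apply_left, Equiv.swap_apply_left,
      Equiv.swap_apply_of_ne_of_ne hcS'.1 hc'b'] at this
    exact hb' ((this.mpr ⟨fun _ => hcO', fun _ => haO⟩).mpr hc'O)
  refine ⟨H₁, sySide O, hP1, hPside, w1, w2, ?_⟩
  intro N hN1 hN2
  set N' := N.map (alternatingGroup α).subtype with hN'
  have hmem1 : ∀ g, g ∈ alternatingGroup α → g * z = z * g → g ∈ N' := by
    intro g hgA hgz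
    exact Subgroup.mem_map.mpr
      ⟨⟨g, hgA⟩, hN1 (Subgroup.mem_subgroupOf.mpr ((hH g).mpr hgz)), rfl⟩
  have hmem2 : ∀ g, g ∈ alternatingGroup α → g ∈ sySide O → g ∈ N' := by
    intro g hgA hgs
    exact Subgroup.mem_map.mpr ⟨⟨g, hgA⟩, hN2 (Subgroup.mem_subgroupOf.mpr hgs), rfl⟩
  have same : ∀ p q r, p ≠ q → q ≠ r → (p ∈ O ↔ q ∈ O) → (q ∈ O ↔ r ∈ O) →
      Equiv.swap p q * Equiv.swap q r ∈ N' := by
    intro p q r hpq hqr h1 h2
    exact hmem2 _ (sy_sign_two hpq hqr)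
      ((sySide O).mul_mem (sy_swap_side h1) (sy_swap_side h2))
  have step1 : ∀ p r, ¬ (r ∈ O ↔ p ∈ O) →
      Equiv.swap p (z p) * Equiv.swap (z p) r ∈ N' := by
    intro p r hr
    obtain ⟨d, hd, hdS⟩ := pick p {p, z p} (Finset.card_le_two.trans (by norm_num))
    rw [Finset.mem_insert, Finset.mem_singleton, not_or] at hdS
    obtain ⟨hd1, hd2⟩ := hdS
    have hτ := same p (z p) d (hzne p).symm (Ne.symm hd2) (hzO p).symm
      (by rw [hzO]; exact hd.symm)
    have hdr : d ≠ r := fun h' => hr (by rw [← h']; exact hd)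
    have hzdr : z d ≠ z r := fun h' => hdr (z.injective h')
    have e1 : d ≠ z d := (hzne d).symm
    have e2 : d ≠ z r := fun h' => hr (by rw [← hzO r, ← h']; exact hd)
    have e3 : r ≠ z d := fun h' => hr (by rw [h', hzO]; exact hd)
    have e4 : r ≠ z r := (hzne r).symm
    set h := Equiv.swap d r * Equiv.swap (z d) (z r) with hh
    have hh1 : h ∈ N' := hmem1 h (sy_sign_two hdr hzdr) (sy_dswap_comm hzz e1 e2 e3 e4)
    have hpr : p ≠ r := fun h' => hr (by rw [h'])
    have hp : h p = p := sy_dswap_fix (Ne.symm hd1) hpr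
      (fun h' => hd2 (by rw [h', hzz])) (fun h' => hr (by rw [h', hzO]))
    have hzp' : h (z p) = z p := sy_dswap_fix (Ne.symm hd2) (fun h' => hr (by rw [← h', hzO]))
      (fun h' => hd1 (z.injective h').symm) (fun h' => hpr (z.injective h'))
    have hd' : h d = r := by
      rw [hh, Perm.mul_apply, Equiv.swap_apply_of_ne_of_ne e1 e2, Equiv.swap_apply_left]
    have hconj : h * (Equiv.swap p (z p) * Equiv.swap (z p) d) * h⁻¹ =
        Equiv.swap p (z p) * Equiv.swap (z p) r := by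
      have : h * (Equiv.swap p (z p) * Equiv.swap (z p) d) * h⁻¹ =
          (h * Equiv.swap p (z p) * h⁻¹) * (h * Equiv.swap (z p) d * h⁻¹) := by group
      rw [this, ← Equiv.swap_apply_apply, ← Equiv.swap_apply_apply, hp, hzp', hd']
    rw [← hconj]
    exact N'.mul_mem (N'.mul_mem hh1 hτ) (N'.inv_mem hh1)
  have step2 : ∀ p q r, p ≠ q → (p ∈ O ↔ q ∈ O) → ¬ (r ∈ O ↔ p ∈ O) →
      Equiv.swap p q * Equiv.swap q r ∈ N' := by
    intro p q r hpq hpq' hr
    by_cases hq : q = z p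
    · subst hq; exact step1 p r hr
    · have hzpq : z p ≠ q := fun h' => hq h'.symm
      have hqzq : q ≠ z q := (hzne q).symm
      have hzpzq : z p ≠ z q := fun h' => hpq (z.injective h')
      have hg1 : Equiv.swap (z p) q * Equiv.swap q (z q) ∈ N' :=
        same (z p) q (z q) hzpq hqzq (by rw [hzO]; exact hpq') (hzO q).symm
      set g := Equiv.swap (z p) q * Equiv.swap q (z q) with hgdef
      have hσ := step1 p r hr
      have hgp : g p = p := sy_dswap_fix (hzne p).symm hpq hpq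
        (fun h' => hq (by rw [h', hzz]))
      have hgzp : g (z p) = q := by
        rw [hgdef, Perm.mul_apply, Equiv.swap_apply_of_ne_of_ne hzpq hzpzq,
          Equiv.swap_apply_left]
      have hrq : r ≠ q := fun h' => hr (by rw [h']; exact hpq'.symm)
      have hgr : g r = r := sy_dswap_fix (fun h' => hr (by rw [h', hzO])) hrq hrq
        (fun h' => hr (by rw [h', hzO]; exact hpq'.symm))
      have hconj : g * (Equiv.swap p (z p) * Equiv.swap (z p) r) * g⁻¹ =
          Equiv.swap p q * Equiv.swap q r := by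
        have : g * (Equiv.swap p (z p) * Equiv.swap (z p) r) * g⁻¹ =
            (g * Equiv.swap p (z p) * g⁻¹) * (g * Equiv.swap (z p) r * g⁻¹) := by group
        rw [this, ← Equiv.swap_apply_apply, ← Equiv.swap_apply_apply, hgp, hgzp, hgr]
      rw [← hconj]
      exact N'.mul_mem (N'.mul_mem hg1 hσ) (N'.inv_mem hg1)
  apply sy_gen
  intro σ hσ
  obtain ⟨p, q, r, hpq, hqr, hpr, rfl⟩ := sy_three_form hσ
  by_cases h1 : (p ∈ O ↔ q ∈ O)
  · by_cases h2 : (q ∈ O ↔ r ∈ O)
    · exact same p q r hpq hqr h1 h2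
    · exact step2 p q r hpq h1 (fun h' => h2 (h1.symm.trans h'.symm))
  · by_cases h2 : (q ∈ O ↔ r ∈ O)
    · have e1 : Equiv.swap p q * Equiv.swap q r = Equiv.swap q r * Equiv.swap r p := by
        rw [sy_rot hpq hqr hpr, sy_rot hpr.symm hpq hqr.symm]
      rw [e1]
      exact step2 q r p hqr h2 h1
    · have h3 : (r ∈ O ↔ p ∈ O) := by tauto
      rw [sy_rot hpq hqr hpr]
      exact step2 r p q hpr.symm h3 h2

end Cfsg.Agent.Helper8
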