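import Mathlib
import Cfsg.Agent.Helper8.SyH

set_option autoImplicit false

namespace Cfsg.Agent.Helper8

open Equiv Function
open scoped Pointwise

variable {α : Type*} [DecidableEq α] [Fintype α]

theorem sy_unique_aux {x : Perm α} (hg : Good2 x Finset.univ)
    (hx2 : IsPGroup 2 (Subgroup.zpowers x)) (P : Sylow 2 (Perm α)) (hxP : x ∈ P)
    (huniq : ∀ Q : Sylow 2 (Perm α), x ∈ Q → Q = P)
    {e : ℕ} (he : 2 ≤ e) {p : α} (hp : x p = p) (hall : ∀ c, c ≠ p → pper x c = 2 ^ e)
    (hn : Fintype.card α = 2 ^ e + 1)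
    (M' : Subgroup (Perm α)) (hM : ∀ g ∈ P, g ∈ alternatingGroup α → g ∈ M')
    {m : Perm α} (hm : m ∈ M') (hmp : m p ≠ p) : alternatingGroup α ≤ M' := by
  have hper : ∀ c, ∃ j, pper x c = 2 ^ j := by
    intro c
    by_cases hc : c = p
    · exact ⟨0, by rw [hc, pow_zero]; exact (pper_eq_one x p).mpr hp⟩
    · exact ⟨e, hall c hc⟩
  have h4 : 4 ≤ 2 ^ e := calc 4 = 2 ^ 2 := by norm_num
      _ ≤ 2 ^ e := Nat.pow_le_pow_right (by norm_num) he
  have hnf : ∀ c, c ≠ p → x c ≠ c := by
    intro c hc h'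
    have h1 := (pper_eq_one x c).mpr h'
    rw [hall c hc] at h1; omega
  set z := syz x hper with hz
  have hzz : ∀ c, z (z c) = c := syz_invol hper
  have hzne : ∀ c, c ≠ p → z c ≠ c := fun c hc => syz_ne hper (hnf c hc)
  have hzp : z p = p := by
    rw [hz, syz_apply, (pper_eq_one x p).mpr hp]; simp
  have hznp : ∀ c, c ≠ p → z c ≠ p := by
    intro c hc h'
    apply hc
    have := congrArg z h'
    rw [hzz, hzp] at this; exact this
  have hsw : ∀ c, Equiv.swap c (z c) ∈ P := fun c => sy_zswap_mem hx2 P huniq hper c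
  have htr : ∀ a b, a ≠ p → b ≠ p → ∃ r ∈ M', r a = b ∧ r p = p := by
    intro a b ha hb
    obtain ⟨i, hi⟩ := sy_same_orbit hg ((hall a ha).trans (hall b hb).symm) (hnf a ha)
    have hxi : x ^ i ∈ P := Subgroup.zpow_mem _ hxP i
    have hxip : (x ^ i) p = p := Equiv.Perm.zpow_apply_eq_self_of_apply_eq_self hp i
    rcases Int.units_eq_one_or (Equiv.Perm.sign (x ^ i)) with hs | hs
    · exact ⟨x ^ i, hM _ hxi (Equiv.Perm.mem_alternatingGroup.mpr hs), hi, hxip⟩
    · obtain ⟨c, hc⟩ := sy_exists_notMem ({p, a, z a} : Finset α)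
        (Finset.card_le_three.trans_lt (by omega))
      simp only [Finset.mem_insert, Finset.mem_singleton, not_or] at hc
      obtain ⟨hc1, hc2, hc3⟩ := hc
      have hczc : c ≠ z c := (hzne c hc1).symm
      have hazc : a ≠ z c := fun h' => hc3 (by rw [h', hzz])
      refine ⟨x ^ i * Equiv.swap c (z c), hM _ (Subgroup.mul_mem _ hxi (hsw c)) ?_, ?_, ?_⟩
      · rw [Equiv.Perm.mem_alternatingGroup, map_mul, hs, Equiv.Perm.sign_swap hczc]; rfl
      · rw [Perm.mul_apply, Equiv.swap_apply_of_ne_of_ne (Ne.symm hc2) hazc, hi]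
      · rw [Perm.mul_apply, Equiv.swap_apply_of_ne_of_ne (Ne.symm hc1) (hznp c hc1).symm, hxip]
  set q := m⁻¹ p with hq
  have hmq : m q = p := by rw [hq]; exact Equiv.apply_symm_apply m p
  have hqp : q ≠ p := fun h' => hmp (by have := hmq; rw [h'] at this; exact this)
  have hto : ∀ a, ∃ g ∈ M', g a = p := by
    intro a
    by_cases ha : a = p
    · exact ⟨1, M'.one_mem, by rw [ha]; rfl⟩
    · obtain ⟨r, hr, hra, _⟩ := htr a q ha hqp
      exact ⟨m * r, M'.mul_mem hm hr, by rw [Perm.mul_apply, hra, hmq]⟩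
  have h2t : MulAction.IsMultiplyPretransitive M' α 2 := by
    rw [MulAction.is_two_pretransitive_iff]
    intro a b c d hab hcd
    obtain ⟨g₁, hg₁, hg₁a⟩ := hto a
    obtain ⟨g₂, hg₂, hg₂c⟩ := hto c
    have h1 : g₁ b ≠ p := fun h' => hab (g₁.injective (hg₁a.trans h'.symm))
    have h2 : g₂ d ≠ p := fun h' => hcd (g₂.injective (hg₂c.trans h'.symm))
    obtain ⟨r, hr, hrb, hrp⟩ := htr (g₁ b) (g₂ d) h1 h2
    refine ⟨⟨g₂⁻¹ * r * g₁, M'.mul_mem (M'.mul_mem (M'.inv_mem hg₂) hr) hg₁⟩, ?_, ?_⟩
    · show (g₂⁻¹ * r * g₁) a = c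
      rw [Perm.mul_apply, Perm.mul_apply, hg₁a, hrp, Perm.inv_eq_iff_eq]; exact hg₂c.symm
    · show (g₂⁻¹ * r * g₁) b = d
      rw [Perm.mul_apply, Perm.mul_apply, hrb, Perm.inv_eq_iff_eq]
  have hprim : MulAction.IsPreprimitive M' α :=
    MulAction.isPreprimitive_of_is_two_pretransitive h2t
  suffices h3 : ∃ θ : Perm α, θ.IsThreeCycle ∧ θ ∈ M' by
    obtain ⟨θ, hθ, hθM⟩ := h3
    exact Equiv.Perm.alternatingGroup_le_of_isPreprimitive_of_isThreeCycle_mem hprim hθ hθM
  rcases Nat.lt_or_ge e 3 with he3 | he3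
  · have he2 : e = 2 := by omega
    subst he2
    have h5 : Fintype.card α = 5 := by rw [hn]; norm_num
    have hT : ∀ t : Perm α, t p = p → t * t = 1 → (∀ b, b ≠ p → t b ≠ b) → t ∈ P := by
      intro t ht1 ht2 ht3
      refine sy_family_mem hx2 P huniq {t | t p = p ∧ t * t = 1 ∧ ∀ b, b ≠ p → t b ≠ b}
        ?_ ?_ ?_ t ⟨ht1, ht2, ht3⟩
      · rintro t ⟨_, h2, _⟩; exact h2
      · rintro s ⟨hs1, hs2, hs3⟩ t ⟨ht1, ht2, ht3⟩
        ext b
        simp only [Perm.mul_apply]
        have hss : ∀ c, s (s c) = c := fun c => by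
          have := congrArg (fun f => f c) hs2; simpa using this
        have htt : ∀ c, t (t c) = c := fun c => by
          have := congrArg (fun f => f c) ht2; simpa using this
        by_cases hb : b = p
        · rw [hb, ht1, hs1, ht1]
        · by_cases hst : s b = t b
          · rw [← hst, hss, hst, htt]
          · have hsp : ∀ c, c ≠ p → s c ≠ p := fun c hc h' =>
              hc (s.injective (h'.trans hs1.symm))
            have htp : ∀ c, c ≠ p → t c ≠ p := fun c hc h' =>
              hc (t.injective (h'.trans ht1.symm))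
            by_contra hne
            have n1 : p ∉ ({b, s b, t b, s (t b), t (s b)} : Finset α) := by
              simp only [Finset.mem_insert, Finset.mem_singleton, not_or]
              exact ⟨Ne.symm hb, (hsp b hb).symm, (htp b hb).symm, (hsp _ (htp b hb)).symm,
                (htp _ (hsp b hb)).symm⟩
            have n2 : b ∉ ({s b, t b, s (t b), t (s b)} : Finset α) := by
              simp only [Finset.mem_insert, Finset.mem_singleton, not_or]
              refine ⟨(hs3 b hb).symm, (ht3 b hb).symm, ?_, ?_⟩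
              · intro h'; apply hst; have := congrArg s h'; rw [hss] at this; exact this
              · intro h'; apply hst; have := congrArg t h'; rw [htt] at this; exact this.symm
            have n3 : s b ∉ ({t b, s (t b), t (s b)} : Finset α) := by
              simp only [Finset.mem_insert, Finset.mem_singleton, not_or]
              refine ⟨hst, ?_, ?_⟩
              · intro h'; exact ht3 b hb (s.injective h').symm
              · intro h'; exact ht3 (s b) (hsp b hb) h'.symm
            have n4 : t b ∉ ({s (t b), t (s b)} : Finset α) := by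
              simp only [Finset.mem_insert, Finset.mem_singleton, not_or]
              refine ⟨?_, ?_⟩
              · intro h'; exact hs3 (t b) (htp b hb) h'.symm
              · intro h'; exact hs3 b hb (t.injective h').symm
            have n5 : s (t b) ∉ ({t (s b)} : Finset α) := by
              simp only [Finset.mem_singleton]; exact hne
            have hcard : ({p, b, s b, t b, s (t b), t (s b)} : Finset α).card = 6 := by
              rw [Finset.card_insert_of_notMem n1, Finset.card_insert_of_notMem n2,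
                Finset.card_insert_of_notMem n3, Finset.card_insert_of_notMem n4,
                Finset.card_insert_of_notMem n5, Finset.card_singleton]
            have := Finset.card_le_univ ({p, b, s b, t b, s (t b), t (s b)} : Finset α)
            omega
      · rintro t ⟨ht1, ht2, ht3⟩
        refine ⟨?_, ?_, ?_⟩
        · simp only [Perm.mul_apply]
          rw [show x⁻¹ p = p from Perm.inv_eq_iff_eq.mpr hp.symm, ht1, hp]
        · calc x * t * x⁻¹ * (x * t * x⁻¹) = x * (t * t) * x⁻¹ := by group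
            _ = 1 := by rw [ht2]; group
        · intro b hb h'
          simp only [Perm.mul_apply] at h'
          have h'' : t (x⁻¹ b) = x⁻¹ b := by rw [Perm.eq_inv_iff_eq]; exact h'
          refine ht3 (x⁻¹ b) ?_ h''
          intro h3; apply hb; rw [Perm.inv_eq_iff_eq] at h3; rw [h3, hp]
    obtain ⟨q₁, hq₁⟩ := sy_exists_notMem ({p, q} : Finset α)
      (Finset.card_le_two.trans_lt (by omega))
    obtain ⟨q₂, hq₂⟩ := sy_exists_notMem ({p, q, q₁} : Finset α)
      (Finset.card_le_three.trans_lt (by omega))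
    obtain ⟨q₃, hq₃⟩ := sy_exists_notMem ({p, q, q₁, q₂} : Finset α)
      (Finset.card_le_four.trans_lt (by omega))
    simp only [Finset.mem_insert, Finset.mem_singleton, not_or] at hq₁ hq₂ hq₃
    have m1 : q ∉ ({p} : Finset α) := by simpa using hqp
    have m2 : q₁ ∉ ({q, p} : Finset α) := by
      simp only [Finset.mem_insert, Finset.mem_singleton, not_or]; exact ⟨hq₁.2, hq₁.1⟩
    have m3 : q₂ ∉ ({q₁, q, p} : Finset α) := by
      simp only [Finset.mem_insert, Finset.mem_singleton, not_or]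
      exact ⟨hq₂.2.2, hq₂.2.1, hq₂.1⟩
    have m4 : q₃ ∉ ({q₂, q₁, q, p} : Finset α) := by
      simp only [Finset.mem_insert, Finset.mem_singleton, not_or]
      exact ⟨hq₃.2.2.2, hq₃.2.2.1, hq₃.2.1, hq₃.1⟩
    have hS : ({q₃, q₂, q₁, q, p} : Finset α) = Finset.univ := by
      apply Finset.eq_univ_of_card
      rw [Finset.card_insert_of_notMem m4, Finset.card_insert_of_notMem m3,
        Finset.card_insert_of_notMem m2, Finset.card_insert_of_notMem m1, Finset.card_singleton,
        h5]
    have hcov : ∀ b, b = q₃ ∨ b = q₂ ∨ b = q₁ ∨ b = q ∨ b = p := by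
      intro b
      have : b ∈ ({q₃, q₂, q₁, q, p} : Finset α) := by rw [hS]; exact Finset.mem_univ b
      simpa using this
    -- ρ₀
    have hρ₀P : Equiv.swap q q₁ * Equiv.swap q₂ q₃ ∈ P := by
      apply hT
      · exact sy_dswap_fix (Ne.symm hqp) (Ne.symm hq₁.1) (Ne.symm hq₂.1) (Ne.symm hq₃.1)
      · exact sy_dswap_sq (Ne.symm hq₂.2.1) (Ne.symm hq₃.2.1) (Ne.symm hq₂.2.2)
          (Ne.symm hq₃.2.2.1)
      · intro b hb
        apply sy_dswap_fpf (Ne.symm hq₁.2) (Ne.symm hq₂.2.1) (Ne.symm hq₃.2.1) (Ne.symm hq₂.2.2)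
          (Ne.symm hq₃.2.2.1) (Ne.symm hq₃.2.2.2)
        rcases hcov b with h | h | h | h | h
        · exact Or.inr (Or.inr (Or.inr h))
        · exact Or.inr (Or.inr (Or.inl h))
        · exact Or.inr (Or.inl h)
        · exact Or.inl h
        · exact absurd h hb
    have hρ₀M : Equiv.swap q q₁ * Equiv.swap q₂ q₃ ∈ M' :=
      hM _ hρ₀P (sy_sign_two (Ne.symm hq₁.2) (Ne.symm hq₃.2.2.2))
    set u := m q₁ with hu
    set u' := m q₂ with hu'
    set u'' := m q₃ with hu''
    set s := m p with hs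
    have hσ : m * (Equiv.swap q q₁ * Equiv.swap q₂ q₃) * m⁻¹ =
        Equiv.swap p u * Equiv.swap u' u'' := by
      have : m * (Equiv.swap q q₁ * Equiv.swap q₂ q₃) * m⁻¹ =
          (m * Equiv.swap q q₁ * m⁻¹) * (m * Equiv.swap q₂ q₃ * m⁻¹) := by group
      rw [this, ← Equiv.swap_apply_apply, ← Equiv.swap_apply_apply, hmq]
    have hσM : Equiv.swap p u * Equiv.swap u' u'' ∈ M' := by
      rw [← hσ]; exact M'.mul_mem (M'.mul_mem hm hρ₀M) (M'.inv_mem hm)
    have inj : ∀ {c d : α}, c ≠ d → m c ≠ m d := fun hcd h' => hcd (m.injective h')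
    have hup : u ≠ p := by rw [← hmq]; exact inj hq₁.2
    have hu'p : u' ≠ p := by rw [← hmq]; exact inj hq₂.2.1
    have hu''p : u'' ≠ p := by rw [← hmq]; exact inj hq₃.2.1
    have hus : u ≠ s := inj hq₁.1
    have huu' : u ≠ u' := inj (Ne.symm hq₂.2.2)
    have huu'' : u ≠ u'' := inj (Ne.symm hq₃.2.2.1)
    have hsu' : s ≠ u' := inj (Ne.symm hq₂.1)
    have hsu'' : s ≠ u'' := inj (Ne.symm hq₃.1)
    have hu'u'' : u' ≠ u'' := inj (Ne.symm hq₃.2.2.2)
    have hρP : Equiv.swap u s * Equiv.swap u' u'' ∈ P := by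
      apply hT
      · exact sy_dswap_fix (Ne.symm hup) (Ne.symm hmp) (Ne.symm hu'p) (Ne.symm hu''p)
      · exact sy_dswap_sq huu' huu'' hsu' hsu''
      · intro b hb
        apply sy_dswap_fpf hus huu' huu'' hsu' hsu'' hu'u''
        have hb' : b = m (m⁻¹ b) := (Equiv.apply_symm_apply m b).symm
        rcases hcov (m⁻¹ b) with h | h | h | h | h
        · exact Or.inr (Or.inr (Or.inr (by rw [hb', h])))
        · exact Or.inr (Or.inr (Or.inl (by rw [hb', h])))
        · exact Or.inl (by rw [hb', h])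
        · exact absurd (by rw [hb', h, hmq]) hb
        · exact Or.inr (Or.inl (by rw [hb', h]))
    have hρM : Equiv.swap u s * Equiv.swap u' u'' ∈ M' :=
      hM _ hρP (sy_sign_two hus hu'u'')
    have hc := sy_swap_comm huu' huu'' hsu' hsu''
    have hθ : Equiv.swap p u * Equiv.swap u' u'' * (Equiv.swap u s * Equiv.swap u' u'') =
        Equiv.swap u p * Equiv.swap u s := by
      calc Equiv.swap p u * Equiv.swap u' u'' * (Equiv.swap u s * Equiv.swap u' u'')
          = Equiv.swap p u * Equiv.swap u' u'' * (Equiv.swap u' u'' * Equiv.swap u s) := by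
            rw [hc]
        _ = Equiv.swap p u * (Equiv.swap u' u'' * Equiv.swap u' u'') * Equiv.swap u s := by
            group
        _ = Equiv.swap u p * Equiv.swap u s := by
            rw [Equiv.swap_mul_self, mul_one, Equiv.swap_comm p u]
    refine ⟨Equiv.swap u p * Equiv.swap u s, ?_, ?_⟩
    · exact Equiv.Perm.isThreeCycle_swap_mul_swap_same hup hus (Ne.symm hmp)
    · rw [← hθ]; exact M'.mul_mem hσM hρM
  · have h8 : 8 ≤ 2 ^ e := calc 8 = 2 ^ 3 := by norm_num
        _ ≤ 2 ^ e := Nat.pow_le_pow_right (by norm_num) he3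
    have hzq : z q ≠ q := hzne q hqp
    set u := m (z q) with hu
    have hup : u ≠ p := fun h' => hzq (m.injective (h'.trans hmq.symm))
    set y := m⁻¹ (z u) with hy
    obtain ⟨c, hc⟩ := sy_exists_notMem ({p, q, z q, y, z y} : Finset α)
      (Finset.card_le_five.trans_lt (by omega))
    simp only [Finset.mem_insert, Finset.mem_singleton, not_or] at hc
    obtain ⟨hc1, hc2, hc3, hc4, hc5⟩ := hc
    obtain ⟨w, hw⟩ := sy_exists_notMem
      ({p, u, z u, m c, m (z c), z (m c), z (m (z c))} : Finset α)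
      (lt_of_le_of_lt ((Finset.card_insert_le _ _).trans (Nat.succ_le_succ Finset.card_le_six))
        (by omega))
    simp only [Finset.mem_insert, Finset.mem_singleton, not_or] at hw
    obtain ⟨hw1, hw2, hw3, hw4, hw5, hw6, hw7⟩ := hw
    have hczc : c ≠ z c := (hzne c hc1).symm
    have hτ : Equiv.swap q (z q) * Equiv.swap c (z c) ∈ M' :=
      hM _ (Subgroup.mul_mem _ (hsw q) (hsw c)) (sy_sign_two hzq.symm hczc)
    set τ := Equiv.swap q (z q) * Equiv.swap c (z c) with hτdef
    set σ := m * τ * m⁻¹ with hσdef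
    have hσM : σ ∈ M' := M'.mul_mem (M'.mul_mem hm hτ) (M'.inv_mem hm)
    have hzu : z u ≠ u := hzne u hup
    have hwzw : w ≠ z w := (hzne w hw1).symm
    have hρ : Equiv.swap u (z u) * Equiv.swap w (z w) ∈ M' :=
      hM _ (Subgroup.mul_mem _ (hsw u) (hsw w)) (sy_sign_two hzu.symm hwzw)
    set ρ := Equiv.swap u (z u) * Equiv.swap w (z w) with hρdef
    have hσval : ∀ v, v ≠ p → v ≠ u → v ≠ m c → v ≠ m (z c) → σ v = v := by
      intro v h1 h2 h3 h4
      have k : ∀ t, v ≠ m t → m⁻¹ v ≠ t := fun t ht h' =>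
        ht (by rw [← h']; exact (Equiv.apply_symm_apply m v).symm)
      rw [hσdef, Perm.mul_apply, Perm.mul_apply, hτdef,
        sy_dswap_fix (k q (by rw [hmq]; exact h1)) (k (z q) h2) (k c h3) (k (z c) h4)]
      exact Equiv.apply_symm_apply m v
    have hσu : σ u = p := by
      rw [hσdef, Perm.mul_apply, Perm.mul_apply, hu,
        show m⁻¹ (m (z q)) = z q from Equiv.symm_apply_apply m (z q), hτdef, Perm.mul_apply,
        Equiv.swap_apply_of_ne_of_ne (fun h' => hc3 h'.symm)
          (fun h' => hc2 (z.injective h').symm), Equiv.swap_apply_right, hmq]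
    have hσzu : σ (z u) = z u := by
      apply hσval _ (hznp u hup) hzu
      · intro h'
        exact hc4 (by rw [hy, h']; exact (Equiv.symm_apply_apply m c).symm)
      · intro h'
        exact hc5 (by
          rw [hy, h', show m⁻¹ (m (z c)) = z c from Equiv.symm_apply_apply m (z c), hzz])
    have hσw : σ w = w := hσval w hw1 hw2 hw4 hw5
    have hσzw : σ (z w) = z w := by
      apply hσval _ (hznp w hw1)
      · intro h'; exact hw3 (by rw [← h', hzz])
      · intro h'; exact hw6 (by rw [← h', hzz])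
      · intro h'; exact hw7 (by rw [← h', hzz])
    have hconj : σ * ρ * σ⁻¹ = Equiv.swap p (z u) * Equiv.swap w (z w) := by
      have : σ * ρ * σ⁻¹ = (σ * Equiv.swap u (z u) * σ⁻¹) * (σ * Equiv.swap w (z w) * σ⁻¹) := by
        rw [hρdef]; group
      rw [this, ← Equiv.swap_apply_apply, ← Equiv.swap_apply_apply, hσu, hσzu, hσw, hσzw]
    have hθ : σ * ρ * σ⁻¹ * ρ⁻¹ = Equiv.swap (z u) p * Equiv.swap (z u) u := by
      rw [hconj, hρdef, mul_inv_rev, Equiv.swap_inv, Equiv.swap_inv]
      calc Equiv.swap p (z u) * Equiv.swap w (z w) * (Equiv.swap w (z w) * Equiv.swap u (z u))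
          = Equiv.swap p (z u) * (Equiv.swap w (z w) * Equiv.swap w (z w)) * Equiv.swap u (z u) := by
            group
        _ = Equiv.swap (z u) p * Equiv.swap (z u) u := by
            rw [Equiv.swap_mul_self, mul_one, Equiv.swap_comm p, Equiv.swap_comm u]
    refine ⟨Equiv.swap (z u) p * Equiv.swap (z u) u, ?_, ?_⟩
    · exact Equiv.Perm.isThreeCycle_swap_mul_swap_same (hznp u hup) hzu (Ne.symm hup)
    · rw [← hθ]
      exact M'.mul_mem (M'.mul_mem (M'.mul_mem hσM hρ) (M'.inv_mem hσM)) (M'.inv_mem hρ)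

end Cfsg.Agent.Helper8
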