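import Mathlib
import Cfsg.Agent.Helper8.SyI

set_option autoImplicit false

namespace Cfsg.Agent.Helper8

open Equiv Function
open scoped Pointwise

theorem sy_dichotomy (n : ℕ) (hn : 5 ≤ n) (P : Sylow 2 (Perm (Fin n))) :
    (∃ t ∈ P, t ∉ alternatingGroup (Fin n)) ∧
    ((SyTwo (P : Subgroup (Perm (Fin n))) ∧ ¬ ∃ k, 2 ≤ k ∧ n = 2 ^ k + 1) ∨
     ((∃ k, 2 ≤ k ∧ n = 2 ^ k + 1) ∧ ∃ (s : Set (Fin n)) (p : Fin n),
        s.Nonempty ∧ sᶜ.Nonempty ∧ Nat.card (Fin n) ≠ 2 * s.ncard ∧
        (P : Subgroup (Perm (Fin n))) ≤ MulAction.stabilizer (Perm (Fin n)) s ∧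
        (∀ m : Perm (Fin n), m ∉ MulAction.stabilizer (Perm (Fin n)) s → m p ≠ p) ∧
        ∀ M' : Subgroup (Perm (Fin n)), (∀ g ∈ P, g ∈ alternatingGroup (Fin n) → g ∈ M') →
          ∀ m ∈ M', m p ≠ p → alternatingGroup (Fin n) ≤ M')) := by
  obtain ⟨x, hxP, hgood, hfix, hx2, huniq⟩ := sy_setup n P
  have hper : ∀ a, ∃ j, pper x a = 2 ^ j := fun a => hgood.1 a (Finset.mem_univ a)
  have hxinv : ∀ a ∈ (Finset.univ : Finset (Fin n)), x a ∈ (Finset.univ : Finset (Fin n)) :=
    fun a _ => Finset.mem_univ _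
  obtain ⟨e, a₀, -, ha₀, hmax, hle, hub⟩ :=
    sy_key1 hgood hxinv ⟨⟨0, by omega⟩, Finset.mem_univ _⟩
  have hf1 : ((Finset.univ : Finset (Fin n)).filter (fun c => pper x c = 1)).card ≤ 1 := by
    rw [Finset.card_le_one]
    intro c hc d hd
    rw [Finset.mem_filter] at hc hd
    exact hfix c d ((pper_eq_one x c).mp hc.2) ((pper_eq_one x d).mp hd.2)
  rw [Finset.card_univ, Fintype.card_fin] at hle hub
  have hp1 : 2 ^ (e + 1) = 2 * 2 ^ e := by ring
  have hnlt : n < 2 ^ (e + 1) := by omega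
  have he2 : 2 ≤ e := by
    by_contra hc
    have h' : e + 1 ≤ 2 := by omega
    have : 2 ^ (e + 1) ≤ 4 := calc 2 ^ (e + 1) ≤ 2 ^ 2 := Nat.pow_le_pow_right (by norm_num) h'
      _ = 4 := by norm_num
    omega
  have hcardα : Fintype.card (Fin n) = n := Fintype.card_fin n
  have hodd : ∃ t ∈ P, t ∉ alternatingGroup (Fin n) := by
    have hne : x a₀ ≠ a₀ := by
      intro h
      have h1 := (pper_eq_one x a₀).mpr h
      have h2 := sy_two_le (by omega : 1 ≤ e)
      omega
    refine ⟨Equiv.swap a₀ (syz x hper a₀), sy_zswap_mem hx2 P huniq hper a₀, ?_⟩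
    rw [Equiv.Perm.mem_alternatingGroup, Equiv.Perm.sign_swap (syz_ne hper hne).symm]
    decide
  refine ⟨hodd, ?_⟩
  have hcA : (perFin x (2 ^ e)).card = 2 ^ e := perFin_card hgood (by omega) ha₀
  set B := (Finset.univ : Finset (Fin n)).filter (fun b => ¬ pper x b = 2 ^ e) with hB
  have hAB : (perFin x (2 ^ e)).card + B.card = n := by
    have := Finset.card_filter_add_card_filter_not
      (s := (Finset.univ : Finset (Fin n))) (fun b => pper x b = 2 ^ e)
    rw [Finset.card_univ, Fintype.card_fin] at this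
    exact this
  rcases Finset.eq_empty_or_nonempty B with hBe | hBne
  · left
    have hall : ∀ c, pper x c = 2 ^ e := by
      intro c
      by_contra hc
      have : c ∈ B := Finset.mem_filter.mpr ⟨Finset.mem_univ _, hc⟩
      rw [hBe] at this; exact absurd this (Finset.notMem_empty _)
    have hn' : n = 2 ^ e := by rw [hBe, Finset.card_empty] at hAB; omega
    have he3 : 3 ≤ e := by
      by_contra hc
      have h' : e ≤ 2 := by omega
      have : 2 ^ e ≤ 4 := calc 2 ^ e ≤ 2 ^ 2 := Nat.pow_le_pow_right (by norm_num) h'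
        _ = 4 := by norm_num
      omega
    refine ⟨sy_case_one hgood hx2 P hxP huniq he3 hall (by rw [hcardα]; exact hn'), ?_⟩
    rintro ⟨k, hk, hnk⟩
    have h1 : 2 ^ k < 2 ^ e := by omega
    have hke : k < e := (Nat.pow_lt_pow_iff_right (by norm_num)).mp h1
    have h2 := Nat.pow_le_pow_right (by norm_num : 0 < 2) (by omega : k + 1 ≤ e)
    have hk2 := sy_two_le (by omega : 1 ≤ k)
    rw [pow_succ] at h2
    omega
  · have hBx : ∀ c ∈ B, x c ∈ B := by
      intro c hc
      rw [hB, Finset.mem_filter] at hc ⊢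
      exact ⟨Finset.mem_univ _, by rw [pper_apply]; exact hc.2⟩
    obtain ⟨e₂, b₀, hb₀B, hb₀, hmax₂, hle₂, hub₂⟩ :=
      sy_key1 (hgood.mono (Finset.subset_univ B)) hBx hBne
    have hb₀ne : pper x b₀ ≠ 2 ^ e := (Finset.mem_filter.mp hb₀B).2
    have hee : e₂ < e := by
      have h1 := hmax b₀ (Finset.mem_univ _)
      rw [hb₀] at h1 hb₀ne
      have : 2 ^ e₂ < 2 ^ e := lt_of_le_of_ne h1 hb₀ne
      exact (Nat.pow_lt_pow_iff_right (by norm_num)).mp this
    rcases Nat.eq_zero_or_pos e₂ with h0 | h0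
    · subst h0
      right
      have hb₀fix : x b₀ = b₀ := (pper_eq_one x b₀).mp (by simpa using hb₀)
      have hBall : ∀ c, c ≠ b₀ → pper x c = 2 ^ e := by
        intro c hc
        by_contra hcon
        have hcB : c ∈ B := Finset.mem_filter.mpr ⟨Finset.mem_univ _, hcon⟩
        have h1 := hmax₂ c hcB
        simp only [pow_zero] at h1
        have h2 := pper_pos x c
        exact hc (hfix c b₀ ((pper_eq_one x c).mp (by omega)) hb₀fix)
      have hBcard : B.card = 1 := by
        apply le_antisymm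
        · rw [Finset.card_le_one]
          intro c hc d hd
          have hc' : c = b₀ := by
            by_contra h'; exact (Finset.mem_filter.mp hc).2 (hBall c h')
          have hd' : d = b₀ := by
            by_contra h'; exact (Finset.mem_filter.mp hd).2 (hBall d h')
          rw [hc', hd']
        · exact Finset.card_pos.mpr hBne
      have hn' : n = 2 ^ e + 1 := by omega
      refine ⟨⟨e, he2, hn'⟩, ((perFin x (2 ^ e) : Finset (Fin n)) : Set (Fin n)), b₀,
        ⟨a₀, mem_perFin.mpr ha₀⟩, ⟨b₀, fun h => hb₀ne (mem_perFin.mp h)⟩, ?_,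
        sy_stab_mem hgood hfix P hxP _, ?_, ?_⟩
      · rw [Set.ncard_coe_finset, hcA, Nat.card_eq_fintype_card, hcardα]
        have := sy_two_le (by omega : 1 ≤ e)
        omega
      · intro m hm hmp
        apply hm
        rw [MulAction.mem_stabilizer_set]
        intro b
        rw [mem_perFin, mem_perFin, Perm.smul_def]
        constructor
        · intro h
          apply hBall
          intro hb; rw [hb, hmp] at h; exact hb₀ne h
        · intro h
          apply hBall
          intro hb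
          have : b = b₀ := m.injective (hb.trans hmp.symm)
          rw [this] at h; exact hb₀ne h
      · intro M' hM' m hm hmp
        exact sy_unique_aux hgood hx2 P hxP huniq he2 hb₀fix hBall
          (by rw [hcardα]; exact hn') M' hM' hm hmp
    · left
      have hcA₂ : (perFin x (2 ^ e₂)).card = 2 ^ e₂ := perFin_card hgood h0 hb₀
      have hsub : perFin x (2 ^ e₂) ⊆ B := by
        intro c hc
        rw [perFin, Finset.mem_filter] at hc
        rw [hB, Finset.mem_filter]
        refine ⟨Finset.mem_univ _, ?_⟩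
        rw [hc.2]; rw [hb₀] at hb₀ne; exact hb₀ne
      have hBge : 2 ^ e₂ ≤ B.card := by rw [← hcA₂]; exact Finset.card_le_card hsub
      have h22 := sy_two_le h0
      have hnotk : ¬ ∃ k, 2 ≤ k ∧ n = 2 ^ k + 1 := by
        rintro ⟨k, hk, hnk⟩
        have h1 : 2 ^ e < 2 ^ k := by omega
        have h2 : 2 ^ k < 2 ^ (e + 1) := by omega
        have h1' := (Nat.pow_lt_pow_iff_right (by norm_num : 1 < 2)).mp h1
        have h2' := (Nat.pow_lt_pow_iff_right (by norm_num : 1 < 2)).mp h2
        omega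
      refine ⟨?_, hnotk⟩
      by_cases hall : ∀ c, pper x c = 2 ^ e ∨ pper x c = 2 ^ e₂
      · exact sy_case_two hgood hx2 P hxP huniq h0 hee ha₀ hb₀ hall
          (by rw [hcardα]; exact hnlt)
      · push Not at hall
        obtain ⟨c, hc1, hc2⟩ := hall
        exact sy_case_three hgood hfix P hxP h0 hee ha₀ hb₀ hc1 hc2
          (by rw [hcardα]; exact hnlt)

theorem sy_sym_final (n : ℕ) (hn : 5 ≤ n) (P : Sylow 2 (Perm (Fin n))) :
    (∃! M : Subgroup (Perm (Fin n)), IsCoatom M ∧ (P : Subgroup (Perm (Fin n))) ≤ M) ↔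
      ∃ k : ℕ, 2 ≤ k ∧ n = 2 ^ k + 1 := by
  obtain ⟨⟨t, htP, htA⟩, hd⟩ := sy_dichotomy n hn P
  have htop : ∀ M : Subgroup (Perm (Fin n)), (P : Subgroup (Perm (Fin n))) ≤ M →
      alternatingGroup (Fin n) ≤ M → M = ⊤ := by
    intro M hPM hAM
    rw [Subgroup.eq_top_iff']
    intro g
    rcases Int.units_eq_one_or (Equiv.Perm.sign g) with hs | hs
    · exact hAM (Equiv.Perm.mem_alternatingGroup.mpr hs)
    · have hst : Equiv.Perm.sign t = -1 := by
        rcases Int.units_eq_one_or (Equiv.Perm.sign t) with h | h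
        · exact absurd (Equiv.Perm.mem_alternatingGroup.mpr h) htA
        · exact h
      have h1 : g * t ∈ M :=
        hAM (by rw [Equiv.Perm.mem_alternatingGroup, map_mul, hs, hst]; rfl)
      have := M.mul_mem h1 (M.inv_mem (hPM htP))
      simpa using this
  rcases hd with ⟨⟨H₁, H₂, hP1, hP2, ⟨g₁, hg₁A, hg₁⟩, ⟨g₂, hg₂A, hg₂⟩, gen⟩, hnk⟩ |
    ⟨hk, s, p, hs1, hs2, hs3, hPs, hsp, hL⟩
  · constructor
    · rintro ⟨M, ⟨hM, hPM⟩, huq⟩
      exfalso
      have key : ∀ (H : Subgroup (Perm (Fin n))) (g : Perm (Fin n)),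
          (P : Subgroup (Perm (Fin n))) ≤ H → g ∉ H → H ≤ M := by
        intro H g hPH hgH
        obtain ⟨M₁, hM₁, hle⟩ := (eq_top_or_exists_le_coatom H).resolve_left
          (fun h => hgH (h ▸ Subgroup.mem_top g))
        have := huq M₁ ⟨hM₁, hPH.trans hle⟩
        rw [← this]; exact hle
      have h1 := key H₁ g₁ hP1 hg₁
      have h2 := key H₂ g₂ hP2 hg₂
      have hA : alternatingGroup (Fin n) ≤ M := by
        have := gen (M.subgroupOf (alternatingGroup (Fin n)))
          (fun g hg => Subgroup.mem_subgroupOf.mpr (h1 (Subgroup.mem_subgroupOf.mp hg)))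
          (fun g hg => Subgroup.mem_subgroupOf.mpr (h2 (Subgroup.mem_subgroupOf.mp hg)))
        exact Subgroup.subgroupOf_eq_top.mp this
      exact hM.1 (htop M hPM hA)
    · intro hk; exact absurd hk hnk
  · constructor
    · intro _; exact hk
    · intro _
      have hco : IsCoatom (MulAction.stabilizer (Perm (Fin n)) s) :=
        Equiv.Perm.isCoatom_stabilizer hs1 hs2 hs3
      refine ⟨_, ⟨hco, hPs⟩, ?_⟩
      rintro M ⟨hM, hPM⟩
      by_contra hne
      have : ∃ m ∈ M, m ∉ MulAction.stabilizer (Perm (Fin n)) s := by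
        by_contra hcon
        push Not at hcon
        have hle : M ≤ MulAction.stabilizer (Perm (Fin n)) s := hcon
        rcases eq_or_lt_of_le hle with h | h
        · exact hne h
        · exact hco.1 (hM.2 _ h)
      obtain ⟨m, hmM, hms⟩ := this
      have hA := hL M (fun g hg _ => hPM hg) m hmM (hsp m hms)
      exact hM.1 (htop M hPM hA)

theorem sy_alt_final (n : ℕ) (hn : 5 ≤ n) (R : Sylow 2 ↥(alternatingGroup (Fin n))) :
    (∃! M : Subgroup ↥(alternatingGroup (Fin n)),
        IsCoatom M ∧ (R : Subgroup ↥(alternatingGroup (Fin n))) ≤ M) ↔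
      ∃ k : ℕ, 2 ≤ k ∧ n = 2 ^ k + 1 := by
  obtain ⟨P, hRP, hPR⟩ := sy_alt_link n R
  obtain ⟨-, hd⟩ := sy_dichotomy n hn P
  rcases hd with ⟨⟨H₁, H₂, hP1, hP2, ⟨g₁, hg₁A, hg₁⟩, ⟨g₂, hg₂A, hg₂⟩, gen⟩, hnk⟩ |
    ⟨hk, s, p, hs1, hs2, hs3, hPs, hsp, hL⟩
  · constructor
    · rintro ⟨M, ⟨hM, hRM⟩, huq⟩
      exfalso
      have key : ∀ (H : Subgroup (Perm (Fin n))) (g : Perm (Fin n)),
          (P : Subgroup (Perm (Fin n))) ≤ H → g ∈ alternatingGroup (Fin n) → g ∉ H →
          H.subgroupOf (alternatingGroup (Fin n)) ≤ M := by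
        intro H g hPH hgA hgH
        have hne : H.subgroupOf (alternatingGroup (Fin n)) ≠ ⊤ := by
          intro h
          have : (⟨g, hgA⟩ : alternatingGroup (Fin n)) ∈
              H.subgroupOf (alternatingGroup (Fin n)) := h ▸ Subgroup.mem_top _
          exact hgH (Subgroup.mem_subgroupOf.mp this)
        obtain ⟨M₁, hM₁, hle⟩ := (eq_top_or_exists_le_coatom _).resolve_left hne
        have hRM₁ : (R : Subgroup ↥(alternatingGroup (Fin n))) ≤ M₁ := fun r hr =>
          hle (Subgroup.mem_subgroupOf.mpr (hPH (hRP r hr)))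
        have := huq M₁ ⟨hM₁, hRM₁⟩
        rw [← this]; exact hle
      exact hM.1 (gen M (key H₁ g₁ hP1 hg₁A hg₁) (key H₂ g₂ hP2 hg₂A hg₂))
    · intro hk; exact absurd hk hnk
  · constructor
    · intro _; exact hk
    · intro _
      have hco : IsCoatom (MulAction.stabilizer ↥(alternatingGroup (Fin n)) s) :=
        alternatingGroup.isCoatom_stabilizer hs1 hs2 hs3
      have hmemstab : ∀ g : ↥(alternatingGroup (Fin n)),
          g ∈ MulAction.stabilizer ↥(alternatingGroup (Fin n)) s ↔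
            (g : Perm (Fin n)) ∈ MulAction.stabilizer (Perm (Fin n)) s := by
        intro g
        rw [MulAction.mem_stabilizer_iff, MulAction.mem_stabilizer_iff]; rfl
      refine ⟨_, ⟨hco, fun r hr => (hmemstab r).mpr (hPs (hRP r hr))⟩, ?_⟩
      rintro M ⟨hM, hRM⟩
      by_contra hne
      have : ∃ m ∈ M, m ∉ MulAction.stabilizer ↥(alternatingGroup (Fin n)) s := by
        by_contra hcon
        push Not at hcon
        have hle : M ≤ MulAction.stabilizer ↥(alternatingGroup (Fin n)) s := hcon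
        rcases eq_or_lt_of_le hle with h | h
        · exact hne h
        · exact hco.1 (hM.2 _ h)
      obtain ⟨m, hmM, hms⟩ := this
      have hms' : (m : Perm (Fin n)) ∉ MulAction.stabilizer (Perm (Fin n)) s :=
        fun h => hms ((hmemstab m).mpr h)
      have hA := hL (M.map (alternatingGroup (Fin n)).subtype)
        (fun g hg hgA => Subgroup.mem_map.mpr ⟨⟨g, hgA⟩, hRM (hPR g hgA hg), rfl⟩) m.1
        (Subgroup.mem_map.mpr ⟨m, hmM, rfl⟩) (hsp _ hms')
      apply hM.1
      rw [Subgroup.eq_top_iff']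
      intro g
      obtain ⟨y, hy, hyg⟩ := Subgroup.mem_map.mp (hA g.2)
      have : y = g := Subtype.ext hyg
      rw [← this]; exact hy

end Cfsg.Agent.Helper8
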