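import Mathlib

set_option autoImplicit false

namespace Cfsg.Agent.Helper8

/-! ### The bialternant identity in counting form

`ucN n α β` counts the matrices of natural numbers with row sums `α` and column sums `β`;
`uc_identity` is the orthogonality relation `∑ sign κ sign κ' N(λ - κ, λ' - κ') = [λ = λ']`
for strictly increasing `λ`, `λ'`. -/

section UC2

theorem ps_geo_mul {A : Type*} [CommRing A] (a : A) :
    (PowerSeries.mk (fun k => a ^ k)) * (1 - PowerSeries.C a * PowerSeries.X) = 1 := by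
  ext m
  rw [mul_sub, mul_one, map_sub, ← mul_assoc, PowerSeries.coeff_mk]
  cases m with
  | zero =>
    rw [PowerSeries.coeff_zero_mul_X, PowerSeries.coeff_one]
    simp
  | succ m =>
    rw [PowerSeries.coeff_succ_mul_X, PowerSeries.coeff_mul_C, PowerSeries.coeff_mk, PowerSeries.coeff_one]
    simp [pow_succ]

theorem ps_prod_bound {A : Type*} [CommRing A] {ι : Type*} [DecidableEq ι] (c : ι → A) (s : Finset ι) :
    ∀ b, s.card < b → PowerSeries.coeff b (∏ l ∈ s, (1 - PowerSeries.C (c l) * PowerSeries.X)) = 0 := by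
  induction s using Finset.induction_on with
  | empty =>
    intro b hb
    rw [Finset.card_empty] at hb
    rw [Finset.prod_empty, PowerSeries.coeff_one, if_neg (by omega)]
  | insert a s ha ih =>
    intro b hb
    rw [Finset.card_insert_of_notMem ha] at hb
    obtain ⟨b', rfl⟩ : ∃ b', b = b' + 1 := ⟨b - 1, by omega⟩
    rw [Finset.prod_insert ha, sub_mul, one_mul, map_sub, mul_assoc, PowerSeries.coeff_C_mul,
      PowerSeries.coeff_succ_X_mul, ih _ (by omega), ih _ (by omega)]
    simp

variable (n : ℕ)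

noncomputable def ucGeo (l : Fin n) : PowerSeries (MvPolynomial (Fin n) ℤ) :=
  PowerSeries.mk (fun a => (MvPolynomial.X l : MvPolynomial (Fin n) ℤ) ^ a)

noncomputable def ucH : PowerSeries (MvPolynomial (Fin n) ℤ) := ∏ l, ucGeo n l

noncomputable def ucC (k : Fin n) : PowerSeries (MvPolynomial (Fin n) ℤ) :=
  ∏ l ∈ Finset.univ.erase k,
    (1 - PowerSeries.C (MvPolynomial.X l : MvPolynomial (Fin n) ℤ) * PowerSeries.X)

theorem ucC_mul_ucH (k : Fin n) : ucC n k * ucH n = ucGeo n k := by
  unfold ucC ucH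
  rw [← Finset.mul_prod_erase Finset.univ (ucGeo n) (Finset.mem_univ k), mul_left_comm,
    ← Finset.prod_mul_distrib, Finset.prod_eq_one, mul_one]
  intro l _
  rw [mul_comm]
  exact ps_geo_mul _

theorem ucC_bound (k : Fin n) (b : ℕ) (hb : n ≤ b) : PowerSeries.coeff b (ucC n k) = 0 := by
  apply ps_prod_bound
  rw [Finset.card_erase_of_mem (Finset.mem_univ k), Finset.card_univ, Fintype.card_fin]
  have := k.2
  omega

theorem uc_key (k : Fin n) (m : ℕ) :
    ∑ j : Fin n, (if j.val ≤ m then PowerSeries.coeff (m - j.val) (ucH n) else 0) *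
        PowerSeries.coeff j.val (ucC n k) =
      (MvPolynomial.X k : MvPolynomial (Fin n) ℤ) ^ m := by
  have h1 : PowerSeries.coeff m (ucC n k * ucH n) = (MvPolynomial.X k : MvPolynomial (Fin n) ℤ) ^ m := by
    rw [ucC_mul_ucH]
    exact PowerSeries.coeff_mk _ _
  rw [PowerSeries.coeff_mul,
    Finset.Nat.sum_antidiagonal_eq_sum_range_succ
      (fun a b => PowerSeries.coeff a (ucC n k) * PowerSeries.coeff b (ucH n)) m] at h1
  rw [← h1]
  have e0 := Fin.sum_univ_eq_sum_range (fun j => (if j ≤ m then PowerSeries.coeff (m - j) (ucH n) else 0) *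
    PowerSeries.coeff j (ucC n k)) n
  have e1 : ∑ j ∈ Finset.range n, (if j ≤ m then PowerSeries.coeff (m - j) (ucH n) else 0) *
        PowerSeries.coeff j (ucC n k) =
      ∑ j ∈ (Finset.range n).filter (fun j => j ≤ m),
        PowerSeries.coeff j (ucC n k) * PowerSeries.coeff (m - j) (ucH n) := by
    rw [Finset.sum_filter]
    apply Finset.sum_congr rfl
    intro j _
    split_ifs
    · ring
    · ring
  have e2 : ∑ j ∈ Finset.range (m + 1), PowerSeries.coeff j (ucC n k) * PowerSeries.coeff (m - j) (ucH n) =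
      ∑ j ∈ (Finset.range (m + 1)).filter (fun j => j < n),
        PowerSeries.coeff j (ucC n k) * PowerSeries.coeff (m - j) (ucH n) := by
    rw [Finset.sum_filter]
    apply Finset.sum_congr rfl
    intro j _
    split_ifs with h
    · rfl
    · rw [ucC_bound n k j (by omega), zero_mul]
  refine e0.trans (e1.trans (Eq.trans ?_ e2.symm))
  apply Finset.sum_congr _ (fun _ _ => rfl)
  ext j
  simp only [Finset.mem_filter, Finset.mem_range]
  omega

noncomputable def ucHm (lam : Fin n → ℕ) : Matrix (Fin n) (Fin n) (MvPolynomial (Fin n) ℤ) :=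
  Matrix.of fun i j => if j.val ≤ lam i then PowerSeries.coeff (lam i - j.val) (ucH n) else 0

noncomputable def ucCm : Matrix (Fin n) (Fin n) (MvPolynomial (Fin n) ℤ) :=
  Matrix.of fun j k => PowerSeries.coeff j.val (ucC n k)

noncomputable def ucVm (lam : Fin n → ℕ) : Matrix (Fin n) (Fin n) (MvPolynomial (Fin n) ℤ) :=
  Matrix.of fun i k => (MvPolynomial.X k : MvPolynomial (Fin n) ℤ) ^ lam i

theorem ucHm_mul (lam : Fin n → ℕ) : ucHm n lam * ucCm n = ucVm n lam := by
  refine Matrix.ext (fun i k => ?_)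
  rw [Matrix.mul_apply]
  exact uc_key n k (lam i)

theorem ucH_zero : PowerSeries.coeff 0 (ucH n) = 1 := by
  unfold ucH
  rw [PowerSeries.coeff_zero_eq_constantCoeff_apply, map_prod]
  apply Finset.prod_eq_one
  intro l _
  unfold ucGeo
  rw [← PowerSeries.coeff_zero_eq_constantCoeff_apply, PowerSeries.coeff_mk, pow_zero]

theorem ucHm_det_delta : (ucHm n (fun i => i.val)).det = 1 := by
  rw [Matrix.det_of_isLowerTriangular]
  · apply Finset.prod_eq_one
    intro i _
    show (if i.val ≤ i.val then PowerSeries.coeff (i.val - i.val) (ucH n) else 0) = 1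
    rw [if_pos le_rfl, Nat.sub_self, ucH_zero]
  · intro i j hij
    have hij' : i < j := hij
    show (if j.val ≤ i.val then PowerSeries.coeff (i.val - j.val) (ucH n) else 0) = 0
    rw [if_neg]
    rw [Fin.lt_def] at hij'
    omega

theorem uc_det (lam : Fin n → ℕ) :
    (ucHm n lam).det * (ucVm n (fun i => i.val)).det = (ucVm n lam).det := by
  have h1 := congrArg Matrix.det (ucHm_mul n lam)
  have h2 := congrArg Matrix.det (ucHm_mul n (fun i => i.val))
  rw [Matrix.det_mul] at h1 h2
  rw [ucHm_det_delta, one_mul] at h2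
  rw [← h2, h1]

theorem uc_coeff_int_mul (z : ℤ) (p : MvPolynomial (Fin n) ℤ) (m : Fin n →₀ ℕ) :
    MvPolynomial.coeff m ((z : MvPolynomial (Fin n) ℤ) * p) = z * MvPolynomial.coeff m p := by
  rw [← eq_intCast (MvPolynomial.C : ℤ →+* MvPolynomial (Fin n) ℤ) z, MvPolynomial.coeff_C_mul]

theorem uc_coeff_term (z z' : ℤ) (Y : MvPolynomial (Fin n) ℤ) (e m : Fin n →₀ ℕ) :
    MvPolynomial.coeff m (((z : MvPolynomial (Fin n) ℤ) * Y) *
        ((z' : MvPolynomial (Fin n) ℤ) * MvPolynomial.monomial e 1)) =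
      z * z' * (if e ≤ m then MvPolynomial.coeff (m - e) Y else 0) := by
  rw [show ((z : MvPolynomial (Fin n) ℤ) * Y) * ((z' : MvPolynomial (Fin n) ℤ) * MvPolynomial.monomial e 1) =
      (z : MvPolynomial (Fin n) ℤ) * ((z' : MvPolynomial (Fin n) ℤ) * (Y * MvPolynomial.monomial e 1)) by ring,
    uc_coeff_int_mul, uc_coeff_int_mul, MvPolynomial.coeff_mul_monomial']
  split_ifs <;> ring

theorem ucVm_det (lam : Fin n → ℕ) : (ucVm n lam).det =
    ∑ σ : Equiv.Perm (Fin n), ((Equiv.Perm.sign σ : ℤ) : MvPolynomial (Fin n) ℤ) *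
      MvPolynomial.monomial (Finsupp.equivFunOnFinite.symm (fun k => lam (σ k))) 1 := by
  rw [Matrix.det_apply']
  apply Finset.sum_congr rfl
  intro σ _
  congr 1
  rw [MvPolynomial.monomial_eq, map_one, one_mul, Finsupp.prod_fintype _ _ (fun i => pow_zero _)]
  exact Finset.prod_congr rfl (fun k _ => rfl)

theorem ucVm_coeff (lam lam' : Fin n → ℕ) (h : StrictMono lam) (h' : StrictMono lam') :
    MvPolynomial.coeff (Finsupp.equivFunOnFinite.symm lam') (ucVm n lam).det =
      if lam = lam' then 1 else 0 := by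
  classical
  rw [ucVm_det, MvPolynomial.coeff_sum]
  have hterm : ∀ σ : Equiv.Perm (Fin n),
      MvPolynomial.coeff (Finsupp.equivFunOnFinite.symm lam')
        (((Equiv.Perm.sign σ : ℤ) : MvPolynomial (Fin n) ℤ) *
          MvPolynomial.monomial (Finsupp.equivFunOnFinite.symm (fun k => lam (σ k))) 1) =
      if σ = 1 ∧ lam = lam' then 1 else 0 := by
    intro σ
    rw [uc_coeff_int_mul, MvPolynomial.coeff_monomial]
    by_cases hc : (Finsupp.equivFunOnFinite.symm (fun k => lam (σ k)) : Fin n →₀ ℕ) =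
        Finsupp.equivFunOnFinite.symm lam'
    · have hc' : (fun k => lam (σ k)) = lam' := Finsupp.equivFunOnFinite.symm.injective hc
      have hr : Set.range lam = Set.range lam' := by
        rw [← hc']
        exact (σ.surjective.range_comp lam).symm
      have hl : lam = lam' := (StrictMono.range_inj h h').mp hr
      have hs : σ = 1 := by
        ext k
        have := congrFun hc' k
        rw [← hl] at this
        exact congrArg Fin.val (h.injective this)
      rw [if_pos hc, if_pos ⟨hs, hl⟩, hs]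
      simp
    · rw [if_neg hc, if_neg, mul_zero]
      rintro ⟨hs, hl⟩
      apply hc
      rw [hs, ← hl]
      rfl
  rw [Finset.sum_congr rfl (fun σ _ => hterm σ)]
  by_cases hl : lam = lam'
  · rw [if_pos hl, Finset.sum_eq_single 1]
    · rw [if_pos ⟨rfl, hl⟩]
    · intro σ _ hσ
      rw [if_neg (fun hh => hσ hh.1)]
    · intro hh
      exact absurd (Finset.mem_univ _) hh
  · rw [if_neg hl]
    apply Finset.sum_eq_zero
    intro σ _
    rw [if_neg (fun hh => hl hh.2)]

theorem ucHm_det (lam : Fin n → ℕ) : (ucHm n lam).det =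
    ∑ κ : Equiv.Perm (Fin n), ((Equiv.Perm.sign κ : ℤ) : MvPolynomial (Fin n) ℤ) *
      (if ∀ i, (κ i).val ≤ lam i then ∏ i, PowerSeries.coeff (lam i - (κ i).val) (ucH n) else 0) := by
  rw [← Matrix.det_transpose, Matrix.det_apply']
  apply Finset.sum_congr rfl
  intro κ _
  congr 1
  show ∏ i, (if (κ i).val ≤ lam i then PowerSeries.coeff (lam i - (κ i).val) (ucH n) else 0) = _
  rw [Fintype.prod_ite_zero]
  by_cases hA : ∀ i, (κ i).val ≤ lam i
  · rw [if_pos hA, if_pos hA]
  · rw [if_neg hA, if_neg hA]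

theorem ucH_coeff (m : ℕ) : PowerSeries.coeff m (ucH n) =
    ∑ d ∈ Finset.finsuppAntidiag (Finset.univ : Finset (Fin n)) m, MvPolynomial.monomial d (1 : ℤ) := by
  unfold ucH
  rw [PowerSeries.coeff_prod]
  apply Finset.sum_congr rfl
  intro d _
  rw [MvPolynomial.monomial_eq, map_one, one_mul, Finsupp.prod_fintype _ _ (fun i => pow_zero _)]
  apply Finset.prod_congr rfl
  intro l _
  unfold ucGeo
  rw [PowerSeries.coeff_mk]

theorem ucH_prod (α : Fin n → ℕ) : ∏ s, PowerSeries.coeff (α s) (ucH n) =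
    ∑ f ∈ Fintype.piFinset (fun s => Finset.finsuppAntidiag (Finset.univ : Finset (Fin n)) (α s)),
      MvPolynomial.monomial (∑ s, f s) (1 : ℤ) := by
  simp_rw [ucH_coeff]
  rw [Finset.prod_univ_sum]
  apply Finset.sum_congr rfl
  intro f _
  rw [MvPolynomial.monomial_sum_one]

/-- The number of matrices of naturals with row sums `α` and column sums `β`. -/
noncomputable def ucN (α : Fin n → ℕ) (β : Fin n →₀ ℕ) : ℕ :=
  ((Fintype.piFinset (fun s => Finset.finsuppAntidiag (Finset.univ : Finset (Fin n)) (α s))).filter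
    (fun f => ∑ s, f s = β)).card

theorem ucH_prod_coeff (α : Fin n → ℕ) (β : Fin n →₀ ℕ) :
    MvPolynomial.coeff β (∏ s, PowerSeries.coeff (α s) (ucH n)) = (ucN n α β : ℤ) := by
  rw [ucH_prod, MvPolynomial.coeff_sum]
  simp only [MvPolynomial.coeff_monomial]
  rw [Finset.sum_boole]
  rfl

theorem uc_identity (lam lam' : Fin n → ℕ) (h : StrictMono lam) (h' : StrictMono lam') :
    ∑ κ : Equiv.Perm (Fin n), ∑ κ' : Equiv.Perm (Fin n),
      (if ∀ i, (κ i).val ≤ lam i then (if ∀ i, (κ' i).val ≤ lam' i then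
        (Equiv.Perm.sign κ : ℤ) * (Equiv.Perm.sign κ' : ℤ) *
          (ucN n (fun i => lam i - (κ i).val)
            (Finsupp.equivFunOnFinite.symm (fun i => lam' i - (κ' i).val)) : ℤ)
        else 0) else 0) = if lam = lam' then 1 else 0 := by
  have hL : MvPolynomial.coeff (Finsupp.equivFunOnFinite.symm lam')
      ((ucHm n lam).det * (ucVm n (fun i => i.val)).det) = if lam = lam' then 1 else 0 := by
    rw [uc_det]
    exact ucVm_coeff n lam lam' h h'
  rw [← hL, ucHm_det, ucVm_det, Finset.sum_mul, MvPolynomial.coeff_sum]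
  apply Finset.sum_congr rfl
  intro κ _
  rw [Finset.mul_sum, MvPolynomial.coeff_sum]
  apply Finset.sum_congr rfl
  intro κ' _
  rw [uc_coeff_term]
  by_cases hc : ∀ i, (κ i).val ≤ lam i
  · rw [if_pos hc, if_pos hc]
    by_cases hc' : ∀ i, (κ' i).val ≤ lam' i
    · have hle : (Finsupp.equivFunOnFinite.symm (fun k => ((κ' k).val : ℕ)) : Fin n →₀ ℕ) ≤
          Finsupp.equivFunOnFinite.symm lam' := fun i => hc' i
      have e2 : (Finsupp.equivFunOnFinite.symm lam' : Fin n →₀ ℕ) -
          Finsupp.equivFunOnFinite.symm (fun k => ((κ' k).val : ℕ)) =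
          Finsupp.equivFunOnFinite.symm (fun i => lam' i - (κ' i).val) := by
        ext i
        rfl
      rw [if_pos hc', if_pos hle, e2, ucH_prod_coeff]
    · have hle : ¬ ((Finsupp.equivFunOnFinite.symm (fun k => ((κ' k).val : ℕ)) : Fin n →₀ ℕ) ≤
          Finsupp.equivFunOnFinite.symm lam') := fun hle => hc' (fun i => hle i)
      rw [if_neg hc', if_neg hle, mul_zero]
  · rw [if_neg hc, if_neg hc]
    simp

end UC2

end Cfsg.Agent.Helper8
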