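import Mathlib
import Cfsg.Prelude.Def_LinearParabolics
import Cfsg.Agent.Helper8.GLB2
import Cfsg.Agent.Helper14.ParabIdx
import Cfsg.Agent.Helper8.UC2

set_option autoImplicit false

namespace Cfsg.Agent.Helper8

/-! ### Double cosets of Young subgroups and contingency tables -/

section UC1

theorem dc_card_eq_of_map {Γ : Type*} [Group Γ] (Q P : Subgroup Γ) {T : Type*} (Φ : Γ → T)
    (h1 : ∀ g g' : Γ, Φ g' = Φ g ↔ ∃ q ∈ Q, ∃ p ∈ P, g' = q * g * p) (h2 : Function.Surjective Φ) :
    Nat.card (MulAction.orbitRel.Quotient Q (Γ ⧸ P)) = Nat.card T := by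
  classical
  refine Nat.card_eq_of_bijective (fun c => Φ (Classical.choose (dc_rep Q P c))) ⟨?_, ?_⟩
  · intro c c' hcc
    have e1 := Classical.choose_spec (dc_rep Q P c)
    have e2 := Classical.choose_spec (dc_rep Q P c')
    have h3 : Φ (Classical.choose (dc_rep Q P c)) = Φ (Classical.choose (dc_rep Q P c')) := hcc
    exact e1.trans (((dc_mk_eq_iff Q P _ _).mpr ((h1 _ _).mp h3)).trans e2.symm)
  · intro t
    obtain ⟨g, rfl⟩ := h2 t
    refine ⟨Quotient.mk'' (g : Γ ⧸ P), ?_⟩
    have e1 := Classical.choose_spec (dc_rep Q P (Quotient.mk'' (g : Γ ⧸ P)))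
    exact (h1 g _).mpr ((dc_mk_eq_iff Q P g _).mp e1.symm)

theorem exists_equiv_of_fiber {X Z Y : Type*} [Fintype X] [Fintype Z] [DecidableEq Y] (u : X → Y) (v : Z → Y)
    (h : ∀ y, (Finset.univ.filter (fun x => u x = y)).card = (Finset.univ.filter (fun z => v z = y)).card) :
    ∃ e : Z ≃ X, ∀ z, u (e z) = v z := by
  classical
  have e : ∀ y, {z // v z = y} ≃ {x // u x = y} := fun y =>
    Fintype.equivOfCardEq (by rw [Fintype.card_subtype, Fintype.card_subtype]; exact (h y).symm)
  exact ⟨Equiv.ofFiberEquiv e, fun z => Equiv.ofFiberEquiv_map e z⟩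

theorem marg_fst {X L : Type*} [Fintype X] [Fintype L] [DecidableEq L] (u : X → L × L) (s : L) :
    (Finset.univ.filter (fun x => (u x).1 = s)).card =
      ∑ t, (Finset.univ.filter (fun x => u x = (s, t))).card := by
  rw [Finset.card_eq_sum_card_fiberwise (f := fun x => (u x).2) (t := Finset.univ)
    (fun x _ => Finset.mem_univ _)]
  apply Finset.sum_congr rfl
  intro t _
  rw [Finset.filter_filter]
  congr 1
  apply Finset.filter_congr
  intro x _
  constructor
  · rintro ⟨h1, h2⟩
    exact Prod.ext h1 h2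
  · intro h
    rw [h]
    exact ⟨rfl, rfl⟩

theorem marg_snd {X L : Type*} [Fintype X] [Fintype L] [DecidableEq L] (u : X → L × L) (t : L) :
    (Finset.univ.filter (fun x => (u x).2 = t)).card =
      ∑ s, (Finset.univ.filter (fun x => u x = (s, t))).card := by
  rw [Finset.card_eq_sum_card_fiberwise (f := fun x => (u x).1) (t := Finset.univ)
    (fun x _ => Finset.mem_univ _)]
  apply Finset.sum_congr rfl
  intro s _
  rw [Finset.filter_filter]
  congr 1
  apply Finset.filter_congr
  intro x _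
  constructor
  · rintro ⟨h1, h2⟩
    exact Prod.ext h2 h1
  · intro h
    rw [h]
    exact ⟨rfl, rfl⟩

variable {n : ℕ}

/-- The joint distribution of the labels `a ∘ w` and `b`. -/
noncomputable def ucJ (a b : Fin n → Fin n) (w : Equiv.Perm (Fin n)) : Fin n → (Fin n →₀ ℕ) :=
  fun s => Finsupp.equivFunOnFinite.symm
    (fun t => (Finset.univ.filter (fun x => (a (w x), b x) = (s, t))).card)

theorem ucJ_apply (a b : Fin n → Fin n) (w : Equiv.Perm (Fin n)) (s t : Fin n) :
    ucJ a b w s t = (Finset.univ.filter (fun x => (a (w x), b x) = (s, t))).card := rfl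

theorem young_dc_card (α β : Fin n → ℕ) (hα : ∑ i, α i = n) (hβ : ∑ i, β i = n) :
    Nat.card (MulAction.orbitRel.Quotient (Cfsg.youngSubgroup α)
        (Equiv.Perm (Fin n) ⧸ Cfsg.youngSubgroup β)) =
      ucN n α (Finsupp.equivFunOnFinite.symm β) := by
  classical
  obtain ⟨a, ha⟩ : ∃ a : Fin n → Fin n, a = Cfsg.Agent.Helper14.ParabIdx.lab α hα := ⟨_, rfl⟩
  obtain ⟨b, hb⟩ : ∃ b : Fin n → Fin n, b = Cfsg.Agent.Helper14.ParabIdx.lab β hβ := ⟨_, rfl⟩
  have hYa : ∀ σ : Equiv.Perm (Fin n), σ ∈ Cfsg.youngSubgroup α ↔ ∀ i, a (σ i) = a i := by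
    intro σ
    rw [ha]
    constructor
    · intro h i
      exact Fin.ext (h i)
    · intro h i
      exact congrArg Fin.val (h i)
  have hYb : ∀ σ : Equiv.Perm (Fin n), σ ∈ Cfsg.youngSubgroup β ↔ ∀ i, b (σ i) = b i := by
    intro σ
    rw [hb]
    constructor
    · intro h i
      exact Fin.ext (h i)
    · intro h i
      exact congrArg Fin.val (h i)
  have hca : ∀ s, (Finset.univ.filter (fun x => a x = s)).card = α s := by
    intro s
    rw [ha, ← Cfsg.Agent.Helper14.ParabIdx.card_block α hα s, Fintype.card_subtype]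
  have hcb : ∀ t, (Finset.univ.filter (fun x => b x = t)).card = β t := by
    intro t
    rw [hb, ← Cfsg.Agent.Helper14.ParabIdx.card_block β hβ t, Fintype.card_subtype]
  obtain ⟨T, hT⟩ : ∃ T : Finset (Fin n → (Fin n →₀ ℕ)), T =
      (Fintype.piFinset (fun s => Finset.finsuppAntidiag (Finset.univ : Finset (Fin n)) (α s))).filter
        (fun f => ∑ s, f s = Finsupp.equivFunOnFinite.symm β) := ⟨_, rfl⟩
  have hmemT : ∀ f : Fin n → (Fin n →₀ ℕ), f ∈ T ↔
      (∀ s, ∑ t, f s t = α s) ∧ (∀ t, ∑ s, f s t = β t) := by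
    intro f
    rw [hT, Finset.mem_filter, Fintype.mem_piFinset]
    constructor
    · rintro ⟨h1, h2⟩
      refine ⟨fun s => (Finset.mem_finsuppAntidiag.mp (h1 s)).1, fun t => ?_⟩
      have := DFunLike.congr_fun h2 t
      rw [Finsupp.finsetSum_apply] at this
      exact this
    · rintro ⟨h1, h2⟩
      refine ⟨fun s => Finset.mem_finsuppAntidiag.mpr ⟨h1 s, Finset.subset_univ _⟩, ?_⟩
      ext t
      rw [Finsupp.finsetSum_apply]
      exact h2 t
  have hJ1 : ∀ (w : Equiv.Perm (Fin n)) (s : Fin n), ∑ t, ucJ a b w s t = α s := by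
    intro w s
    simp only [ucJ_apply]
    rw [← marg_fst (fun x => (a (w x), b x)) s, ← hca s]
    exact Finset.card_equiv w (fun x => by simp)
  have hJ2 : ∀ (w : Equiv.Perm (Fin n)) (t : Fin n), ∑ s, ucJ a b w s t = β t := by
    intro w t
    simp only [ucJ_apply]
    rw [← marg_snd (fun x => (a (w x), b x)) t, ← hcb t]
  have hJT : ∀ w, ucJ a b w ∈ T := fun w => (hmemT _).mpr ⟨hJ1 w, hJ2 w⟩
  have hN : ucN n α (Finsupp.equivFunOnFinite.symm β) = Nat.card ↥T := by
    rw [Nat.card_eq_finsetCard, hT]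
    rfl
  rw [hN]
  apply dc_card_eq_of_map (Cfsg.youngSubgroup α) (Cfsg.youngSubgroup β)
    (fun w => (⟨ucJ a b w, hJT w⟩ : ↥T))
  · intro w w'
    rw [Subtype.mk.injEq]
    constructor
    · intro hJ
      have hfib : ∀ p : Fin n × Fin n,
          (Finset.univ.filter (fun x => (a (w x), b x) = p)).card =
            (Finset.univ.filter (fun x => (a (w' x), b x) = p)).card := by
        rintro ⟨s, t⟩
        have := DFunLike.congr_fun (congrFun hJ s) t
        exact this.symm
      obtain ⟨τ, hτ⟩ := exists_equiv_of_fiber (fun x => (a (w x), b x)) (fun x => (a (w' x), b x)) hfib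
      have h1 : ∀ x, a (w (τ x)) = a (w' x) := fun x => congrArg Prod.fst (hτ x)
      have h2 : ∀ x, b (τ x) = b x := fun x => congrArg Prod.snd (hτ x)
      refine ⟨w' * τ⁻¹ * w⁻¹, (hYa _).mpr ?_, τ, (hYb _).mpr h2, by group⟩
      intro y
      have := h1 (τ⁻¹ (w⁻¹ y))
      have e : w (τ (τ⁻¹ (w⁻¹ y))) = y := by simp
      rw [e] at this
      show a (w' (τ⁻¹ (w⁻¹ y))) = a y
      exact this.symm
    · rintro ⟨σ, hσ, τ, hτ, rfl⟩
      funext s
      ext t
      simp only [ucJ_apply]
      apply Finset.card_equiv τ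
      intro x
      have hx1 : a (σ (w (τ x))) = a (w (τ x)) := (hYa σ).mp hσ _
      have hx2 : b (τ x) = b x := (hYb τ).mp hτ _
      constructor
      · intro hx
        have hx' : (a (σ (w (τ x))), b x) = (s, t) := (Finset.mem_filter.mp hx).2
        refine Finset.mem_filter.mpr ⟨Finset.mem_univ _, ?_⟩
        rw [hx2, ← hx1]
        exact hx'
      · intro hx
        have hx' : (a (w (τ x)), b (τ x)) = (s, t) := (Finset.mem_filter.mp hx).2
        refine Finset.mem_filter.mpr ⟨Finset.mem_univ _, ?_⟩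
        show (a (σ (w (τ x))), b x) = (s, t)
        rw [hx1, ← hx2]
        exact hx'
  · rintro ⟨f, hf⟩
    obtain ⟨hf1, hf2⟩ := (hmemT f).mp hf
    have hZ : ∀ p : Fin n × Fin n,
        (Finset.univ.filter (fun z : (Σ p : Fin n × Fin n, Fin (f p.1 p.2)) => z.1 = p)).card = f p.1 p.2 := by
      intro p
      rw [← Fintype.card_subtype, Fintype.card_congr (Equiv.sigmaSubtype p), Fintype.card_fin]
    have hZ1 : ∀ s, (Finset.univ.filter
        (fun z : (Σ p : Fin n × Fin n, Fin (f p.1 p.2)) => z.1.1 = s)).card = α s := by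
      intro s
      rw [marg_fst (fun z : (Σ p : Fin n × Fin n, Fin (f p.1 p.2)) => z.1) s, ← hf1 s]
      exact Finset.sum_congr rfl (fun t _ => hZ (s, t))
    have hZ2 : ∀ t, (Finset.univ.filter
        (fun z : (Σ p : Fin n × Fin n, Fin (f p.1 p.2)) => z.1.2 = t)).card = β t := by
      intro t
      rw [marg_snd (fun z : (Σ p : Fin n × Fin n, Fin (f p.1 p.2)) => z.1) t, ← hf2 t]
      exact Finset.sum_congr rfl (fun s _ => hZ (s, t))
    obtain ⟨e1, he1⟩ := exists_equiv_of_fiber a
      (fun z : (Σ p : Fin n × Fin n, Fin (f p.1 p.2)) => z.1.1) (fun s => by rw [hca, hZ1])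
    obtain ⟨e2, he2⟩ := exists_equiv_of_fiber b
      (fun z : (Σ p : Fin n × Fin n, Fin (f p.1 p.2)) => z.1.2) (fun t => by rw [hcb, hZ2])
    refine ⟨e2.symm.trans e1, ?_⟩
    apply Subtype.ext
    show ucJ a b (e2.symm.trans e1) = f
    funext s
    ext t
    rw [ucJ_apply, ← hZ (s, t)]
    apply Finset.card_equiv e2.symm
    intro x
    obtain ⟨z, rfl⟩ := e2.surjective x
    have hz1 : a (e1 (e2.symm (e2 z))) = z.1.1 := by
      rw [Equiv.symm_apply_apply]
      exact he1 z
    have hz2 : b (e2 z) = z.1.2 := he2 z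
    constructor
    · intro hx
      have hx' : (a (e1 (e2.symm (e2 z))), b (e2 z)) = (s, t) := (Finset.mem_filter.mp hx).2
      refine Finset.mem_filter.mpr ⟨Finset.mem_univ _, ?_⟩
      rw [Equiv.symm_apply_apply]
      rw [hz1, hz2] at hx'
      exact Prod.ext (congrArg Prod.fst hx') (congrArg Prod.snd hx')
    · intro hx
      have hx' : (e2.symm (e2 z)).1 = (s, t) := (Finset.mem_filter.mp hx).2
      rw [Equiv.symm_apply_apply] at hx'
      refine Finset.mem_filter.mpr ⟨Finset.mem_univ _, ?_⟩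
      show (a (e1 (e2.symm (e2 z))), b (e2 z)) = (s, t)
      rw [hz1, hz2]
      exact Prod.ext (congrArg Prod.fst hx') (congrArg Prod.snd hx')

end UC1

end Cfsg.Agent.Helper8
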