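import Cfsg.Agent.Helper8.GLB1
import Cfsg.Agent.Helper8.UC1
import Cfsg.Agent.Helper11.Virtual1
import Cfsg.Agent.Helper25.CharBasic
import Cfsg.Agent.S2424

set_option autoImplicit false
open scoped MatrixGroups

namespace Cfsg.Agent.Helper8

/-! ### The partition-indexed characters of `GL n` are orthonormal, hence irreducible and distinct -/

section UC3

variable {F : Type*} [Field F] {n : ℕ}

theorem fpc_par_inner [Fintype (GL (Fin n) F)] (α β : Fin n → ℕ) (hα : ∑ i, α i = n) (hβ : ∑ i, β i = n) :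
    Cfsg.classInner (Cfsg.fixedPointCharacter (Cfsg.parabolicGL n F α))
        (Cfsg.fixedPointCharacter (Cfsg.parabolicGL n F β)) =
      (ucN n α (Finsupp.equivFunOnFinite.symm β) : ℂ) := by
  classical
  have hconj : ∀ g : GL (Fin n) F, (starRingEnd ℂ) (Cfsg.fixedPointCharacter (Cfsg.parabolicGL n F β) g) =
      Cfsg.fixedPointCharacter (Cfsg.parabolicGL n F β) g := by
    intro g
    unfold Cfsg.fixedPointCharacter
    simp
  have h1 : Cfsg.classInner (Cfsg.fixedPointCharacter (Cfsg.parabolicGL n F α))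
      (Cfsg.fixedPointCharacter (Cfsg.parabolicGL n F β)) =
      (Nat.card (GL (Fin n) F) : ℂ)⁻¹ * ∑ g : GL (Fin n) F,
        Cfsg.fixedPointCharacter (Cfsg.parabolicGL n F α) g * Cfsg.fixedPointCharacter (Cfsg.parabolicGL n F β) g := by
    unfold Cfsg.classInner
    congr 1
    apply Finset.sum_congr rfl
    intro g _
    rw [hconj]
  rw [h1, fpc_inner, ← young_dc_card α β hα hβ]
  congr 1
  refine doset_transfer (permGL F n) (Cfsg.parabolicGL n F α) (Cfsg.parabolicGL n F β) (Cfsg.youngSubgroup α)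
    (Cfsg.youngSubgroup β) (fun x hx => permGL_mem_parabolic α x hx) (fun y hy => permGL_mem_parabolic β y hy) ?_ ?_
  · intro g
    obtain ⟨u, hu, u', hu', σ, e⟩ := bruhat_gl g
    exact ⟨u, upper_le_parabolic α hu, u', upper_le_parabolic β hu', σ, e⟩
  · rintro w w' ⟨q, hq, p, hp, e⟩
    exact perm_rel α β w w' q p hq hp e

theorem uc_comp_sum (ν : Fin n → ℕ) (hsum : ∑ i, ν i = n) (κ : Equiv.Perm (Fin n))
    (hκ : ∀ i, (κ i).val ≤ ν i + i.val) : ∑ i, (ν i + i.val - (κ i).val) = n := by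
  have h1 : ∑ i, (ν i + i.val - (κ i).val) + ∑ i, (κ i).val = ∑ i, ν i + ∑ i : Fin n, i.val := by
    rw [← Finset.sum_add_distrib, ← Finset.sum_add_distrib]
    exact Finset.sum_congr rfl (fun i _ => Nat.sub_add_cancel (hκ i))
  have h2 : ∑ i, (κ i).val = ∑ i : Fin n, i.val := Equiv.sum_comp κ (fun i => i.val)
  rw [h2, hsum] at h1
  omega

theorem uc_expand (ν : Fin n → ℕ) : Cfsg.unipotentCharacterGL n F ν =
    ∑ κ : Equiv.Perm (Fin n),
      (if ∀ i : Fin n, (κ i).val ≤ ν i + i.val then ((Equiv.Perm.sign κ : ℤ) : ℂ) else 0) •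
        Cfsg.fixedPointCharacter (Cfsg.parabolicGL n F fun i => ν i + i.val - (κ i).val) := by
  funext g
  rw [Finset.sum_apply]
  unfold Cfsg.unipotentCharacterGL
  apply Finset.sum_congr rfl
  intro κ _
  rw [Pi.smul_apply, smul_eq_mul]
  split_ifs
  · rfl
  · rw [zero_mul]

/-- The summand of the orthogonality relation. -/
noncomputable def ucTerm (n : ℕ) (lam lam' : Fin n → ℕ) (κ κ' : Equiv.Perm (Fin n)) : ℤ :=
  if ∀ i, (κ i).val ≤ lam i then (if ∀ i, (κ' i).val ≤ lam' i then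
    (Equiv.Perm.sign κ : ℤ) * (Equiv.Perm.sign κ' : ℤ) *
      (ucN n (fun i => lam i - (κ i).val)
        (Finsupp.equivFunOnFinite.symm (fun i => lam' i - (κ' i).val)) : ℤ)
    else 0) else 0

theorem uc_inner [Fintype (GL (Fin n) F)] (ν ν' : Fin n → ℕ) (hmono : Monotone ν) (hsum : ∑ i, ν i = n)
    (hmono' : Monotone ν') (hsum' : ∑ i, ν' i = n) :
    Cfsg.classInner (Cfsg.unipotentCharacterGL n F ν) (Cfsg.unipotentCharacterGL n F ν') =
      if ν = ν' then 1 else 0 := by
  classical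
  have hs : StrictMono (fun i : Fin n => ν i + i.val) := fun i j hij => by
    have h1 := hmono hij.le
    have h2 := Fin.lt_def.mp hij
    show ν i + i.val < ν j + j.val
    omega
  have hs' : StrictMono (fun i : Fin n => ν' i + i.val) := fun i j hij => by
    have h1 := hmono' hij.le
    have h2 := Fin.lt_def.mp hij
    show ν' i + i.val < ν' j + j.val
    omega
  have key : ∑ κ : Equiv.Perm (Fin n), ∑ κ' : Equiv.Perm (Fin n),
      ucTerm n (fun i : Fin n => ν i + i.val) (fun i : Fin n => ν' i + i.val) κ κ' =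
      if (fun i : Fin n => ν i + i.val) = (fun i : Fin n => ν' i + i.val) then 1 else 0 :=
    uc_identity n (fun i : Fin n => ν i + i.val) (fun i : Fin n => ν' i + i.val) hs hs'
  have hterm : ∀ κ : Equiv.Perm (Fin n),
      Cfsg.classInner
        ((if ∀ i : Fin n, (κ i).val ≤ ν i + i.val then ((Equiv.Perm.sign κ : ℤ) : ℂ) else 0) •
          Cfsg.fixedPointCharacter (Cfsg.parabolicGL n F fun i => ν i + i.val - (κ i).val))
        (∑ κ' : Equiv.Perm (Fin n),
          (if ∀ i : Fin n, (κ' i).val ≤ ν' i + i.val then ((Equiv.Perm.sign κ' : ℤ) : ℂ) else 0) •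
            Cfsg.fixedPointCharacter (Cfsg.parabolicGL n F fun i => ν' i + i.val - (κ' i).val)) =
      ((∑ κ' : Equiv.Perm (Fin n),
        ucTerm n (fun i : Fin n => ν i + i.val) (fun i : Fin n => ν' i + i.val) κ κ' : ℤ) : ℂ) := by
    intro κ
    rw [Cfsg.Agent.Helper2.classInner_smul_left, Cfsg.Agent.Helper2.classInner_sum_right, Int.cast_sum,
      Finset.mul_sum]
    apply Finset.sum_congr rfl
    intro κ' _
    rw [Cfsg.Agent.Helper2.classInner_smul_right]
    unfold ucTerm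
    beta_reduce
    by_cases hc : ∀ i : Fin n, (κ i).val ≤ ν i + i.val
    · by_cases hc' : ∀ i : Fin n, (κ' i).val ≤ ν' i + i.val
      · rw [if_pos hc, if_pos hc', if_pos hc, if_pos hc',
          fpc_par_inner _ _ (uc_comp_sum ν hsum κ hc) (uc_comp_sum ν' hsum' κ' hc'), map_intCast]
        push_cast
        ring
      · rw [if_neg hc', if_pos hc, if_neg hc']
        simp
    · rw [if_neg hc, if_neg hc]
      simp
  rw [uc_expand ν, uc_expand ν', Cfsg.Agent.Helper2.classInner_sum_left,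
    Finset.sum_congr rfl (fun κ _ => hterm κ), ← Int.cast_sum, key]
  by_cases h : ν = ν'
  · rw [if_pos h, if_pos (by rw [h])]
    simp
  · rw [if_neg h, if_neg]
    · simp
    · intro hl
      apply h
      funext i
      have := congrFun hl i
      simpa using this

theorem uc_genchar [Fintype (GL (Fin n) F)] (ν : Fin n → ℕ) :
    Cfsg.IsGeneralizedCharacter (GL (Fin n) F) (Cfsg.unipotentCharacterGL n F ν) := by
  classical
  refine ⟨∑ κ ∈ Finset.univ.filter (fun κ : Equiv.Perm (Fin n) =>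
        (∀ i : Fin n, (κ i).val ≤ ν i + i.val) ∧ Equiv.Perm.sign κ = 1),
      Cfsg.fixedPointCharacter (Cfsg.parabolicGL n F fun i => ν i + i.val - (κ i).val),
    ∑ κ ∈ Finset.univ.filter (fun κ : Equiv.Perm (Fin n) =>
        (∀ i : Fin n, (κ i).val ≤ ν i + i.val) ∧ Equiv.Perm.sign κ ≠ 1),
      Cfsg.fixedPointCharacter (Cfsg.parabolicGL n F fun i => ν i + i.val - (κ i).val),
    Cfsg.Agent.Helper2.isCharacter_sum _ _ (fun κ _ => fpc_char _),
    Cfsg.Agent.Helper2.isCharacter_sum _ _ (fun κ _ => fpc_char _), ?_⟩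
  funext g
  rw [Pi.sub_apply, Finset.sum_apply, Finset.sum_apply]
  unfold Cfsg.unipotentCharacterGL
  rw [Finset.sum_filter, Finset.sum_filter, ← Finset.sum_sub_distrib]
  apply Finset.sum_congr rfl
  intro κ _
  by_cases hc : ∀ i : Fin n, (κ i).val ≤ ν i + i.val
  · rcases Int.units_eq_one_or (Equiv.Perm.sign κ) with h1 | h1
    · rw [if_pos hc, if_pos ⟨hc, h1⟩, if_neg (fun hh => hh.2 h1), h1]
      simp
    · have hne : Equiv.Perm.sign κ ≠ 1 := by
        rw [h1]
        decide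
      rw [if_pos hc, if_neg (fun hh => hne hh.2), if_pos ⟨hc, hne⟩, h1]
      simp
  · rw [if_neg hc, if_neg (fun hh => hc hh.1), if_neg (fun hh => hc hh.1), sub_zero]

theorem uc_deg_pos [Fintype F] {q : ℕ} (hq : Fintype.card F = q) (ν : Fin n → ℕ) (hmono : Monotone ν)
    (hsum : ∑ i, ν i = n) (d : ℕ) (hd : Cfsg.unipotentCharacterGL n F ν 1 = -(d : ℂ)) : False := by
  classical
  have hq1 : 1 < q := hq ▸ Fintype.one_lt_card
  have hres := Cfsg.Agent.S2424.result (F := F) hq ν hmono hsum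
  have hQmono : StrictMono (fun r : ℕ => ∑ l ∈ Finset.range r, q ^ l) := by
    apply strictMono_nat_of_lt_succ
    intro r
    show ∑ l ∈ Finset.range r, q ^ l < ∑ l ∈ Finset.range (r + 1), q ^ l
    rw [Finset.sum_range_succ]
    have : 0 < q ^ r := pow_pos (by omega) r
    omega
  have hlam : ∀ i j : Fin n, i < j → ν i + i.val < ν j + j.val := fun i j hij => by
    have h1 := hmono hij.le
    have h2 := Fin.lt_def.mp hij
    omega
  have hQlt : ∀ i j : Fin n, i < j →
      ∑ l ∈ Finset.range (ν i + i.val), q ^ l < ∑ l ∈ Finset.range (ν j + j.val), q ^ l :=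
    fun i j hij => hQmono (hlam i j hij)
  obtain ⟨A, hA⟩ : ∃ A : ℕ, A = q ^ (n * (n - 1) * (n - 2) / 6) *
      ∏ i : Fin n, ∏ j ∈ Finset.range (ν i + i.val), ∑ l ∈ Finset.range (j + 1), q ^ l := ⟨_, rfl⟩
  obtain ⟨B, hB⟩ : ∃ B : ℕ, B = (∏ j ∈ Finset.range n, ∑ l ∈ Finset.range (j + 1), q ^ l) *
      ∏ i : Fin n, ∏ j ∈ Finset.univ.filter (fun j : Fin n => i < j),
        ((∑ l ∈ Finset.range (ν j + j.val), q ^ l) - (∑ l ∈ Finset.range (ν i + i.val), q ^ l)) := ⟨_, rfl⟩
  have hBpos : 0 < B := by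
    rw [hB]
    apply Nat.mul_pos
    · apply Finset.prod_pos
      intro j _
      rw [Finset.sum_range_succ]
      have : 0 < q ^ j := pow_pos (by omega) j
      omega
    · apply Finset.prod_pos
      intro i _
      apply Finset.prod_pos
      intro j hj
      exact Nat.sub_pos_of_lt (hQlt i j (Finset.mem_filter.mp hj).2)
  have hAc : (q : ℂ) ^ (n * (n - 1) * (n - 2) / 6) *
      ∏ i : Fin n, ∏ j ∈ Finset.range (ν i + i.val), ((∑ l ∈ Finset.range (j + 1), q ^ l : ℕ) : ℂ) = (A : ℂ) := by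
    rw [hA, Nat.cast_mul, Nat.cast_pow, Nat.cast_prod]
    congr 1
    apply Finset.prod_congr rfl
    intro i _
    rw [Nat.cast_prod]
  have hBc : (∏ j ∈ Finset.range n, ((∑ l ∈ Finset.range (j + 1), q ^ l : ℕ) : ℂ)) *
      ∏ i : Fin n, ∏ j ∈ Finset.univ.filter (fun j : Fin n => i < j),
        (((∑ l ∈ Finset.range (ν j + j.val), q ^ l : ℕ) : ℂ) - ((∑ l ∈ Finset.range (ν i + i.val), q ^ l : ℕ) : ℂ)) =
      (B : ℂ) := by
    rw [hB, Nat.cast_mul, Nat.cast_prod, Nat.cast_prod]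
    congr 1
    apply Finset.prod_congr rfl
    intro i _
    rw [Nat.cast_prod]
    apply Finset.prod_congr rfl
    intro j hj
    rw [Nat.cast_sub (hQlt i j (Finset.mem_filter.mp hj).2).le]
  rw [mul_assoc, hAc, hBc, hd] at hres
  have h5 : ((d * A + B : ℕ) : ℂ) = 0 := by
    push_cast
    rw [← hres]
    ring
  have h6 : d * A + B = 0 := by exact_mod_cast h5
  exact absurd (Nat.add_eq_zero_iff.mp h6).2 hBpos.ne'

theorem uc_irr [Fintype F] (ν : Fin n → ℕ) (hmono : Monotone ν) (hsum : ∑ i, ν i = n) :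
    Cfsg.IsIrrCharacter (GL (Fin n) F) (Cfsg.unipotentCharacterGL n F ν) := by
  classical
  haveI : Fintype (GL (Fin n) F) := Fintype.ofFinite _
  have hnorm : Cfsg.classInner (Cfsg.unipotentCharacterGL n F ν) (Cfsg.unipotentCharacterGL n F ν) = 1 := by
    rw [uc_inner ν ν hmono hsum hmono hsum, if_pos rfl]
  obtain ⟨ψ, h | h⟩ := Cfsg.Agent.Helper11.virtual_norm_one (uc_genchar ν) hnorm
  · rw [h]
    exact ψ.2
  · exfalso
    have h2 := Cfsg.Agent.Helper25.irr_one_eq_degree ψ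
    have h3 : Cfsg.unipotentCharacterGL n F ν 1 = -(Cfsg.charDegree (ψ : GL (Fin n) F → ℂ) : ℂ) := by
      rw [h]
      show -((ψ : GL (Fin n) F → ℂ) 1) = _
      rw [h2]
    exact uc_deg_pos rfl ν hmono hsum _ h3

theorem uc_inj [Fintype F] (ν ν' : Fin n → ℕ) (hmono : Monotone ν) (hsum : ∑ i, ν i = n)
    (hmono' : Monotone ν') (hsum' : ∑ i, ν' i = n)
    (h : Cfsg.unipotentCharacterGL n F ν = Cfsg.unipotentCharacterGL n F ν') : ν = ν' := by
  classical
  haveI : Fintype (GL (Fin n) F) := Fintype.ofFinite _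
  have h1 := uc_inner (F := F) ν ν hmono hsum hmono hsum
  have h2 := uc_inner (F := F) ν ν' hmono hsum hmono' hsum'
  rw [if_pos rfl] at h1
  rw [← h, h1] at h2
  by_contra hne
  rw [if_neg hne] at h2
  exact one_ne_zero h2

end UC3

end Cfsg.Agent.Helper8
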