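import Cfsg.Agent.Helper8.UC3

set_option autoImplicit false
open scoped MatrixGroups

namespace Cfsg.Agent.Helper8

/-! ### The alternating sums for an abstract family of subgroups with the same double coset numbers -/

section UC4

universe u

variable {Γ : Type u} [Group Γ] {n : ℕ}

/-- The alternating sum of permutation characters for a family of subgroups indexed by compositions. -/
noncomputable def ucGen (Q : (Fin n → ℕ) → Subgroup Γ) (ν : Fin n → ℕ) : Γ → ℂ :=
  fun g => ∑ κ : Equiv.Perm (Fin n),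
    if ∀ i : Fin n, (κ i).val ≤ ν i + i.val then
      ((Equiv.Perm.sign κ : ℤ) : ℂ) * Cfsg.fixedPointCharacter (Q fun i => ν i + i.val - (κ i).val) g
    else 0

theorem fpc_classInner [Fintype Γ] (Q P : Subgroup Γ) :
    Cfsg.classInner (Cfsg.fixedPointCharacter Q) (Cfsg.fixedPointCharacter P) =
      (Nat.card (MulAction.orbitRel.Quotient Q (Γ ⧸ P)) : ℂ) := by
  classical
  have hconj : ∀ g : Γ, (starRingEnd ℂ) (Cfsg.fixedPointCharacter P g) = Cfsg.fixedPointCharacter P g := by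
    intro g
    unfold Cfsg.fixedPointCharacter
    simp
  have h1 : Cfsg.classInner (Cfsg.fixedPointCharacter Q) (Cfsg.fixedPointCharacter P) =
      (Nat.card Γ : ℂ)⁻¹ * ∑ g : Γ, Cfsg.fixedPointCharacter Q g * Cfsg.fixedPointCharacter P g := by
    unfold Cfsg.classInner
    congr 1
    apply Finset.sum_congr rfl
    intro g _
    rw [hconj]
  rw [h1, fpc_inner]

theorem fpc_one (H : Subgroup Γ) : Cfsg.fixedPointCharacter H 1 = (Nat.card (Γ ⧸ H) : ℂ) := by
  unfold Cfsg.fixedPointCharacter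
  rw [MulAction.fixedBy_one_eq_univ]
  congr 1
  exact Nat.card_congr (Equiv.Set.univ _)

theorem ucGen_expand (Q : (Fin n → ℕ) → Subgroup Γ) (ν : Fin n → ℕ) : ucGen Q ν =
    ∑ κ : Equiv.Perm (Fin n),
      (if ∀ i : Fin n, (κ i).val ≤ ν i + i.val then ((Equiv.Perm.sign κ : ℤ) : ℂ) else 0) •
        Cfsg.fixedPointCharacter (Q fun i => ν i + i.val - (κ i).val) := by
  funext g
  rw [Finset.sum_apply]
  unfold ucGen
  apply Finset.sum_congr rfl
  intro κ _
  rw [Pi.smul_apply, smul_eq_mul]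
  split_ifs
  · rfl
  · rw [zero_mul]

theorem ucGen_inner [Fintype Γ] (Q : (Fin n → ℕ) → Subgroup Γ)
    (hQ : ∀ α β : Fin n → ℕ, ∑ i, α i = n → ∑ i, β i = n →
      Cfsg.classInner (Cfsg.fixedPointCharacter (Q α)) (Cfsg.fixedPointCharacter (Q β)) =
        (ucN n α (Finsupp.equivFunOnFinite.symm β) : ℂ))
    (ν ν' : Fin n → ℕ) (hmono : Monotone ν) (hsum : ∑ i, ν i = n)
    (hmono' : Monotone ν') (hsum' : ∑ i, ν' i = n) :
    Cfsg.classInner (ucGen Q ν) (ucGen Q ν') = if ν = ν' then 1 else 0 := by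
  classical
  have hs : StrictMono (fun i : Fin n => ν i + i.val) := fun i j hij => by
    have h1 := hmono hij.le
    have h2 := Fin.lt_def.mp hij
    show ν i + i.val < ν j + j.val
    omega
  have hs' : StrictMono (fun i : Fin n => ν' i + i.val) := fun i j hij => by
    have h1 := hmono' hij.le
    have h2 := Fin.lt_def.mp hij
    show ν' i + i.val < ν' j + j.val
    omega
  have key : ∑ κ : Equiv.Perm (Fin n), ∑ κ' : Equiv.Perm (Fin n),
      ucTerm n (fun i : Fin n => ν i + i.val) (fun i : Fin n => ν' i + i.val) κ κ' =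
      if (fun i : Fin n => ν i + i.val) = (fun i : Fin n => ν' i + i.val) then 1 else 0 :=
    uc_identity n (fun i : Fin n => ν i + i.val) (fun i : Fin n => ν' i + i.val) hs hs'
  have hterm : ∀ κ : Equiv.Perm (Fin n),
      Cfsg.classInner
        ((if ∀ i : Fin n, (κ i).val ≤ ν i + i.val then ((Equiv.Perm.sign κ : ℤ) : ℂ) else 0) •
          Cfsg.fixedPointCharacter (Q fun i => ν i + i.val - (κ i).val))
        (∑ κ' : Equiv.Perm (Fin n),
          (if ∀ i : Fin n, (κ' i).val ≤ ν' i + i.val then ((Equiv.Perm.sign κ' : ℤ) : ℂ) else 0) •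
            Cfsg.fixedPointCharacter (Q fun i => ν' i + i.val - (κ' i).val)) =
      ((∑ κ' : Equiv.Perm (Fin n),
        ucTerm n (fun i : Fin n => ν i + i.val) (fun i : Fin n => ν' i + i.val) κ κ' : ℤ) : ℂ) := by
    intro κ
    rw [Cfsg.Agent.Helper2.classInner_smul_left, Cfsg.Agent.Helper2.classInner_sum_right, Int.cast_sum,
      Finset.mul_sum]
    apply Finset.sum_congr rfl
    intro κ' _
    rw [Cfsg.Agent.Helper2.classInner_smul_right]
    unfold ucTerm
    beta_reduce
    by_cases hc : ∀ i : Fin n, (κ i).val ≤ ν i + i.val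
    · by_cases hc' : ∀ i : Fin n, (κ' i).val ≤ ν' i + i.val
      · rw [if_pos hc, if_pos hc', if_pos hc, if_pos hc',
          hQ _ _ (uc_comp_sum ν hsum κ hc) (uc_comp_sum ν' hsum' κ' hc'), map_intCast]
        push_cast
        ring
      · rw [if_neg hc', if_pos hc, if_neg hc']
        simp
    · rw [if_neg hc, if_neg hc]
      simp
  rw [ucGen_expand Q ν, ucGen_expand Q ν', Cfsg.Agent.Helper2.classInner_sum_left,
    Finset.sum_congr rfl (fun κ _ => hterm κ), ← Int.cast_sum, key]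
  by_cases h : ν = ν'
  · rw [if_pos h, if_pos (by rw [h])]
    simp
  · rw [if_neg h, if_neg]
    · simp
    · intro hl
      apply h
      funext i
      have := congrFun hl i
      simpa using this

theorem ucGen_genchar [Fintype Γ] (Q : (Fin n → ℕ) → Subgroup Γ) (ν : Fin n → ℕ) :
    Cfsg.IsGeneralizedCharacter Γ (ucGen Q ν) := by
  classical
  refine ⟨∑ κ ∈ Finset.univ.filter (fun κ : Equiv.Perm (Fin n) =>
        (∀ i : Fin n, (κ i).val ≤ ν i + i.val) ∧ Equiv.Perm.sign κ = 1),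
      Cfsg.fixedPointCharacter (Q fun i => ν i + i.val - (κ i).val),
    ∑ κ ∈ Finset.univ.filter (fun κ : Equiv.Perm (Fin n) =>
        (∀ i : Fin n, (κ i).val ≤ ν i + i.val) ∧ Equiv.Perm.sign κ ≠ 1),
      Cfsg.fixedPointCharacter (Q fun i => ν i + i.val - (κ i).val),
    Cfsg.Agent.Helper2.isCharacter_sum _ _ (fun κ _ => fpc_char _),
    Cfsg.Agent.Helper2.isCharacter_sum _ _ (fun κ _ => fpc_char _), ?_⟩
  funext g
  rw [Pi.sub_apply, Finset.sum_apply, Finset.sum_apply]
  unfold ucGen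
  rw [Finset.sum_filter, Finset.sum_filter, ← Finset.sum_sub_distrib]
  apply Finset.sum_congr rfl
  intro κ _
  by_cases hc : ∀ i : Fin n, (κ i).val ≤ ν i + i.val
  · rcases Int.units_eq_one_or (Equiv.Perm.sign κ) with h1 | h1
    · rw [if_pos hc, if_pos ⟨hc, h1⟩, if_neg (fun hh => hh.2 h1), h1]
      simp
    · have hne : Equiv.Perm.sign κ ≠ 1 := by
        rw [h1]
        decide
      rw [if_pos hc, if_neg (fun hh => hne hh.2), if_pos ⟨hc, hne⟩, h1]
      simp
  · rw [if_neg hc, if_neg (fun hh => hc hh.1), if_neg (fun hh => hc hh.1), sub_zero]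

theorem ucGen_irr [Fintype Γ] (Q : (Fin n → ℕ) → Subgroup Γ)
    (hQ : ∀ α β : Fin n → ℕ, ∑ i, α i = n → ∑ i, β i = n →
      Cfsg.classInner (Cfsg.fixedPointCharacter (Q α)) (Cfsg.fixedPointCharacter (Q β)) =
        (ucN n α (Finsupp.equivFunOnFinite.symm β) : ℂ))
    (ν : Fin n → ℕ) (hmono : Monotone ν) (hsum : ∑ i, ν i = n) (d : ℕ) (hd0 : d ≠ 0)
    (hd : ucGen Q ν 1 = (d : ℂ)) : Cfsg.IsIrrCharacter Γ (ucGen Q ν) := by
  classical
  have hnorm : Cfsg.classInner (ucGen Q ν) (ucGen Q ν) = 1 := by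
    rw [ucGen_inner Q hQ ν ν hmono hsum hmono hsum, if_pos rfl]
  obtain ⟨ψ, h | h⟩ := Cfsg.Agent.Helper11.virtual_norm_one (ucGen_genchar Q ν) hnorm
  · rw [h]
    exact ψ.2
  · exfalso
    have h2 := Cfsg.Agent.Helper25.irr_one_eq_degree ψ
    have h3 : ucGen Q ν 1 = -(ψ : Γ → ℂ) 1 := by
      rw [h]
      rfl
    rw [hd, h2] at h3
    have h5 : ((d + Cfsg.charDegree (ψ : Γ → ℂ) : ℕ) : ℂ) = 0 := by
      push_cast
      rw [h3]
      ring
    have h4 : d + Cfsg.charDegree (ψ : Γ → ℂ) = 0 := by exact_mod_cast h5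
    omega

theorem dc_bot_card (P : Subgroup Γ) :
    Nat.card (MulAction.orbitRel.Quotient (⊥ : Subgroup Γ) (Γ ⧸ P)) = Nat.card (Γ ⧸ P) := by
  apply dc_card_eq_of_map (⊥ : Subgroup Γ) P (fun g => (g : Γ ⧸ P))
  · intro g g'
    constructor
    · intro h
      have h2 : g⁻¹ * g' ∈ P := QuotientGroup.eq.mp h.symm
      exact ⟨1, Subgroup.mem_bot.mpr rfl, g⁻¹ * g', h2, by group⟩
    · rintro ⟨q, hq, p, hp, rfl⟩
      rw [Subgroup.mem_bot] at hq
      subst hq
      apply QuotientGroup.eq.mpr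
      have e : (1 * g * p)⁻¹ * g = p⁻¹ := by group
      rw [e]
      exact inv_mem hp
  · exact QuotientGroup.mk_surjective

end UC4

end Cfsg.Agent.Helper8
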